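import Mathlib
import Cfsg.Agent.H37.OrdC
import Cfsg.Agent.H37.OrdG
import Cfsg.Agent.S4488

/-!
# No simple groups of orders 1620 and 2160
-/

set_option autoImplicit false

namespace Cfsg.Agent.H37.OrdI

open Cfsg Subgroup Cfsg.Agent.BR Cfsg.Agent.BT Cfsg.Agent.H37.Ord
open Cfsg.Agent.CharBase (oneIrr)

universe u

/-- a rational character of degree four of a simple group. -/
lemma schur {G : Type u} [Group G] [Fintype G] [IsSimpleGroup G] (hG : 3 ^ 3 ∣ Nat.card G) {P : Subgroup G}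
    [Fact (Nat.Prime 5)] (st : Ex 5 P) (ξ : IrrCharacter G) (hξ : ξ ≠ oneIrr G) (h4 : dg ξ = 4)
    (huniq : ∀ ζ : IrrCharacter G, (ζ ∈ st.B.X ∨ ζ ∈ st.B.Y) → dg ζ = 4 → ζ = ξ) : False := by
  have hint : ∀ g : G, ∃ m : ℤ, (ξ : G → ℂ) g = m := by
    intro g
    refine Char.exists_int_of_fixed (n := Nat.card G) Nat.card_pos.ne' _
      (Char.char_mem_closure (CharBase.irr_isCharacter ξ) g dvd_rfl) ?_
    intro k σ hk hσ
    rw [Char.map_char_eq (CharBase.irr_isCharacter ξ) g (orderOf_dvd_natCard g) σ hσ]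
    have h1 := Char.isIrrCharacter_pow ξ.2 hk
    let ξ' : IrrCharacter G := ⟨_, h1⟩
    have h2 : dg ξ' = dg ξ := by
      have h3 : (ξ' : G → ℂ) 1 = (ξ : G → ℂ) 1 := by
        change (ξ : G → ℂ) (1 ^ k) = _
        rw [one_pow]
      rw [dg_eq, dg_eq] at h3
      exact_mod_cast h3
    have h3 : ξ' = ξ := by
      rcases st.mem_or ξ' with h | h | h
      · exact huniq _ (Or.inl h) (h2.trans h4)
      · exact huniq _ (Or.inr h) (h2.trans h4)
      · rw [h2, h4] at h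
        omega
    have h4 : (ξ' : G → ℂ) g = (ξ : G → ℂ) g := by rw [h3]
    exact h4
  have hfaith : ∀ g : G, (ξ : G → ℂ) g = (ξ : G → ℂ) 1 → g = 1 := by
    intro g hg
    by_contra hne
    exact hξ (eq_one_of_ker ξ hne hg)
  have := S4488.result 3 Nat.prime_three (ξ : G → ℂ) (CharBase.irr_isCharacter ξ) hfaith
    ⟨1, one_pos, by norm_num, fun g => by
      obtain ⟨m, hm⟩ := hint g
      rw [hm]
      exact intCast_mem _ m⟩ 4 h4
  have h2 : 3 ≤ (Nat.card G).factorization 3 :=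
    (Nat.prime_three.pow_dvd_iff_le_factorization Nat.card_pos.ne').1 hG
  have h5 : (∑ i ∈ Finset.range (4 + 1), 4 / ((3 - 1) * 3 ^ i)) = 2 := by decide
  rw [h5] at this
  omega

lemma degs (f : ℕ) (hf : f ∣ 324) (h65 : f ≤ 40) (h1 : 1 < f) (δ : ℤ) (hδ : δ = 1 ∨ δ = -1) (hm : (5 : ℤ) ∣ f - δ) :
    δ * f = 6 ∨ δ * f = 36 ∨ δ * f = -4 ∨ δ * f = -9 := by
  have h : ∀ f ∈ Nat.divisors 324, f ≤ 40 → 1 < f → (f % 5 = 1 → f = 6 ∨ f = 36) ∧
    (f % 5 = 4 → f = 4 ∨ f = 9) := by decide +kernel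
  obtain ⟨h2, h3⟩ := h f (Nat.mem_divisors.mpr ⟨hf, by norm_num⟩) h65 h1
  rcases hδ with rfl | rfl
  · rcases h2 (by omega) with rfl | rfl <;> norm_num
  · rcases h3 (by omega) with rfl | rfl <;> norm_num

def Chk (s1 s2 s3 s4 : ℤ) : Prop :=
      (s1 = -4 ∧ s2 ≠ -4 ∧ s3 ≠ -4 ∧ s4 ≠ -4) ∨
      (s2 = -4 ∧ s1 ≠ -4 ∧ s3 ≠ -4 ∧ s4 ≠ -4) ∨
      (s3 = -4 ∧ s1 ≠ -4 ∧ s2 ≠ -4 ∧ s4 ≠ -4) ∨
      (s4 = -4 ∧ s1 ≠ -4 ∧ s2 ≠ -4 ∧ s3 ≠ -4)

instance (s1 s2 s3 s4 : ℤ) : Decidable (Chk s1 s2 s3 s4) := by unfold Chk; infer_instance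

def SS : List ℤ := [6, 36, -4, -9]

lemma chk_all : ∀ s1 ∈ SS, ∀ s2 ∈ SS, ∀ s3 ∈ SS, ∀ s4 ∈ SS, 1 + s1 + s2 + s3 + s4 = 0 → Chk s1 s2 s3 s4 := by
  decide +kernel

theorem n1620 {G : Type u} [Group G] [Finite G] [IsSimpleGroup G] (hG' : ¬ IsMulCommutative G) :
    Nat.card G ≠ 1620 := by
  classical
  intro hG
  haveI := Fintype.ofFinite G
  haveI : Fact (Nat.Prime 5) := ⟨by norm_num⟩
  haveI : Fintype (IrrCharacter G) := Fintype.ofFinite _
  obtain ⟨S⟩ : Nonempty (Sylow 5 G) := inferInstance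
  have hnp : ¬ (Nat.card G).Prime := by rw [hG]; norm_num
  obtain ⟨hS, hC, n, hn, h⟩ := Cfsg.Agent.H37.Ord.arith_one (G := G) 2 3 5 2 4 (by norm_num) (by norm_num) (by norm_num)
    (by norm_num) (by norm_num) (by rw [hG]; norm_num) hnp S
  have hm := h.hm
  have h1 := h.n_mod
  have h2 := h.e_two
  have h3 : Cfsg.Agent.BR.ind (S : Subgroup G) ≤ 4 := Nat.le_of_dvd (by norm_num) h.e_dvd
  have h4 := h.e_dvd
  have he : ind (S : Subgroup G) = 4 := by
    generalize Cfsg.Agent.BR.ind (S : Subgroup G) = e at hm h1 h2 h3 h4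
    rw [mul_one] at hm
    interval_cases e <;> omega
  rw [he] at hm
  have hn216 : n = 81 := by omega
  obtain ⟨B⟩ := CycG.nonempty_data hS
  let st : Ex 5 (S : Subgroup G) := ⟨hS, hC, B, by norm_num⟩
  have hperf := perfect_of_simple (noncomm hnp)
  have hcX := B.cardX
  have hcY := B.cardY
  rw [he] at hcX hcY
  have hcY' : B.Y.card = 1 := by omega
  obtain ⟨ψ, hψ⟩ := Finset.card_eq_one.mp hcY'
  have hψY : ψ ∈ B.Y := by rw [hψ]; exact Finset.mem_singleton_self _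
  have hcE : (B.X.erase (oneIrr G)).card = 3 := by
    rw [Finset.card_erase_of_mem B.one_mem, hcX]
  obtain ⟨χ1, χ2, χ3, h12, h13, h23, hE⟩ := Finset.card_eq_three.mp hcE
  have hX : B.X = {oneIrr G, χ1, χ2, χ3} := by
    rw [← Finset.insert_erase B.one_mem, hE]
  have hm1 : χ1 ∈ B.X.erase (oneIrr G) := by rw [hE]; simp
  have hm2 : χ2 ∈ B.X.erase (oneIrr G) := by rw [hE]; simp
  have hm3 : χ3 ∈ B.X.erase (oneIrr G) := by rw [hE]; simp
  have hψ1 : ψ ≠ oneIrr G := by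
    rintro rfl
    exact Finset.disjoint_left.mp B.disj B.one_mem hψY
  have hone : (dg (oneIrr G) : ℤ) = 1 := by
    have : ((dg (oneIrr G) : ℕ) : ℂ) = 1 := by rw [← dg_eq, CharBase.oneIrr_apply]
    exact_mod_cast this
  have hgt : ∀ ξ : IrrCharacter G, ξ ≠ oneIrr G → 1 < dg ξ := by
    intro ξ hξ
    have h5 := dg_pos ξ
    by_contra h6
    exact hξ (eq_one_of_perfect hperf (by omega))
  have hle : ∀ ξ : IrrCharacter G, dg ξ ≤ 40 := by
    intro ξ
    have h5 := dg_sq_le ξ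
    rw [hG] at h5
    by_contra hcon
    push Not at hcon
    nlinarith
  -- degree data
  have hdat : ∀ ξ : IrrCharacter G, ξ ∈ B.X.erase (oneIrr G) →
      (B.δ ξ = 1 ∨ B.δ ξ = -1) ∧ (5 : ℤ) ∣ dg ξ - B.δ ξ ∧ dg ξ ∣ 324 := by
    intro ξ hξ
    have hξX := Finset.mem_of_mem_erase hξ
    refine ⟨B.sgn ξ hξX, by exact_mod_cast B.congr_X hS hξX, ?_⟩
    have := B.dvd_X hS hξX
    rw [he, ← hn, hn216] at this
    exact this
  have hdatY : (5 : ℤ) ∣ dg ψ - B.δ₀ ∧ dg ψ ∣ 324 := by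
    have h5 := B.congr_Y hS hψY
    have h6 := B.dvd_Y hS hψY
    rw [he, ← hn, hn216] at h6
    refine ⟨?_, h6⟩
    rw [he] at h5
    push_cast at h5
    have : (dg ψ : ℤ) - B.δ₀ = (dg ψ + B.δ₀ * 4) - 5 * B.δ₀ := by ring
    rw [this]
    exact dvd_sub h5 (dvd_mul_right _ _)
  have hdeg := B.degEq hψY
  have hn1 : oneIrr G ∉ ({χ1, χ2, χ3} : Finset (IrrCharacter G)) := by
    rw [← hE]; exact Finset.notMem_erase _ _
  have hn2 : χ1 ∉ ({χ2, χ3} : Finset (IrrCharacter G)) := by simp [h12, h13]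
  have hn3 : χ2 ∉ ({χ3} : Finset (IrrCharacter G)) := by simp [h23]
  rw [hX, Finset.sum_insert hn1, Finset.sum_insert hn2, Finset.sum_insert hn3, Finset.sum_singleton,
    B.δ_one hS, hone] at hdeg
  have hne1 := (Finset.mem_erase.mp hm1).1
  have hne2 := (Finset.mem_erase.mp hm2).1
  have hne3 := (Finset.mem_erase.mp hm3).1
  obtain ⟨hs1, hc1, hd1⟩ := hdat χ1 hm1
  obtain ⟨hs2, hc2, hd2⟩ := hdat χ2 hm2
  obtain ⟨hs3, hc3, hd3⟩ := hdat χ3 hm3
  obtain ⟨hc4, hd4⟩ := hdatY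
  have hs4 := B.sgn₀
  have hmem : ∀ s : ℤ, (s = 6 ∨ s = 36 ∨ s = -4 ∨ s = -9) → s ∈ SS := by
    intro s hs
    simp only [SS, List.mem_cons, List.not_mem_nil, or_false]
    exact hs
  have hchk := chk_all _ (hmem _ (degs _ hd1 (hle χ1) (hgt χ1 hne1) _ hs1 hc1))
    _ (hmem _ (degs _ hd2 (hle χ2) (hgt χ2 hne2) _ hs2 hc2))
    _ (hmem _ (degs _ hd3 (hle χ3) (hgt χ3 hne3) _ hs3 hc3))
    _ (hmem _ (degs _ hd4 (hle ψ) (hgt ψ hψ1) _ hs4 hc4)) (by linarith)
  have hfour : ∀ (δ : ℤ) (f : ℕ), (δ = 1 ∨ δ = -1) → (5 : ℤ) ∣ f - δ → (f = 4 ↔ δ * f = -4) := by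
    intro δ f hδ h5
    rcases hδ with rfl | rfl
    · constructor
      · intro h; subst h; exfalso; norm_num at h5
      · intro h; omega
    · constructor
      · intro h; subst h; norm_num
      · intro h; omega
  have hXY : ∀ ζ : IrrCharacter G, (ζ ∈ st.B.X ∨ ζ ∈ st.B.Y) → dg ζ = 4 →
      ζ = χ1 ∨ ζ = χ2 ∨ ζ = χ3 ∨ ζ = ψ := by
    intro ζ hζ h4
    have hζ1 : ζ ≠ oneIrr G := by
      rintro rfl
      rw [h4] at hone
      norm_num at hone
    rcases hζ with h | h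
    · have h' : ζ ∈ ({oneIrr G, χ1, χ2, χ3} : Finset (IrrCharacter G)) := by rw [← hX]; exact h
      simp only [Finset.mem_insert, Finset.mem_singleton] at h'
      rcases h' with h' | h' | h' | h'
      · exact absurd h' hζ1
      · exact Or.inl h'
      · exact Or.inr (Or.inl h')
      · exact Or.inr (Or.inr (Or.inl h'))
    · have h' : ζ ∈ ({ψ} : Finset (IrrCharacter G)) := by rw [← hψ]; exact h
      exact Or.inr (Or.inr (Or.inr (Finset.mem_singleton.mp h')))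
  have f1 := hfour _ _ hs1 hc1
  have f2 := hfour _ _ hs2 hc2
  have f3 := hfour _ _ hs3 hc3
  have f4 := hfour _ _ hs4 hc4
  have h27 : 3 ^ 3 ∣ Nat.card G := by rw [hG]; norm_num
  unfold Chk at hchk
  rcases hchk with ⟨g1, g2, g3, g4⟩ | ⟨g2, g1, g3, g4⟩ | ⟨g3, g1, g2, g4⟩ | ⟨g4, g1, g2, g3⟩
  · refine schur h27 st χ1 hne1 (f1.mpr g1) ?_
    intro ζ hζ h4
    rcases hXY ζ hζ h4 with rfl | rfl | rfl | rfl
    · rfl
    · exact absurd (f2.mp h4) g2
    · exact absurd (f3.mp h4) g3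
    · exact absurd (f4.mp h4) g4
  · refine schur h27 st χ2 hne2 (f2.mpr g2) ?_
    intro ζ hζ h4
    rcases hXY ζ hζ h4 with rfl | rfl | rfl | rfl
    · exact absurd (f1.mp h4) g1
    · rfl
    · exact absurd (f3.mp h4) g3
    · exact absurd (f4.mp h4) g4
  · refine schur h27 st χ3 hne3 (f3.mpr g3) ?_
    intro ζ hζ h4
    rcases hXY ζ hζ h4 with rfl | rfl | rfl | rfl
    · exact absurd (f1.mp h4) g1
    · exact absurd (f2.mp h4) g2
    · rfl
    · exact absurd (f4.mp h4) g4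
  · refine schur h27 st ψ hψ1 (f4.mpr g4) ?_
    intro ζ hζ h4
    rcases hXY ζ hζ h4 with rfl | rfl | rfl | rfl
    · exact absurd (f1.mp h4) g1
    · exact absurd (f2.mp h4) g2
    · exact absurd (f3.mp h4) g3
    · rfl

theorem n2160 {G : Type u} [Group G] [Finite G] [IsSimpleGroup G] (hG' : ¬ IsMulCommutative G) :
    Nat.card G ≠ 2160 := by
  classical
  intro hG
  haveI := Fintype.ofFinite G
  haveI : Fact (Nat.Prime 5) := ⟨by norm_num⟩
  haveI : Fact (Nat.Prime 2) := ⟨Nat.prime_two⟩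
  haveI : Fintype (IrrCharacter G) := Fintype.ofFinite _
  obtain ⟨S⟩ : Nonempty (Sylow 5 G) := inferInstance
  have hnp : ¬ (Nat.card G).Prime := by rw [hG]; norm_num
  obtain ⟨hS, hC, n, hn, h⟩ := Cfsg.Agent.H37.Ord.arith_one (G := G) 2 3 5 4 3 (by norm_num) (by norm_num) (by norm_num)
    (by norm_num) (by norm_num) (by rw [hG]; norm_num) hnp S
  have hm := h.hm
  have h1 := h.n_mod
  have h2 := h.e_two
  have h3 : Cfsg.Agent.BR.ind (S : Subgroup G) ≤ 4 := Nat.le_of_dvd (by norm_num) h.e_dvd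
  have h4 := h.e_dvd
  have he : ind (S : Subgroup G) = 2 := by
    generalize Cfsg.Agent.BR.ind (S : Subgroup G) = e at hm h1 h2 h3 h4
    rw [mul_one] at hm
    interval_cases e <;> omega
  rw [he] at hm
  have hn216 : n = 216 := by omega
  obtain ⟨B⟩ := CycG.nonempty_data hS
  let st : Ex 5 (S : Subgroup G) := ⟨hS, hC, B, by norm_num⟩
  have hperf := perfect_of_simple (noncomm hnp)
  have hcX := B.cardX
  rw [he] at hcX
  obtain ⟨ψ, hψY⟩ := B.Y_nonempty (by norm_num)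
  have hcE : (B.X.erase (oneIrr G)).card = 1 := by
    rw [Finset.card_erase_of_mem B.one_mem, hcX]
  obtain ⟨χ, hE⟩ := Finset.card_eq_one.mp hcE
  have hX : B.X = {oneIrr G, χ} := by
    rw [← Finset.insert_erase B.one_mem, hE]
  have hm1 : χ ∈ B.X.erase (oneIrr G) := by rw [hE]; simp
  have hne1 := (Finset.mem_erase.mp hm1).1
  have hχX := (Finset.mem_erase.mp hm1).2
  have hψ1 : ψ ≠ oneIrr G := by
    rintro rfl
    exact Finset.disjoint_left.mp B.disj B.one_mem hψY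
  have hone : (dg (oneIrr G) : ℤ) = 1 := by
    have : ((dg (oneIrr G) : ℕ) : ℂ) = 1 := by rw [← dg_eq, CharBase.oneIrr_apply]
    exact_mod_cast this
  have hle : ∀ ξ : IrrCharacter G, dg ξ ≤ 46 := by
    intro ξ
    have h5 := dg_sq_le ξ
    rw [hG] at h5
    by_contra hcon
    push Not at hcon
    nlinarith
  have hdeg := B.degEq hψY
  have hn1 : oneIrr G ∉ ({χ} : Finset (IrrCharacter G)) := by
    rw [← hE]; exact Finset.notMem_erase _ _
  rw [hX, Finset.sum_insert hn1, Finset.sum_singleton, B.δ_one hS, hone] at hdeg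
  have hs1 := B.sgn χ hχX
  have hs0 := B.sgn₀
  have hc1 : (5 : ℤ) ∣ dg χ - B.δ χ := by exact_mod_cast B.congr_X hS hχX
  have hd1 : dg χ ∣ 432 := by
    have := B.dvd_X hS hχX
    rw [he, ← hn, hn216] at this
    exact this
  have hd0 : dg ψ ∣ 432 := by
    have := B.dvd_Y hS hψY
    rw [he, ← hn, hn216] at this
    exact this
  have hk : ∀ f ∈ Nat.divisors 432, f ≤ 46 → f % 5 = 4 → f - 1 ∈ Nat.divisors 432 → f = 4 ∨ f = 9 := by decide +kernel
  have hk2 : ∀ f ∈ Nat.divisors 432, f ≤ 46 → f % 5 = 1 → f + 1 ∈ Nat.divisors 432 → f = 1 := by decide +kernel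
  have hpos0 := dg_pos ψ
  have hpos1 := dg_pos χ
  have hcases : B.δ χ = -1 ∧ B.δ₀ = 1 ∧ ((dg χ = 4 ∧ dg ψ = 3) ∨ (dg χ = 9 ∧ dg ψ = 8)) := by
    rcases hs1 with e1 | e1 <;> rcases hs0 with e0 | e0
    · exfalso
      rw [e1, e0] at hdeg
      omega
    · exfalso
      rw [e1, e0] at hdeg
      rw [e1] at hc1
      have e2 : dg ψ = dg χ + 1 := by omega
      have e3 := hk2 (dg χ) (Nat.mem_divisors.2 ⟨hd1, by norm_num⟩) (hle χ) (by omega)
        (by rw [← e2]; exact Nat.mem_divisors.2 ⟨hd0, by norm_num⟩)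
      exact hne1 (eq_one_of_perfect hperf e3)
    · rw [e1, e0] at hdeg
      rw [e1] at hc1
      have e2 : dg ψ = dg χ - 1 := by omega
      have e3 := hk (dg χ) (Nat.mem_divisors.2 ⟨hd1, by norm_num⟩) (hle χ) (by omega)
        (by rw [← e2]; exact Nat.mem_divisors.2 ⟨hd0, by norm_num⟩)
      refine ⟨e1, e0, ?_⟩
      rcases e3 with e3 | e3
      · left; omega
      · right; omega
    · exfalso
      rw [e1, e0] at hdeg
      omega
  obtain ⟨e1, e0, hcase⟩ := hcases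
  rcases hcase with ⟨f1, f0⟩ | ⟨f1, f0⟩
  · refine schur (by rw [hG]; norm_num) st χ hne1 f1 ?_
    intro ζ hζ h4
    rcases hζ with h | h
    · have h' : ζ ∈ ({oneIrr G, χ} : Finset (IrrCharacter G)) := by rw [← hX]; exact h
      simp only [Finset.mem_insert, Finset.mem_singleton] at h'
      rcases h' with h' | h'
      · rw [h'] at h4
        omega
      · exact h'
    · have := B.dg_Y h hψY
      omega
  · obtain ⟨z, hz2⟩ := exists_prime_orderOf_dvd_card' (G := G) 2 (by rw [hG]; norm_num)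
    have hzz : z * z = 1 := by rw [← pow_two, ← hz2]; exact pow_orderOf_eq_one z
    have hz1 : z ≠ 1 := by
      rintro rfl
      rw [orderOf_one] at hz2
      omega
    have hval : ∀ ξ : IrrCharacter G, ξ ≠ oneIrr G → ∃ a : ℤ, (ξ : G → ℂ) z = a ∧ |a| < dg ξ ∧ (4 : ℤ) ∣ dg ξ - a := by
      intro ξ hξ
      obtain ⟨a, ha⟩ := H4.exists_int_value (CharBase.irr_isCharacter ξ) hzz
      obtain ⟨k, hk⟩ := involution_value hperf ξ (z := z) (by rw [pow_two, hzz])
      refine ⟨a, ha, ?_, ⟨k, ?_⟩⟩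
      · obtain ⟨n, h1, h2⟩ := CharBase.norm_le_of_isCharacter (CharBase.irr_isCharacter ξ) z
        have h3 : (n : ℂ) = dg ξ := by rw [← h1, dg_eq]
        have h4 : n = dg ξ := by exact_mod_cast h3
        rw [h4] at h2
        have hfaith : ∀ g : G, (ξ : G → ℂ) g = (ξ : G → ℂ) 1 → g = 1 := by
          intro g hg
          by_contra hne
          exact hξ (eq_one_of_ker ξ hne hg)
        have hne : ‖(ξ : G → ℂ) z‖ ≠ (dg ξ : ℝ) := by
          intro heq
          have hzc := H79.mem_center_of_norm_eq ξ hfaith heq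
          have hcen : Subgroup.center G = ⊥ := by
            rcases IsSimpleGroup.eq_bot_or_eq_top_of_normal (Subgroup.center G) inferInstance with h | h
            · exact h
            · exfalso
              apply noncomm hnp
              exact ⟨⟨fun a b => (Subgroup.mem_center_iff.mp (h ▸ Subgroup.mem_top b : b ∈ Subgroup.center G) a)⟩⟩
          rw [hcen, Subgroup.mem_bot] at hzc
          exact hz1 hzc
        have hlt := lt_of_le_of_ne h2 hne
        rw [ha, Complex.norm_intCast] at hlt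
        exact_mod_cast hlt
      · rw [ha] at hk
        have h5 : (a : ℤ) = dg ξ - 4 * k := by exact_mod_cast hk
        rw [h5]; ring
    obtain ⟨a, ha, hlta, hda⟩ := hval χ hne1
    obtain ⟨b, hb, hltb, hdb⟩ := hval ψ hψ1
    have h5z : ¬ 5 ∣ orderOf z := by rw [hz2]; norm_num
    have hreg := B.reg z h5z ψ hψY
    rw [hX, Finset.sum_insert hn1, Finset.sum_singleton,
      B.δ_one hS, CharBase.oneIrr_apply, ha, hb, e1, e0] at hreg
    have hreg' : 1 - a + b = 0 := by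
      have h7 : (((1 - a + b : ℤ)) : ℂ) = 0 := by
        rw [← hreg]; push_cast; ring
      exact_mod_cast h7
    obtain ⟨x, hx, hx1⟩ := exists_ne_one hS
    have hcp := st.card_pairs h5z h5z hx hx1 hψY
    have hco := ex_count_or st hzz hx hx1
    change (_ : ℂ) = (Nat.card G : ℂ) * (∑ χ ∈ B.X, (B.δ χ : ℂ) * (χ : G → ℂ) z * (χ : G → ℂ) z /
        (dg χ : ℂ) + B.δ₀ * (ψ : G → ℂ) z * (ψ : G → ℂ) z / (dg ψ : ℂ)) at hcp
    rw [hX, Finset.sum_insert hn1, Finset.sum_singleton,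
      B.δ_one hS, CharBase.oneIrr_apply, ha, hb, show ((dg (oneIrr G) : ℕ) : ℂ) = 1 by exact_mod_cast hone,
      hG, e1, e0, f1, f0] at hcp
    generalize hc : (Nat.card (centralizer ({z} : Set G))) = c at hco
    generalize ((Finset.univ : Finset (G × G)).filter
        (fun q => q.1 * z * q.1⁻¹ * (q.2 * z * q.2⁻¹) = x)).card = N at hcp hco
    have hcp' : (N : ℤ) = 2160 - 240 * a ^ 2 + 270 * b ^ 2 := by
      have h8 : ((N : ℤ) : ℂ) = ((2160 - 240 * a ^ 2 + 270 * b ^ 2 : ℤ) : ℂ) := by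
        rw [Int.cast_natCast, hcp]
        push_cast
        ring
      exact_mod_cast h8
    rw [f1] at hlta hda
    rw [f0] at hltb hdb
    rw [abs_lt] at hlta hltb
    push_cast at hlta hltb hda hdb
    have hb' : b = a - 1 := by linarith
    subst hb'
    have ha3 : a = 5 ∨ a = 1 ∨ a = -3 := by omega
    have hN : N = 480 ∨ N = 1920 ∨ N = 4320 := by
      rcases ha3 with rfl | rfl | rfl
      · left; norm_num at hcp'; exact_mod_cast hcp'
      · right; left; norm_num at hcp'; exact_mod_cast hcp'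
      · right; right; norm_num at hcp'; exact_mod_cast hcp'
    rcases hco with h | h
    · omega
    · have hc30 : c < 30 := by
        by_contra hcon
        push Not at hcon
        have : 900 ≤ c ^ 2 := by nlinarith
        omega
      interval_cases c <;> omega

end Cfsg.Agent.H37.OrdI
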