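import Mathlib
import Cfsg.Agent.H37.ZCharF

/-!
# Characters of Zassenhaus groups (kernel not necessarily abelian): fixed points of the kernel
-/

set_option autoImplicit false
set_option linter.unusedSectionVars false
set_option linter.unusedVariables false

namespace Cfsg.Agent.H37.ZT

open Cfsg Cfsg.Agent.Char Cfsg.Agent.CharBase Cfsg.Agent.H75 Cfsg.Agent.H34 Cfsg.Agent.Zass MulAction
open scoped ComplexConjugate BigOperators

universe u v

/-- Zassenhaus group with inverting swappers. -/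
structure ZN (G : Type u) {Ω : Type v} [Group G] [MulAction G Ω] (a b : Ω) (U : Subgroup G) (n e : ℕ) : Prop where
  z : ZGp G Ω
  hab : a ≠ b
  ker : IsKer G a U
  hn : Nat.card Ω = n + 1
  he : Nat.card (stab2 G a b) = e
  Ec : ∀ x ∈ stab2 G a b, ∀ y ∈ stab2 G a b, x * y = y * x
  eodd : Odd e
  swap : ∀ s : G, s • a = b → s • b = a → ∀ g ∈ stab2 G a b, s * g * s⁻¹ = g⁻¹

section

variable {G : Type u} {Ω : Type v} [Group G] [MulAction G Ω] [Fintype G] [Finite Ω]
  {a b : Ω} {U : Subgroup G} {n e : ℕ}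

theorem ZN.card (h : ZN G a b U n e) : Nat.card G = (n + 1) * (n * e) := by
  rw [h.z.card h.hab, h.hn, h.he, Nat.add_sub_cancel]

theorem ZN.cardU (h : ZN G a b U n e) : Nat.card U = n := by
  have := h.ker.card h.hab
  rw [h.hn] at this
  omega

theorem ZN.cardB (h : ZN G a b U n e) : Nat.card (stabilizer G a) = n * e := by
  rw [h.z.stab_card h.hab, h.hn, h.he, Nat.add_sub_cancel]

theorem ZN.npos (h : ZN G a b U n e) : 0 < n := by
  rw [← h.cardU]; exact Nat.card_pos

theorem ZN.epos (h : ZN G a b U n e) : 0 < e := by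
  rw [← h.he]; exact Nat.card_pos

theorem ZN.frob (h : ZN G a b U n e) : (∀ g ∈ stabilizer G a, g ∉ U → ∃ x : Ω, x ≠ a ∧ g • x = x) ∧
      (∀ g ∈ U, g ≠ 1 → ∀ x : Ω, x ≠ a → g • x ≠ x) ∧
      (∀ g ∈ stabilizer G a, g ∉ U → ∀ f ∈ U, f ≠ 1 → g * f ≠ f * g) := by
  have hnt : 2 ≤ Nat.card Ω := by rw [h.hn]; have := h.npos; omega
  exact (h.z.finite_frob a hnt U h.ker.le h.ker.reg).2

theorem ZN.exists_swap (h : ZN G a b U n e) : ∃ s : G, s • a = b ∧ s • b = a := h.z.trans h.hab h.hab.symm

/-- the trivial intersection property of `U` -/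
theorem ZN.ti (h : ZN G a b U n e) : ∀ g : G, g ∉ stabilizer G a → ∀ t ∈ (U : Set G),
    g * t * g⁻¹ ∈ (U : Set G) → t = 1 := by
  intro g hg t ht hgt
  by_contra ht1
  have hga : g • a ≠ a := hg
  have h1 : g * t * g⁻¹ ≠ 1 := by
    intro h2
    apply ht1
    have : t = g⁻¹ * (g * t * g⁻¹) * g := by group
    rw [this, h2]; group
  apply h.frob.2.1 _ hgt h1 (g • a) hga
  rw [mul_smul, mul_smul, inv_smul_smul, h.ker.fix ht]

theorem ZN.normal (h : ZN G a b U n e) : (UB a U).Normal := by
  constructor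
  rintro ⟨u, hu⟩ hu' ⟨g, hg⟩
  exact h.ker.norm g hg u hu'

theorem ZN.sup (h : ZN G a b U n e) : UB a U ⊔ EB (G := G) a b = ⊤ := by
  rw [eq_top_iff]
  rintro ⟨g, hg⟩ -
  have h1 : g • b ≠ a := by
    intro h1
    exact h.hab (smul_left_cancel g ((show g • a = a from hg).trans h1.symm))
  obtain ⟨u, hu, hub⟩ := h.ker.exists h.hab.symm h1
  have h2 : u⁻¹ * g ∈ stab2 G a b := by
    rw [mem_stab2, mul_smul, mul_smul, inv_smul_eq_iff, inv_smul_eq_iff, show g • a = a from hg,
      h.ker.fix hu, hub]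
    exact ⟨rfl, rfl⟩
  have h3 : (⟨g, hg⟩ : stabilizer G a) = ⟨u, h.ker.le hu⟩ * ⟨u⁻¹ * g, h2.1⟩ := by
    apply Subtype.ext
    change g = u * (u⁻¹ * g)
    group
  rw [h3]
  exact Subgroup.mul_mem_sup hu h2

theorem ZN.fpf (h : ZN G a b U n e) : ∀ x ∈ EB (G := G) a b, x ≠ 1 → ∀ k ∈ UB a U, x * k = k * x → k = 1 := by
  rintro ⟨x, hxa⟩ hx hx1 ⟨k, hka⟩ hk hxk
  by_contra hk1
  apply hx1
  apply Subtype.ext
  have hxk' : x * k = k * x := congrArg Subtype.val hxk
  have hxE : x ∈ stab2 G a b := hx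
  have hkU : k ∈ U := hk
  exact h.z.conj_eq h.hab h.ker hxE hkU (fun h => hk1 (Subtype.ext h)) (by rw [hxk', mul_inv_cancel_right])

theorem ZN.indexUB (h : ZN G a b U n e) : (UB a U).index = e := by
  have h1 := Subgroup.card_mul_index (UB a U)
  have h2 : Nat.card (UB a U) = Nat.card U :=
    Nat.card_congr (Subgroup.subgroupOfEquivOfLe h.ker.le).toEquiv
  rw [h2, h.cardU, h.cardB] at h1
  exact Nat.eq_of_mul_eq_mul_left h.npos h1

theorem ZN.cardUB (h : ZN G a b U n e) : Nat.card (UB a U) = n := by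
  rw [Nat.card_congr (Subgroup.subgroupOfEquivOfLe h.ker.le).toEquiv, h.cardU]

/-- value of the induced character on `U` -/
theorem ZN.ind_one [Fintype U] (h : ZN G a b U n e) {u : G} (hu : u ∈ U) (hu1 : u ≠ 1) :
    indFun U (fun _ : U => (1 : ℂ)) u = e := by
  classical
  rw [indFun]
  have h1 : ∀ x : G, extendByZero U (fun _ : U => (1 : ℂ)) (x⁻¹ * u * x) =
      if x ∈ stabilizer G a then 1 else 0 := by
    intro x
    by_cases hx : x ∈ stabilizer G a
    · have h2 : x⁻¹ * u * x ∈ U := by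
        have := h.ker.norm x⁻¹ ((stabilizer G a).inv_mem hx) u hu
        rwa [inv_inv] at this
      rw [extendByZero_of_mem _ _ h2, if_pos hx]
    · rw [if_neg hx]
      by_cases h2 : x⁻¹ * u * x ∈ U
      · exfalso
        apply hu1
        apply h.ti x⁻¹ (fun h3 => hx (by simpa using (stabilizer G a).inv_mem h3)) u hu
        rwa [inv_inv]
      · rw [extendByZero_of_notMem _ _ h2]
  rw [Finset.sum_congr rfl (fun x _ => h1 x), Finset.sum_boole, h.cardU]
  have h2 : (Finset.univ.filter (fun x : G => x ∈ stabilizer G a)).card = n * e := by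
    rw [← h.cardB, Nat.card_eq_fintype_card, Fintype.card_subtype]
  rw [h2]
  have hn : (n : ℂ) ≠ 0 := Nat.cast_ne_zero.2 h.npos.ne'
  push_cast
  field_simp

theorem ZN.indexU (h : ZN G a b U n e) : U.index = (n + 1) * e := by
  have h1 := Subgroup.card_mul_index U
  rw [h.cardU, h.card] at h1
  have : n * U.index = n * ((n + 1) * e) := by rw [h1]; ring
  exact Nat.eq_of_mul_eq_mul_left h.npos this

/-- (F2) -/
theorem ZN.sum_aU_deg [Fintype U] [Fintype (IrrCharacter G)] (h : ZN G a b U n e) {aU : IrrCharacter G → ℕ}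
    (haU : ∀ χ : IrrCharacter G, classInner (fun k : U => (χ : G → ℂ) k) (fun _ => 1) = aU χ) :
    ∑ χ : IrrCharacter G, aU χ * deg χ = (n + 1) * e := by
  have h1 := classFun_apply_eq_sum (indFun_isClassFunction U (fun _ : U => (1 : ℂ))) 1
  rw [indFun_one_apply, mul_one, h.indexU] at h1
  rw [Finset.sum_congr rfl (fun χ _ => by rw [ind_coeff haU χ, deg_spec χ])] at h1
  exact_mod_cast h1.symm

/-- (F1) -/
theorem ZN.sum_aU_sq [Fintype U] [Fintype (IrrCharacter G)] (h : ZN G a b U n e) {aU : IrrCharacter G → ℕ}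
    (haU : ∀ χ : IrrCharacter G, classInner (fun k : U => (χ : G → ℂ) k) (fun _ => 1) = aU χ) :
    ∑ χ : IrrCharacter G, aU χ ^ 2 = 2 * e := by
  classical
  have hcf := indFun_isClassFunction U (fun _ : U => (1 : ℂ))
  have hch : IsCharacter G (indFun U (fun _ : U => (1 : ℂ))) :=
    indFun_isCharacter U _ (isCharacter_of_isIrr CharBase.isIrrCharacter_one)
  have h1 := classInner_eq_sum (f' := indFun U (fun _ : U => (1 : ℂ))) hcf
  have h2 : ∀ χ : IrrCharacter G, classInner (χ : G → ℂ) (indFun U (fun _ : U => (1 : ℂ))) = aU χ := by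
    intro χ
    rw [classInner_comm_of_isCharacter (irr_isCharacter χ) hch, ind_coeff haU χ]
  rw [Finset.sum_congr rfl (fun χ _ => by rw [ind_coeff haU χ, h2 χ])] at h1
  have h3 := frobenius_reciprocity U (fun _ : U => (1 : ℂ)) _ hcf
  rw [h3] at h1
  have h4 : classInner (fun _ : U => (1 : ℂ)) (fun k : U => indFun U (fun _ : U => (1 : ℂ)) k) = 2 * e := by
    rw [classInner, h.cardU]
    have h5 : ∀ k : U, (1 : ℂ) * conj (indFun U (fun _ : U => (1 : ℂ)) k) =
        (e : ℂ) + (if k = 1 then (n * e : ℂ) else 0) := by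
      intro k
      rw [one_mul]
      by_cases hk : k = 1
      · subst hk
        rw [Subgroup.coe_one, indFun_one_apply, h.indexU, if_pos rfl]
        push_cast
        simp
        ring
      · rw [h.ind_one k.2 (fun h => hk (Subtype.ext h)), if_neg hk, add_zero]
        exact Complex.conj_natCast e
    rw [Finset.sum_congr rfl (fun k _ => h5 k), Finset.sum_add_distrib, Finset.sum_const,
      Finset.sum_ite_eq' Finset.univ (1 : U), if_pos (Finset.mem_univ _), Finset.card_univ,
      ← Nat.card_eq_fintype_card, h.cardU, nsmul_eq_mul]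
    have hn : (n : ℂ) ≠ 0 := Nat.cast_ne_zero.2 h.npos.ne'
    field_simp
    ring
  rw [h4] at h1
  have h5 : ((2 * e : ℕ) : ℂ) = ((∑ χ : IrrCharacter G, aU χ ^ 2 : ℕ) : ℂ) := by
    push_cast
    rw [h1]
    apply Finset.sum_congr rfl
    intro χ _
    ring
  exact_mod_cast h5.symm

/-- multiplicity in the permutation character -/
theorem ZN.perm_coeff (h : ZN G a b U n e) (χ : IrrCharacter G) :
    classInner (fun g : G => (nfix Ω g : ℂ)) (χ : G → ℂ) =
      (n * e : ℂ)⁻¹ * ∑ g : G, (open Classical in if g • a = a then conj ((χ : G → ℂ) g) else 0) := by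
  classical
  rw [classInner, h.card]
  have h1 := sum_nfix_mul (R := ℂ) h.z h.hab (fun g => conj ((χ : G → ℂ) g))
    (fun g k => by rw [irr_isClassFunction χ g k])
  rw [h1, h.hn]
  have hn : ((n : ℂ) + 1) ≠ 0 := by exact_mod_cast Nat.succ_ne_zero n
  have hn' : (n : ℂ) ≠ 0 := Nat.cast_ne_zero.2 h.npos.ne'
  have he' : (e : ℂ) ≠ 0 := Nat.cast_ne_zero.2 h.epos.ne'
  push_cast
  field_simp

/-- If the average over `U`-cosets of `χ` on `G_a` is `1`, then `χ` occurs in the permutation character. -/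
theorem ZN.perm_coeff_ne_zero [Fintype (stabilizer G a)] [Fintype (UB a U)] (h : ZN G a b U n e) (χ : IrrCharacter G)
    (havg : avgN (UB a U) (fun g : stabilizer G a => (χ : G → ℂ) g) = fun _ => 1) :
    classInner (fun g : G => (nfix Ω g : ℂ)) (χ : G → ℂ) = 1 := by
  classical
  rw [h.perm_coeff χ]
  have h1 : ∑ g : stabilizer G a, (χ : G → ℂ) g = n * e := by
    have h2 : ∑ g : stabilizer G a, avgN (UB a U) (fun g : stabilizer G a => (χ : G → ℂ) g) g = n * e := by
      rw [havg, Finset.sum_const, Finset.card_univ, ← Nat.card_eq_fintype_card, h.cardB]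
      simp
    rw [← h2]
    simp only [avgN_apply]
    rw [← Finset.mul_sum, Finset.sum_comm]
    have h3 : ∀ k : UB a U, ∑ x : stabilizer G a, (χ : G → ℂ) (((k : stabilizer G a) * x : stabilizer G a) : G) =
        ∑ x : stabilizer G a, (χ : G → ℂ) x := fun k =>
      Equiv.sum_comp (Equiv.mulLeft (k : stabilizer G a)) (fun g : stabilizer G a => (χ : G → ℂ) g)
    rw [Finset.sum_congr rfl (fun k _ => h3 k), Finset.sum_const, Finset.card_univ,
      ← Nat.card_eq_fintype_card, nsmul_eq_mul, ← mul_assoc, inv_mul_cancel₀, one_mul]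
    exact Nat.cast_ne_zero.2 Nat.card_pos.ne'
  have h3 : ∑ g : G, (open Classical in if g • a = a then conj ((χ : G → ℂ) g) else 0) = n * e := by
    have h4 : ∑ g : G, (open Classical in if g • a = a then conj ((χ : G → ℂ) g) else 0) =
        ∑ g : stabilizer G a, conj ((χ : G → ℂ) g) := by
      rw [← Finset.sum_filter]
      exact Finset.sum_subtype _ (fun x => by simp [mem_stabilizer_iff]) _
    rw [h4, ← map_sum, h1]
    simp
  rw [h3]
  have hn' : (n : ℂ) ≠ 0 := Nat.cast_ne_zero.2 h.npos.ne'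
  have he' : (e : ℂ) ≠ 0 := Nat.cast_ne_zero.2 h.epos.ne'
  field_simp

/-- (F4), first half: `a_χ = 1` forces the average to be trivial. -/
theorem ZN.avg_eq_one [Fintype U] [Fintype (stabilizer G a)] [Fintype (UB a U)] (h : ZN G a b U n e)
    (χ : IrrCharacter G) (hχ : classInner (fun k : U => (χ : G → ℂ) k) (fun _ => 1) = 1) :
    avgN (UB a U) (fun g : stabilizer G a => (χ : G → ℂ) g) = fun _ => 1 := by
  classical
  have hnorm := h.normal
  have hres : IsCharacter (stabilizer G a) (fun g : stabilizer G a => (χ : G → ℂ) g) :=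
    isCharacter_restrict (irr_isCharacter χ) _
  set lam := avgN (UB a U) (fun g : stabilizer G a => (χ : G → ℂ) g) with hlam
  have hlc : IsCharacter (stabilizer G a) lam := avgN_isCharacter (UB a U) hres
  have hl1 : lam 1 = 1 := by
    rw [hlam, avgN_one_apply]
    exact (inner_UB h.ker.le (χ : G → ℂ)).trans hχ
  -- values on U
  have hlU : ∀ u : stabilizer G a, u ∈ UB a U → lam u = 1 := by
    intro u hu
    have := avgN_mul (UB a U) (fun g : stabilizer G a => (χ : G → ℂ) g) ⟨u, hu⟩ 1
    rw [← hlam, mul_one] at this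
    rw [← hl1]
    exact this
  -- values on E
  have hval : ∀ x : stabilizer G a, x ∈ EB (G := G) a b → x ≠ 1 → lam x = (χ : G → ℂ) x := by
    intro x hx hx1
    rw [hlam, avgN_apply]
    have h1 : ∀ k : UB a U, (χ : G → ℂ) (((k : stabilizer G a) * x : stabilizer G a) : G) = (χ : G → ℂ) x := by
      intro k
      obtain ⟨y, hy, he⟩ := frob_coset (UB a U) (EB a b) h.fpf hx hx1 k.2
      rw [he]
      exact irr_isClassFunction χ (x : G) (y : G)
    rw [Finset.sum_congr rfl (fun k _ => h1 k), Finset.sum_const, Finset.card_univ,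
      ← Nat.card_eq_fintype_card, nsmul_eq_mul, ← mul_assoc, inv_mul_cancel₀, one_mul]
    exact Nat.cast_ne_zero.2 Nat.card_pos.ne'
  obtain ⟨s, hsa, hsb⟩ := h.exists_swap
  have hlE : ∀ x : stabilizer G a, x ∈ EB (G := G) a b → lam x = 1 := by
    intro x hx
    by_cases hx1 : x = 1
    · rw [hx1, hl1]
    have hxE : (x : G) ∈ stab2 G a b := hx
    have h1 : lam x⁻¹ = lam x := by
      rw [hval x hx hx1, hval x⁻¹ ((EB a b).inv_mem hx) (fun h => hx1 (inv_eq_one.1 h))]
      have h2 := irr_isClassFunction χ (x : G) s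
      rw [h.swap s hsa hsb _ hxE] at h2
      exact h2
    rw [linChar_inv hlc hl1] at h1
    have h2 : lam x * lam x = 1 := by
      nth_rewrite 1 [← h1]
      exact inv_mul_cancel₀ (linChar_ne_zero hlc hl1 x)
    have h3 := linChar_pow_orderOf hlc hl1 x
    have h4 : Odd (orderOf x) := by
      have h5 : orderOf x ∣ Nat.card (stab2 G a b) := by
        rw [← Subgroup.orderOf_coe]
        have := orderOf_dvd_natCard (⟨(x : G), hxE⟩ : stab2 G a b)
        rwa [← Subgroup.orderOf_coe] at this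
      rw [h.he] at h5
      exact Odd.of_dvd_nat h.eodd h5
    obtain ⟨m, hm⟩ := h4
    rw [hm, pow_succ, pow_mul, sq, h2, one_pow, one_mul] at h3
    exact h3
  funext g
  obtain ⟨k, hk, x, hx, rfl⟩ := frob_decomp (UB a U) (EB a b) h.sup g
  rw [linChar_mul hlc hl1, hlU k hk, hlE x hx, one_mul]

/-- (F3) and (F4): the Steinberg character. -/
theorem ZN.exists_st [Fintype U] [Fintype (IrrCharacter G)] (h : ZN G a b U n e) {aU : IrrCharacter G → ℕ}
    (haU : ∀ χ : IrrCharacter G, classInner (fun k : U => (χ : G → ℂ) k) (fun _ => 1) = aU χ) :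
    ∃ st : IrrCharacter G, st ≠ oneIrr G ∧ aU (oneIrr G) = 1 ∧ aU st = 1 ∧ deg st = n ∧
      ∀ χ : IrrCharacter G, χ ≠ oneIrr G → χ ≠ st → aU χ ≠ 1 := by
  classical
  have : Fintype (stabilizer G a) := Fintype.ofFinite _
  have : Fintype (UB a U) := Fintype.ofFinite _
  have hπ : IsCharacter G (fun g : G => (nfix Ω g : ℂ)) := Cfsg.Agent.Char.Reg.isCharacter_fixedBy
  obtain ⟨m, hm1, hm2⟩ := exists_mult_of_isCharacter hπ
  have h2t : IsMultiplyPretransitive G Ω 2 := by
    rw [is_two_pretransitive_iff]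
    intro a b c d hab hcd
    exact h.z.trans hab hcd
  have hnt : Nontrivial Ω := ⟨⟨a, b, h.hab⟩⟩
  have htr : IsPretransitive G Ω := isPretransitive_of_is_two_pretransitive
  have s1 := sum_nfix (G := G) (Ω := Ω)
  have s2 := sum_nfix_sq (G := G) (Ω := Ω) h2t
  have hG0 : (Nat.card G : ℂ) ≠ 0 := Nat.cast_ne_zero.2 Nat.card_pos.ne'
  have hm_one : m (oneIrr G) = 1 := by
    have h1 := hm1 (oneIrr G)
    have h2 : classInner (fun g : G => (nfix Ω g : ℂ)) ((oneIrr G : IrrCharacter G) : G → ℂ) = 1 := by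
      rw [classInner]
      have : ∑ g : G, (nfix Ω g : ℂ) * conj (((oneIrr G : IrrCharacter G) : G → ℂ) g) = Nat.card G := by
        rw [← s1]
        push_cast
        apply Finset.sum_congr rfl
        intro g _
        change (nfix Ω g : ℂ) * conj (1 : ℂ) = _
        rw [map_one, mul_one]
      rw [this, inv_mul_cancel₀ hG0]
    rw [h2] at h1
    exact_mod_cast h1.symm
  have hm_sq : ∑ χ : IrrCharacter G, m χ ^ 2 = 2 := by
    have h1 := classInner_eq_sum (f' := fun g : G => (nfix Ω g : ℂ)) (isClassFunction_of_isCharacter hπ)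
    have h2 : classInner (fun g : G => (nfix Ω g : ℂ)) (fun g : G => (nfix Ω g : ℂ)) = 2 := by
      rw [classInner]
      have : ∑ g : G, (nfix Ω g : ℂ) * conj (nfix Ω g : ℂ) = 2 * Nat.card G := by
        have h3 : ((∑ g : G, nfix Ω g ^ 2 : ℕ) : ℂ) = ((2 * Nat.card G : ℕ) : ℂ) := by rw [s2]
        push_cast at h3
        rw [← h3]
        apply Finset.sum_congr rfl
        intro g _
        rw [Complex.conj_natCast, sq]
      rw [this]; field_simp
    rw [h2, Finset.sum_congr rfl (fun χ _ => by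
      rw [hm1 χ, classInner_comm_of_isCharacter (irr_isCharacter χ) hπ, hm1 χ])] at h1
    have h3 : ((2 : ℕ) : ℂ) = ((∑ χ : IrrCharacter G, m χ ^ 2 : ℕ) : ℂ) := by
      push_cast
      rw [h1]
      apply Finset.sum_congr rfl
      intro χ _
      ring
    exact_mod_cast h3.symm
  rw [← Finset.add_sum_erase _ _ (Finset.mem_univ (oneIrr G)), hm_one] at hm_sq
  have hm_sq' : ∑ χ ∈ Finset.univ.erase (oneIrr G), m χ ^ 2 = 1 := by omega
  obtain ⟨st, hst1, hst2⟩ : ∃ st ∈ Finset.univ.erase (oneIrr G), m st ^ 2 ≠ 0 := by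
    by_contra hcon
    push Not at hcon
    rw [Finset.sum_eq_zero hcon] at hm_sq'
    exact absurd hm_sq' (by norm_num)
  rw [← Finset.add_sum_erase _ _ hst1] at hm_sq'
  have hst_sq : m st ^ 2 = 1 := by omega
  have hrest : ∑ χ ∈ (Finset.univ.erase (oneIrr G)).erase st, m χ ^ 2 = 0 := by omega
  have hm_st : m st = 1 := by
    have : m st ^ 2 = 1 ^ 2 := by rw [hst_sq, one_pow]
    exact Nat.pow_left_injective (by norm_num) this
  have hrest' : ∀ χ : IrrCharacter G, χ ≠ oneIrr G → χ ≠ st → m χ = 0 := by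
    intro χ h1 h2
    have h3 := (Finset.sum_eq_zero_iff_of_nonneg (fun i _ => Nat.zero_le _)).1 hrest χ
      (Finset.mem_erase.2 ⟨h2, Finset.mem_erase.2 ⟨h1, Finset.mem_univ _⟩⟩)
    exact pow_eq_zero_iff (two_ne_zero) |>.1 h3
  have hne : st ≠ oneIrr G := Finset.ne_of_mem_erase hst1
  -- pi = 1 + st
  have hπeq : ∀ g : G, (nfix Ω g : ℂ) = 1 + (st : G → ℂ) g := by
    intro g
    have h1 := congrFun hm2 g
    rw [Finset.sum_apply, ← Finset.add_sum_erase _ _ (Finset.mem_univ (oneIrr G)),
      ← Finset.add_sum_erase _ _ hst1, Finset.sum_eq_zero (s := (Finset.univ.erase (oneIrr G)).erase st)] at h1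
    · rw [hm_one, hm_st, one_smul, one_smul, add_zero] at h1
      exact h1
    · intro χ hχ
      rw [hrest' χ (Finset.ne_of_mem_erase (Finset.mem_of_mem_erase hχ)) (Finset.ne_of_mem_erase hχ), zero_smul]
      rfl
  have hdeg : deg st = n := by
    have h1 := hπeq 1
    rw [nfix_one, h.hn, deg_spec st] at h1
    have h2 : ((n + 1 : ℕ) : ℂ) = ((1 + deg st : ℕ) : ℂ) := by push_cast; rw [← h1]; push_cast; ring
    have h3 : n + 1 = 1 + deg st := by exact_mod_cast h2
    omega
  have haone : aU (oneIrr G) = 1 := by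
    have h1 := haU (oneIrr G)
    have h2 : classInner (fun k : U => ((oneIrr G : IrrCharacter G) : G → ℂ) k) (fun _ => 1) = 1 :=
      classInner_irr_self (oneIrr U)
    rw [h2] at h1
    exact_mod_cast h1.symm
  have hast : aU st = 1 := by
    have h1 := haU st
    have h2 : classInner (fun k : U => (nfix Ω (k : G) : ℂ)) (fun _ => 1) = 2 := by
      rw [classInner, h.cardU]
      have h5 : ∀ k : U, (nfix Ω (k : G) : ℂ) * conj (1 : ℂ) = (1 : ℂ) + (if k = 1 then (n : ℂ) else 0) := by
        intro k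
        rw [map_one, mul_one]
        by_cases hk : k = 1
        · subst hk
          rw [Subgroup.coe_one, nfix_one, h.hn, if_pos rfl]; push_cast; ring
        · rw [if_neg hk, add_zero]
          have hk1 : (k : G) ≠ 1 := fun h => hk (Subtype.ext h)
          have h6 : fixedBy Ω (k : G) = {a} := by
            ext x
            rw [mem_fixedBy, Set.mem_singleton_iff]
            constructor
            · intro hx
              by_contra hxa
              exact h.frob.2.1 k k.2 hk1 x hxa hx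
            · rintro rfl; exact h.ker.fix k.2
          rw [nfix, h6]
          simp
      rw [Finset.sum_congr rfl (fun k _ => h5 k), Finset.sum_add_distrib, Finset.sum_const,
        Finset.sum_ite_eq' Finset.univ (1 : U), if_pos (Finset.mem_univ _), Finset.card_univ,
        ← Nat.card_eq_fintype_card, h.cardU, nsmul_eq_mul]
      have hn : (n : ℂ) ≠ 0 := Nat.cast_ne_zero.2 h.npos.ne'
      field_simp
      ring
    have h3 : (fun k : U => (nfix Ω (k : G) : ℂ)) = (fun k : U => ((oneIrr G : IrrCharacter G) : G → ℂ) k) +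
        (fun k : U => (st : G → ℂ) k) := by
      funext k
      exact hπeq k
    rw [h3, classInner_add_left, h1, haU (oneIrr G), haone] at h2
    have h4 : ((1 + aU st : ℕ) : ℂ) = ((2 : ℕ) : ℂ) := by push_cast; push_cast at h2; exact h2
    have h5 : 1 + aU st = 2 := by exact_mod_cast h4
    omega
  refine ⟨st, hne, haone, hast, hdeg, ?_⟩
  intro χ h1 h2 h3
  have h4 := h.avg_eq_one χ (by rw [haU χ, h3, Nat.cast_one])
  have h5 := h.perm_coeff_ne_zero χ h4
  rw [hm1 χ, hrest' χ h1 h2, Nat.cast_zero] at h5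
  exact zero_ne_one h5

end

end Cfsg.Agent.H37.ZT
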