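import Mathlib
import Cfsg.Agent.H37.FNA
import Cfsg.Agent.Coh.IrrMain
import Cfsg.Agent.Coh.IrrTI
import Cfsg.Agent.Coh.FrobNilp
import Cfsg.Agent.Coh.FrobKer
import Cfsg.Agent.Coh.Chain
import Cfsg.Agent.Coh.Quot
import Cfsg.Agent.Coh.Signed
import Cfsg.Agent.Char.CentralChar

/-!
# Exceptional characters of Zassenhaus groups, coherent case
-/

set_option autoImplicit false
set_option linter.unusedSectionVars false
set_option linter.unusedVariables false

namespace Cfsg.Agent.H37.ZT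

open Cfsg Cfsg.Agent.Char Cfsg.Agent.CharBase Cfsg.Agent.H75 Cfsg.Agent.H34 Cfsg.Agent.Zass MulAction
open scoped ComplexConjugate BigOperators commutatorElement

universe u v

section gen

variable {B : Type u} [Group B] [Fintype B] (K : Subgroup B) [hKn : K.Normal] [Fintype K]

theorem inner_zero_iff (ξ : IrrCharacter B) :
    classInner (fun k : K => (ξ : B → ℂ) k) (fun _ => 1) = 0 ↔ ∃ k ∈ K, (ξ : B → ℂ) k ≠ (ξ : B → ℂ) 1 := by
  constructor
  · intro h
    by_contra hcon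
    push Not at hcon
    have h1 : classInner (fun k : K => (ξ : B → ℂ) k) (fun _ => 1) = (ξ : B → ℂ) 1 := by
      rw [← avgN_one_apply, avgN_apply]
      rw [Finset.sum_congr rfl (fun (n : K) _ => (congrArg (ξ : B → ℂ) (mul_one (n : B))).trans (hcon n n.2)), Finset.sum_const,
        Finset.card_univ, ← Nat.card_eq_fintype_card, nsmul_eq_mul, ← mul_assoc, inv_mul_cancel₀, one_mul]
      exact Nat.cast_ne_zero.2 Nat.card_pos.ne'
    rw [h] at h1
    exact irr_one_ne_zero ξ.2 h1.symm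
  · rintro ⟨k, hk, hne⟩
    by_contra h
    apply hne
    have := irr_const_of_classInner_ne_zero K ξ.2 h ⟨k, hk⟩ 1
    rwa [mul_one] at this

theorem sum_sq_ker [Fintype (IrrCharacter B)] :
    ∑ ψ : IrrCharacter B, (open Classical in if classInner (fun k : K => (ψ : B → ℂ) k) (fun _ => 1) = 0 then 0 else
      (ψ : B → ℂ) 1 ^ 2) = K.index := by
  classical
  have hf := indFun_isClassFunction K (fun _ : K => (1 : ℂ))
  have h1 := classFun_apply_eq_sum hf 1
  rw [indFun_one_apply, mul_one] at h1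
  rw [h1]
  apply Finset.sum_congr rfl
  intro ψ _
  rw [frobenius_reciprocity K _ _ (irr_isClassFunction ψ)]
  have hc : classInner (fun _ : K => (1 : ℂ)) (fun h : K => (ψ : B → ℂ) h) =
      classInner (fun h : K => (ψ : B → ℂ) h) (fun _ : K => (1 : ℂ)) := by
    exact classInner_comm_of_isCharacter (isCharacter_of_isIrr CharBase.isIrrCharacter_one)
      (isCharacter_restrict (irr_isCharacter ψ) K)
  rw [hc]
  split_ifs with h
  · rw [h, zero_mul]
  · rw [inner_one_eq K ψ h, sq]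

theorem sum_sq_nonker [Fintype (IrrCharacter B)] :
    ∑ ψ : IrrCharacter B, (open Classical in if classInner (fun k : K => (ψ : B → ℂ) k) (fun _ => 1) = 0 then
      (ψ : B → ℂ) 1 ^ 2 else 0) + K.index = Nat.card B := by
  classical
  rw [← sum_sq_ker K, ← Finset.sum_add_distrib, ← sum_sq_degree (G := B)]
  apply Finset.sum_congr rfl
  intro ψ _
  split_ifs <;> simp

theorem card_irr_split (hab : ∀ x y : B, ⁅x, y⁆ ∈ K) :
    Nat.card (IrrCharacter B) =
      Nat.card {ψ : IrrCharacter B // classInner (fun k : K => (ψ : B → ℂ) k) (fun _ => 1) = 0} + K.index := by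
  classical
  have : Fintype (IrrCharacter B) := Fintype.ofFinite _
  have h1 := sum_sq_ker K
  have h2 : ∀ ψ : IrrCharacter B, (if classInner (fun k : K => (ψ : B → ℂ) k) (fun _ => 1) = 0 then 0 else
      (ψ : B → ℂ) 1 ^ 2) = if ¬ classInner (fun k : K => (ψ : B → ℂ) k) (fun _ => 1) = 0 then (1 : ℂ) else 0 := by
    intro ψ
    by_cases h : classInner (fun k : K => (ψ : B → ℂ) k) (fun _ => 1) = 0
    · rw [if_pos h, if_neg (by simpa using h)]
    · rw [if_neg h, if_pos h]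
      have h3 : (ψ : B → ℂ) 1 = 1 := by
        apply Char.CC.degree_one_of_commutator ψ.2
        intro x y
        have := irr_const_of_classInner_ne_zero K ψ.2 h ⟨_, hab x y⟩ 1
        rwa [mul_one] at this
      rw [h3, one_pow]
  rw [Finset.sum_congr rfl (fun ψ _ => h2 ψ), Finset.sum_boole] at h1
  have h3 : (Finset.univ.filter (fun ψ : IrrCharacter B =>
      ¬ classInner (fun k : K => (ψ : B → ℂ) k) (fun _ => 1) = 0)).card = K.index := by exact_mod_cast h1
  rw [Nat.card_eq_fintype_card, Nat.card_eq_fintype_card, Fintype.card_subtype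
    (fun ψ : IrrCharacter B => classInner (fun k : K => (ψ : B → ℂ) k) (fun _ => 1) = 0), ← h3,
    Finset.card_filter_add_card_filter_not, Finset.card_univ]

end gen

section

variable {G : Type u} {Ω : Type v} [Group G] [MulAction G Ω] [Fintype G] [Finite Ω]
  {a b : Ω} {U : Subgroup G} {n e : ℕ}

/-- irreducible characters of `G_a` nontrivial on `U` -/
abbrev XB (a : Ω) (U : Subgroup G) [Fintype (stabilizer G a)] [Fintype (UB a U)] : Type _ :=
  {ξ : IrrCharacter (stabilizer G a) // classInner (fun k : UB a U => (ξ : stabilizer G a → ℂ) k) (fun _ => 1) = 0}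

/-- The exceptional characters. -/
structure ExcN (G : Type u) {Ω : Type v} [Group G] [MulAction G Ω] [Fintype G] (a : Ω) (U : Subgroup G)
    [Fintype (stabilizer G a)] [Fintype (UB a U)] (e : ℕ) (d : XB a U → ℕ)
    (θ : XB a U → IrrCharacter G) (ε : ℤ) (ξ0 : XB a U) : Prop where
  inj : Function.Injective θ
  eps : ε = 1 ∨ ε = -1
  dpos : ∀ i, 1 ≤ d i
  deg : ∀ i : XB a U, (i.1 : stabilizer G a → ℂ) 1 = e * d i
  d0 : d ξ0 = 1
  coeff : ∀ (χ : IrrCharacter G) (i j : XB a U),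
    (d j : ℂ) * classInner (fun g : stabilizer G a => (χ : G → ℂ) g) (i.1 : stabilizer G a → ℂ) -
      d i * classInner (fun g : stabilizer G a => (χ : G → ℂ) g) (j.1 : stabilizer G a → ℂ) =
      ε * (d j * classInner (χ : G → ℂ) (θ i : G → ℂ) - d i * classInner (χ : G → ℂ) (θ j : G → ℂ))

theorem ZN.cent_le (h : ZN G a b U n e) : ∀ k ∈ UB a U, k ≠ 1 →
    Subgroup.centralizer ({k} : Set (stabilizer G a)) ≤ UB a U := by
  intro k hk hk1 x hx
  by_contra hxU
  apply h.frob.2.2 x x.2 hxU k hk (fun h => hk1 (Subtype.ext h))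
  exact congrArg Subtype.val (Subgroup.mem_centralizer_singleton_iff.1 hx)

theorem ZN.UB_ne_top (h : ZN G a b U n e) (he : 2 ≤ e) : UB a U ≠ ⊤ := by
  intro h1
  have := h.indexUB
  rw [h1, Subgroup.index_top] at this
  omega

theorem ZN.UB_ne_bot (h : ZN G a b U n e) (hn : 2 ≤ n) : UB a U ≠ ⊥ := by
  intro h1
  have := h.cardUB
  rw [h1, Subgroup.card_bot] at this
  omega

theorem ZN.nilp (h : ZN G a b U n e) (he : 2 ≤ e) : Group.IsNilpotent (UB a U) := by
  have := h.normal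
  exact Coh.frobKer_nilpotent (UB a U) (h.UB_ne_top he) h.cent_le

theorem ZN.comm_mem (h : ZN G a b U n e) (x y : stabilizer G a) : ⁅x, y⁆ ∈ UB a U := by
  have hn := h.normal
  obtain ⟨u, hu, s, hs, rfl⟩ := frob_decomp (UB a U) (EB a b) h.sup x
  obtain ⟨w, hw, t, ht, rfl⟩ := frob_decomp (UB a U) (EB a b) h.sup y
  rw [← QuotientGroup.eq_one_iff, commutatorElement_def]
  have hu' : ((u : stabilizer G a) : stabilizer G a ⧸ UB a U) = 1 := (QuotientGroup.eq_one_iff _).2 hu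
  have hw' : ((w : stabilizer G a) : stabilizer G a ⧸ UB a U) = 1 := (QuotientGroup.eq_one_iff _).2 hw
  have hst : s * t = t * s := Subtype.ext (h.Ec _ hs _ ht)
  have hst' : (s : stabilizer G a ⧸ UB a U) * t = t * s := by
    rw [← QuotientGroup.mk_mul, hst, QuotientGroup.mk_mul]
  simp only [QuotientGroup.mk_mul, QuotientGroup.mk_inv, hu', hw', one_mul]
  rw [hst']
  group

theorem ZN.card_irrB [Fintype (stabilizer G a)] [Fintype (UB a U)] (h : ZN G a b U n e) :
    Nat.card (IrrCharacter (stabilizer G a)) = Nat.card (XB a U) + e := by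
  have hn := h.normal
  rw [card_irr_split (UB a U) h.comm_mem, h.indexUB]

theorem ZN.sum_sq [Fintype (stabilizer G a)] [Fintype (UB a U)] [Fintype (XB a U)] (h : ZN G a b U n e)
    {d : XB a U → ℕ} (hd : ∀ i : XB a U, (i.1 : stabilizer G a → ℂ) 1 = e * d i) :
    e * ∑ i, d i ^ 2 = n - 1 := by
  classical
  have hn := h.normal
  have : Fintype (IrrCharacter (stabilizer G a)) := Fintype.ofFinite _
  have h1 := sum_sq_nonker (UB a U)
  rw [← Finset.sum_filter, h.indexUB, h.cardB] at h1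
  have h2 : ∑ ψ ∈ Finset.univ.filter (fun ψ : IrrCharacter (stabilizer G a) =>
      classInner (fun k : UB a U => (ψ : stabilizer G a → ℂ) k) (fun _ => 1) = 0), (ψ : stabilizer G a → ℂ) 1 ^ 2 =
      ∑ i : XB a U, (i.1 : stabilizer G a → ℂ) 1 ^ 2 :=
    Finset.sum_subtype _ (fun ψ => by simp) _
  rw [h2, Finset.sum_congr rfl (fun i _ => by rw [hd i])] at h1
  have h3 : e ^ 2 * ∑ i, d i ^ 2 + e = n * e := by
    have : ((e ^ 2 * ∑ i, d i ^ 2 + e : ℕ) : ℂ) = ((n * e : ℕ) : ℂ) := by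
      rw [← h1]
      push_cast
      rw [Finset.mul_sum]
      congr 1
      apply Finset.sum_congr rfl
      intro i _
      ring
    exact_mod_cast this
  have h4 : e * (e * ∑ i, d i ^ 2 + 1) = e * n := by
    calc e * (e * ∑ i, d i ^ 2 + 1) = e ^ 2 * ∑ i, d i ^ 2 + e := by ring
      _ = e * n := by rw [h3, mul_comm]
  have h5 := Nat.eq_of_mul_eq_mul_left h.epos h4
  omega

theorem ZN.exists_d [Fintype (stabilizer G a)] [Fintype (UB a U)] (h : ZN G a b U n e) :
    ∃ d : XB a U → ℕ, (∀ i, 1 ≤ d i) ∧ ∀ i : XB a U, (i.1 : stabilizer G a → ℂ) 1 = e * d i := by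
  classical
  have hn := h.normal
  have key : ∀ i : XB a U, ∃ d : ℕ, 1 ≤ d ∧ (i.1 : stabilizer G a → ℂ) 1 = e * d := by
    rintro ⟨ξ, hξ⟩
    obtain ⟨φ, hφ, -, hind⟩ := Coh.frobKer_eq_ind (UB a U) h.cent_le ξ.2 ((inner_zero_iff (UB a U) ξ).1 hξ)
    obtain ⟨m, hm, hm1⟩ := Coh.irr_degree hφ
    refine ⟨m, hm, ?_⟩
    have h1 := congrFun hind 1
    rw [indFun_one_apply, hm1, h.indexUB] at h1
    exact h1
  choose d h1 h2 using key
  exact ⟨d, h1, h2⟩

theorem ZN.exists_xi0 [Fintype (stabilizer G a)] [Fintype (UB a U)] (h : ZN G a b U n e) (he : 2 ≤ e) (hn : 2 ≤ n) :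
    ∃ i : XB a U, (i.1 : stabilizer G a → ℂ) 1 = e := by
  classical
  have hnm := h.normal
  have hnil := h.nilp he
  have hsolv : Group.IsSolvable (UB a U) := inferInstance
  obtain ⟨χ, hχ, hχ1⟩ := Coh.exists_linear_member (UB a U) hsolv ⊥ (bot_lt_iff_ne_bot.2 (h.UB_ne_bot hn))
  rw [Coh.frobKer_above_eq (UB a U) h.cent_le] at hχ
  obtain ⟨h1, h2⟩ := hχ
  refine ⟨⟨⟨χ, h1⟩, (inner_zero_iff (UB a U) ⟨χ, h1⟩).2 h2⟩, ?_⟩
  rw [h.indexUB] at hχ1
  exact hχ1

theorem ZN.exists_exc [Fintype (stabilizer G a)] [Fintype (UB a U)] (h : ZN G a b U n e) (he : 2 ≤ e) (hn : 2 ≤ n)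
    (hcoh : IsCoherent {χ : stabilizer G a → ℂ | IsIrrCharacter (stabilizer G a) χ ∧
      ∃ k : stabilizer G a, (k : G) ∈ U ∧ χ k ≠ χ 1} {1}ᶜ (fun α => indFun (stabilizer G a) α)) :
    ∃ d θ ε ξ0, ExcN G a U e d θ ε ξ0 := by
  classical
  have hnm := h.normal
  obtain ⟨d, hd1, hd2⟩ := h.exists_d
  obtain ⟨ξ0, hξ0⟩ := h.exists_xi0 he hn
  obtain ⟨-, τ₁, hiso, hag⟩ := hcoh
  set S : Set (stabilizer G a → ℂ) := {χ : stabilizer G a → ℂ | IsIrrCharacter (stabilizer G a) χ ∧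
      ∃ k : stabilizer G a, (k : G) ∈ U ∧ χ k ≠ χ 1} with hS
  have hmem : ∀ i : XB a U, (i.1 : stabilizer G a → ℂ) ∈ S := by
    rintro ⟨ξ, hξ⟩
    obtain ⟨k, hk, hk1⟩ := (inner_zero_iff (UB a U) ξ).1 hξ
    exact ⟨ξ.2, k, hk, hk1⟩
  obtain ⟨ε, hε, hirr, hinj⟩ := Coh.uniform_signs S (fun χ hχ => hχ.1) τ₁ hiso (by
    intro α hα hα1
    have h1 : α ∈ zspanOn S {1}ᶜ := ⟨hα, fun x hx => by
      have : x = 1 := by simpa using hx
      rw [this, hα1]⟩
    rw [hag α h1]
    change indFun (stabilizer G a) α 1 = 0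
    rw [indFun_one_apply, hα1, mul_zero])
  have hεε : ε * ε = 1 := by
    rcases hε with rfl | rfl <;> norm_num
  obtain ⟨ε', hε', hεc⟩ : ∃ ε' : ℤ, (ε' = 1 ∨ ε' = -1) ∧ (ε' : ℂ) = ε := by
    rcases hε with rfl | rfl
    · exact ⟨1, Or.inl rfl, by norm_num⟩
    · exact ⟨-1, Or.inr rfl, by norm_num⟩
  refine ⟨d, fun i => ⟨ε • τ₁ i.1, hirr _ (hmem i)⟩, ε', ξ0, ?_, hε', hd1, hd2, ?_, ?_⟩
  · intro i j hij
    have h1 : ε • τ₁ i.1 = ε • τ₁ j.1 := congrArg Subtype.val hij
    have h2 : τ₁ i.1 = τ₁ j.1 := by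
      have h3 := congrArg (fun f => ε • f) h1
      simp only [smul_smul, hεε, one_smul] at h3
      exact h3
    have h3 := hinj _ (hmem i) _ (hmem j) h2
    exact Subtype.ext (Subtype.ext h3)
  · have h1 := hd2 ξ0
    rw [hξ0] at h1
    have he0 : (e : ℂ) ≠ 0 := Nat.cast_ne_zero.2 h.epos.ne'
    have h2 : (d ξ0 : ℂ) = 1 := by
      have : (e : ℂ) * d ξ0 = e * 1 := by rw [mul_one]; exact h1.symm
      exact mul_left_cancel₀ he0 this
    exact_mod_cast h2
  · intro χ i j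
    have hz := Coh.zspan_add (Coh.zspan_zsmul (d j : ℤ) (Coh.zspan_subset (hmem i)))
      (Coh.zspan_zsmul (-(d i : ℤ)) (Coh.zspan_subset (hmem j)))
    have hzo : (d j : ℤ) • (i.1 : stabilizer G a → ℂ) + (-(d i : ℤ)) • (j.1 : stabilizer G a → ℂ) ∈ zspanOn S {1}ᶜ := by
      refine ⟨hz, fun x hx => ?_⟩
      have hx1 : x = 1 := by simpa using hx
      rw [hx1]
      simp only [Pi.add_apply, Coh.zsmul_app, hd2]
      push_cast
      ring
    have h1 := hag _ hzo
    rw [hiso.1 _ (Coh.zspan_zsmul (d j : ℤ) (Coh.zspan_subset (hmem i))) _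
      (Coh.zspan_zsmul (-(d i : ℤ)) (Coh.zspan_subset (hmem j))), hiso.2.1 _ (Coh.zspan_subset (hmem i)),
      hiso.2.1 _ (Coh.zspan_subset (hmem j))] at h1
    have h2 := frobenius_reciprocity' (stabilizer G a)
      ((d j : ℤ) • (i.1 : stabilizer G a → ℂ) + (-(d i : ℤ)) • (j.1 : stabilizer G a → ℂ)) (χ : G → ℂ)
      (irr_isClassFunction χ)
    rw [show indFun (stabilizer G a) ((d j : ℤ) • (i.1 : stabilizer G a → ℂ) + (-(d i : ℤ)) • (j.1 : stabilizer G a → ℂ)) =
      _ from h1.symm] at h2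
    have e1 : (d j : ℤ) • (i.1 : stabilizer G a → ℂ) + (-(d i : ℤ)) • (j.1 : stabilizer G a → ℂ) =
        (d j : ℂ) • (i.1 : stabilizer G a → ℂ) + (-(d i : ℂ)) • (j.1 : stabilizer G a → ℂ) := by
      funext x
      simp [zsmul_eq_mul]
    have e2 : (d j : ℤ) • τ₁ i.1 + (-(d i : ℤ)) • τ₁ j.1 =
        ((d j : ℂ) * ε) • (ε • τ₁ i.1) + (-(d i : ℂ) * ε) • (ε • τ₁ j.1) := by
      funext x
      simp only [Pi.add_apply, Coh.zsmul_app, Pi.smul_apply, smul_eq_mul]
      push_cast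
      linear_combination (-(d j : ℂ) * τ₁ i.1 x + (d i : ℂ) * τ₁ j.1 x) * hεε
    rw [e1, e2] at h2
    have e3 : conj ε = ε := by rcases hε with rfl | rfl <;> simp
    simp only [classInner_add_right, classInner_smul_right, map_mul, map_neg, Complex.conj_natCast, e3] at h2
    change (d j : ℂ) * classInner (fun g : stabilizer G a => (χ : G → ℂ) g) (i.1 : stabilizer G a → ℂ) -
      d i * classInner (fun g : stabilizer G a => (χ : G → ℂ) g) (j.1 : stabilizer G a → ℂ) =
      ε' * (d j * classInner (χ : G → ℂ) (ε • τ₁ i.1) - d i * classInner (χ : G → ℂ) (ε • τ₁ j.1))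
    rw [hεc, classInner_smul_right, classInner_smul_right, e3]
    linear_combination -h2

end

end Cfsg.Agent.H37.ZT
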