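import Mathlib
import Cfsg.Agent.H37.FNB

/-!
# Degree estimates for Zassenhaus groups, coherent case
-/

set_option autoImplicit false
set_option linter.unusedSectionVars false
set_option linter.unusedVariables false

namespace Cfsg.Agent.H37.ZT

open Cfsg Cfsg.Agent.Char Cfsg.Agent.CharBase Cfsg.Agent.H75 Cfsg.Agent.H34 Cfsg.Agent.Zass MulAction
open scoped ComplexConjugate BigOperators commutatorElement

universe u v

section

variable {G : Type u} {Ω : Type v} [Group G] [MulAction G Ω] [Fintype G] [Finite Ω]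
  {a b : Ω} {U : Subgroup G} {n e : ℕ}

/-- Restriction of a character without `U`-fixed points. -/
theorem ZN.restrict [Fintype U] [Fintype (stabilizer G a)] [Fintype (UB a U)] [Fintype (XB a U)] (h : ZN G a b U n e)
    {d : XB a U → ℕ} {θ : XB a U → IrrCharacter G} {ε : ℤ} {ξ0 : XB a U}
    (hE : ExcN G a U e d θ ε ξ0) (χ : IrrCharacter G)
    (hχ : classInner (fun k : U => (χ : G → ℂ) k) (fun _ => 1) = 0) :
    ∃ m : XB a U → ℕ, (∀ i : XB a U, classInner (fun g : stabilizer G a => (χ : G → ℂ) g) (i.1 : stabilizer G a → ℂ) = m i) ∧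
      (∀ g : stabilizer G a, (χ : G → ℂ) g = ∑ i : XB a U, (m i : ℂ) * (i.1 : stabilizer G a → ℂ) g) ∧
      deg χ = e * ∑ i, m i * d i := by
  classical
  have hnorm := h.normal
  have : Fintype (IrrCharacter (stabilizer G a)) := Fintype.ofFinite _
  have hres : IsCharacter (stabilizer G a) (fun g : stabilizer G a => (χ : G → ℂ) g) :=
    isCharacter_restrict (irr_isCharacter χ) _
  obtain ⟨μ, hμ1, hμ2⟩ := exists_mult_of_isCharacter hres
  choose c hc using fun ξ : IrrCharacter (stabilizer G a) =>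
    classInner_natCast (isCharacter_restrict (irr_isCharacter ξ) (UB a U))
      (isCharacter_of_isIrr (CharBase.isIrrCharacter_one (G := UB a U)))
  have h1 : classInner (fun k : UB a U => (χ : G → ℂ) ((k : stabilizer G a) : G)) (fun _ => 1) = 0 :=
    (inner_UB h.ker.le (χ : G → ℂ)).trans hχ
  have h2 : (fun k : UB a U => (χ : G → ℂ) ((k : stabilizer G a) : G)) =
      ∑ ξ : IrrCharacter (stabilizer G a), (μ ξ : ℂ) • (fun k : UB a U => (ξ : stabilizer G a → ℂ) k) := by
    funext k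
    have h3 := congrFun hμ2 (k : stabilizer G a)
    rw [Finset.sum_apply] at h3 ⊢
    rw [h3]
    apply Finset.sum_congr rfl
    intro ξ _
    simp
  rw [h2, classInner_sum_left] at h1
  have h3 : ∑ ξ : IrrCharacter (stabilizer G a), μ ξ * c ξ = 0 := by
    have h4 : ∀ ξ : IrrCharacter (stabilizer G a),
        classInner ((μ ξ : ℂ) • (fun k : UB a U => (ξ : stabilizer G a → ℂ) k)) (fun _ => 1) = (μ ξ : ℂ) * c ξ := by
      intro ξ
      rw [classInner_smul_left, hc ξ]
    rw [Finset.sum_congr rfl (fun ξ _ => h4 ξ)] at h1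
    exact_mod_cast h1
  have h5 : ∀ ξ : IrrCharacter (stabilizer G a),
      ¬ classInner (fun k : UB a U => (ξ : stabilizer G a → ℂ) k) (fun _ => 1) = 0 → μ ξ = 0 := by
    intro ξ hξ
    have h6 := (Finset.sum_eq_zero_iff_of_nonneg (fun i _ => Nat.zero_le _)).1 h3 ξ (Finset.mem_univ ξ)
    rcases Nat.mul_eq_zero.1 h6 with h7 | h7
    · exact h7
    · exfalso
      apply hξ
      rw [hc ξ, h7, Nat.cast_zero]
  have h6 : ∀ g : stabilizer G a, (χ : G → ℂ) g = ∑ i : XB a U, (μ i.1 : ℂ) * (i.1 : stabilizer G a → ℂ) g := by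
    intro g
    have h7 := congrFun hμ2 g
    rw [Finset.sum_apply] at h7
    rw [h7]
    have h8 : ∑ i : XB a U, (μ i.1 : ℂ) * (i.1 : stabilizer G a → ℂ) g =
        ∑ ξ ∈ Finset.univ.filter (fun ξ : IrrCharacter (stabilizer G a) =>
          classInner (fun k : UB a U => (ξ : stabilizer G a → ℂ) k) (fun _ => 1) = 0),
          (μ ξ : ℂ) * (ξ : stabilizer G a → ℂ) g :=
      (Finset.sum_subtype _ (fun ψ => by simp) (fun ξ : IrrCharacter (stabilizer G a) =>
        (μ ξ : ℂ) * (ξ : stabilizer G a → ℂ) g)).symm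
    rw [h8, Finset.sum_filter]
    apply Finset.sum_congr rfl
    intro ξ _
    split_ifs with h9
    · simp
    · rw [h5 ξ h9]; simp
  refine ⟨fun i => μ i.1, fun i => hμ1 i.1, h6, ?_⟩
  have h7 := h6 1
  rw [Subgroup.coe_one, deg_spec χ, Finset.sum_congr rfl (fun i _ => by rw [hE.deg i])] at h7
  have h8 : ((deg χ : ℕ) : ℂ) = ((e * ∑ i, μ i.1 * d i : ℕ) : ℂ) := by
    rw [h7]; push_cast; rw [Finset.mul_sum]
    apply Finset.sum_congr rfl
    intro i _
    ring
  exact_mod_cast h8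

/-- Nonexceptional characters without `U`-fixed points have degree at least `n - 1`. -/
theorem ZN.le_deg_of_nonexc [Fintype U] [Fintype (stabilizer G a)] [Fintype (UB a U)] [Fintype (XB a U)] (h : ZN G a b U n e)
    {d : XB a U → ℕ} {θ : XB a U → IrrCharacter G} {ε : ℤ} {ξ0 : XB a U}
    (hE : ExcN G a U e d θ ε ξ0) (χ : IrrCharacter G)
    (hχ : classInner (fun k : U => (χ : G → ℂ) k) (fun _ => 1) = 0) (hχθ : ∀ i, χ ≠ θ i) :
    n - 1 ≤ deg χ := by
  classical
  obtain ⟨m, hm1, -, hm3⟩ := h.restrict hE χ hχ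
  have hconst : ∀ i, m i = d i * m ξ0 := by
    intro i
    have h1 := hE.coeff χ i ξ0
    rw [hm1, hm1, classInner_irr_of_ne (hχθ i), classInner_irr_of_ne (hχθ ξ0), hE.d0] at h1
    have h2 : ((m i : ℕ) : ℂ) = ((d i * m ξ0 : ℕ) : ℂ) := by
      push_cast at h1 ⊢
      linear_combination h1
    exact_mod_cast h2
  have hpos := deg_pos χ
  have hsum : ∑ j, m j * d j = m ξ0 * ∑ j, d j ^ 2 := by
    rw [Finset.mul_sum]
    apply Finset.sum_congr rfl
    intro j _
    rw [hconst j]; ring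
  have hne : m ξ0 ≠ 0 := by
    intro h0
    rw [hsum, h0, zero_mul, mul_zero] at hm3
    omega
  rw [hm3, hsum, mul_left_comm, h.sum_sq hE.deg]
  exact Nat.le_mul_of_pos_left _ (Nat.pos_of_ne_zero hne)

/-- The restriction of an exceptional character without `U`-fixed points. -/
theorem ZN.restrict_exc [Fintype U] [Fintype (stabilizer G a)] [Fintype (UB a U)] [Fintype (XB a U)] (h : ZN G a b U n e)
    (h2 : 2 ≤ Nat.card (XB a U))
    {d : XB a U → ℕ} {θ : XB a U → IrrCharacter G} {ε : ℤ} {ξ0 : XB a U}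
    (hE : ExcN G a U e d θ ε ξ0) (k : XB a U) {m : XB a U → ℕ}
    (hm1 : ∀ i : XB a U, classInner (fun g : stabilizer G a => (θ k : G → ℂ) g) (i.1 : stabilizer G a → ℂ) = m i) :
    ∃ c : ℕ, ∀ i, (m i : ℤ) = c * d i + (open Classical in if i = k then ε else 0) := by
  classical
  by_cases hk : k = ξ0
  · subst hk
    have h3 : ∀ j, j ≠ k → (m j : ℤ) = (m k - ε) * d j := by
      intro j hj
      have h1 := hE.coeff (θ k) j k
      rw [hm1, hm1, classInner_irr_self, classInner_irr_of_ne (fun h => hj (hE.inj h).symm), hE.d0] at h1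
      have h4 : ((m j : ℤ) : ℂ) = (((m k - ε) * d j : ℤ) : ℂ) := by
        push_cast at h1 ⊢
        linear_combination h1
      exact_mod_cast h4
    have hnt : Nontrivial (XB a U) := by
      rw [← Finite.one_lt_card_iff_nontrivial]; omega
    obtain ⟨j, hj⟩ := exists_ne k
    have h4 := h3 j hj
    have h5 := hE.dpos j
    have h6 : 0 ≤ (m k : ℤ) - ε := by
      by_contra hcon
      push Not at hcon
      have h7 : ((m k : ℤ) - ε) * d j < 0 := mul_neg_of_neg_of_pos hcon (by exact_mod_cast h5)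
      rw [← h4] at h7
      omega
    obtain ⟨c, hc⟩ := Int.eq_ofNat_of_zero_le h6
    refine ⟨c, fun i => ?_⟩
    by_cases hi : i = k
    · rw [if_pos hi, hi, hE.d0, ← hc]; push_cast; ring
    · rw [if_neg hi, h3 i hi, hc, add_zero]
  · refine ⟨m ξ0, fun i => ?_⟩
    have h1 := hE.coeff (θ k) i ξ0
    rw [hm1, hm1, classInner_irr_of_ne (fun h => hk (hE.inj h)), hE.d0] at h1
    by_cases hi : i = k
    · rw [if_pos hi, hi]
      rw [hi, classInner_irr_self] at h1
      have h4 : ((m k : ℤ) : ℂ) = ((m ξ0 * d k + ε : ℤ) : ℂ) := by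
        push_cast at h1 ⊢
        linear_combination h1
      exact_mod_cast h4
    · rw [if_neg hi]
      rw [classInner_irr_of_ne (fun h => hi (hE.inj h).symm)] at h1
      have h4 : ((m i : ℤ) : ℂ) = ((m ξ0 * d i + 0 : ℤ) : ℂ) := by
        push_cast at h1 ⊢
        linear_combination h1
      exact_mod_cast h4

theorem two_le_XB [Fintype (stabilizer G a)] [Fintype (UB a U)] [Fintype (XB a U)] {d : XB a U → ℕ} {ξ0 : XB a U}
    (h0 : d ξ0 = 1) (h3 : 3 ≤ ∑ i, d i ^ 2) : 2 ≤ Nat.card (XB a U) := by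
  classical
  by_contra hcon
  have h1 : Nat.card (XB a U) ≤ 1 := by omega
  have hss : Subsingleton (XB a U) := Finite.card_le_one_iff_subsingleton.1 h1
  have h2 : ∑ i, d i ^ 2 = 1 := by
    rw [Finset.sum_eq_single ξ0 (fun i _ hi => absurd (Subsingleton.elim i ξ0) hi)
      (fun h => absurd (Finset.mem_univ ξ0) h), h0, one_pow]
  omega

theorem two_d_lt [Fintype (stabilizer G a)] [Fintype (UB a U)] [Fintype (XB a U)] {d : XB a U → ℕ} {ξ0 : XB a U}
    (hd : ∀ i, 1 ≤ d i) (h0 : d ξ0 = 1) (h3 : 3 ≤ ∑ i, d i ^ 2) (k : XB a U) : 2 * d k < ∑ i, d i ^ 2 := by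
  classical
  have h2 := two_le_XB h0 h3
  rw [← Finset.add_sum_erase _ _ (Finset.mem_univ k)] at h3 ⊢
  have hnt : Nontrivial (XB a U) := by
    rw [← Finite.one_lt_card_iff_nontrivial]; omega
  obtain ⟨j, hj⟩ := exists_ne k
  have h4 : d j ^ 2 ≤ ∑ i ∈ Finset.univ.erase k, d i ^ 2 :=
    Finset.single_le_sum (f := fun i => d i ^ 2) (fun i _ => Nat.zero_le _) (Finset.mem_erase.2 ⟨hj, Finset.mem_univ j⟩)
  have h5 : 1 ≤ d j ^ 2 := Nat.one_le_pow _ _ (hd j)
  rcases Nat.lt_or_ge (d k) 2 with h6 | h6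
  · have : d k = 1 := by have := hd k; omega
    rw [this] at h3 ⊢
    omega
  · have h7 : 2 * d k ≤ d k ^ 2 := by nlinarith
    omega

theorem ZN.deg_exc [Fintype U] [Fintype (stabilizer G a)] [Fintype (UB a U)] [Fintype (XB a U)] (h : ZN G a b U n e)
    {d : XB a U → ℕ} (h3 : 3 ≤ ∑ i, d i ^ 2) {θ : XB a U → IrrCharacter G} {ε : ℤ} {ξ0 : XB a U}
    (hE : ExcN G a U e d θ ε ξ0) (k : XB a U)
    (hχ : classInner (fun x : U => (θ k : G → ℂ) x) (fun _ => 1) = 0) :
    e * d k ≤ deg (θ k) ∧ (deg (θ k) = e * d k → ∀ g : stabilizer G a, (θ k : G → ℂ) g = (k.1 : stabilizer G a → ℂ) g) := by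
  classical
  obtain ⟨m, hm1, hm2, hm3⟩ := h.restrict hE (θ k) hχ
  obtain ⟨c, hc⟩ := h.restrict_exc (two_le_XB hE.d0 h3) hE k hm1
  have h4 := two_d_lt hE.dpos hE.d0 h3 k
  have hsum : ((∑ i, m i * d i : ℕ) : ℤ) = c * ((∑ i, d i ^ 2 : ℕ) : ℤ) + ε * d k := by
    push_cast
    rw [Finset.sum_congr rfl (fun i _ => by rw [hc i])]
    rw [Finset.mul_sum]
    have h5 : ∀ i, ((c : ℤ) * d i + if i = k then ε else 0) * d i = c * (d i : ℤ) ^ 2 + if i = k then ε * d i else 0 := by
      intro i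
      split_ifs <;> ring
    rw [Finset.sum_congr rfl (fun i _ => h5 i), Finset.sum_add_distrib, Finset.sum_ite_eq' Finset.univ k,
      if_pos (Finset.mem_univ k)]
  set Q := ∑ i, d i ^ 2 with hQ
  set S := ∑ i, m i * d i with hS
  have hdk := hE.dpos k
  have hck := hc k
  rw [if_pos rfl] at hck
  have key : d k ≤ S ∧ (S = d k → c = 0 ∧ ε = 1) := by
    rcases hE.eps with he | he
    · rw [he, one_mul] at hsum
      have h5 : S = c * Q + d k := by exact_mod_cast hsum
      refine ⟨by rw [h5]; exact Nat.le_add_left _ _, fun h6 => ⟨?_, he⟩⟩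
      rw [h5] at h6
      have h7 : c * Q = 0 := by omega
      rcases Nat.mul_eq_zero.1 h7 with h8 | h8
      · exact h8
      · omega
    · rw [he] at hsum hck
      have hc1 : 1 ≤ c := by
        by_contra h6
        have h7 : c = 0 := by omega
        rw [h7] at hck
        push_cast at hck
        have : (0 : ℤ) ≤ m k := by positivity
        omega
      have h5 : (Q : ℤ) ≤ c * Q := by
        have : (1 : ℤ) ≤ c := by exact_mod_cast hc1
        nlinarith [(by positivity : (0 : ℤ) ≤ Q)]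
      have h6 : (2 * d k : ℤ) < Q := by exact_mod_cast h4
      have h7 : (d k : ℤ) < S := by linarith
      have h8 : d k < S := by exact_mod_cast h7
      exact ⟨h8.le, fun h9 => absurd h9 h8.ne'⟩
  rw [hm3]
  refine ⟨Nat.mul_le_mul_left _ key.1, fun h5 g => ?_⟩
  obtain ⟨h6, h7⟩ := key.2 (Nat.eq_of_mul_eq_mul_left h.epos h5)
  rw [hm2 g]
  have h8 : ∀ i, (m i : ℂ) = if i = k then 1 else 0 := by
    intro i
    have h9 := hc i
    rw [h6, h7] at h9
    have h10 : ((m i : ℤ) : ℂ) = ((((0 : ℕ) : ℤ) * d i + (if i = k then 1 else 0) : ℤ) : ℂ) := by rw [h9]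
    push_cast at h10
    rw [h10]; simp
  rw [Finset.sum_congr rfl (fun i _ => by rw [h8 i])]
  simp

/-- The degree bookkeeping: `r` nonexceptional and `x` exceptional characters without `U`-fixed points. -/
theorem ZN.numeric [Fintype U] [Fintype (stabilizer G a)] [Fintype (UB a U)] [Fintype (XB a U)] (h : ZN G a b U n e)
    {d : XB a U → ℕ} {θ : XB a U → IrrCharacter G} {ε : ℤ} {ξ0 : XB a U}
    (hE : ExcN G a U e d θ ε ξ0) (he : 2 ≤ e) (hn2 : 2 * e < n - 1) :
    ∃ r x : ℕ, 2 * r ≤ e - 1 ∧ x ≤ Nat.card (XB a U) ∧ 2 * Nat.card (IrrCharacter G) ≤ 4 + (e - 1) + 2 * r + 2 * x ∧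
      (2 * r = e - 1 → x = Nat.card (XB a U) → ∀ (k : XB a U) (g : stabilizer G a),
        (θ k : G → ℂ) g = (k.1 : stabilizer G a → ℂ) g) := by
  classical
  have hQe := h.sum_sq hE.deg
  set s := ∑ i, d i ^ 2 with hsdef
  have hs : s * e = n - 1 := by rw [mul_comm]; exact hQe
  have hs3 : 3 ≤ s := by
    by_contra h1
    push Not at h1
    have : s * e ≤ 2 * e := Nat.mul_le_mul_right _ (by omega)
    omega
  have : Fintype (IrrCharacter G) := Fintype.ofFinite _
  obtain ⟨aU, haU⟩ := exists_aU (G := G) (U := U)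
  obtain ⟨st, hst1, ha1, hast, hdst, hne1⟩ := h.exists_st haU
  have F1 := h.sum_aU_sq haU
  have F2 := h.sum_aU_deg haU
  have F3 := sum_deg_sq (G := G)
  have hdone : deg (oneIrr G) = 1 := by
    have h1 := deg_spec (oneIrr G)
    have h2 : ((oneIrr G : IrrCharacter G) : G → ℂ) 1 = 1 := rfl
    rw [h2] at h1
    exact_mod_cast h1.symm
  -- the sets
  let M : Finset (IrrCharacter G) := Finset.univ.filter (fun χ => aU χ ≠ 0 ∧ χ ≠ oneIrr G ∧ χ ≠ st)
  let R : Finset (IrrCharacter G) := Finset.univ.filter (fun χ => aU χ = 0)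
  let Rx : Finset (IrrCharacter G) := R.filter (fun χ => ∃ i, χ = θ i)
  let Rn : Finset (IrrCharacter G) := R.filter (fun χ => ¬ ∃ i, χ = θ i)
  have hsplit : ∀ f : IrrCharacter G → ℕ, ∑ χ, f χ = f (oneIrr G) + f st + ∑ χ ∈ M, f χ + ∑ χ ∈ R, f χ := by
    intro f
    rw [← Finset.sum_filter_add_sum_filter_not Finset.univ (fun χ => aU χ = 0)]
    rw [← Finset.add_sum_erase (Finset.univ.filter (fun χ : IrrCharacter G => ¬ aU χ = 0)) f
      (Finset.mem_filter.2 ⟨Finset.mem_univ (oneIrr G), by rw [ha1]; norm_num⟩)]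
    rw [← Finset.add_sum_erase ((Finset.univ.filter (fun χ : IrrCharacter G => ¬ aU χ = 0)).erase (oneIrr G)) f
      (Finset.mem_erase.2 ⟨hst1, Finset.mem_filter.2 ⟨Finset.mem_univ st, by rw [hast]; norm_num⟩⟩)]
    have hM : M = ((Finset.univ.filter (fun χ : IrrCharacter G => ¬ aU χ = 0)).erase (oneIrr G)).erase st := by
      ext χ
      simp only [M, Finset.mem_filter, Finset.mem_univ, true_and, Finset.mem_erase]
      tauto
    rw [← hM]
    ring
  have hR : ∀ f : IrrCharacter G → ℕ, ∑ χ ∈ R, f χ = ∑ χ ∈ Rx, f χ + ∑ χ ∈ Rn, f χ := fun f =>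
    (Finset.sum_filter_add_sum_filter_not R (fun χ => ∃ i, χ = θ i) f).symm
  have G1 := hsplit (fun χ => aU χ ^ 2)
  have G2 := hsplit (fun χ => aU χ * deg χ)
  have G3 := hsplit (fun χ => deg χ ^ 2)
  have G4 := hsplit (fun _ => 1)
  simp only [ha1, hast, hdone, hdst] at G1 G2 G3
  rw [F1] at G1
  rw [F2] at G2
  rw [F3, h.card] at G3
  have z1 : ∑ χ ∈ R, aU χ ^ 2 = 0 := Finset.sum_eq_zero (fun χ hχ => by rw [(Finset.mem_filter.1 hχ).2]; rfl)
  have z2 : ∑ χ ∈ R, aU χ * deg χ = 0 := Finset.sum_eq_zero (fun χ hχ => by rw [(Finset.mem_filter.1 hχ).2, zero_mul])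
  rw [z1] at G1
  rw [z2] at G2
  -- Cauchy-Schwarz
  have CS : (∑ χ ∈ M, aU χ * deg χ) ^ 2 ≤ (∑ χ ∈ M, aU χ ^ 2) * (∑ χ ∈ M, deg χ ^ 2) := by
    have := Finset.sum_mul_sq_le_sq_mul_sq M (fun χ => (aU χ : ℤ)) (fun χ => (deg χ : ℤ))
    exact_mod_cast this
  -- |M|
  have hM2 : ∀ χ ∈ M, 4 ≤ aU χ ^ 2 := by
    intro χ hχ
    obtain ⟨-, h1, h2, h3⟩ := Finset.mem_filter.1 hχ
    have h4 := hne1 χ h2 h3
    have h5 : 2 ≤ aU χ := by omega
    nlinarith
  have hMc : M.card * 4 ≤ ∑ χ ∈ M, aU χ ^ 2 := Finset.card_nsmul_le_sum M _ 4 hM2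
  -- nonexceptional
  have hRn : ∀ χ ∈ Rn, (n - 1) ^ 2 ≤ deg χ ^ 2 := by
    intro χ hχ
    obtain ⟨h1, h2⟩ := Finset.mem_filter.1 hχ
    obtain ⟨-, h3⟩ := Finset.mem_filter.1 h1
    push Not at h2
    exact Nat.pow_le_pow_left (h.le_deg_of_nonexc hE χ (by rw [haU, h3, Nat.cast_zero]) h2) 2
  have hRnc : Rn.card * (n - 1) ^ 2 ≤ ∑ χ ∈ Rn, deg χ ^ 2 := Finset.card_nsmul_le_sum Rn _ _ hRn
  have hsub : Rx ⊆ Finset.univ.image θ := by
    intro χ hχ
    obtain ⟨-, i, hi⟩ := Finset.mem_filter.1 hχ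
    exact Finset.mem_image.2 ⟨i, Finset.mem_univ i, hi.symm⟩
  have hxs : Rx.card ≤ Nat.card (XB a U) := by
    have h2 := Finset.card_le_card hsub
    rw [Finset.card_image_of_injective _ hE.inj, Finset.card_univ, ← Nat.card_eq_fintype_card] at h2
    exact h2
  have hRxall : Rx.card = Nat.card (XB a U) → Rx = Finset.univ.image θ := by
    intro h0
    apply Finset.eq_of_subset_of_card_le hsub
    rw [Finset.card_image_of_injective _ hE.inj, Finset.card_univ, ← Nat.card_eq_fintype_card, h0]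
  -- arithmetic
  have g3 := hR (fun χ => deg χ ^ 2)
  have g4 := hR (fun _ => 1)
  simp only [Finset.sum_const, smul_eq_mul, mul_one, Finset.card_univ] at G4 g4
  rw [← Nat.card_eq_fintype_card] at G4
  set k := Nat.card (IrrCharacter G) with hk
  set DM := ∑ χ ∈ M, deg χ ^ 2 with hDM
  set AM := ∑ χ ∈ M, aU χ * deg χ with hAM
  set SM := ∑ χ ∈ M, aU χ ^ 2 with hSM
  set Dx := ∑ χ ∈ Rx, deg χ ^ 2 with hDx
  set Dn := ∑ χ ∈ Rn, deg χ ^ 2 with hDn
  set r := Rn.card with hr
  set x := Rx.card with hx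
  rw [g3] at G3
  rw [g4] at G4
  obtain ⟨f, hf⟩ : ∃ f, e = f + 1 := ⟨e - 1, by omega⟩
  have hn1 : n = s * e + 1 := by have := h.npos; omega
  have eSM : SM = 2 * f := by omega
  have eAM : AM = (n + 1) * f := by
    rw [hf] at G2
    exact ar_AM G2
  rw [eSM, eAM] at CS
  have hDM2 : (n + 1) ^ 2 * f ≤ 2 * DM := ar_DM (by omega) CS
  obtain ⟨m, hm⟩ : ∃ m, n = m + 1 := ⟨n - 1, by omega⟩
  have hm' : m = s * (f + 1) := by rw [← hf]; omega
  rw [hm, Nat.add_sub_cancel] at hRnc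
  have N1 : 2 * (Dx + Dn) ≤ m * ((m + 2) * f + 2) := by
    rw [hm] at hDM2 G3
    rw [hf] at G3
    exact ar_N1 hDM2 G3
  have hrle : 2 * r ≤ f := ar_r hs3 hm' N1 hRnc
  refine ⟨r, x, by omega, hxs, ?_, ?_⟩
  · omega
  · intro hreq hxeq
    have h1 := hRxall hxeq
    have hDx2 : Dx ≤ s * e ^ 2 := by
      rw [hf]
      exact ar_Dx hm' (by omega) N1 hRnc
    have h2 : Dx = ∑ i, deg (θ i) ^ 2 := by
      rw [hDx, h1, Finset.sum_image (fun i _ j _ hij => hE.inj hij)]
    have hdz : ∀ i, classInner (fun x : U => (θ i : G → ℂ) x) (fun _ => 1) = 0 := by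
      intro i
      have h3 : θ i ∈ Rx := by rw [h1]; exact Finset.mem_image_of_mem _ (Finset.mem_univ i)
      obtain ⟨h4, -⟩ := Finset.mem_filter.1 h3
      rw [haU, (Finset.mem_filter.1 h4).2, Nat.cast_zero]
    have hle : ∀ i ∈ (Finset.univ : Finset (XB a U)), (e * d i) ^ 2 ≤ deg (θ i) ^ 2 := fun i _ =>
      Nat.pow_le_pow_left (h.deg_exc hs3 hE i (hdz i)).1 2
    have heq : ∑ i, (e * d i) ^ 2 = ∑ i, deg (θ i) ^ 2 := by
      apply le_antisymm (Finset.sum_le_sum hle)
      rw [← h2]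
      refine hDx2.trans (le_of_eq ?_)
      rw [hsdef, Finset.sum_mul]
      apply Finset.sum_congr rfl
      intro i _
      ring
    intro i g
    have h3 := (Finset.sum_eq_sum_iff_of_le hle).1 heq i (Finset.mem_univ i)
    exact (h.deg_exc hs3 hE i (hdz i)).2 (Nat.pow_left_injective (n := 2) (by norm_num) h3).symm g

open Classical in
/-- lower bound for the centralizer orders on `U` -/
theorem ZN.sum_cz_U [Fintype (stabilizer G a)] [Fintype (UB a U)] (h : ZN G a b U n e) :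
    (Nat.card (XB a U) : ℤ) * (n * e) ≤ ∑ g : G, (if g ∈ U ∧ g ≠ 1 then (cz g : ℤ) else 0) := by
  have hnm := h.normal
  have h1 : ∑ g : stabilizer G a, (cz g : ℤ) = ((Nat.card (XB a U) : ℤ) + e) * (n * e) := by
    have := sum_cz (G := stabilizer G a)
    rw [h.card_irrB, h.cardB] at this
    exact_mod_cast this
  have h2 : ∀ g : stabilizer G a, (cz g : ℤ) = (if (g ∈ UB a U ∧ g ≠ 1) then (cz g : ℤ) else 0) +
      (if g = 1 then (n * e : ℤ) else 0) + (if g ∉ UB a U then (cz g : ℤ) else 0) := by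
    intro g
    by_cases hg : g ∈ UB a U
    · by_cases hg1 : g = 1
      · subst hg1
        rw [if_neg (fun h => h.2 rfl), if_pos rfl, if_neg (fun h => h (UB a U).one_mem), cz_one, h.cardB]
        push_cast; ring
      · rw [if_pos ⟨hg, hg1⟩, if_neg hg1, if_neg (fun h => h hg)]; ring
    · have hg1 : g ≠ 1 := fun h => hg (h ▸ (UB a U).one_mem)
      rw [if_neg (fun h => hg h.1), if_neg hg1, if_pos hg]; ring
  have h3 : ∀ g : stabilizer G a, g ∉ UB a U → cz g ≤ e := by
    intro g hg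
    have hdisj : Subgroup.centralizer ({g} : Set (stabilizer G a)) ⊓ UB a U = ⊥ := by
      rw [eq_bot_iff]
      rintro x ⟨hx1, hx2⟩
      by_contra hx
      have h4 := h.frob.2.2 g g.2 hg x hx2 (fun h => hx (Subtype.ext h))
      apply h4
      exact congrArg Subtype.val (Subgroup.mem_centralizer_singleton_iff.1 hx1).symm
    rw [cz, ← h.indexUB]
    have h5 : Function.Injective (fun x : Subgroup.centralizer ({g} : Set (stabilizer G a)) =>
        ((x : stabilizer G a) : stabilizer G a ⧸ UB a U)) := by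
      intro x y hxy
      have h6 : (x : stabilizer G a)⁻¹ * y ∈ UB a U := QuotientGroup.eq.1 hxy
      have h7 : (x : stabilizer G a)⁻¹ * y ∈ Subgroup.centralizer ({g} : Set (stabilizer G a)) ⊓ UB a U :=
        ⟨Subgroup.mul_mem _ (Subgroup.inv_mem _ x.2) y.2, h6⟩
      rw [hdisj, Subgroup.mem_bot, inv_mul_eq_one] at h7
      exact Subtype.ext h7
    exact Nat.card_le_card_of_injective _ h5
  have h4 : ∑ g : stabilizer G a, (if g ∉ UB a U then (cz g : ℤ) else 0) ≤ (n * (e - 1)) * e := by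
    have h5 : ∀ g : stabilizer G a, (if g ∉ UB a U then (cz g : ℤ) else 0) ≤ if g ∉ UB a U then (e : ℤ) else 0 := by
      intro g
      by_cases hg : g ∈ UB a U
      · rw [if_neg (fun h => h hg), if_neg (fun h => h hg)]
      · rw [if_pos hg, if_pos hg]
        exact_mod_cast h3 g hg
    refine (Finset.sum_le_sum (fun g _ => h5 g)).trans (le_of_eq ?_)
    rw [← Finset.sum_filter, Finset.sum_const, nsmul_eq_mul]
    congr 1
    have h6 := Finset.card_filter_add_card_filter_not (s := (Finset.univ : Finset (stabilizer G a))) (fun g => g ∈ UB a U)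
    have h7 : (Finset.univ.filter (fun g : stabilizer G a => g ∈ UB a U)).card = n := by
      rw [← Fintype.card_subtype, ← Nat.card_eq_fintype_card]
      exact h.cardUB
    rw [h7, Finset.card_univ, ← Nat.card_eq_fintype_card, h.cardB] at h6
    have h8 : ((n + (Finset.univ.filter (fun g : stabilizer G a => ¬ g ∈ UB a U)).card : ℕ) : ℤ) = ((n * e : ℕ) : ℤ) := by
      rw [h6]
    push_cast at h8
    linarith
  have h5 : ∑ g : stabilizer G a, (if (g ∈ UB a U ∧ g ≠ 1) then (cz g : ℤ) else 0) ≤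
      ∑ g : G, (if g ∈ U ∧ g ≠ 1 then (cz g : ℤ) else 0) := by
    have h6 : ∑ g : G, (if g ∈ U ∧ g ≠ 1 then (cz g : ℤ) else 0) =
        ∑ g ∈ Finset.univ.filter (fun g : G => g ∈ stabilizer G a), (if g ∈ U ∧ g ≠ 1 then (cz g : ℤ) else 0) := by
      rw [Finset.sum_filter]
      apply Finset.sum_congr rfl
      intro g _
      by_cases hg : g ∈ stabilizer G a
      · rw [if_pos hg]
      · rw [if_neg hg, if_neg (fun h1 => hg (h.ker.le h1.1))]
    rw [h6, Finset.sum_subtype (p := fun g => g ∈ stabilizer G a) _ (fun g => by simp)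
      (fun g : G => (if g ∈ U ∧ g ≠ 1 then (cz g : ℤ) else 0))]
    apply Finset.sum_le_sum
    intro g _
    by_cases hg : g ∈ UB a U ∧ g ≠ 1
    · have hg' : (g : G) ∈ U ∧ (g : G) ≠ 1 := ⟨hg.1, fun h => hg.2 (Subtype.ext h)⟩
      rw [if_pos hg, if_pos hg']
      have h7 : cz g ≤ cz (g : G) := by
        refine Nat.card_le_card_of_injective (fun x : Subgroup.centralizer ({g} : Set (stabilizer G a)) =>
          (⟨x.1.1, ?_⟩ : Subgroup.centralizer ({(g : G)} : Set G))) ?_
        · rw [Subgroup.mem_centralizer_singleton_iff]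
          exact congrArg Subtype.val (Subgroup.mem_centralizer_singleton_iff.1 x.2)
        · intro x y hxy
          have h8 : x.1.1 = y.1.1 := congrArg (fun t : Subgroup.centralizer ({(g : G)} : Set G) => (t : G)) hxy
          exact Subtype.ext (Subtype.ext h8)
      exact_mod_cast h7
    · rw [if_neg hg]
      split_ifs
      · positivity
      · exact le_refl _
  have h6 : ∑ g : stabilizer G a, (if g = 1 then (n * e : ℤ) else 0) = n * e := by
    rw [Finset.sum_ite_eq' Finset.univ (1 : stabilizer G a), if_pos (Finset.mem_univ _)]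
  rw [Finset.sum_congr rfl (fun g _ => h2 g), Finset.sum_add_distrib, Finset.sum_add_distrib, h6] at h1
  nlinarith

open Classical in
/-- (L3) -/
theorem ZN.sum_cz_zero [Fintype (stabilizer G a)] [Fintype (UB a U)] (h : ZN G a b U n e) :
    2 * ∑ g : G, (if nfix Ω g = 0 then (cz g : ℤ) else 0) ≤
      (Nat.card G : ℤ) * (2 * Nat.card (IrrCharacter G) - 2 - 2 * Nat.card (XB a U) - (e - 1)) := by
  have h1 := sum_fix_zero (R := ℤ) h.z h.hab h.ker (fun g => (cz g : ℤ)) (fun g k => by rw [cz_conj]) h.hn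
  have h2 : ∑ g : G, (cz g : ℤ) = Nat.card (IrrCharacter G) * Nat.card G := by
    exact_mod_cast sum_cz (G := G)
  have h3 := h.sum_cz_U
  have h4 := le_sum_sub (stab2 G a b) (fun g => (g • a = a ∧ g • b = b) ∧ g ≠ 1) (fun g => by rw [mem_stab2]) cz e (fun g hg _ => by
    rw [cz, ← h.he]
    refine Nat.card_le_card_of_injective (Subgroup.inclusion (fun x hx => ?_)) (Subgroup.inclusion_injective _)
    rw [Subgroup.mem_centralizer_singleton_iff]
    exact h.Ec x hx g hg)
  rw [h.he] at h4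
  rw [h1, h2, cz_one, h.card]
  have hn0 : (0 : ℤ) ≤ n := Int.natCast_nonneg n
  have h5 : 2 * ((n : ℤ) + 1) * ((Nat.card (XB a U) : ℤ) * (n * e)) ≤
      2 * ((n : ℤ) + 1) * ∑ g : G, (if g ∈ U ∧ g ≠ 1 then (cz g : ℤ) else 0) :=
    mul_le_mul_of_nonneg_left h3 (by positivity)
  have h6 : (n : ℤ) * ((n : ℤ) + 1) * (((e : ℤ) - 1) * e) ≤
      (n : ℤ) * ((n : ℤ) + 1) * ∑ g : G, (if (g • a = a ∧ g • b = b) ∧ g ≠ 1 then (cz g : ℤ) else 0) :=
    mul_le_mul_of_nonneg_left h4 (by positivity)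
  push_cast
  linarith

end

end Cfsg.Agent.H37.ZT
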