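import Mathlib
import Cfsg.Agent.H37.FNC
import Cfsg.Agent.Solv.MinNormal

/-!
# Involutions in Zassenhaus groups (kernel not necessarily abelian)
-/

set_option autoImplicit false
set_option linter.unusedSectionVars false
set_option linter.unusedVariables false

namespace Cfsg.Agent.H37.ZT

open Cfsg Cfsg.Agent.Char Cfsg.Agent.CharBase Cfsg.Agent.H75 Cfsg.Agent.H34 Cfsg.Agent.Zass MulAction
open scoped ComplexConjugate BigOperators

universe u v

section

variable {G : Type u} {Ω : Type v} [Group G] [MulAction G Ω] [Fintype G] [Finite Ω]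
  {a b : Ω} {U : Subgroup G} {n e : ℕ}

/-- every swapper is an involution -/
theorem ZN.swap_sq (h : ZN G a b U n e) {s : G} (hsa : s • a = b) (hsb : s • b = a) : s * s = 1 := by
  have hmem : s * s ∈ stab2 G a b := by
    rw [mem_stab2, mul_smul, mul_smul, hsa, hsb, hsa]
    exact ⟨rfl, rfl⟩
  have h1 := h.swap s hsa hsb _ hmem
  have h2 : s * s = (s * s)⁻¹ := by rw [← h1]; group
  have h3 : (s * s) * (s * s) = 1 := by
    nth_rewrite 2 [h2]
    exact mul_inv_cancel _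
  have h4 : Odd (orderOf (s * s)) := by
    have h5 := orderOf_dvd_natCard (⟨s * s, hmem⟩ : stab2 G a b)
    rw [← Subgroup.orderOf_coe, h.he] at h5
    exact Odd.of_dvd_nat h.eodd h5
  have h5 : orderOf (s * s) ∣ 2 := orderOf_dvd_of_pow_eq_one (by rw [sq, h3])
  have h6 : orderOf (s * s) = 1 := by
    rcases (Nat.dvd_prime Nat.prime_two).1 h5 with h7 | h7
    · exact h7
    · rw [h7] at h4; exact absurd h4 (by decide)
  exact orderOf_eq_one_iff.1 h6

/-- the number of involutions swapping `a` and `b` -/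
theorem ZN.card_swap (h : ZN G a b U n e) : Nat.card {t : Inv G // t.1 • a = b} = e := by
  apply le_antisymm
  · have := card_swap_le h.z h.hab
    rwa [h.he] at this
  · obtain ⟨s, hsa, hsb⟩ := h.exists_swap
    rw [← h.he]
    have hsw : ∀ g : stab2 G a b, (s * g) • a = b ∧ (s * g) • b = a := by
      intro g
      obtain ⟨hga, hgb⟩ := mem_stab2.1 g.2
      rw [mul_smul, mul_smul, hga, hgb]
      exact ⟨hsa, hsb⟩
    refine Nat.card_le_card_of_injective (fun g => (⟨⟨s * g, h.swap_sq (hsw g).1 (hsw g).2, ?_⟩, (hsw g).1⟩ :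
      {t : Inv G // t.1 • a = b})) ?_
    · intro h1
      have h2 := (hsw g).1
      rw [h1, one_smul] at h2
      exact h.hab h2
    · intro g k hgk
      have h1 : s * (g : G) = s * k := congrArg (fun t : {t : Inv G // t.1 • a = b} => t.1.1) hgk
      exact Subtype.ext (mul_left_cancel h1)

/-- a pair of involutions with product in `E` -/
theorem ZN.ip_E_le (h : ZN G a b U n e) (hfix : ∀ t : Inv G, t.1 • a = a → t.1 • b ≠ b) {g : G}
    (hg : g ∈ stab2 G a b) (hg1 : g ≠ 1) : ip g ≤ e := by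
  rw [← h.card_swap]
  obtain ⟨hga, hgb⟩ := mem_stab2.1 hg
  refine Nat.card_le_card_of_injective (fun p => (⟨p.1.1, ?_⟩ : {t : Inv G // t.1 • a = b})) ?_
  · have hinv := ip_inverts p
    have h1 := inverts_fix hinv hga
    have h2 := inverts_fix hinv hgb
    rcases h.z.fixed_le hg1 hga hgb h.hab h1 with h3 | h3
    · rcases h.z.fixed_le hg1 hga hgb h.hab h2 with h4 | h4
      · exfalso
        exact h.hab (smul_left_cancel p.1.1.1 (h3.trans h4.symm))
      · exact absurd h4 (hfix p.1.1 h3)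
    · exact h3
  · intro p q hpq
    have h1 : p.1.1 = q.1.1 := congrArg (fun t : {t : Inv G // t.1 • a = b} => t.1) hpq
    exact ip_inj (congrArg Subtype.val h1)

/-- an involution inverting an element of `U` fixes `a`. -/
theorem ZN.inv_U_fix (h : ZN G a b U n e) {x u : G} (hu : u ∈ U) (hu1 : u ≠ 1) (hx : x * u * x⁻¹ = u⁻¹) :
    x • a = a := by
  by_contra hcon
  exact h.frob.2.1 u hu hu1 _ hcon (inverts_fix hx (h.ker.fix hu))

/-- even `n`: involutions fixing `a` lie in `U` -/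
theorem ZN.inv_mem_U (h : ZN G a b U n e) (hn : Even n) {x : G} (hx : x * x = 1) (hx1 : x ≠ 1)
    (hxa : x • a = a) : x ∈ U := by
  by_contra hcon
  obtain ⟨c, hc, hxc⟩ := h.frob.1 x hxa hcon
  obtain ⟨d, -, hd⟩ := inv_fix_odd h.z (by rw [h.hn]; exact hn.add_one) hx hx1
  exact hc ((hd c hxc).trans (hd a hxa).symm)

/-- odd `n`: involutions have no fixed points -/
theorem ZN.inv_free (h : ZN G a b U n e) (hn : Odd n) {t : G} (ht : t * t = 1) (ht1 : t ≠ 1) (c : Ω) :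
    t • c ≠ c := by
  intro hc
  have h1 := card_fixed_parity (Ω := Ω) t ht
  have h2 := h.z.card_fixed_le ht1
  rw [h.hn] at h1
  obtain ⟨k, hk⟩ := hn
  have h3 : (fixedBy Ω t).ncard = 2 := by
    have h4 : (fixedBy Ω t).ncard ≠ 0 := by
      rw [Ne, Set.ncard_eq_zero]
      exact Set.Nonempty.ne_empty ⟨c, hc⟩
    have h5 : (fixedBy Ω t).ncard = Nat.card (fixedBy Ω t) := rfl
    omega
  obtain ⟨x, y, hxy, hxy2⟩ := Set.ncard_eq_two.1 h3
  have hx : t • x = x := by
    have : x ∈ fixedBy Ω t := by rw [hxy2]; exact Or.inl rfl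
    exact this
  have hy : t • y = y := by
    have : y ∈ fixedBy Ω t := by rw [hxy2]; exact Or.inr rfl
    exact this
  obtain ⟨g, hg1, hg2⟩ := h.z.trans hxy h.hab
  have hmem : g * t * g⁻¹ ∈ stab2 G a b := by
    rw [mem_stab2, mul_smul, mul_smul, mul_smul, mul_smul, inv_smul_eq_iff.2 hg1.symm, inv_smul_eq_iff.2 hg2.symm,
      hx, hy]
    exact ⟨hg1, hg2⟩
  have hord : orderOf (⟨g * t * g⁻¹, hmem⟩ : stab2 G a b) = 2 := by
    rw [← Subgroup.orderOf_coe]
    apply orderOf_eq_prime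
    · change (g * t * g⁻¹) ^ 2 = 1
      rw [conj_pow, sq, ht]; group
    · intro h6
      apply ht1
      have h7 : g * t * g⁻¹ = 1 := h6
      have : t = g⁻¹ * (g * t * g⁻¹) * g := by group
      rw [this, h7]; group
  have h6 := orderOf_dvd_natCard (⟨g * t * g⁻¹, hmem⟩ : stab2 G a b)
  rw [hord, h.he] at h6
  exact (Nat.not_even_iff_odd.2 h.eodd) (even_iff_two_dvd.2 h6)

/-- any two involutions are conjugate -/
theorem ZN.inv_conj (h : ZN G a b U n e) (hn : Odd n) (s t : Inv G) : ∃ g : G, g * s.1 * g⁻¹ = t.1 := by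
  -- both are conjugate to swappers of `a, b`
  have hsw : ∀ t : Inv G, ∃ g : G, (g * t.1 * g⁻¹) • a = b ∧ (g * t.1 * g⁻¹) • b = a := by
    intro t
    have h1 := h.inv_free hn t.2.1 t.2.2 a
    obtain ⟨g, hg1, hg2⟩ := h.z.trans h1.symm h.hab
    refine ⟨g, ?_, ?_⟩
    · rw [mul_smul, mul_smul, inv_smul_eq_iff.2 hg1.symm, hg2]
    · rw [mul_smul, mul_smul, inv_smul_eq_iff.2 hg2.symm, ← mul_smul t.1, t.2.1, one_smul, hg1]
  obtain ⟨g, hg1, hg2⟩ := hsw s
  obtain ⟨k, hk1, hk2⟩ := hsw t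
  set s' := g * s.1 * g⁻¹ with hs'
  set t' := k * t.1 * k⁻¹ with ht'
  have hmem : s' * t' ∈ stab2 G a b := by
    have e1 : (s' * t') • a = a := by rw [mul_smul s' t' a, hk1, hg2]
    have e2 : (s' * t') • b = b := by rw [mul_smul s' t' b, hk2, hg1]
    exact mem_stab2.2 ⟨e1, e2⟩
  have hs2 := h.swap_sq hg1 hg2
  -- square root of (s' t')
  obtain ⟨m, hm⟩ := h.eodd
  set w := (s' * t') ^ m with hw
  have hwmem : w ∈ stab2 G a b := (stab2 G a b).pow_mem hmem m
  have hpow : (s' * t') ^ e = 1 := by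
    have := pow_card_eq_one' (x := (⟨s' * t', hmem⟩ : stab2 G a b))
    rw [h.he] at this
    exact congrArg Subtype.val this
  have hww : w * w * (s' * t') = 1 := by
    rw [hw, ← pow_add, ← pow_succ, ← hpow, hm]
    congr 1; omega
  have hinv := h.swap s' hg1 hg2 w hwmem
  have h3 : w * s' * w⁻¹ = t' := by
    have hs'i : s'⁻¹ = s' := inv_eq_of_mul_eq_one_left hs2
    have h4 : s' * w = w⁻¹ * s' := by rw [← hinv]; group
    have h5 : w * s' = s' * w⁻¹ := by
      have h6 : s' * w * s' = w⁻¹ := by rw [h4, mul_assoc, hs2, mul_one]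
      have h7 : s' * w⁻¹ * s' = w := by
        rw [← h6]
        calc s' * (s' * w * s') * s' = (s' * s') * w * (s' * s') := by group
          _ = w := by rw [hs2]; group
      calc w * s' = s' * w⁻¹ * s' * s' := by rw [h7]
        _ = s' * w⁻¹ := by rw [mul_assoc, hs2, mul_one]
    rw [h5]
    have h8 : w⁻¹ * w⁻¹ = s' * t' := by
      have : w * w * (s' * t') = 1 := hww
      have h9 : s' * t' = (w * w)⁻¹ := eq_inv_of_mul_eq_one_right this
      rw [h9, mul_inv_rev]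
    rw [mul_assoc, h8, ← mul_assoc, hs2, one_mul]
  refine ⟨k⁻¹ * w * g, ?_⟩
  calc k⁻¹ * w * g * s.1 * (k⁻¹ * w * g)⁻¹ = k⁻¹ * (w * (g * s.1 * g⁻¹) * w⁻¹) * k := by group
    _ = k⁻¹ * t' * k := by rw [← hs', h3]
    _ = t.1 := by rw [ht']; group

theorem ZN.card_inv_odd (h : ZN G a b U n e) (hn : Odd n) : Nat.card (Inv G) = n * e := by
  rw [card_inv h.z h.hab, h.card_swap, h.hn, Nat.add_sub_cancel]
  have : Nat.card {t : Inv G // t.1 • a = a} = 0 := by
    rw [Nat.card_eq_zero]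
    left
    exact ⟨fun t => h.inv_free hn t.1.2.1 t.1.2.2 a t.2⟩
  rw [this, zero_add]

theorem ZN.cz_inv (h : ZN G a b U n e) (hn : Odd n) (t : Inv G) : cz t.1 = n + 1 := by
  have h1 := card_isConj_mul_card_centralizer t.1
  have h2 : Nat.card {x : G // IsConj t.1 x} = n * e := by
    rw [← h.card_inv_odd hn]
    apply Nat.card_congr
    refine ⟨fun x => ⟨x.1, ?_⟩, fun s => ⟨s.1, ?_⟩, fun x => rfl, fun s => rfl⟩
    · obtain ⟨g, hg⟩ := isConj_iff.1 x.2
      rw [← hg]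
      exact (invConj g t).2
    · obtain ⟨g, hg⟩ := h.inv_conj hn t s
      exact isConj_iff.2 ⟨g, hg⟩
  rw [h2, h.card] at h1
  have h3 : (n * e) * cz t.1 = (n * e) * (n + 1) := by
    rw [cz]; rw [h1]; ring
  exact Nat.eq_of_mul_eq_mul_left (Nat.mul_pos h.npos h.epos) h3

/-- odd `n`: elements without fixed points that are not involutions have fixed-point-free centralizer -/
theorem ZN.cent_free (h : ZN G a b U n e) {g : G} (hg : ∀ c : Ω, g • c ≠ c) (hg2 : g * g ≠ 1) {c : G}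
    (hc : c * g = g * c) (hc1 : c ≠ 1) (x : Ω) : c • x ≠ x := by
  intro hx
  have h1 : c • (g • x) = g • x := by rw [← mul_smul, hc, mul_smul, hx]
  have h2 : c • (g • (g • x)) = g • (g • x) := by rw [← mul_smul, hc, mul_smul, h1]
  have h3 : g • (g • x) = x := by
    by_contra h4
    exact hc1 (h.z.three c (hg x).symm (hg (g • x)).symm (Ne.symm h4) hx h1 h2)
  -- g swaps x and g x
  obtain ⟨k, hk1, hk2⟩ := h.z.trans (hg x).symm h.hab
  have h4 : (k * g * k⁻¹) • a = b := by rw [mul_smul, mul_smul, inv_smul_eq_iff.2 hk1.symm, hk2]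
  have h5 : (k * g * k⁻¹) • b = a := by rw [mul_smul, mul_smul, inv_smul_eq_iff.2 hk2.symm, h3, hk1]
  have h6 := h.swap_sq h4 h5
  apply hg2
  calc g * g = k⁻¹ * (k * g * k⁻¹ * (k * g * k⁻¹)) * k := by group
    _ = 1 := by rw [h6]; group


/-- an involution in the centre of `U` -/
theorem ZN.exists_central_inv (h : ZN G a b U n e) (he : 2 ≤ e) (hn : Even n) :
    ∃ z ∈ U, z * z = 1 ∧ z ≠ 1 ∧ ∀ x ∈ U, x * z = z * x := by
  have hnil : Group.IsNilpotent (UB a U) := h.nilp he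
  have hfp : Fact (Nat.Prime 2) := ⟨Nat.prime_two⟩
  obtain ⟨P⟩ : Nonempty (Sylow 2 (UB a U)) := inferInstance
  have hPn : (P : Subgroup (UB a U)).Normal := inferInstance
  have hP : (P : Subgroup (UB a U)) ≠ ⊥ := by
    apply P.ne_bot_of_dvd_card
    rw [h.cardUB]
    exact even_iff_two_dvd.1 hn
  have h1 := Solv.inf_center_ne_bot_of_nilpotent (P : Subgroup (UB a U)) hP
  have hC : IsPGroup 2 ((P : Subgroup (UB a U)) ⊓ Subgroup.center (UB a U) : Subgroup (UB a U)) :=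
    P.isPGroup'.to_le inf_le_left
  obtain ⟨m, hm⟩ := IsPGroup.iff_card.1 hC
  have hm0 : m ≠ 0 := by
    rintro rfl
    rw [pow_zero, Subgroup.card_eq_one] at hm
    exact h1 hm
  obtain ⟨z, hz⟩ := exists_prime_orderOf_dvd_card' (G := ((P : Subgroup (UB a U)) ⊓ Subgroup.center (UB a U) : Subgroup (UB a U)))
    2 (by rw [hm]; exact dvd_pow_self 2 hm0)
  have hz2 : z ^ 2 = 1 := orderOf_dvd_iff_pow_eq_one.1 hz.dvd
  refine ⟨z.1.1.1, z.1.2, ?_, ?_, ?_⟩
  · have := congrArg (fun t : ((P : Subgroup (UB a U)) ⊓ Subgroup.center (UB a U) : Subgroup (UB a U)) => t.1.1.1) hz2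
    simpa [sq] using this
  · intro h2
    have : z = 1 := Subtype.ext (Subtype.ext (Subtype.ext h2))
    rw [this, orderOf_one] at hz
    exact absurd hz (by norm_num)
  · intro x hx
    have h3 := Subgroup.mem_center_iff.1 z.2.2 (⟨⟨x, h.ker.le hx⟩, hx⟩ : UB a U)
    exact congrArg (fun t : UB a U => t.1.1) h3

/-- even `n`: all involutions of `U` are central in `U` -/
theorem ZN.inv_central (h : ZN G a b U n e) (he : 2 ≤ e) (hn : Even n) {t : G} (ht : t ∈ U) (htt : t * t = 1)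
    {x : G} (hx : x ∈ U) : x * t = t * x := by
  classical
  by_cases ht1 : t = 1
  · rw [ht1, mul_one, one_mul]
  have hodd : Odd (Nat.card Ω) := by rw [h.hn]; exact hn.add_one
  have hΩ2 : 2 ≤ Nat.card Ω := by rw [h.hn]; have := h.npos; omega
  obtain ⟨o1, -, -⟩ := odd_inv h.z hodd hΩ2 h.hab
  obtain ⟨z, hz, hzz, hz1, hzc⟩ := h.exists_central_inv he hn
  have hzg : ∀ g : stab2 G a b, (g * z * (g : G)⁻¹) ∈ U := fun g => h.ker.norm g g.2.1 z hz
  let f : stab2 G a b → {t : Inv G // t.1 • a = a} := fun g => ⟨⟨g * z * (g : G)⁻¹, by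
    calc (g : G) * z * (g : G)⁻¹ * (g * z * (g : G)⁻¹) = g * (z * z) * (g : G)⁻¹ := by group
      _ = 1 := by rw [hzz]; group, by
    intro h1
    apply hz1
    calc z = (g : G)⁻¹ * (g * z * (g : G)⁻¹) * g := by group
      _ = 1 := by rw [h1]; group⟩, h.ker.fix (hzg g)⟩
  have hf : Function.Injective f := by
    intro g k hgk
    have h1 : (g : G) * z * (g : G)⁻¹ = k * z * (k : G)⁻¹ := congrArg (fun t : {t : Inv G // t.1 • a = a} => t.1.1) hgk
    have h2 : ((k : G)⁻¹ * (g : G)) * z * ((k : G)⁻¹ * (g : G))⁻¹ = z := by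
      calc ((k : G)⁻¹ * (g : G)) * z * ((k : G)⁻¹ * (g : G))⁻¹ = (k : G)⁻¹ * (g * z * (g : G)⁻¹) * k := by group
        _ = z := by rw [h1]; group
    have h3 := h.z.conj_eq h.hab h.ker ((stab2 G a b).mul_mem ((stab2 G a b).inv_mem k.2) g.2) hz hz1 h2
    exact Subtype.ext (inv_mul_eq_one.1 h3).symm
  have hbij : Function.Bijective f := (Nat.bijective_iff_injective_and_card f).2 ⟨hf, by rw [o1]⟩
  obtain ⟨g, hg⟩ := hbij.2 ⟨⟨t, htt, ht1⟩, h.ker.fix ht⟩
  have hgt : (g : G) * z * (g : G)⁻¹ = t := congrArg (fun t : {t : Inv G // t.1 • a = a} => t.1.1) hg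
  have h4 := h.ker.norm (g : G)⁻¹ ((stabilizer G a).inv_mem g.2.1) x hx
  rw [inv_inv] at h4
  have h5 := hzc _ h4
  rw [← hgt]
  calc x * (g * z * (g : G)⁻¹) = g * ((g : G)⁻¹ * x * g * z) * (g : G)⁻¹ := by group
    _ = g * (z * ((g : G)⁻¹ * x * g)) * (g : G)⁻¹ := by rw [h5]
    _ = g * z * (g : G)⁻¹ * x := by group

/-- a product of two involutions lying in `U#` is an involution, `n` even -/
theorem ZN.prod_inv (h : ZN G a b U n e) (he : 2 ≤ e) (hn : Even n) {u : G} (hu : u ∈ U) (hu1 : u ≠ 1)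
    (p : {p : Inv G × Inv G // p.1.1 * p.2.1 = u}) : u * u = 1 := by
  have hinv := ip_inverts p
  have h1 := h.inv_U_fix hu hu1 hinv
  have h2 := h.inv_mem_U hn p.1.1.2.1 p.1.1.2.2 h1
  rw [← h.inv_central he hn h2 p.1.1.2.1 hu, mul_inv_cancel_right] at hinv
  nth_rewrite 2 [hinv]
  exact mul_inv_cancel u

theorem ZN.conj_eq_even (h : ZN G a b U n e) (hn : Even n) (s t : Inv G) : ∃ g : G, g * s.1 * g⁻¹ = t.1 := by
  classical
  have hodd : Odd (Nat.card Ω) := by rw [h.hn]; exact hn.add_one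
  have hΩ2 : 2 ≤ Nat.card Ω := by rw [h.hn]; have := h.npos; omega
  obtain ⟨o1, -, -⟩ := odd_inv h.z hodd hΩ2 h.hab
  -- move to `a`
  have hmv : ∀ t : Inv G, ∃ g : G, (g * t.1 * g⁻¹) • a = a := by
    intro t
    obtain ⟨c, hc, -⟩ := inv_fix_odd h.z hodd t.2.1 t.2.2
    obtain ⟨g, hg⟩ := exists_trans h.z h.hab c a
    exact ⟨g, by rw [mul_smul, mul_smul, inv_smul_eq_iff.2 hg.symm, hc, hg]⟩
  obtain ⟨g, hg⟩ := hmv s
  obtain ⟨k, hk⟩ := hmv t
  let z : Inv G := invConj g s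
  have hza : z.1 • a = a := hg
  have hzU : z.1 ∈ U := h.inv_mem_U hn z.2.1 z.2.2 hza
  let w : Inv G := invConj k t
  have hwa : w.1 • a = a := hk
  let f : stab2 G a b → {t : Inv G // t.1 • a = a} := fun g => ⟨invConj (g : G) z, h.ker.fix (h.ker.norm g g.2.1 z.1 hzU)⟩
  have hf : Function.Injective f := by
    intro g k hgk
    have h1 : (g : G) * z.1 * (g : G)⁻¹ = k * z.1 * (k : G)⁻¹ := congrArg (fun t : {t : Inv G // t.1 • a = a} => t.1.1) hgk
    have h2 : ((k : G)⁻¹ * (g : G)) * z.1 * ((k : G)⁻¹ * (g : G))⁻¹ = z.1 := by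
      calc ((k : G)⁻¹ * (g : G)) * z.1 * ((k : G)⁻¹ * (g : G))⁻¹ = (k : G)⁻¹ * (g * z.1 * (g : G)⁻¹) * k := by group
        _ = z.1 := by rw [h1]; group
    have h3 := h.z.conj_eq h.hab h.ker ((stab2 G a b).mul_mem ((stab2 G a b).inv_mem k.2) g.2) hzU z.2.2 h2
    exact Subtype.ext (inv_mul_eq_one.1 h3).symm
  have hbij : Function.Bijective f := (Nat.bijective_iff_injective_and_card f).2 ⟨hf, by rw [o1]⟩
  obtain ⟨x, hx⟩ := hbij.2 ⟨w, hwa⟩
  have hxt : (x : G) * z.1 * (x : G)⁻¹ = w.1 := congrArg (fun t : {t : Inv G // t.1 • a = a} => t.1.1) hx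
  refine ⟨k⁻¹ * x * g, ?_⟩
  have e1 : z.1 = g * s.1 * g⁻¹ := rfl
  have e2 : w.1 = k * t.1 * k⁻¹ := rfl
  rw [e1, e2] at hxt
  calc k⁻¹ * x * g * s.1 * (k⁻¹ * x * g)⁻¹ = k⁻¹ * (x * (g * s.1 * g⁻¹) * (x : G)⁻¹) * k := by group
    _ = k⁻¹ * (k * t.1 * k⁻¹) * k := by rw [hxt]
    _ = t.1 := by group

end

end Cfsg.Agent.H37.ZT
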