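import Mathlib
import Cfsg.Agent.H37.FND

/-!
# Zassenhaus groups, coherent case: `n - 1 ≤ 2 e`
-/

set_option autoImplicit false
set_option linter.unusedSectionVars false
set_option linter.unusedVariables false

namespace Cfsg.Agent.H37.ZT

open Cfsg Cfsg.Agent.Char Cfsg.Agent.CharBase Cfsg.Agent.H75 Cfsg.Agent.H34 Cfsg.Agent.Zass MulAction
open scoped ComplexConjugate BigOperators

universe u v

section

variable {G : Type u} {Ω : Type v} [Group G] [MulAction G Ω] [Fintype G] [Finite Ω]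
  {a b : Ω} {U : Subgroup G} {n e : ℕ}

theorem ZN.even_case [Fintype U] [Fintype (stabilizer G a)] [Fintype (UB a U)] [Fintype (XB a U)]
    (h : ZN G a b U n e) [IsSimpleGroup G] {d : XB a U → ℕ} {θ : XB a U → IrrCharacter G} {ε : ℤ} {ξ0 : XB a U}
    (hE : ExcN G a U e d θ ε ξ0) (he : 2 ≤ e) (hn2 : 2 * e < n - 1) (hn : Even n) : False := by
  classical
  have hodd : Odd (Nat.card Ω) := by rw [h.hn]; exact hn.add_one
  have hΩ2 : 2 ≤ Nat.card Ω := by rw [h.hn]; have := h.npos; omega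
  obtain ⟨o1, o2, o3⟩ := odd_inv h.z hodd hΩ2 h.hab
  rw [h.he] at o1 o2 o3
  rw [h.hn] at o3
  obtain ⟨r, x, hr, hx, hk, hres⟩ := h.numeric hE he hn2
  have L3 := h.sum_cz_zero
  have P := sum_fix_zero (R := ℤ) h.z h.hab h.ker (fun g => (ip g : ℤ)) (fun g k => by rw [ip_conj]) h.hn
  have P1 : ∑ g : G, (ip g : ℤ) = ((n + 1) * e) ^ 2 := by
    have := sum_ip (G := G)
    rw [o3] at this
    exact_mod_cast this
  have P2 : (ip (1 : G) : ℤ) = (n + 1) * e := by
    rw [ip_one, o3]; push_cast; ring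
  have PE := sum_sub_le (stab2 G a b) (fun g => (g • a = a ∧ g • b = b) ∧ g ≠ 1) (fun g => by rw [mem_stab2]) ip e
    (fun g hg hg1 => h.ip_E_le (fun t hta htb => by
      obtain ⟨d, -, hd⟩ := inv_fix_odd h.z hodd t.2.1 t.2.2
      exact h.hab ((hd a hta).trans (hd b htb).symm)) hg hg1)
  rw [h.he] at PE
  -- the contribution of U
  have hU0 : ∀ u ∈ U, u ≠ 1 → u * u ≠ 1 → ip u = 0 := by
    intro u hu hu1 hu2
    rw [ip, Nat.card_eq_zero]
    left
    constructor
    intro p
    exact hu2 (h.prod_inv he hn hu hu1 p)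
  have hU1 : ∀ u ∈ U, u ≠ 1 → u * u = 1 → ip u ≤ e - 1 := by
    intro u hu hu1 hu2
    let IU := {t : Inv G // t.1 • a = a}
    let u' : IU := ⟨⟨u, hu2, hu1⟩, h.ker.fix hu⟩
    have h3 : Nat.card {t : IU // t ≠ u'} = e - 1 := by
      have : Fintype IU := Fintype.ofFinite _
      rw [← o1, Nat.card_eq_fintype_card, Nat.card_eq_fintype_card, Fintype.card_subtype_compl,
        Fintype.card_subtype_eq]
    rw [← h3]
    refine Nat.card_le_card_of_injective (fun p => (⟨⟨p.1.1, h.inv_U_fix hu hu1 (ip_inverts p)⟩, ?_⟩ :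
      {t : IU // t ≠ u'})) ?_
    · intro h4
      have h5 : p.1.1.1 = u := congrArg (fun t : IU => t.1.1) h4
      have h6 := p.2
      rw [h5] at h6
      exact p.1.2.2.2 (mul_eq_left.1 h6)
    · intro p q hpq
      have h4 : p.1.1 = q.1.1 := congrArg (fun t : {t : IU // t ≠ u'} => t.1.1) hpq
      exact ip_inj (congrArg Subtype.val h4)
  have hcardIU : (Finset.univ.filter (fun g : G => (g ∈ U ∧ g ≠ 1) ∧ g * g = 1)).card = e := by
    rw [← o1, ← Fintype.card_subtype, ← Nat.card_eq_fintype_card]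
    apply Nat.card_congr
    refine ⟨fun g => ⟨⟨g.1, g.2.2, g.2.1.2⟩, h.ker.fix g.2.1.1⟩, fun t => ⟨t.1.1, ⟨h.inv_mem_U hn t.1.2.1 t.1.2.2 t.2,
      t.1.2.2⟩, t.1.2.1⟩, fun g => rfl, fun t => rfl⟩
  have PU : ∑ g : G, (if g ∈ U ∧ g ≠ 1 then (ip g : ℤ) else 0) ≤ e * (e - 1) := by
    have h4 : ∀ g : G, (if g ∈ U ∧ g ≠ 1 then (ip g : ℤ) else 0) ≤
        if (g ∈ U ∧ g ≠ 1) ∧ g * g = 1 then ((e : ℤ) - 1) else 0 := by
      intro g
      by_cases h5 : g ∈ U ∧ g ≠ 1
      · by_cases h6 : g * g = 1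
        · rw [if_pos h5, if_pos ⟨h5, h6⟩]
          have := hU1 g h5.1 h5.2 h6
          omega
        · rw [if_pos h5, if_neg (fun h => h6 h.2), hU0 g h5.1 h5.2 h6]; simp
      · rw [if_neg h5, if_neg (fun h => h5 h.1)]
    refine (Finset.sum_le_sum (fun g _ => h4 g)).trans (le_of_eq ?_)
    rw [← Finset.sum_filter, Finset.sum_const, hcardIU, nsmul_eq_mul]
  -- comparison
  have hle : ∑ g : G, (if nfix Ω g = 0 then (ip g : ℤ) else 0) ≤ ∑ g : G, (if nfix Ω g = 0 then (cz g : ℤ) else 0) := by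
    apply Finset.sum_le_sum
    intro g _
    split_ifs
    · exact_mod_cast ip_le_cz g
    · exact le_refl _
  rw [h.card] at L3
  rw [P1, P2] at P
  have hepos : (0 : ℤ) < e := by exact_mod_cast h.epos
  have hnpos : (0 : ℤ) < n := by exact_mod_cast h.npos
  have q1 : 2 * ((n : ℤ) + 1) * ∑ g : G, (if g ∈ U ∧ g ≠ 1 then (ip g : ℤ) else 0) ≤
      2 * ((n : ℤ) + 1) * (e * (e - 1)) := mul_le_mul_of_nonneg_left PU (by positivity)
  have q2 : (n : ℤ) * ((n : ℤ) + 1) * ∑ g : G, (if (g • a = a ∧ g • b = b) ∧ g ≠ 1 then (ip g : ℤ) else 0) ≤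
      (n : ℤ) * ((n : ℤ) + 1) * (((e : ℤ) - 1) * e) := mul_le_mul_of_nonneg_left PE (by positivity)
  have q3 : (((n : ℤ) + 1) * (n * e)) * (e + 1) ≤ (((n : ℤ) + 1) * (n * e)) *
      (2 * Nat.card (IrrCharacter G) - 2 - 2 * Nat.card (XB a U) - (e - 1)) := by
    push_cast at L3
    have e1 : (((n : ℤ) + 1) * (n * e)) * (e + 1) = 2 * (((n + 1) * e) ^ 2) - 2 * ((n + 1) * e) -
        2 * ((n : ℤ) + 1) * (e * (e - 1)) - (n : ℤ) * ((n : ℤ) + 1) * (((e : ℤ) - 1) * e) := by ring
    rw [e1]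
    linarith
  have q4 := le_of_mul_le_mul_left q3 (by positivity)
  have hkey : 2 * r = e - 1 ∧ x = Nat.card (XB a U) := by omega
  have hres' := hres hkey.1 hkey.2
  -- the subgroup of elements of square one
  let U1 : Subgroup (stabilizer G a) :=
    { carrier := {x | (x : G) ∈ U ∧ (x : G) * x = 1}
      mul_mem' := by
        rintro x y ⟨hx, hx2⟩ ⟨hy, hy2⟩
        refine ⟨U.mul_mem hx hy, ?_⟩
        change (x : G) * y * (x * y) = 1
        calc (x : G) * y * (x * y) = x * (y * x) * y := by group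
          _ = (x * x) * (y * y) := by rw [h.inv_central he hn hx hx2 hy]; group
          _ = 1 := by rw [hx2, hy2, one_mul]
      one_mem' := ⟨U.one_mem, one_mul 1⟩
      inv_mem' := by
        rintro x ⟨hx, hx2⟩
        refine ⟨U.inv_mem hx, ?_⟩
        change (x : G)⁻¹ * (x : G)⁻¹ = 1
        rw [← mul_inv_rev, hx2, inv_one] }
  have hU1n : U1.Normal := by
    constructor
    rintro x ⟨hx, hx2⟩ g
    refine ⟨h.ker.norm g g.2 x hx, ?_⟩
    change (g : G) * x * (g : G)⁻¹ * ((g : G) * x * (g : G)⁻¹) = 1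
    calc (g : G) * x * (g : G)⁻¹ * ((g : G) * x * (g : G)⁻¹) = g * (x * x) * (g : G)⁻¹ := by group
      _ = 1 := by rw [hx2]; group
  have hUBn := h.normal
  obtain ⟨u, hu, hu2⟩ : ∃ u ∈ U, u * u ≠ 1 := by
    by_contra hcon
    push Not at hcon
    have h4 := card_filter_sub U (fun g => (g ∈ U ∧ g ≠ 1) ∧ g * g = 1) (fun g =>
      ⟨fun h => h.1, fun h => ⟨h, hcon g h.1⟩⟩)
    rw [hcardIU, h.cardU] at h4
    omega
  obtain ⟨ξ, hξ1, hξ2⟩ := exists_irr_ker (UB a U) U1 (u := ⟨u, h.ker.le hu⟩) hu (fun h4 => hu2 h4.2)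
  let k : XB a U := ⟨ξ, hξ1⟩
  -- an involution in U
  obtain ⟨t, ht⟩ : Nonempty {t : Inv G // t.1 • a = a} := by
    rw [← Finite.card_pos_iff, o1]; exact h.epos
  have htU := h.inv_mem_U hn t.2.1 t.2.2 ht
  have h6 : (θ k : G → ℂ) t.1 = (θ k : G → ℂ) 1 := by
    have h7 := hres' k ⟨t.1, ht⟩
    have h8 := hres' k 1
    have h9 := hξ2 ⟨t.1, ht⟩ ⟨htU, t.2.1⟩
    exact h7.trans (h9.trans h8.symm)
  have hch := irr_isCharacter (θ k)
  have hkn := charKer_normal hch
  have htop : charKer hch = ⊤ := by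
    rcases hkn.eq_bot_or_eq_top with h9 | h9
    · exfalso
      have h10 : t.1 ∈ charKer hch := h6
      rw [h9, Subgroup.mem_bot] at h10
      exact t.2.2 h10
    · exact h9
  have hconst : ∀ g : G, (θ k : G → ℂ) g = (θ k : G → ℂ) 1 := fun g => by
    have : g ∈ charKer hch := by rw [htop]; trivial
    exact this
  obtain ⟨y, hy, hy1⟩ := (inner_zero_iff (UB a U) ξ).1 hξ1
  apply hy1
  have h11 := hres' k y
  have h12 := hres' k 1
  exact h11.symm.trans ((hconst y).trans h12)

theorem ZN.odd_case [Fintype U] [Fintype (stabilizer G a)] [Fintype (UB a U)] [Fintype (XB a U)]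
    (h : ZN G a b U n e) {d : XB a U → ℕ} {θ : XB a U → IrrCharacter G} {ε : ℤ} {ξ0 : XB a U}
    (hE : ExcN G a U e d θ ε ξ0) (he : 2 ≤ e) (hn2 : 2 * e < n - 1) (hn : Odd n) : False := by
  classical
  have o3 := h.card_inv_odd hn
  obtain ⟨r, x, hr, hx, hk, -⟩ := h.numeric hE he hn2
  have L3 := h.sum_cz_zero
  have P := sum_fix_zero (R := ℤ) h.z h.hab h.ker (fun g => (ip g : ℤ)) (fun g k => by rw [ip_conj]) h.hn
  have Q := sum_fix_zero (R := ℤ) h.z h.hab h.ker (fun g => (1 : ℤ)) (fun g k => rfl) h.hn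
  have P1 : ∑ g : G, (ip g : ℤ) = (n * e) ^ 2 := by
    have := sum_ip (G := G)
    rw [o3] at this
    exact_mod_cast this
  have P2 : (ip (1 : G) : ℤ) = n * e := by
    rw [ip_one, o3]; push_cast; ring
  have PE := sum_sub_le (stab2 G a b) (fun g => (g • a = a ∧ g • b = b) ∧ g ≠ 1) (fun g => by rw [mem_stab2]) ip e
    (fun g hg hg1 => h.ip_E_le (fun t hta htb => h.inv_free hn t.2.1 t.2.2 a hta) hg hg1)
  rw [h.he] at PE
  have PU : ∑ g : G, (if g ∈ U ∧ g ≠ 1 then (ip g : ℤ) else 0) = 0 := by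
    apply Finset.sum_eq_zero
    intro g _
    split_ifs with h1
    · have : ip g = 0 := by
        rw [ip, Nat.card_eq_zero]
        left
        exact ⟨fun p => h.inv_free hn p.1.1.2.1 p.1.1.2.2 a (h.inv_U_fix h1.1 h1.2 (ip_inverts p))⟩
      rw [this]; rfl
    · rfl
  have hepos : (0 : ℤ) < e := by exact_mod_cast h.epos
  have hnpos : (0 : ℤ) < n := by exact_mod_cast h.npos
  -- an involution
  obtain ⟨t0⟩ : Nonempty (Inv G) := by
    rw [← Finite.card_pos_iff, o3]; exact Nat.mul_pos h.npos h.epos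
  -- the set of involutions inside G
  have hIcard : (Finset.univ.filter (fun g : G => g * g = 1 ∧ g ≠ 1)).card = n * e := by
    rw [← o3, ← Fintype.card_subtype, ← Nat.card_eq_fintype_card]
    rfl
  have hfix0 : ∀ g : G, g * g = 1 ∧ g ≠ 1 → nfix Ω g = 0 := by
    rintro g ⟨h1, h2⟩
    rw [nfix, Nat.card_eq_zero]
    left
    exact ⟨fun c => h.inv_free hn h1 h2 c.1 c.2⟩
  have hipc : ∀ g : G, g * g = 1 ∧ g ≠ 1 → ip g = ip t0.1 := by
    intro g hg
    obtain ⟨k, hk⟩ := h.inv_conj hn t0 ⟨g, hg⟩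
    have hk' : k * t0.1 * k⁻¹ = g := hk
    rw [← hk', ip_conj]
  have hczc : ∀ g : G, g * g = 1 ∧ g ≠ 1 → cz g = n + 1 := fun g hg => h.cz_inv hn ⟨g, hg⟩
  -- split
  have hsplit : ∀ F : G → ℤ, ∑ g : G, (if nfix Ω g = 0 then F g else 0) =
      ∑ g : G, (if g * g = 1 ∧ g ≠ 1 then F g else 0) +
        ∑ g : G, (if nfix Ω g = 0 ∧ g * g ≠ 1 then F g else 0) := by
    intro F
    rw [← Finset.sum_add_distrib]
    apply Finset.sum_congr rfl
    intro g _
    by_cases h1 : nfix Ω g = 0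
    · by_cases h2 : g * g = 1
      · have h3 : g ≠ 1 := by
          rintro rfl
          rw [nfix_one, h.hn] at h1
          omega
        rw [if_pos h1, if_pos ⟨h2, h3⟩, if_neg (fun h => h.2 h2), add_zero]
      · rw [if_pos h1, if_neg (fun h => h2 h.1), if_pos ⟨h1, h2⟩, zero_add]
    · rw [if_neg h1, if_neg (fun h => h1 (hfix0 g h)), if_neg (fun h => h1 h.1), add_zero]
  have hSI : ∑ g : G, (if g * g = 1 ∧ g ≠ 1 then (ip g : ℤ) else 0) = (n * e) * ip t0.1 := by
    rw [← Finset.sum_filter, Finset.sum_congr rfl (fun g hg => by rw [hipc g (Finset.mem_filter.1 hg).2]),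
      Finset.sum_const, hIcard, nsmul_eq_mul]
    push_cast; ring
  have hSC : ∑ g : G, (if g * g = 1 ∧ g ≠ 1 then (cz g : ℤ) else 0) = (n * e) * (n + 1) := by
    rw [← Finset.sum_filter, Finset.sum_congr rfl (fun g hg => by rw [hczc g (Finset.mem_filter.1 hg).2]),
      Finset.sum_const, hIcard, nsmul_eq_mul]
    push_cast; ring
  have hle : ∑ g : G, (if nfix Ω g = 0 ∧ g * g ≠ 1 then (ip g : ℤ) else 0) ≤
      ∑ g : G, (if nfix Ω g = 0 ∧ g * g ≠ 1 then (cz g : ℤ) else 0) := by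
    apply Finset.sum_le_sum
    intro g _
    split_ifs
    · exact_mod_cast ip_le_cz g
    · exact le_refl _
  rw [hsplit (fun g => (ip g : ℤ)), hSI, P1, P2, PU] at P
  rw [hsplit (fun g => (cz g : ℤ)), hSC, h.card] at L3
  have q2 : (n : ℤ) * ((n : ℤ) + 1) * ∑ g : G, (if (g • a = a ∧ g • b = b) ∧ g ≠ 1 then (ip g : ℤ) else 0) ≤
      (n : ℤ) * ((n : ℤ) + 1) * (((e : ℤ) - 1) * e) := mul_le_mul_of_nonneg_left PE (by positivity)
  have hk' : (2 * Nat.card (IrrCharacter G) : ℤ) - 2 - 2 * Nat.card (XB a U) - (e - 1) ≤ e + 1 := by omega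
  have q3 : (((n : ℤ) + 1) * (n * e)) * ((2 * Nat.card (IrrCharacter G) : ℤ) - 2 - 2 * Nat.card (XB a U) - (e - 1)) ≤
      (((n : ℤ) + 1) * (n * e)) * (e + 1) := mul_le_mul_of_nonneg_left hk' (by positivity)
  have q4 : ((n : ℤ) * e) * (2 * (n - e)) ≤ (n * e) * (2 * ip t0.1) := by
    push_cast at L3
    have e1 : ((n : ℤ) * e) * (2 * (n - e)) = 2 * ((n * e) ^ 2) - 2 * (n * e) -
        (n : ℤ) * ((n : ℤ) + 1) * (((e : ℤ) - 1) * e) - (((n : ℤ) + 1) * (n * e)) * (e + 1) +
        2 * (n * e * (n + 1)) := by ring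
    rw [e1]
    linarith
  have q5 := le_of_mul_le_mul_left q4 (by positivity)
  have hip : n ≤ ip t0.1 + e := by omega
  have hen : 4 * e ≤ n - 1 := by
    have hd := stab2_dvd h.z h.hab
    rw [h.he, h.hn] at hd
    obtain ⟨s, hs⟩ := hd
    have hs' : s * e = n - 1 := by rw [mul_comm, ← hs]; omega
    have hs4 : 4 ≤ s := by
      obtain ⟨m, hm⟩ := h.eodd
      obtain ⟨l, hl⟩ := hn
      rcases Nat.lt_or_ge s 4 with h1 | h1
      · exfalso
        have : s = 3 ∨ s ≤ 2 := by omega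
        rcases this with rfl | h2
        · omega
        · have : s * e ≤ 2 * e := Nat.mul_le_mul_right _ h2
          omega
      · exact h1
    rw [← hs']; exact Nat.mul_le_mul_right _ hs4
  -- elements of square one in the centralizer of t0
  let C := Subgroup.centralizer ({t0.1} : Set G)
  have hCcard : Nat.card C = n + 1 := h.cz_inv hn t0
  have ht0C : t0.1 ∈ C := Subgroup.mem_centralizer_singleton_iff.2 rfl
  have hJ : ip t0.1 + 2 ≤ Nat.card {c : C // c * c = 1} := by
    let P0 := {p : Inv G × Inv G // p.1.1 * p.2.1 = t0.1}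
    have hcomm : ∀ p : P0, p.1.1.1 ∈ C := by
      intro p
      have h1 := ip_inverts p
      have h2 : t0.1⁻¹ = t0.1 := inv_eq_of_mul_eq_one_left t0.2.1
      rw [h2, mul_inv_eq_iff_eq_mul] at h1
      exact Subgroup.mem_centralizer_singleton_iff.2 h1
    let f : Option (Option P0) → {c : C // c * c = 1} := fun o => match o with
      | none => ⟨1, one_mul 1⟩
      | some none => ⟨⟨t0.1, ht0C⟩, Subtype.ext t0.2.1⟩
      | some (some p) => ⟨⟨p.1.1.1, hcomm p⟩, Subtype.ext p.1.1.2.1⟩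
    have hf : Function.Injective f := by
      intro o o' hoo
      have hval : ((f o).1 : G) = ((f o').1 : G) := by rw [hoo]
      match o, o' with
      | none, none => rfl
      | none, some none => exact absurd hval.symm t0.2.2
      | none, some (some p) => exact absurd hval.symm p.1.1.2.2
      | some none, none => exact absurd hval t0.2.2
      | some none, some none => rfl
      | some none, some (some p) =>
        exfalso
        have h1 : t0.1 = p.1.1.1 := hval
        have h2 : p.1.1.1 * p.1.2.1 = p.1.1.1 := p.2.trans h1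
        exact p.1.2.2.2 (mul_eq_left.1 h2)
      | some (some p), none => exact absurd hval p.1.1.2.2
      | some (some p), some none =>
        exfalso
        have h1 : p.1.1.1 = t0.1 := hval
        have h2 : p.1.1.1 * p.1.2.1 = p.1.1.1 := p.2.trans h1.symm
        exact p.1.2.2.2 (mul_eq_left.1 h2)
      | some (some p), some (some q) =>
        have h1 : p.1.1.1 = q.1.1.1 := hval
        rw [ip_inj h1]
    have := Nat.card_le_card_of_injective f hf
    rwa [Finite.card_option, Finite.card_option] at this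
  have hCel : ∀ c : C, c * c = 1 := invol_of_three_quarters (by rw [hCcard]; omega)
  have hCp : IsPGroup 2 C := fun c => ⟨1, by rw [pow_one, sq]; exact hCel c⟩
  have hfp : Fact (Nat.Prime 2) := ⟨Nat.prime_two⟩
  obtain ⟨k, hk2⟩ := IsPGroup.iff_card.1 hCp
  rw [hCcard] at hk2
  -- there is a fixed-point-free element that is not an involution
  obtain ⟨g, hg0, hg2⟩ : ∃ g : G, nfix Ω g = 0 ∧ g * g ≠ 1 := by
    by_contra hcon
    push Not at hcon
    have h1 : ∑ g : G, (if nfix Ω g = 0 then (1 : ℤ) else 0) ≤ n * e := by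
      have h2 : ∑ g : G, (if nfix Ω g = 0 then (1 : ℤ) else 0) ≤
          ∑ g : G, (if g * g = 1 ∧ g ≠ 1 then (1 : ℤ) else 0) := by
        apply Finset.sum_le_sum
        intro g _
        by_cases h3 : nfix Ω g = 0
        · have h4 : g ≠ 1 := by
            rintro rfl
            rw [nfix_one, h.hn] at h3
            omega
          rw [if_pos h3, if_pos ⟨hcon g h3, h4⟩]
        · rw [if_neg h3]
          split_ifs <;> norm_num
      refine h2.trans (le_of_eq ?_)
      rw [← Finset.sum_filter, Finset.sum_const, hIcard]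
      simp
    have h2 : ∑ g : G, (if g ∈ U ∧ g ≠ 1 then (1 : ℤ) else 0) = n - 1 := by
      rw [← Finset.sum_filter, Finset.sum_const, nsmul_eq_mul, mul_one]
      have := card_filter_sub U (fun g => g ∈ U ∧ g ≠ 1) (fun g => Iff.rfl)
      rw [h.cardU] at this
      have h5 : ((Finset.univ.filter (fun g => g ∈ U ∧ g ≠ 1)).card : ℤ) + 1 = n := by exact_mod_cast this
      linarith
    have h3 : ∑ g : G, (if (g • a = a ∧ g • b = b) ∧ g ≠ 1 then (1 : ℤ) else 0) = e - 1 := by
      rw [← Finset.sum_filter, Finset.sum_const, nsmul_eq_mul, mul_one]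
      have := card_filter_sub (stab2 G a b) (fun g => (g • a = a ∧ g • b = b) ∧ g ≠ 1) (fun g => by rw [mem_stab2])
      rw [h.he] at this
      have h5 : ((Finset.univ.filter (fun g : G => (g • a = a ∧ g • b = b) ∧ g ≠ 1)).card : ℤ) + 1 = e := by
        exact_mod_cast this
      linarith
    have h4 : ∑ g : G, (1 : ℤ) = (n + 1) * (n * e) := by
      rw [Finset.sum_const, Finset.card_univ, ← Nat.card_eq_fintype_card, h.card]
      simp
    rw [h2, h3, h4] at Q
    have h5 : 2 * ((n : ℤ) * e) < 2 * ((n + 1) * (n * e)) - 2 * 1 - 2 * (n + 1) * (n - 1) - n * (n + 1) * (e - 1) := by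
      have e1 : 2 * (((n : ℤ) + 1) * (n * e)) - 2 * 1 - 2 * (n + 1) * (n - 1) - n * (n + 1) * (e - 1) - 2 * (n * e) =
          n * ((n - 1) * (e - 1)) := by ring
      have h6 : (0 : ℤ) < n * ((n - 1) * (e - 1)) := by
        have : (1 : ℤ) < n := by omega
        have h7 : (1 : ℤ) < e := by omega
        have h8 : (0 : ℤ) < n - 1 := by linarith
        have h9 : (0 : ℤ) < e - 1 := by linarith
        positivity
      linarith
    linarith
  have hgfree : ∀ c : Ω, g • c ≠ c := by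
    intro c hc
    rw [nfix, Nat.card_eq_zero] at hg0
    rcases hg0 with h1 | h1
    · exact h1.elim ⟨c, hc⟩
    · exact absurd (Subtype.finite : Finite (fixedBy Ω g)) (not_finite_iff_infinite.2 h1)
  let D := Subgroup.centralizer ({g} : Set G)
  have hDdvd : Nat.card D ∣ Nat.card Ω := by
    apply card_dvd_of_free
    intro c
    rw [Subgroup.eq_bot_iff_forall]
    intro d hd
    by_contra hd1
    exact h.cent_free hgfree hg2 (Subgroup.mem_centralizer_singleton_iff.1 d.2) (fun h => hd1 (Subtype.ext h)) c hd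
  rw [h.hn, hk2] at hDdvd
  have hgD : g ∈ D := Subgroup.mem_centralizer_singleton_iff.2 rfl
  have hgord : orderOf g ∣ 2 ^ k := by
    have h1 := orderOf_dvd_natCard (⟨g, hgD⟩ : D)
    rw [← Subgroup.orderOf_coe] at h1
    exact h1.trans hDdvd
  -- Sylow
  have hgP : IsPGroup 2 (Subgroup.zpowers g) := by
    obtain ⟨l, -, hl⟩ := (Nat.dvd_prime_pow Nat.prime_two).1 hgord
    exact IsPGroup.of_card (n := l) (by rw [Nat.card_zpowers, hl])
  obtain ⟨P', hP'⟩ := hgP.exists_le_sylow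
  obtain ⟨Q', hQ'⟩ := hCp.exists_le_sylow
  have hQC : (Q' : Subgroup G) = C := by
    symm
    apply Subgroup.eq_of_le_of_card_ge hQ'
    rw [hCcard, Q'.card_eq_multiplicity, h.card, hk2]
    have h1 : Odd (n * e) := hn.mul h.eodd
    have h2 : (2 ^ k * (n * e)).factorization 2 = k := by
      rw [Nat.factorization_mul (by positivity) (Nat.mul_pos h.npos h.epos).ne', Nat.Prime.factorization_pow Nat.prime_two,
        Finsupp.add_apply, Finsupp.single_eq_same,
        Nat.factorization_eq_zero_of_not_dvd (fun h3 => (Nat.not_even_iff_odd.2 h1) (even_iff_two_dvd.2 h3)), add_zero]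
    rw [h2]
  obtain ⟨w, hw⟩ := exists_smul_eq G P' Q'
  have h1 : w * g * w⁻¹ ∈ (Q' : Subgroup G) := by
    rw [← hw]
    have h2 : g ∈ (P' : Subgroup G) := hP' (Subgroup.mem_zpowers g)
    exact ⟨g, h2, rfl⟩
  rw [hQC] at h1
  have h2 := hCel ⟨_, h1⟩
  have h3 : w * g * w⁻¹ * (w * g * w⁻¹) = 1 := congrArg Subtype.val h2
  apply hg2
  calc g * g = w⁻¹ * (w * g * w⁻¹ * (w * g * w⁻¹)) * w := by group
    _ = 1 := by rw [h3]; group


/-- coherent case -/
theorem ZN.bound_coh [Fintype (stabilizer G a)] (h : ZN G a b U n e) [IsSimpleGroup G] (he : 2 ≤ e)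
    (hcoh : IsCoherent {χ : stabilizer G a → ℂ | IsIrrCharacter (stabilizer G a) χ ∧
      ∃ k : stabilizer G a, (k : G) ∈ U ∧ χ k ≠ χ 1} {1}ᶜ (fun α => indFun (stabilizer G a) α)) : n - 1 ≤ 2 * e := by
  classical
  by_contra hcon
  push Not at hcon
  have : Fintype U := Fintype.ofFinite _
  have : Fintype (UB a U) := Fintype.ofFinite _
  have : Fintype (IrrCharacter (stabilizer G a)) := Fintype.ofFinite _
  obtain ⟨d, θ, ε, ξ0, hE⟩ := h.exists_exc he (by omega) hcoh
  rcases Nat.even_or_odd n with h1 | h1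
  · exact h.even_case hE he hcon h1
  · exact h.odd_case hE he hcon h1

end

end Cfsg.Agent.H37.ZT
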