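import Mathlib
import Cfsg.Agent.H37.FNE
import Cfsg.Agent.H37.ZMain

/-!
# Feit's bound for Zassenhaus groups
-/

set_option autoImplicit false
set_option linter.unusedSectionVars false
set_option linter.unusedVariables false

namespace Cfsg.Agent.H37.ZT

open Cfsg Cfsg.Agent.Char Cfsg.Agent.CharBase Cfsg.Agent.H75 Cfsg.Agent.H34 Cfsg.Agent.Zass MulAction
open scoped ComplexConjugate BigOperators commutatorElement

universe u v

section

variable {G : Type u} {Ω : Type v} [Group G] [MulAction G Ω]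

/-- The Frobenius kernel is determined by its order and its fixed points. -/
theorem isKer_of_card [Finite G] [Finite Ω] (h : ZGp G Ω) {a b : Ω} (hab : a ≠ b) (H : Subgroup G)
    (hHa : H ≤ stabilizer G a) (hHcard : Nat.card H + 1 = Nat.card Ω)
    (hHfix : ∀ u ∈ H, u ≠ 1 → ∀ c : Ω, u • c = c → c = a) : IsKer G a H := by
  classical
  have : Fintype Ω := Fintype.ofFinite Ω
  have hinj : ∀ y : Ω, y ≠ a → ∀ u w : H, (u : G) • y = (w : G) • y → u = w := by
    intro y hy u w huw
    by_contra hne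
    apply hy
    apply hHfix ((w : G)⁻¹ * u) (H.mul_mem (H.inv_mem w.2) u.2)
    · intro h1
      exact hne (Subtype.ext (inv_mul_eq_one.1 h1).symm)
    · rw [mul_smul, huw, inv_smul_smul]
  have hreg : ∀ y z : Ω, y ≠ a → z ≠ a → ∃! u : H, (u : G) • y = z := by
    intro y z hy hz
    let f : H → {x : Ω // x ≠ a} := fun u => ⟨(u : G) • y, fun h1 => by
      apply hy
      have h2 : (u : G) • a = a := hHa u.2
      exact smul_left_cancel (u : G) (h1.trans h2.symm)⟩
    have hf : Function.Injective f := fun u w huw => hinj y hy u w (congrArg Subtype.val huw)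
    have hcard : Nat.card {x : Ω // x ≠ a} = Nat.card H := by
      rw [Nat.card_eq_fintype_card, Fintype.card_subtype_compl, Fintype.card_subtype_eq, ← Nat.card_eq_fintype_card,
        ← hHcard, Nat.add_sub_cancel]
    have hbij : Function.Bijective f := (Nat.bijective_iff_injective_and_card f).2 ⟨hf, hcard.symm⟩
    obtain ⟨u, hu⟩ := hbij.2 ⟨z, hz⟩
    exact ⟨u, congrArg Subtype.val hu, fun w hw => hinj y hy w u (hw.trans (congrArg Subtype.val hu).symm)⟩
  have hfr := h.finite_frob a (by have := Nat.card_pos (α := H); omega) H hHa hreg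
  refine ⟨hHa, ?_, hreg⟩
  intro g hg u hu
  by_contra hcon
  have hu1 : u ≠ 1 := by
    rintro rfl
    apply hcon
    rw [mul_one, mul_inv_cancel]
    exact H.one_mem
  obtain ⟨x, hx, hx2⟩ := hfr.2.1 _ ((stabilizer G a).mul_mem ((stabilizer G a).mul_mem hg (hHa hu))
    ((stabilizer G a).inv_mem hg)) hcon
  have h1 : u • (g⁻¹ • x) = g⁻¹ • x := by
    rw [mul_smul, mul_smul] at hx2
    rw [eq_inv_smul_iff]
    exact hx2
  have h2 := hHfix u hu hu1 _ h1
  apply hx
  rw [inv_smul_eq_iff] at h2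
  rw [h2]
  exact hg

/-- existence of the Frobenius kernel -/
theorem exists_isKer [Finite G] [Finite Ω] (h : ZGp G Ω) {a b : Ω} (hab : a ≠ b) (hE : stab2 G a b ≠ ⊥) :
    ∃ U : Subgroup G, IsKer G a U := by
  obtain ⟨K, hKn, hc, hK, hfpf⟩ := h.exists_kernel hab hE
  refine ⟨K.map (stabilizer G a).subtype, isKer_of_card h hab _ ?_ ?_ ?_⟩
  · rintro x ⟨y, -, rfl⟩
    exact y.2
  · have h1 := hc.card_mul
    have h2 := h.stab_card hab
    rw [Subgroup.card_map_of_injective (stabilizer G a).subtype_injective]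
    have h3 : Nat.card ((stab2 G a b).subgroupOf (stabilizer G a)) = Nat.card (stab2 G a b) :=
      Nat.card_congr (Subgroup.subgroupOfEquivOfLe (fun x hx => (mem_stab2.1 hx).1)).toEquiv
    rw [h3, h2] at h1
    have h4 : 0 < Nat.card (stab2 G a b) := Nat.card_pos
    have h5 := Nat.eq_of_mul_eq_mul_right h4 h1
    have h6 : 2 ≤ Nat.card Ω := Finite.one_lt_card_iff_nontrivial.2 ⟨a, b, hab⟩
    omega
  · rintro x ⟨⟨y, hy⟩, hyK, rfl⟩ hx1 c hyc
    by_contra hca
    have hyc' : y • c = c := hyc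
    obtain ⟨g, hg1, hg2⟩ := h.trans (Ne.symm hca) hab
    have hgK : (⟨g, hg1⟩ : stabilizer G a) * ⟨y, hy⟩ * (⟨g, hg1⟩ : stabilizer G a)⁻¹ ∈ K := hKn.conj_mem _ hyK _
    have hmem : g * y * g⁻¹ ∈ stab2 G a b := by
      rw [mem_stab2, mul_smul, mul_smul, mul_smul, mul_smul, inv_smul_eq_iff.2 hg1.symm, inv_smul_eq_iff.2 hg2.symm,
        hyc', show y • a = a from hy]
      exact ⟨hg1, hg2⟩
    have h1 : (⟨g, hg1⟩ : stabilizer G a) * ⟨y, hy⟩ * (⟨g, hg1⟩ : stabilizer G a)⁻¹ ∈
        K ⊓ (stab2 G a b).subgroupOf (stabilizer G a) := ⟨hgK, hmem⟩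
    rw [hc.disjoint.eq_bot, Subgroup.mem_bot] at h1
    apply hx1
    have h2 : (⟨y, hy⟩ : stabilizer G a) = 1 := conj_eq_one_iff.1 h1
    exact congrArg Subtype.val h2

variable [Fintype G] [Finite Ω]

theorem zn_of_simple [IsSimpleGroup G] (hZ : Cfsg.IsZassenhausGroup G Ω) {a b : Ω} (hab : a ≠ b) {U : Subgroup G}
    (hU : IsKer G a U) {n e : ℕ} (hn : Nat.card Ω = n + 1) (he : Nat.card (stab2 G a b) = e) (hodd : Odd e) :
    ZN G a b U n e ∧ 2 ≤ e ∧ 2 ≤ n := by
  have h := zgp_of hZ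
  rw [← he] at hodd
  obtain ⟨hcyc, hsw⟩ := simple_odd_stab hZ hab hodd
  obtain ⟨s0, hs0, hs1⟩ := stab2_ne_bot hZ hab
  have he2 : 2 ≤ e := by
    have h5 : e ≠ 1 := by
      intro h6
      rw [← he, Subgroup.card_eq_one] at h6
      rw [h6, Subgroup.mem_bot] at hs0
      exact hs1 hs0
    have h6 : 0 < e := by rw [← he]; exact Nat.card_pos
    omega
  refine ⟨⟨h, hab, hU, hn, he, ?_, by rw [← he]; exact hodd, hsw⟩, he2, ?_⟩
  · intro x hx y hy
    obtain ⟨g, hg⟩ := hcyc
    obtain ⟨i, hi⟩ := hg ⟨x, hx⟩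
    obtain ⟨j, hj⟩ := hg ⟨y, hy⟩
    have h7 : (⟨x, hx⟩ : stab2 G a b) * ⟨y, hy⟩ = ⟨y, hy⟩ * ⟨x, hx⟩ := by
      rw [← hi, ← hj]
      exact (Commute.refl g).zpow_zpow i j
    exact congrArg Subtype.val h7
  · obtain ⟨c, hc1, hc2⟩ := h.exists_third hs0 hs1
    by_contra hcon
    have h3 : Nat.card Ω ≤ 2 := by omega
    have hf : Function.Injective (fun i : Fin 3 => if i = 0 then a else if i = 1 then b else c) := by
      intro i j hij
      fin_cases i <;> fin_cases j <;> simp_all
    have h4 := Nat.card_le_card_of_injective _ hf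
    rw [Nat.card_eq_fintype_card, Fintype.card_fin] at h4
    omega

theorem ZN.main {a b : Ω} {U : Subgroup G} {n e : ℕ} (h : ZN G a b U n e) [IsSimpleGroup G] (he : 2 ≤ e) (hn : 2 ≤ n) :
    n - 1 ≤ 2 * e ∨ (IsPGroup 2 U ∧ ¬ IsMulCommutative U ∧ (⁅U, U⁆.subgroupOf U).index < 4 * e ^ 2) := by
  classical
  have : Fintype (stabilizer G a) := Fintype.ofFinite _
  have hN : Subgroup.normalizer (U : Set G) = stabilizer G a := by
    apply le_antisymm
    · intro g hg
      by_contra hga
      have hU1 : U ≠ ⊥ := by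
        intro h1
        have := h.cardU
        rw [h1, Subgroup.card_bot] at this
        omega
      obtain ⟨u, hu⟩ := Subgroup.ne_bot_iff_exists_ne_one.mp hU1
      have h1 := h.ti g hga u u.2 ((Subgroup.mem_normalizer_iff.1 hg u).1 u.2)
      exact hu (Subtype.ext h1)
    · intro g hg
      rw [Subgroup.mem_normalizer_iff]
      intro u
      constructor
      · exact fun hu => h.ker.norm g hg u hu
      · intro hu
        have := h.ker.norm g⁻¹ ((stabilizer G a).inv_mem hg) _ hu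
        have e1 : g⁻¹ * (g * u * g⁻¹) * g⁻¹⁻¹ = u := by group
        rwa [e1] at this
  have hU1 : U ≠ ⊥ := by
    intro h1
    have := h.cardU
    rw [h1, Subgroup.card_bot] at this
    omega
  have hTI : IsTISubset (U : Set G) := by
    intro g hg x hx hgx
    rw [hN] at hg
    exact h.ti g hg x hx hgx
  have hlt : U < stabilizer G a := by
    refine lt_of_le_of_ne h.ker.le ?_
    intro h1
    have h2 := h.cardU
    rw [h1, h.cardB] at h2
    have h3 : n * 2 ≤ n * e := Nat.mul_le_mul_left n he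
    omega
  have hC : ∀ k ∈ U, k ≠ 1 → Subgroup.centralizer ({k} : Set G) ≤ U := by
    intro k hk hk1 x hx
    have hxk := Subgroup.mem_centralizer_singleton_iff.1 hx
    have hxa : x ∈ stabilizer G a := by
      by_contra hcon
      have hcon' : x • a ≠ a := hcon
      apply h.frob.2.1 k hk hk1 (x • a) hcon'
      rw [← mul_smul, ← hxk, mul_smul, h.ker.fix hk]
    by_contra hxU
    exact h.frob.2.2 x hxa hxU k hk hk1 hxk
  rcases Coh.ti_main U (stabilizer G a) hN hU1 hTI hlt hC with h1 | h1 | h1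
  · left
    have h2 := h1.2.1
    rw [h.cardU] at h2
    have h3 : (U.subgroupOf (stabilizer G a)).index = e := h.indexUB
    rw [h3] at h2
    omega
  · right
    refine ⟨IsPGroup.of_card h1.1, h1.2.2, ?_⟩
    have h3 : (U.subgroupOf (stabilizer G a)).index = e := h.indexUB
    rw [h3] at h1
    exact h1.2.1
  · left
    exact h.bound_coh he h1

end

end Cfsg.Agent.H37.ZT
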