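import Mathlib
import Cfsg.Agent.Frob.Complement
import Cfsg.Agent.H20.Residual

/-!
# Regular linear groups in odd characteristic have a subgroup of index 2: preparations
-/

set_option autoImplicit false

namespace Cfsg.Agent.H37.RT

universe u v

section

/-- the halving lemma -/
theorem half_card {V : Type u} [AddCommGroup V] [Finite V] (I J : AddMonoid.End V) (hI : I * I = -1)
    (hJ : J * J = -1) (hIJ : I * J = -(J * I)) {p : ℕ} [hp : Fact p.Prime] (hp2 : p ≠ 2) (hpV : ∀ v : V, p • v = 0) :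
    ∃ Y : AddSubgroup V, Nat.card V = Nat.card Y ^ 2 ∧
      ∀ f : AddMonoid.End V, f * I = I * f → f * J = J * f → ∀ y ∈ Y, f y ∈ Y := by
  classical
  obtain ⟨a, b, hab⟩ := ZMod.sq_add_sq p (-1 : ZMod p)
  obtain ⟨a, rfl⟩ : ∃ a' : ℤ, (a' : ZMod p) = a := ⟨(a.val : ℤ), by simp⟩
  obtain ⟨b, rfl⟩ : ∃ b' : ℤ, (b' : ZMod p) = b := ⟨(b.val : ℤ), by simp⟩
  have hdvd : (p : ℤ) ∣ a ^ 2 + b ^ 2 + 1 := by
    rw [← ZMod.intCast_zmod_eq_zero_iff_dvd]
    push_cast
    rw [hab]; ring
  obtain ⟨c, hc⟩ := hdvd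
  have hpz : ∀ (k : ℤ) (v : V), ((p : ℤ) * k) • v = 0 := by
    intro k v
    rw [mul_comm, mul_smul, natCast_zsmul, hpV, smul_zero]
  have hII : ∀ v, I (I v) = -v := fun v => by
    have := DFunLike.congr_fun hI v
    exact this
  have hJJ : ∀ v, J (J v) = -v := fun v => by
    have := DFunLike.congr_fun hJ v
    exact this
  have hIJ' : ∀ v, I (J v) = -(J (I v)) := fun v => by
    have := DFunLike.congr_fun hIJ v
    exact this
  -- iota = a I + b J
  let ι : AddMonoid.End V := a • I + b • J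
  have hι : ∀ v, ι v = a • I v + b • J v := fun v => rfl
  have hιι : ∀ v, ι (ι v) = v := by
    intro v
    rw [hι, hι, map_add, map_add, map_zsmul, map_zsmul, map_zsmul, map_zsmul, hII, hJJ, hIJ']
    have h1 : a • (a • -v + b • -(J (I v))) + b • (a • J (I v) + b • -v) = (-(a ^ 2 + b ^ 2)) • v := by
      simp only [smul_add, smul_neg, ← mul_smul]
      rw [mul_comm b a, neg_smul, add_smul, sq, sq]
      abel
    rw [h1]
    have h2 : (-(a ^ 2 + b ^ 2)) = 1 + (p : ℤ) * (-c) := by linarith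
    rw [h2, add_smul, one_smul, hpz, add_zero]
  let K : AddMonoid.End V := I * J
  have hK : ∀ v, K v = I (J v) := fun v => rfl
  have hKK : ∀ v, K (K v) = -v := by
    intro v
    rw [hK, hK, hIJ' (I (J v)), hII, map_neg, neg_neg, hJJ]
  have hιK : ∀ v, ι (K v) = - K (ι v) := by
    intro v
    rw [hι, hK, hK, hι, map_add, map_add, map_zsmul, map_zsmul, map_zsmul, map_zsmul, hII, hJJ, map_neg,
      hIJ' v, map_neg, hJJ, hIJ' (I v), hII, map_neg]
    simp only [smul_neg, neg_neg, neg_add]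
  let Y : AddSubgroup V :=
    { carrier := {v | ι v = v}
      zero_mem' := map_zero _
      add_mem' := fun {x y} hx hy => by
        show ι (x + y) = x + y
        rw [map_add, hx, hy]
      neg_mem' := fun {x} hx => by
        show ι (-x) = -x
        rw [map_neg, hx] }
  have hY : ∀ v, v ∈ Y ↔ ι v = v := fun v => Iff.rfl
  -- halving
  obtain ⟨m, hm⟩ : ∃ m : ℤ, ∀ v : V, (m * 2) • v = v := by
    have hodd := hp.out.odd_of_ne_two hp2
    obtain ⟨k, hk⟩ := hodd
    refine ⟨k + 1, fun v => ?_⟩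
    have h1 : ((k : ℤ) + 1) * 2 = 1 + (p : ℤ) * 1 := by rw [hk]; push_cast; ring
    rw [h1, add_smul, one_smul, hpz, add_zero]
  let F : Y × Y → V := fun q => (q.1 : V) + K q.2
  have hF : Function.Bijective F := by
    constructor
    · intro q r hqr
      have h1 : (q.1 : V) + K q.2 = r.1 + K r.2 := hqr
      have h2 : (q.1 : V) - K q.2 = r.1 - K r.2 := by
        have := congrArg ι h1
        rw [map_add, map_add, hιK, hιK, q.1.2, r.1.2, q.2.2, r.2.2] at this
        rw [sub_eq_add_neg, sub_eq_add_neg]; exact this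
      have h3 : (2 : ℤ) • (q.1 : V) = (2 : ℤ) • (r.1 : V) := by
        have := congrArg₂ (· + ·) h1 h2
        rw [two_zsmul, two_zsmul]
        calc (q.1 : V) + q.1 = ((q.1 : V) + K q.2) + (q.1 - K q.2) := by abel
          _ = (r.1 + K r.2) + (r.1 - K r.2) := this
          _ = r.1 + r.1 := by abel
      have h4 : (q.1 : V) = r.1 := by
        rw [← hm (q.1 : V), ← hm (r.1 : V), mul_smul, mul_smul, h3]
      have h5 : K (q.2 : V) = K r.2 := by rw [h4] at h1; exact add_left_cancel h1
      have h6 : (q.2 : V) = r.2 := by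
        have := congrArg K h5
        rw [hKK, hKK] at this
        exact neg_injective this
      exact Prod.ext (Subtype.ext h4) (Subtype.ext h6)
    · intro v
      refine ⟨(⟨m • (v + ι v), ?_⟩, ⟨m • (-(K (v - ι v))), ?_⟩), ?_⟩
      · rw [hY, map_zsmul, map_add, hιι, add_comm]
      · rw [hY, map_zsmul, map_neg, hιK, map_sub, hιι, map_sub, map_sub]
        congr 1
        abel
      · show m • (v + ι v) + K (m • (-(K (v - ι v)))) = v
        rw [map_zsmul, map_neg, hKK, neg_neg, ← smul_add]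
        have : v + ι v + (v - ι v) = (2 : ℤ) • v := by rw [two_zsmul]; abel
        rw [this, ← mul_smul, hm]
  refine ⟨Y, ?_, ?_⟩
  · rw [← Nat.card_congr (Equiv.ofBijective F hF), Nat.card_prod, sq]
  · intro f hfI hfJ y hy
    rw [hY] at hy ⊢
    have h1 : ∀ v, f (I v) = I (f v) := fun v => DFunLike.congr_fun hfI v
    have h2 : ∀ v, f (J v) = J (f v) := fun v => DFunLike.congr_fun hfJ v
    rw [hι, ← h1, ← h2, ← map_zsmul f, ← map_zsmul f, ← map_add, ← hι, hy]

/-- a group acting freely on the nonzero elements of an invariant subgroup -/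
theorem card_dvd_sub_one {D V : Type u} [Group D] [AddCommGroup V] [Finite D] [Finite V] [DistribMulAction D V]
    (Y : AddSubgroup V) (hY : ∀ (g : D), ∀ y ∈ Y, g • y ∈ Y) (hfree : ∀ (g : D) (y : V), y ∈ Y → y ≠ 0 → g • y = y → g = 1) :
    Nat.card D ∣ Nat.card Y - 1 := by
  classical
  let act : MulAction D {y : Y // y ≠ 0} :=
    { smul := fun g y => ⟨⟨g • (y.1 : V), hY g _ y.1.2⟩, fun h => y.2 (Subtype.ext (by
        have h1 : g • (y.1 : V) = 0 := congrArg Subtype.val h
        rw [smul_eq_zero_iff_eq] at h1; exact h1))⟩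
      one_smul := fun y => Subtype.ext (Subtype.ext (one_smul D (y.1 : V)))
      mul_smul := fun g k y => Subtype.ext (Subtype.ext (mul_smul g k (y.1 : V))) }
  have h1 : Nat.card {y : Y // y ≠ 0} = Nat.card Y - 1 := by
    have : Fintype Y := Fintype.ofFinite _
    rw [Nat.card_eq_fintype_card, Nat.card_eq_fintype_card, Fintype.card_subtype_compl, Fintype.card_subtype_eq]
  rw [← h1]
  have hst : ∀ y : {y : Y // y ≠ 0}, MulAction.stabilizer D y = ⊥ := by
    intro y
    rw [eq_bot_iff]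
    intro g hg
    rw [Subgroup.mem_bot]
    refine hfree g (y.1 : V) y.1.2 (fun h => y.2 (Subtype.ext h)) ?_
    exact congrArg (fun w : {y : Y // y ≠ 0} => (w.1 : V)) hg
  have h2 := Nat.card_congr (MulAction.selfEquivSigmaOrbits' D {y : Y // y ≠ 0})
  have : Fintype (MulAction.orbitRel.Quotient D {y : Y // y ≠ 0}) := Fintype.ofFinite _
  rw [h2, Nat.card_sigma]
  refine Finset.dvd_sum fun o _ => ?_
  have h3 : Nat.card o.orbit = Nat.card D := by
    induction o using Quotient.inductionOn' with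
    | h y =>
      have h4 := Nat.card_congr (MulAction.orbitEquivQuotientStabilizer D y)
      rw [MulAction.orbitRel.Quotient.orbit_mk, h4, hst y]
      exact Nat.card_congr (QuotientGroup.quotientBot).toEquiv
  rw [h3]

theorem num_aux {v c D w : ℕ} (hv : 2 ≤ v) (hc : c ∣ 24) (hD : 6 ∣ D) (hw : v - 1 = D * w)
    (h : c * D = v ^ 2 - 1) : c = 8 := by
  have h1 : v ^ 2 - 1 = (v + 1) * (v - 1) := by
    obtain ⟨k, rfl⟩ : ∃ k, v = k + 2 := ⟨v - 2, by omega⟩
    have : (k + 2) ^ 2 = (k + 2 + 1) * (k + 2 - 1) + 1 := by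
      rw [show k + 2 - 1 = k + 1 by omega]; ring
    rw [this, Nat.add_sub_cancel]
  have hD0 : 0 < D := by
    rcases Nat.eq_zero_or_pos D with h0 | h0
    · rw [h0, zero_mul] at hw; omega
    · exact h0
  have h2 : c = (v + 1) * w := by
    rw [h1, hw] at h
    have : D * c = D * ((v + 1) * w) := by rw [mul_comm, h]; ring
    exact Nat.eq_of_mul_eq_mul_left hD0 this
  have h3 : v + 1 ∣ 24 := (Dvd.intro w h2.symm).trans hc
  obtain ⟨d, rfl⟩ := hD
  have h4 : 6 ∣ v - 1 := ⟨d * w, by rw [hw]; ring⟩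
  have h5 : v + 1 ≤ 24 := Nat.le_of_dvd (by norm_num) h3
  have h5' : v ≤ 23 := by omega
  have h6 : v = 7 := by
    clear h h1 h2 hw
    interval_cases v <;> revert h3 h4 <;> decide
  subst h6
  have h7 : d * w = 1 := by
    have : 6 * (d * w) = 6 := by rw [← mul_assoc, ← hw]
    omega
  have h8 : w = 1 := Nat.eq_one_of_mul_eq_one_left h7
  rw [h2, h8]

end

end Cfsg.Agent.H37.RT
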