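import Mathlib
import Cfsg.Agent.H37.RegTwoA
import Cfsg.Agent.S0106
import Cfsg.Agent.S0105
import Cfsg.Agent.S0082
import Cfsg.Agent.S0086
import Cfsg.Agent.S0016
import Cfsg.Agent.Supersolvable.Structure

/-!
# Regular linear groups in odd characteristic have a subgroup of index 2
-/

set_option autoImplicit false

namespace Cfsg.Agent.H37.RT

open Cfsg Cfsg.Agent

universe u v

section

theorem sylow_cyc_or_quat {A : Type u} [Group A] [Finite A] (h : Frob.HasFPFModule A) {p : ℕ} [Fact p.Prime]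
    (P : Subgroup A) (hP : IsPGroup p P) : IsCyclic P ∨ (p = 2 ∧ ∃ n : ℕ, Nonempty (P ≃* QuaternionGroup (2 ^ n))) :=
  S0016.result p hP (fun H K hH hK => (h.subgroup P).unique_subgroup_of_isPGroup hP H K hH hK)

theorem isZGroup_of_odd {A : Type u} [Group A] [Finite A] (h : Frob.HasFPFModule A) (hodd : Odd (Nat.card A)) :
    IsZGroup A := by
  rw [isZGroup_iff]
  intro p hp P
  have : Fact p.Prime := ⟨hp⟩
  rcases sylow_cyc_or_quat h (P : Subgroup A) P.2 with h1 | ⟨rfl, n, ⟨e⟩⟩
  · exact h1
  · exfalso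
    have h1 : Nat.card (P : Subgroup A) = 4 * 2 ^ n := by
      rw [Nat.card_congr e.toEquiv, Nat.card_eq_fintype_card, QuaternionGroup.card]
    have h2 : 2 ∣ Nat.card A := (show 2 ∣ Nat.card (P : Subgroup A) by rw [h1]; exact ⟨2 * 2 ^ n, by ring⟩).trans
      (Subgroup.card_subgroup_dvd_card _)
    exact (Nat.not_even_iff_odd.2 hodd) (even_iff_two_dvd.2 h2)

/-- an odd-order subgroup of a group with a fixed-point-free module that lies in (and is centralized mod
cyclic normal subgroups by) the commutator group is cyclic -/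
theorem cyclic_of_odd_le_commutator {A : Type u} [Group A] [Finite A] (h : Frob.HasFPFModule A) (M : Subgroup A)
    [hM : M.Normal] (hodd : Odd (Nat.card M)) (hle : M ≤ commutator A) : IsCyclic M := by
  have hz : IsZGroup M := isZGroup_of_odd (h.subgroup M) hodd
  have hcyc : IsCyclic (commutator M) := IsZGroup.isCyclic_commutator M
  let L : Subgroup A := (commutator M).map M.subtype
  have hLn : L.Normal := by
    constructor
    rintro _ ⟨x, hx, rfl⟩ g
    refine ⟨⟨g * x * g⁻¹, hM.conj_mem _ x.2 g⟩, ?_, rfl⟩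
    have hc : (commutator M).Characteristic := inferInstance
    have h1 := (Subgroup.characteristic_iff_map_le.1 hc (MulAut.conjNormal g)) (Subgroup.mem_map_of_mem _ hx)
    have h2 : (MulAut.conjNormal g : MulAut M) x = ⟨g * x * g⁻¹, hM.conj_mem _ x.2 g⟩ :=
      Subtype.ext (MulAut.conjNormal_apply g x)
    exact h2 ▸ h1
  have hLc : IsCyclic L := isCyclic_of_surjective (M.subtype.subgroupMap (commutator M))
    (M.subtype.subgroupMap_surjective _)
  have h1 := Supersolvable.commutator_le_centralizer_of_isCyclic L hLc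
  have h2 : commutator M ≤ Subgroup.center M := by
    intro x hx
    rw [Subgroup.mem_center_iff]
    intro y
    have h3 := h1 (hle y.2)
    rw [Subgroup.mem_centralizer_iff] at h3
    exact Subtype.ext (h3 (x : A) ⟨x, hx, rfl⟩).symm
  have hab : IsMulCommutative M := ⟨⟨fun a b =>
    commutative_of_cyclic_center_quotient (Abelianization.of : M →* Abelianization M)
      (by rw [Abelianization.ker_of]; exact h2) a b⟩⟩
  exact (h.subgroup M).isCyclic_of_isMulCommutative

theorem two_group_hom {E : Type u} [Group E] [Finite E] (hNo : ∀ H : Subgroup E, H.index ≠ 2) {M : Type v} [Group M]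
    (hM : IsPGroup 2 M) (f : E →* M) (x : E) : f x = 1 := by
  have : Fact (Nat.Prime 2) := ⟨Nat.prime_two⟩
  have h1 := H20.pResidual_two_eq_top_iff.2 hNo
  have h2 := H20.pResidual_le_ker hM f
  rw [h1] at h2
  exact h2 (Subgroup.mem_top x)

theorem index_eq_one {E : Type u} [Group E] [Finite E] (hNo : ∀ H : Subgroup E, H.index ≠ 2) (N : Subgroup E)
    [hN : N.Normal] {k : ℕ} (hk : N.index = 2 ^ k) : k = 0 := by
  have : Fact (Nat.Prime 2) := ⟨Nat.prime_two⟩
  have hP : IsPGroup 2 (E ⧸ N) := IsPGroup.of_card (n := k) (by rw [← Subgroup.index_eq_card, hk])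
  have h1 : N = ⊤ := by
    rw [eq_top_iff]
    intro x _
    exact (QuotientGroup.eq_one_iff x).1 (two_group_hom hNo hP (QuotientGroup.mk' N) x)
  rw [h1, Subgroup.index_top] at hk
  by_contra hk0
  have : 1 < 2 ^ k := Nat.one_lt_pow hk0 (by norm_num)
  omega

/-- a cyclic normal subgroup whose automorphism group is a 2-group is central -/
theorem central_of_cyclic {E : Type u} [Group E] [Finite E] (hNo : ∀ H : Subgroup E, H.index ≠ 2) (A : Subgroup E)
    [hA : A.Normal] (hM : IsPGroup 2 (MulAut A)) {x : E} (hx : x ∈ A) (g : E) : g * x * g⁻¹ = x := by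
  have h1 := two_group_hom hNo hM (MulAut.conjNormal (H := A)) g
  have h2 := MulAut.conjNormal_apply (H := A) g ⟨x, hx⟩
  rw [h1] at h2
  exact h2.symm

theorem no_two_complement {E : Type u} [Group E] [Finite E] (hNo : ∀ H : Subgroup E, H.index ≠ 2)
    (heven : 2 ∣ Nat.card E) : ¬ Cfsg.HasNormalPComplement 2 E := by
  rintro ⟨P, N, hN, hc⟩
  have : Fact (Nat.Prime 2) := ⟨Nat.prime_two⟩
  have h1 : Nat.card (P : Subgroup E) = 2 ^ (Nat.card E).factorization 2 := P.card_eq_multiplicity
  have h2 : N.index = 2 ^ (Nat.card E).factorization 2 := by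
    have h3 := hc.card_mul
    have h4 := Subgroup.card_mul_index N
    rw [← h1]
    exact Nat.eq_of_mul_eq_mul_left Nat.card_pos (h4.trans h3.symm)
  have h5 := index_eq_one hNo N h2
  have h6 := Nat.prime_two.factorization_pos_of_dvd Nat.card_pos.ne' heven
  omega

theorem three_dvd_of_section {E : Type u} [Group E] [Finite E] (H K : Subgroup E) (hK : (K.subgroupOf H).Normal)
    (e : (H ⧸ K.subgroupOf H) ≃* Matrix.SpecialLinearGroup (Fin 2) (ZMod 3)) : 3 ∣ Nat.card E := by
  let x : Matrix.SpecialLinearGroup (Fin 2) (ZMod 3) := ⟨!![1, 1; 0, 1], by decide⟩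
  have hx3 : x ^ 3 = 1 := by decide
  have hx1 : x ≠ 1 := by
    intro h
    have h1 : (x : Matrix (Fin 2) (Fin 2) (ZMod 3)) 0 1 = (1 : Matrix (Fin 2) (Fin 2) (ZMod 3)) 0 1 := by rw [h]; rfl
    exact absurd h1 (by decide)
  have h1 : orderOf x = 3 := orderOf_eq_prime hx3 hx1
  have h2 : orderOf (e.symm x) = 3 := by rw [MulEquiv.orderOf_eq, h1]
  have h3 : 3 ∣ Nat.card (H ⧸ K.subgroupOf H) := by rw [← h2]; exact orderOf_dvd_natCard _
  rw [← Subgroup.index_eq_card] at h3
  exact (h3.trans (Subgroup.index_dvd_card _)).trans (Subgroup.card_subgroup_dvd_card H)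

/-- 2-elements lie in the commutator subgroup if there is no subgroup of index 2 -/
theorem mem_commutator_of_two {E : Type u} [Group E] [Finite E] (hNo : ∀ H : Subgroup E, H.index ≠ 2) {x : E} {k : ℕ}
    (hx : x ^ 2 ^ k = 1) : x ∈ commutator E := by
  classical
  let A := Abelianization E
  have : Finite A := inferInstance
  obtain ⟨m, r, hr, hm⟩ := Nat.exists_eq_two_pow_mul_odd (n := Nat.card A) Nat.card_pos.ne'
  -- the map x ↦ x^r has image a 2-group
  let f : E →* A := (powMonoidHom r : A →* A).comp Abelianization.of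
  have hf : ∀ y, f y = (Abelianization.of y) ^ r := fun y => rfl
  have hM : IsPGroup 2 f.range := by
    rintro ⟨_, y, rfl⟩
    refine ⟨m, Subtype.ext ?_⟩
    show (f y) ^ 2 ^ m = 1
    rw [hf, ← pow_mul, mul_comm, ← hm]
    exact pow_card_eq_one'
  have h1 := two_group_hom hNo hM f.rangeRestrict x
  have h2 : (Abelianization.of x) ^ r = 1 := congrArg Subtype.val h1
  have h3 : (Abelianization.of x) ^ 2 ^ k = 1 := by rw [← map_pow, hx, map_one]
  have h4 : Abelianization.of x = 1 := by
    rw [← orderOf_eq_one_iff]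
    exact Nat.eq_one_of_dvd_coprimes ((Nat.coprime_two_left.2 hr).pow_left k) (orderOf_dvd_of_pow_eq_one h3)
      (orderOf_dvd_of_pow_eq_one h2)
  rw [← Abelianization.ker_of, MonoidHom.mem_ker]
  exact h4

theorem quat_pairs : (Finset.univ.filter (fun q : QuaternionGroup 2 × QuaternionGroup 2 => q.1 * q.2 ≠ q.2 * q.1)).card = 24 := by
  decide

theorem quat_gen : ∀ x y w : QuaternionGroup 2, x * y ≠ y * x → ∃ i j : Fin 4, w = x ^ (i : ℕ) * y ^ (j : ℕ) := by
  decide

/-- the free action of the automorphisms induced on `Q8` -/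
theorem index_centralizer_dvd {E : Type u} [Group E] [Finite E] (T : Subgroup E) [hT : T.Normal]
    (e : T ≃* QuaternionGroup 2) : (Subgroup.centralizer (T : Set E)).index ∣ 24 := by
  classical
  let Γ := (MulAut.conjNormal : E →* MulAut T).range
  let X := {q : T × T // q.1 * q.2 ≠ q.2 * q.1}
  let act : MulAction Γ X :=
    { smul := fun σ q => ⟨((σ : MulAut T) q.1.1, (σ : MulAut T) q.1.2), fun h => q.2 (by
        have h1 : (σ : MulAut T) q.1.1 * (σ : MulAut T) q.1.2 = (σ : MulAut T) q.1.2 * (σ : MulAut T) q.1.1 := h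
        rw [← map_mul, ← map_mul] at h1
        exact (σ : MulAut T).injective h1)⟩
      one_smul := fun q => rfl
      mul_smul := fun σ τ q => rfl }
  have hfree : ∀ q : X, MulAction.stabilizer Γ q = ⊥ := by
    intro q
    rw [eq_bot_iff]
    intro σ hσ
    rw [Subgroup.mem_bot]
    have h1 : σ • q = q := hσ
    have h2 : (σ : MulAut T) q.1.1 = q.1.1 := congrArg (fun r : X => r.1.1) h1
    have h3 : (σ : MulAut T) q.1.2 = q.1.2 := congrArg (fun r : X => r.1.2) h1
    apply Subtype.ext
    apply MulEquiv.ext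
    intro w
    obtain ⟨i, j, hij⟩ := quat_gen (e q.1.1) (e q.1.2) (e w) (fun h => q.2 (by
      rw [← map_mul, ← map_mul] at h
      exact e.injective h))
    have h4 : w = q.1.1 ^ (i : ℕ) * q.1.2 ^ (j : ℕ) := by
      apply e.injective
      rw [hij, map_mul, map_pow, map_pow]
    show (σ : MulAut T) w = w
    rw [h4, map_mul, map_pow, map_pow, h2, h3]
  have h1 : Nat.card Γ ∣ Nat.card X := by
    have h2 := Nat.card_congr (MulAction.selfEquivSigmaOrbits' Γ X)
    have : Fintype (MulAction.orbitRel.Quotient Γ X) := Fintype.ofFinite _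
    rw [h2, Nat.card_sigma]
    refine Finset.dvd_sum fun o _ => ?_
    have h3 : Nat.card o.orbit = Nat.card Γ := by
      induction o using Quotient.inductionOn' with
      | h y =>
        have h4 := Nat.card_congr (MulAction.orbitEquivQuotientStabilizer Γ y)
        rw [MulAction.orbitRel.Quotient.orbit_mk, h4, hfree y]
        exact Nat.card_congr (QuotientGroup.quotientBot).toEquiv
    rw [h3]
  have h2 : Nat.card X = 24 := by
    rw [← quat_pairs, ← Fintype.card_subtype, ← Nat.card_eq_fintype_card]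
    refine Nat.card_congr ⟨fun q => ⟨(e q.1.1, e q.1.2), fun h => q.2 (e.injective (by
      rw [map_mul, map_mul]; exact h))⟩, fun q => ⟨(e.symm q.1.1, e.symm q.1.2), fun h => q.2 (e.symm.injective (by
      rw [map_mul, map_mul]; exact h))⟩, fun q => ?_, fun q => ?_⟩
    · apply Subtype.ext; simp
    · apply Subtype.ext; simp
  have h3 : (Subgroup.centralizer (T : Set E)).index = Nat.card Γ := by
    have h4 : Subgroup.centralizer (T : Set E) = (MulAut.conjNormal : E →* MulAut T).ker := by
      ext g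
      rw [Subgroup.mem_centralizer_iff, MonoidHom.mem_ker]
      constructor
      · intro h
        apply MulEquiv.ext
        intro t
        apply Subtype.ext
        rw [MulAut.conjNormal_apply]
        show g * (t : E) * g⁻¹ = t
        rw [← h t t.2, mul_inv_cancel_right]
      · intro h t ht
        have h5 := MulAut.conjNormal_apply (H := T) g ⟨t, ht⟩
        rw [h] at h5
        have h6 : t = g * t * g⁻¹ := h5
        have h7 : t * g = g * t := by rw [eq_mul_inv_iff_mul_eq] at h6; exact h6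
        exact h7
    rw [h4, Subgroup.index_ker]
  rw [h3, ← h2]
  exact h1

section main

variable {E V : Type u} [Group E] [Finite E] [AddCommGroup V] [Finite V] [Nontrivial V] [DistribMulAction E V]

theorem hasFPF (hfpf : ∀ (g : E) (v : V), v ≠ 0 → g • v = v → g = 1) : Frob.HasFPFModule E := by
  refine ⟨Multiplicative V, inferInstance, inferInstance, inferInstance,
    { toFun := fun g => AddEquiv.toMultiplicative (DistribMulAction.toAddEquiv V g)
      map_one' := by
        apply MulEquiv.ext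
        intro v
        exact one_smul E (Multiplicative.toAdd v)
      map_mul' := fun g k => by
        apply MulEquiv.ext
        intro v
        exact mul_smul g k (Multiplicative.toAdd v) }, ?_⟩
  intro g hg w hw
  by_contra hw1
  exact hg (hfpf g (Multiplicative.toAdd w) hw1 hw)

theorem invol_neg (hfpf : ∀ (g : E) (v : V), v ≠ 0 → g • v = v → g = 1) {w : E} (hw : w * w = 1) (hw1 : w ≠ 1)
    (v : V) : w • v = - v := by
  have h1 : w • (v + w • v) = v + w • v := by
    rw [smul_add, ← mul_smul, hw, one_smul, add_comm]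
  by_contra h2
  exact hw1 (hfpf w _ (fun h3 => h2 (eq_neg_of_add_eq_zero_right h3)) h1)

theorem card_eq_sub_one (hreg : ∀ v w : V, v ≠ 0 → w ≠ 0 → ∃ g : E, g • v = w)
    (hfpf : ∀ (g : E) (v : V), v ≠ 0 → g • v = v → g = 1) : Nat.card E = Nat.card V - 1 := by
  classical
  obtain ⟨v0, hv0⟩ := exists_ne (0 : V)
  let f : E → {v : V // v ≠ 0} := fun g => ⟨g • v0, fun h => hv0 ((smul_eq_zero_iff_eq g).1 h)⟩
  have hf : Function.Bijective f := by
    constructor
    · intro g k hgk
      have h1 : g • v0 = k • v0 := congrArg Subtype.val hgk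
      have h2 : (k⁻¹ * g) • v0 = v0 := by rw [mul_smul, h1, inv_smul_smul]
      exact (inv_mul_eq_one.1 (hfpf _ _ hv0 h2)).symm
    · rintro ⟨w, hw⟩
      obtain ⟨g, hg⟩ := hreg v0 w hv0 hw
      exact ⟨g, Subtype.ext hg⟩
  rw [Nat.card_congr (Equiv.ofBijective f hf)]
  have : Fintype V := Fintype.ofFinite _
  rw [Nat.card_eq_fintype_card, Nat.card_eq_fintype_card, Fintype.card_subtype_compl, Fintype.card_subtype_eq]

theorem exists_index_two (hodd : Odd (Nat.card V)) (hreg : ∀ v w : V, v ≠ 0 → w ≠ 0 → ∃ g : E, g • v = w)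
    (hfpf : ∀ (g : E) (v : V), v ≠ 0 → g • v = v → g = 1)
    (h3 : ∀ x y : E, orderOf x = 3 → orderOf y = 3 → y ∈ Subgroup.zpowers x) :
    ∃ H : Subgroup E, H.index = 2 := by
  classical
  by_contra hno
  push Not at hno
  have hF := hasFPF hfpf
  have : Fact (Nat.Prime 2) := ⟨Nat.prime_two⟩
  have : Fact (Nat.Prime 3) := ⟨Nat.prime_three⟩
  have hcardE := card_eq_sub_one hreg hfpf
  have hV2 : 1 < Nat.card V := Finite.one_lt_card
  have heven : 2 ∣ Nat.card E := by
    obtain ⟨k, hk⟩ := hodd
    exact ⟨k, by omega⟩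
  have hnc := no_two_complement hno heven
  obtain ⟨T⟩ : Nonempty (Sylow 2 E) := inferInstance
  -- the Sylow 2-subgroup is quaternion
  obtain ⟨n, hn, ⟨e⟩⟩ : ∃ n : ℕ, 1 ≤ n ∧ Nonempty ((T : Subgroup E) ≃* QuaternionGroup (2 ^ n)) := by
    have hcyc : ¬ IsCyclic (T : Subgroup E) := by
      intro hc
      apply hnc
      rw [Transfer.hasNPC_iff_sylow T, S0071.result]
      intro Q hQ g hg hgp
      have hQc : IsCyclic Q := isCyclic_of_injective _ (Subgroup.inclusion_injective hQ)
      exact S0106.mem_centralizer_of_cyclic Q (T.2.to_le hQ) g hg hgp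
    rcases sylow_cyc_or_quat hF (T : Subgroup E) T.2 with h1 | ⟨-, n, ⟨e⟩⟩
    · exact absurd h1 hcyc
    · refine ⟨n, ?_, ⟨e⟩⟩
      rcases Nat.eq_zero_or_pos n with rfl | h0
      · exfalso
        apply hcyc
        have h1 : IsCyclic (QuaternionGroup (2 ^ 0)) := by
          rw [pow_zero]; exact QuaternionGroup.quaternionGroup_one_isCyclic
        exact isCyclic_of_injective e.toMonoidHom e.injective
      · exact h0
  -- 3 divides the order
  have h3E : 3 ∣ Nat.card E := by
    rcases S0106.result T n hn ⟨e⟩ with h1 | ⟨H, K, hK, ⟨ψ⟩⟩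
    · exact absurd h1 hnc
    · exact three_dvd_of_section H K hK ψ
  obtain ⟨x0, hx0⟩ := exists_prime_orderOf_dvd_card' 3 h3E
  -- x0 is central
  have hx0c : ∀ g : E, g * x0 * g⁻¹ = x0 := by
    intro g
    have hN : (Subgroup.zpowers x0).Normal := by
      constructor
      rintro _ ⟨k, rfl⟩ g
      have h4 : g * x0 * g⁻¹ ∈ Subgroup.zpowers x0 := h3 x0 _ hx0 (by
        rw [← hx0]
        exact (MulAut.conj g).orderOf_eq x0)
      have h5 : g * x0 ^ k * g⁻¹ = (g * x0 * g⁻¹) ^ k := by rw [conj_zpow]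
      rw [show g * (fun x => x0 ^ x) k * g⁻¹ = g * x0 ^ k * g⁻¹ from rfl, h5]
      exact Subgroup.zpow_mem _ h4 k
    refine central_of_cyclic hno (Subgroup.zpowers x0) ?_ (Subgroup.mem_zpowers x0) g
    refine IsPGroup.of_card (n := 1) ?_
    rw [IsCyclic.card_mulAut, Nat.card_zpowers, hx0]; decide
  -- normal 3-complement
  obtain ⟨P⟩ : Nonempty (Sylow 3 E) := inferInstance
  have hPc : IsCyclic (P : Subgroup E) := by
    rcases sylow_cyc_or_quat hF (P : Subgroup E) P.2 with h1 | ⟨h1, -⟩
    · exact h1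
    · exact absurd h1 (by norm_num)
  have hx0P : x0 ∈ (P : Subgroup E) := by
    have h1 : IsPGroup 3 (Subgroup.zpowers x0) := IsPGroup.of_card (n := 1) (by rw [Nat.card_zpowers, hx0, pow_one])
    obtain ⟨Q, hQ⟩ := h1.exists_le_sylow
    obtain ⟨g, hg⟩ := MulAction.exists_smul_eq E Q P
    have h2 : g * x0 * g⁻¹ ∈ ((g • Q : Sylow 3 E) : Subgroup E) :=
      ⟨x0, hQ (Subgroup.mem_zpowers x0), rfl⟩
    rw [hx0c g, hg] at h2
    exact h2
  have h3c : Cfsg.HasNormalPComplement 3 E := by
    have hPm : IsMulCommutative (P : Subgroup E) := by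
      obtain ⟨g, hg⟩ := hPc
      refine ⟨⟨fun a b => ?_⟩⟩
      obtain ⟨i, hi⟩ := hg a
      obtain ⟨j, hj⟩ := hg b
      rw [← hi, ← hj]
      exact (Commute.refl g).zpow_zpow i j
    obtain ⟨N, hN, ⟨ψ⟩⟩ := S0105.result P hPm
    rcases S0082.result P hPc with h1 | h1
    · exact h1
    · exfalso
      have hp3 : IsPGroup 3 (E ⧸ N) := (P.2.to_le inf_le_left).of_equiv ψ.symm
      have h2 := H20.pResidual_le_ker hp3 (QuotientGroup.mk' N)
      rw [h1, QuotientGroup.ker_mk', top_le_iff] at h2
      have h4 : Subsingleton (E ⧸ N) := by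
        rw [h2]; exact QuotientGroup.subsingleton_quotient_top
      have h5 : x0 ∈ ((P : Subgroup E) ⊓ Subgroup.centralizer (Subgroup.normalizer ((P : Subgroup E) : Set E) : Set E) : Subgroup E) := by
        refine Subgroup.mem_inf.2 ⟨hx0P, ?_⟩
        rw [Subgroup.mem_centralizer_iff]
        intro g _
        have := hx0c g
        rw [mul_inv_eq_iff_eq_mul] at this
        exact this
      have h6 : (⟨x0, h5⟩ : ((P : Subgroup E) ⊓ Subgroup.centralizer (Subgroup.normalizer ((P : Subgroup E) : Set E) : Set E) : Subgroup E)) = 1 := by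
        apply ψ.symm.injective
        exact Subsingleton.elim _ _
      have h7 : x0 = 1 := congrArg Subtype.val h6
      rw [h7, orderOf_one] at hx0
      norm_num at hx0
  rw [Transfer.hasNPC_iff_sylow P] at h3c
  obtain ⟨R, hRn, hRc⟩ := h3c
  -- R has index a power of 3 and order prime to 3
  have hRi : R.index = Nat.card (P : Subgroup E) := by
    have h1 := hRc.card_mul_card
    have h2 := Subgroup.card_mul_index R
    exact Nat.eq_of_mul_eq_mul_left Nat.card_pos (h2.trans h1.symm)
  have hR3 : ¬ 3 ∣ Nat.card R := by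
    intro h4
    obtain ⟨y, hy⟩ := exists_prime_orderOf_dvd_card' 3 h4
    have h5 := (S0086.result P R hRc (y : E)).1 y.2
    rw [Subgroup.orderOf_coe, hy] at h5
    norm_num at h5
  -- T ≤ R
  have hTR : (T : Subgroup E) ≤ R := by
    intro t ht
    obtain ⟨k, hk⟩ := T.2 ⟨t, ht⟩
    have hk' : t ^ 2 ^ k = 1 := congrArg Subtype.val hk
    rw [S0086.result P R hRc]
    exact Nat.Coprime.coprime_dvd_left (orderOf_dvd_of_pow_eq_one hk') (Nat.Coprime.pow_left k (by norm_num))
  let TR : Sylow 2 R := T.subtype hTR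
  have eTR : (TR : Subgroup R) ≃* QuaternionGroup (2 ^ n) := (Subgroup.subgroupOfEquivOfLe hTR).trans e
  have hRnc : Cfsg.HasNormalPComplement 2 R := by
    rcases S0106.result TR n hn ⟨eTR⟩ with h1 | ⟨H, K, hK, ⟨ψ⟩⟩
    · exact h1
    · exact absurd (three_dvd_of_section H K hK ψ) hR3
  rw [Transfer.hasNPC_iff_sylow TR] at hRnc
  obtain ⟨M', hM'n, hM'c⟩ := hRnc
  have hM'mem : ∀ x : R, x ∈ M' ↔ Nat.Coprime (orderOf (x : E)) 2 := fun x => by
    rw [S0086.result TR M' hM'c, Subgroup.orderOf_coe]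
  let M : Subgroup E := M'.map R.subtype
  have hMmem : ∀ x : E, x ∈ M ↔ x ∈ R ∧ Nat.Coprime (orderOf x) 2 := by
    intro x
    constructor
    · rintro ⟨y, hy, rfl⟩
      exact ⟨y.2, (hM'mem y).1 hy⟩
    · rintro ⟨h1, h2⟩
      exact ⟨⟨x, h1⟩, (hM'mem ⟨x, h1⟩).2 h2, rfl⟩
  have hMn : M.Normal := by
    constructor
    intro x hx g
    rw [hMmem] at hx ⊢
    refine ⟨hRn.conj_mem _ hx.1 g, ?_⟩
    rw [show orderOf (g * x * g⁻¹) = orderOf x from (MulAut.conj g).orderOf_eq x]
    exact hx.2
  have hRdec : ∀ y ∈ R, ∃ m ∈ M, ∃ t ∈ (T : Subgroup E), y = m * t := by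
    intro y hy
    obtain ⟨q, hq, -⟩ := (Subgroup.isComplement_iff_existsUnique.1 hM'c) ⟨y, hy⟩
    refine ⟨(q.1 : R), ⟨q.1, q.1.2, rfl⟩, (q.2 : R), ?_, ?_⟩
    · have h1 := q.2.2
      exact h1
    · exact (congrArg (fun z : R => (z : E)) hq).symm
  -- the commutator subgroup
  have hcomR : commutator E ≤ R := by
    have hPc' : IsCyclic (P : Subgroup E) := hPc
    let iP : CommGroup (P : Subgroup E) := IsCyclic.commGroup
    have h1 := Abelianization.commutator_subset_ker
      ((hRc.symm.QuotientMulEquiv.toMonoidHom).comp (QuotientGroup.mk' R))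
    intro x hx
    have h2 := h1 hx
    rw [MonoidHom.mem_ker, MonoidHom.comp_apply] at h2
    have h3 : QuotientGroup.mk' R x = 1 := hRc.symm.QuotientMulEquiv.injective (h2.trans (map_one _).symm)
    exact (QuotientGroup.eq_one_iff x).1 h3
  have hTpow : ∀ t ∈ (T : Subgroup E), ∃ k : ℕ, t ^ 2 ^ k = 1 := by
    intro t ht
    obtain ⟨k, hk⟩ := T.2 ⟨t, ht⟩
    exact ⟨k, congrArg Subtype.val hk⟩
  have hTc : (T : Subgroup E) ≤ commutator E := by
    intro t ht
    obtain ⟨k, hk⟩ := hTpow t ht
    exact mem_commutator_of_two hno hk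
  -- M1 is cyclic and centralised by the commutator subgroup
  let M1 : Subgroup E := M ⊓ commutator E
  have hM1n : M1.Normal := inferInstance
  have hM1odd : Odd (Nat.card M1) := by
    rw [← Nat.not_even_iff_odd, even_iff_two_dvd]
    intro h4
    obtain ⟨y, hy⟩ := exists_prime_orderOf_dvd_card' 2 h4
    have h5 := ((hMmem (y : E)).1 (Subgroup.mem_inf.1 y.2).1).2
    rw [Subgroup.orderOf_coe, hy] at h5
    norm_num at h5
  have hM1cyc : IsCyclic M1 := cyclic_of_odd_le_commutator hF M1 hM1odd inf_le_right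
  have hM1cent := Supersolvable.commutator_le_centralizer_of_isCyclic M1 hM1cyc
  -- T is normal
  have hTn : (T : Subgroup E).Normal := by
    constructor
    intro t ht g
    have hy : g * t * g⁻¹ ∈ commutator E := (inferInstance : (commutator E).Normal).conj_mem t (hTc ht) g
    obtain ⟨m, hm, t', ht', hmt⟩ := hRdec _ (hcomR hy)
    have hm1 : m ∈ M1 := by
      refine Subgroup.mem_inf.2 ⟨hm, ?_⟩
      have : m = g * t * g⁻¹ * t'⁻¹ := by rw [hmt]; group
      rw [this]
      exact Subgroup.mul_mem _ hy (Subgroup.inv_mem _ (hTc ht'))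
    have hcomm : Commute m t' := by
      have h5 := hM1cent (hTc ht')
      rw [Subgroup.mem_centralizer_iff] at h5
      exact h5 m hm1
    obtain ⟨k, hk⟩ := hTpow t ht
    obtain ⟨l, hl⟩ := hTpow t' ht'
    have h6 : m ^ 2 ^ (k + l) = 1 := by
      have h7 : (m * t') ^ 2 ^ (k + l) = 1 := by
        rw [← hmt, conj_pow, pow_add, pow_mul, hk, one_pow, mul_one, mul_inv_cancel]
      rw [hcomm.mul_pow, pow_add, mul_comm, pow_mul t', hl, one_pow, mul_one, mul_comm] at h7
      rw [pow_add]; exact h7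
    have h8 : m = 1 := by
      rw [← orderOf_eq_one_iff]
      exact Nat.eq_one_of_dvd_coprimes ((((hMmem m).1 hm).2.symm).pow_left (k + l)) (orderOf_dvd_of_pow_eq_one h6)
        (dvd_refl _)
    rw [hmt, h8, one_mul]
    exact ht'
  -- the order of T is 8
  have hn1 : n = 1 := by
    by_contra hne
    have hn2 : 2 ≤ n := by omega
    have hnz : NeZero (2 ^ n) := ⟨by positivity⟩
    let a0 : (T : Subgroup E) := e.symm (QuaternionGroup.a 1)
    have ha0 : orderOf a0 = 2 * 2 ^ n := by
      rw [MulEquiv.orderOf_eq, QuaternionGroup.orderOf_a_one]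
    have h8 : 8 ≤ 2 * 2 ^ n := by
      have : 2 ^ 2 ≤ 2 ^ n := Nat.pow_le_pow_right (by norm_num) hn2
      omega
    have hN : (Subgroup.zpowers (a0 : E)).Normal := by
      constructor
      rintro _ ⟨k, rfl⟩ g
      have h4 : g * a0 * g⁻¹ ∈ Subgroup.zpowers (a0 : E) := by
        let b0 : (T : Subgroup E) := ⟨g * a0 * g⁻¹, hTn.conj_mem _ a0.2 g⟩
        have hb0 : orderOf b0 = 2 * 2 ^ n := by
          rw [← Subgroup.orderOf_coe]
          show orderOf (g * (a0 : E) * g⁻¹) = _
          rw [show orderOf (g * (a0 : E) * g⁻¹) = orderOf (a0 : E) from (MulAut.conj g).orderOf_eq _,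
            Subgroup.orderOf_coe, ha0]
        have h5 : orderOf (e b0) = 2 * 2 ^ n := by rw [MulEquiv.orderOf_eq, hb0]
        rcases hq : e b0 with i | i
        · have h6 : b0 = a0 ^ i.val := by
            apply e.injective
            rw [hq, map_pow, MulEquiv.apply_symm_apply, QuaternionGroup.a_one_pow, ZMod.natCast_zmod_val]
          have h7 : g * a0 * g⁻¹ = (a0 : E) ^ i.val := congrArg Subtype.val h6
          rw [h7]
          exact Subgroup.npow_mem_zpowers _ _
        · rw [hq, QuaternionGroup.orderOf_xa] at h5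
          omega
      have h5 : g * (a0 : E) ^ k * g⁻¹ = (g * a0 * g⁻¹) ^ k := by rw [conj_zpow]
      rw [show g * (fun x => (a0 : E) ^ x) k * g⁻¹ = g * (a0 : E) ^ k * g⁻¹ from rfl, h5]
      exact Subgroup.zpow_mem _ h4 k
    have h9 : IsPGroup 2 (MulAut (Subgroup.zpowers (a0 : E))) := by
      refine IsPGroup.of_card (n := n) ?_
      rw [IsCyclic.card_mulAut, Nat.card_zpowers, Subgroup.orderOf_coe, ha0, ← pow_succ',
        Nat.totient_prime_pow Nat.prime_two (by omega)]
      simp
    have h10 := central_of_cyclic hno _ h9 (Subgroup.mem_zpowers (a0 : E)) ((e.symm (QuaternionGroup.xa 0) : T) : E)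
    have h11 : e.symm (QuaternionGroup.xa 0) * a0 = a0 * e.symm (QuaternionGroup.xa 0) := by
      apply Subtype.ext
      rw [mul_inv_eq_iff_eq_mul] at h10
      exact h10
    have h12 := congrArg e h11
    rw [map_mul, map_mul, MulEquiv.apply_symm_apply, MulEquiv.apply_symm_apply, QuaternionGroup.xa_mul_a,
      QuaternionGroup.a_mul_xa] at h12
    have h13 : (0 : ZMod (2 * 2 ^ n)) + 1 = 0 - 1 := by injection h12
    have h14 : ((2 : ℕ) : ZMod (2 * 2 ^ n)) = 0 := by
      push_cast
      linear_combination h13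
    rw [ZMod.natCast_eq_zero_iff] at h14
    have := Nat.le_of_dvd (by norm_num) h14
    omega
  subst hn1
  let e' : (T : Subgroup E) ≃* QuaternionGroup 2 := e
  let D : Subgroup E := Subgroup.centralizer ((T : Subgroup E) : Set E)
  have hDmem : ∀ g : E, g ∈ D ↔ ∀ t ∈ (T : Subgroup E), t * g = g * t := fun g => Subgroup.mem_centralizer_iff
  have hDn : D.Normal := inferInstance
  have hc : D.index ∣ 24 := index_centralizer_dvd (T : Subgroup E) e'
  have hq1 : (QuaternionGroup.a 1 : QuaternionGroup 2) * QuaternionGroup.a 1 = QuaternionGroup.a 2 := by decide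
  have hq2 : (QuaternionGroup.xa 0 : QuaternionGroup 2) * QuaternionGroup.xa 0 = QuaternionGroup.a 2 := by decide
  have hq3 : (QuaternionGroup.a 1 : QuaternionGroup 2) * QuaternionGroup.xa 0 =
    QuaternionGroup.a 2 * (QuaternionGroup.xa 0 * QuaternionGroup.a 1) := by decide
  have hq4 : (QuaternionGroup.a 2 : QuaternionGroup 2) * QuaternionGroup.a 2 = 1 := by decide
  have hq5 : (QuaternionGroup.a 2 : QuaternionGroup 2) ≠ 1 := by decide
  have hq6 : ∀ t : QuaternionGroup 2, t * QuaternionGroup.a 2 = QuaternionGroup.a 2 * t := by decide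
  let i0 : (T : Subgroup E) := e'.symm (QuaternionGroup.a 1)
  let j0 : (T : Subgroup E) := e'.symm (QuaternionGroup.xa 0)
  let z0 : (T : Subgroup E) := e'.symm (QuaternionGroup.a 2)
  have hi : i0 * i0 = z0 := by rw [← map_mul, hq1]
  have hj : j0 * j0 = z0 := by rw [← map_mul, hq2]
  have hij : i0 * j0 = z0 * (j0 * i0) := by rw [← map_mul, ← map_mul, ← map_mul, hq3]
  have hz : z0 * z0 = 1 := by rw [← map_mul, hq4, map_one]
  have hz1 : z0 ≠ 1 := fun h => hq5 (e'.symm.injective (h.trans (map_one _).symm))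
  have hzz : (z0 : E) * z0 = 1 := congrArg Subtype.val hz
  have hzE1 : (z0 : E) ≠ 1 := fun h => hz1 (Subtype.ext h)
  have hzneg : ∀ v : V, (z0 : E) • v = - v := invol_neg hfpf hzz hzE1
  let I : AddMonoid.End V := DistribMulAction.toAddMonoidEnd E V (i0 : E)
  let J : AddMonoid.End V := DistribMulAction.toAddMonoidEnd E V (j0 : E)
  have hIv : ∀ v, I v = (i0 : E) • v := fun v => rfl
  have hJv : ∀ v, J v = (j0 : E) • v := fun v => rfl
  have hII : I * I = -1 := by
    ext v
    show I (I v) = - v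
    rw [hIv, hIv, ← mul_smul, ← hzneg]
    congr 1
    exact congrArg Subtype.val hi
  have hJJ : J * J = -1 := by
    ext v
    show J (J v) = - v
    rw [hJv, hJv, ← mul_smul, ← hzneg]
    congr 1
    exact congrArg Subtype.val hj
  have hIJ : I * J = -(J * I) := by
    ext v
    show I (J v) = - J (I v)
    rw [hIv, hJv, hJv, hIv, ← mul_smul, ← mul_smul, ← hzneg, ← mul_smul]
    congr 1
    exact congrArg Subtype.val hij
  obtain ⟨p, hp, hpV⟩ := Nat.exists_prime_and_dvd (n := Nat.card V) (by omega)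
  have : Fact p.Prime := ⟨hp⟩
  have hp2 : p ≠ 2 := by
    rintro rfl
    exact (Nat.not_even_iff_odd.2 hodd) (even_iff_two_dvd.2 hpV)
  obtain ⟨v0, hv0⟩ := exists_prime_addOrderOf_dvd_card' p hpV
  have hv00 : v0 ≠ 0 := by
    rintro rfl
    rw [addOrderOf_zero] at hv0
    exact hp.one_lt.ne hv0
  have hpv : ∀ v : V, p • v = 0 := by
    intro v
    by_cases hv : v = 0
    · rw [hv, smul_zero]
    obtain ⟨g, rfl⟩ := hreg v0 v hv00 hv
    rw [← smul_comm, ← hv0, addOrderOf_nsmul_eq_zero, smul_zero]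
  obtain ⟨Y, hYc, hYf⟩ := half_card I J hII hJJ hIJ hp2 hpv
  have hDY : Nat.card D ∣ Nat.card Y - 1 := by
    refine card_dvd_sub_one (D := D) Y ?_ ?_
    · intro g y hy
      refine hYf (DistribMulAction.toAddMonoidEnd E V (g : E)) ?_ ?_ y hy
      · ext v
        show (g : E) • (i0 : E) • v = (i0 : E) • (g : E) • v
        rw [← mul_smul, ← mul_smul, (hDmem g).1 g.2 _ i0.2]
      · ext v
        show (g : E) • (j0 : E) • v = (j0 : E) • (g : E) • v
        rw [← mul_smul, ← mul_smul, (hDmem g).1 g.2 _ j0.2]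
    · intro g y _ hy0 hgy
      exact Subtype.ext (hfpf (g : E) y hy0 hgy)
  obtain ⟨w, hw⟩ := hDY
  have hzD : (z0 : E) ∈ D := by
    rw [hDmem]
    intro t ht
    have h1 : (⟨t, ht⟩ : (T : Subgroup E)) * z0 = z0 * ⟨t, ht⟩ := by
      apply e'.injective
      rw [map_mul, map_mul, MulEquiv.apply_symm_apply, hq6]
    exact congrArg Subtype.val h1
  have hxD : x0 ∈ D := by
    rw [hDmem]
    intro t _
    have := hx0c t
    rw [mul_inv_eq_iff_eq_mul] at this
    exact this
  have h6D : 6 ∣ Nat.card D := by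
    have h2D : 2 ∣ Nat.card D := by
      have h1 : orderOf (⟨z0, hzD⟩ : D) = 2 := by
        rw [← Subgroup.orderOf_coe]
        exact orderOf_eq_prime (by rw [sq]; exact hzz) hzE1
      rw [← h1]; exact orderOf_dvd_natCard _
    have h3D : 3 ∣ Nat.card D := by
      have h1 : orderOf (⟨x0, hxD⟩ : D) = 3 := by
        rw [← Subgroup.orderOf_coe]; exact hx0
      rw [← h1]; exact orderOf_dvd_natCard _
    exact Nat.Coprime.mul_dvd_of_dvd_of_dvd (by norm_num) h2D h3D
  have hY2 : 2 ≤ Nat.card Y := by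
    by_contra hcon
    have h1 : Nat.card Y ≤ 1 := by omega
    have h2 : Nat.card Y ^ 2 ≤ 1 ^ 2 := Nat.pow_le_pow_left h1 2
    omega
  have h8 := num_aux hY2 hc h6D hw (by
    rw [← hYc, ← hcardE, mul_comm]
    exact Subgroup.card_mul_index D)
  have := index_eq_one hno D (k := 3) (by rw [h8]; norm_num)
  omega

end main

end

end Cfsg.Agent.H37.RT
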