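import Mathlib
import Cfsg.Agent.H37.RegTwoB
import Cfsg.Agent.H37.ZMain
import Cfsg.Agent.H34.NFS

/-!
# Sharply 3-transitive groups of even degree have a subgroup of index 2
-/

set_option autoImplicit false

namespace Cfsg.Agent.H37.ZT

open Cfsg.Agent.H34

universe u v

section

/-- an automorphism whose square is inner acts on the subgroups of index two with a fixed point -/
theorem exists_fixed_index_two {E : Type u} [Group E] {H : Subgroup E} (hH : H.index = 2) (σ : MulAut E) (c : E)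
    (hσ : ∀ x, σ (σ x) = c * x * c⁻¹) : ∃ N : Subgroup E, N.index = 2 ∧ ∀ x, σ x ∈ N ↔ x ∈ N := by
  classical
  have hmul : ∀ x y : E, x * y ∈ H ↔ (x ∈ H ↔ y ∈ H) := fun x y => Subgroup.mul_mem_iff_of_index_two hH
  have hinv : ∀ x : E, x⁻¹ ∈ H ↔ x ∈ H := fun x => inv_mem_iff
  have hcc : ∀ x, σ (σ x) ∈ H ↔ x ∈ H := by
    intro x
    rw [hσ, hmul, hmul, hinv]
    tauto
  by_cases hs : ∀ x, σ x ∈ H ↔ x ∈ H
  · exact ⟨H, hH, hs⟩
  push Not at hs
  obtain ⟨x0, hx0⟩ := hs
  let N : Subgroup E :=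
    { carrier := {x | σ x ∈ H ↔ x ∈ H}
      one_mem' := by
        show σ 1 ∈ H ↔ (1 : E) ∈ H
        rw [map_one]
      mul_mem' := fun {x y} hx hy => by
        show σ (x * y) ∈ H ↔ x * y ∈ H
        have hx' : σ x ∈ H ↔ x ∈ H := hx
        have hy' : σ y ∈ H ↔ y ∈ H := hy
        rw [map_mul, hmul, hmul, hx', hy']
      inv_mem' := fun {x} hx => by
        show σ x⁻¹ ∈ H ↔ x⁻¹ ∈ H
        have hx' : σ x ∈ H ↔ x ∈ H := hx
        rw [map_inv, hinv, hinv, hx'] }
  have hN : ∀ x, x ∈ N ↔ (σ x ∈ H ↔ x ∈ H) := fun x => Iff.rfl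
  refine ⟨N, ?_, fun x => ?_⟩
  · rw [Subgroup.index_eq_two_iff]
    refine ⟨x0, fun y => ?_⟩
    have hx0' : ¬ (σ x0 ∈ H ↔ x0 ∈ H) := by tauto
    rw [hN, hN, map_mul, hmul, hmul]
    unfold Xor
    tauto
  · rw [hN, hN, hcc]; tauto

variable {G : Type u} {Ω : Type v} [Group G] [MulAction G Ω] [Finite G] [Finite Ω]

theorem exists_inv_index_two (h : ZGp G Ω) {a b : Ω} (hab : a ≠ b) (hΩ : Even (Nat.card Ω)) (hΩ2 : 4 ≤ Nat.card Ω)
    (hcard : Nat.card (stab2 G a b) = Nat.card Ω - 2) :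
    ∃ N : Subgroup G, N ≤ stab2 G a b ∧ N.relIndex (stab2 G a b) = 2 ∧
      ∀ s : G, (s ∈ stab2 G a b ∨ (s • a = b ∧ s • b = a)) → ∀ n ∈ N, s * n * s⁻¹ ∈ N := by
  classical
  have heven : 2 ∣ Nat.card (stab2 G a b) := by
    rw [hcard]
    obtain ⟨k, hk⟩ := hΩ
    exact ⟨k - 1, by omega⟩
  obtain ⟨z, hz⟩ := exists_prime_orderOf_dvd_card' 2 heven
  have hzz := orderOf_eq_prime_iff.1 hz
  obtain ⟨U, hU, hUc, -⟩ := IsKer.even_kernel h hab z z.2
    (by have := hzz.1; rw [sq] at this; exact congrArg Subtype.val this) (fun h1 => hzz.2 (Subtype.ext h1))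
  have hUcard := hU.card hab
  let iU : CommGroup U := { (inferInstance : Group U) with
    mul_comm := fun x y => Subtype.ext (hUc x x.2 y y.2) }
  let cj : stab2 G a b → U → U := fun g u => ⟨(g : G) * u * (g : G)⁻¹, hU.norm _ (mem_stab2.1 g.2).1 _ u.2⟩
  let act : DistribMulAction (stab2 G a b) (Additive U) :=
    { smul := fun g u => Additive.ofMul (cj g (Additive.toMul u))
      one_smul := fun u => Additive.toMul.injective (Subtype.ext (by
        change (1 : G) * (Additive.toMul u : U) * (1 : G)⁻¹ = (Additive.toMul u : U)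
        group))
      mul_smul := fun g k u => Additive.toMul.injective (Subtype.ext (by
        change ((g : G) * k) * (Additive.toMul u : U) * ((g : G) * k)⁻¹ =
          (g : G) * ((k : G) * (Additive.toMul u : U) * (k : G)⁻¹) * (g : G)⁻¹
        group))
      smul_add := fun g u w => Additive.toMul.injective (Subtype.ext (by
        change (g : G) * ((Additive.toMul u : U) * (Additive.toMul w : U)) * (g : G)⁻¹ =
          ((g : G) * (Additive.toMul u : U) * (g : G)⁻¹) * ((g : G) * (Additive.toMul w : U) * (g : G)⁻¹)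
        group))
      smul_zero := fun g => Additive.toMul.injective (Subtype.ext (by
        change (g : G) * (1 : G) * (g : G)⁻¹ = 1
        group)) }
  have hsm : ∀ (g : stab2 G a b) (u : U), g • (Additive.ofMul u) = Additive.ofMul (cj g u) := fun g u => rfl
  have hAcard : Nat.card (Additive U) = Nat.card U := rfl
  have hnt : Nontrivial (Additive U) := by
    rw [← Finite.one_lt_card_iff_nontrivial, hAcard]; omega
  obtain ⟨hSt, hSs⟩ := stab2_third h hab hcard
  have hS := sharp3_of hSt hSs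
  have hc : ∃ c : Ω, c ≠ a ∧ c ≠ b := by
    have := card_off hab
    have h1 : 0 < Nat.card {x : Ω // x ≠ a ∧ x ≠ b} := by omega
    obtain ⟨⟨c, hc⟩⟩ := (Nat.card_pos_iff.1 h1).1
    exact ⟨c, hc⟩
  obtain ⟨c, hca, hcb⟩ := hc
  obtain ⟨H, hH⟩ := RT.exists_index_two (E := stab2 G a b) (V := Additive U)
    (by
      rw [hAcard]
      obtain ⟨k, hk⟩ := hΩ
      exact ⟨k - 1, by omega⟩)
    (by
      intro v w hv hw
      let u1 : U := Additive.toMul v
      let u2 : U := Additive.toMul w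
      have hu1 : (u1 : G) ≠ 1 := fun h1 => hv (Subtype.ext h1 : u1 = 1)
      have hu2 : (u2 : G) ≠ 1 := fun h1 => hw (Subtype.ext h1 : u2 = 1)
      have key : ∀ u : U, (u : G) ≠ 1 → (u : G) • b ≠ a ∧ (u : G) • b ≠ b := by
        intro u hu
        refine ⟨hU.ne u.2 hab.symm, fun h1 => hu ?_⟩
        exact hU.inj u.2 U.one_mem hab.symm (by rw [one_smul]; exact h1)
      obtain ⟨g, hg, hgu⟩ := stab2_trans h hab hcard (key u1 hu1).1 (key u1 hu1).2 (key u2 hu2).1 (key u2 hu2).2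
      refine ⟨⟨g, hg⟩, ?_⟩
      apply Additive.toMul.injective
      apply Subtype.ext
      show g * (u1 : G) * g⁻¹ = u2
      refine hU.inj (hU.norm g (mem_stab2.1 hg).1 _ u1.2) u2.2 hab.symm ?_
      have hgb : g⁻¹ • b = b := by rw [inv_smul_eq_iff, (mem_stab2.1 hg).2]
      rw [mul_smul, mul_smul, hgb, hgu])
    (by
      intro g v hv hgv
      apply Subtype.ext
      have h1 : (g : G) * (Additive.toMul v : U) * (g : G)⁻¹ = (Additive.toMul v : U) :=
        congrArg (fun w : Additive U => ((Additive.toMul w : U) : G)) hgv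
      exact h.conj_eq hab hU g.2 (Additive.toMul v : U).2
        (fun h2 => hv (Subtype.ext h2 : Additive.toMul v = 1)) h1)
    (by
      intro x y hx hy
      have hx' := orderOf_eq_prime_iff.1 hx
      have hy' := orderOf_eq_prime_iff.1 hy
      have hx3 : (x : G) * x * x = 1 := by
        have := hx'.1
        rw [pow_succ, pow_two] at this
        exact congrArg Subtype.val this
      have hy3 : (y : G) * y * y = 1 := by
        have := hy'.1
        rw [pow_succ, pow_two] at this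
        exact congrArg Subtype.val this
      rcases hS.order_three hab (Ne.symm hcb) (Ne.symm hca) (mem_stab2.1 x.2).1 (mem_stab2.1 x.2).2
        (mem_stab2.1 y.2).1 (mem_stab2.1 y.2).2 hx3 (fun h1 => hx'.2 (Subtype.ext h1)) hy3
        (fun h1 => hy'.2 (Subtype.ext h1)) with h1 | h1
      · rw [show y = x from Subtype.ext h1]; exact Subgroup.mem_zpowers x
      · rw [show y = x * x from Subtype.ext h1]
        exact Subgroup.mul_mem _ (Subgroup.mem_zpowers x) (Subgroup.mem_zpowers x))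
  -- a swapper
  obtain ⟨s0, hs0a, hs0b⟩ := h.trans hab hab.symm
  have hnorm : ∀ {s : G}, s • a = b → s • b = a → ∀ x ∈ stab2 G a b, s * x * s⁻¹ ∈ stab2 G a b := by
    intro s hsa hsb x hx
    have h1 := smul_stab2 (g := s) hx
    rw [hsa, hsb] at h1
    exact mem_stab2.2 ⟨(mem_stab2.1 h1).2, (mem_stab2.1 h1).1⟩
  have hs0a' : s0⁻¹ • a = b := by rw [inv_smul_eq_iff, hs0b]
  have hs0b' : s0⁻¹ • b = a := by rw [inv_smul_eq_iff, hs0a]
  let σ : MulAut (stab2 G a b) :=
    { toFun := fun x => ⟨s0 * x * s0⁻¹, hnorm hs0a hs0b _ x.2⟩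
      invFun := fun x => ⟨s0⁻¹ * x * s0, by
        have := hnorm hs0a' hs0b' _ x.2
        rwa [inv_inv] at this⟩
      left_inv := fun x => Subtype.ext (by
        show s0⁻¹ * (s0 * x * s0⁻¹) * s0 = (x : G)
        group)
      right_inv := fun x => Subtype.ext (by
        show s0 * (s0⁻¹ * x * s0) * s0⁻¹ = (x : G)
        group)
      map_mul' := fun x y => Subtype.ext (by
        show s0 * ((x : G) * y) * s0⁻¹ = (s0 * x * s0⁻¹) * (s0 * y * s0⁻¹)
        group) }
  have hσ : ∀ x : stab2 G a b, ((σ x : stab2 G a b) : G) = s0 * x * s0⁻¹ := fun x => rfl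
  have hs02 : s0 * s0 ∈ stab2 G a b := mem_stab2.2 ⟨by rw [mul_smul, hs0a, hs0b], by rw [mul_smul, hs0b, hs0a]⟩
  obtain ⟨N, hN, hNσ⟩ := exists_fixed_index_two hH σ ⟨s0 * s0, hs02⟩ (fun x => Subtype.ext (by
    show s0 * (s0 * x * s0⁻¹) * s0⁻¹ = s0 * s0 * x * (s0 * s0)⁻¹
    group))
  have hNn : N.Normal := Subgroup.normal_of_index_eq_two hN
  have hNmem : ∀ x : stab2 G a b, (x : G) ∈ N.map (stab2 G a b).subtype ↔ x ∈ N := by
    intro x
    constructor
    · rintro ⟨y, hy, hyx⟩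
      have : y = x := Subtype.ext hyx
      rwa [← this]
    · intro hx
      exact ⟨x, hx, rfl⟩
  refine ⟨N.map (stab2 G a b).subtype, ?_, ?_, ?_⟩
  · rintro _ ⟨x, -, rfl⟩; exact x.2
  · have : (N.map (stab2 G a b).subtype).subgroupOf (stab2 G a b) = N := by
      ext x
      rw [Subgroup.mem_subgroupOf]
      exact hNmem x
    rw [Subgroup.relIndex, this, hN]
  · have hE : ∀ g ∈ stab2 G a b, ∀ n ∈ N.map (stab2 G a b).subtype, g * n * g⁻¹ ∈ N.map (stab2 G a b).subtype := by
      rintro g hg _ ⟨x, hx, rfl⟩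
      exact ⟨⟨g, hg⟩ * x * ⟨g, hg⟩⁻¹, hNn.conj_mem x hx _, rfl⟩
    rintro s (hs | ⟨hsa, hsb⟩) n hn
    · exact hE s hs n hn
    · obtain ⟨x, hx, rfl⟩ := hn
      have h1 : s0 * (x : G) * s0⁻¹ ∈ N.map (stab2 G a b).subtype := ⟨σ x, (hNσ x).2 hx, rfl⟩
      have h2 : s * s0⁻¹ ∈ stab2 G a b := mem_stab2.2 ⟨by rw [mul_smul, hs0a', hsb], by rw [mul_smul, hs0b', hsa]⟩
      have h3 := hE _ h2 _ h1
      have h4 : s * s0⁻¹ * (s0 * (x : G) * s0⁻¹) * (s * s0⁻¹)⁻¹ = s * (stab2 G a b).subtype x * s⁻¹ := by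
        rw [Subgroup.coe_subtype]; group
      rwa [h4] at h3

end

end Cfsg.Agent.H37.ZT
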