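import Mathlib
import Cfsg.Agent.H37.ZTwo

/-!
# A sharply 3-transitive group of even degree is not simple
-/

set_option autoImplicit false

namespace Cfsg.Agent.H37.ZT

open Cfsg.Agent.H34

universe u v

section

variable {G : Type u} {Ω : Type v} [Group G] [MulAction G Ω] [Finite G] [Finite Ω]

theorem exists_sign (h : ZGp G Ω) {a b : Ω} (hab : a ≠ b) (hΩ : Even (Nat.card Ω)) (hΩ2 : 4 ≤ Nat.card Ω)
    (hcard : Nat.card (stab2 G a b) = Nat.card Ω - 2) : ∃ Φ : G →* ℤˣ, ∃ x : G, Φ x ≠ 1 := by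
  classical
  obtain ⟨N, hNE, hN2, hNn⟩ := exists_inv_index_two h hab hΩ hΩ2 hcard
  obtain ⟨hSt, hSs⟩ := stab2_third h hab hcard
  have hS := sharp3_of hSt hSs
  have heven : 2 ∣ Nat.card (stab2 G a b) := by
    rw [hcard]
    obtain ⟨k, hk⟩ := hΩ
    exact ⟨k - 1, by omega⟩
  obtain ⟨z', hz'⟩ := exists_prime_orderOf_dvd_card' 2 heven
  have hzz' := orderOf_eq_prime_iff.1 hz'
  obtain ⟨z, hzE, hz2, hz1⟩ : ∃ z : G, z ∈ stab2 G a b ∧ z * z = 1 ∧ z ≠ 1 :=
    ⟨z', z'.2, by have := hzz'.1; rw [sq] at this; exact congrArg Subtype.val this,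
      fun h1 => hzz'.2 (Subtype.ext h1)⟩
  obtain ⟨U, hU, hUc, hzU⟩ := IsKer.even_kernel h hab z hzE hz2 hz1
  obtain ⟨-, -, -, -, -, -, -, -, huniq, -⟩ := h.even_kernel hab (by omega) z hzE hz2 hz1
  obtain ⟨c, hca, hcb⟩ : ∃ c : Ω, c ≠ a ∧ c ≠ b := by
    have := card_off hab
    have h1 : 0 < Nat.card {x : Ω // x ≠ a ∧ x ≠ b} := by omega
    obtain ⟨⟨c, hc⟩⟩ := (Nat.card_pos_iff.1 h1).1
    exact ⟨c, hc⟩
  obtain ⟨t, hta, htb, htc⟩ := hS.trans hab hcb.symm hca.symm hab.symm hca.symm hcb.symm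
  have htt : t * t = 1 := hS.sharp _ hab hcb.symm hca.symm (by rw [mul_smul, hta, htb])
    (by rw [mul_smul, htb, hta]) (by rw [mul_smul, htc, htc])
  have hti : t⁻¹ = t := inv_eq_of_mul_eq_one_left htt
  have htE : ∀ x ∈ stab2 G a b, t * x * t ∈ stab2 G a b := by
    intro x hx
    have h1 := smul_stab2 (g := t) hx
    rw [hta, htb, hti] at h1
    exact mem_stab2.2 ⟨(mem_stab2.1 h1).2, (mem_stab2.1 h1).1⟩
  have htN : ∀ n ∈ N, t * n * t ∈ N := fun n hn => by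
    have := hNn t (Or.inr ⟨hta, htb⟩) n hn
    rwa [hti] at this
  have hzt : t * z * t = z := by
    refine huniq b _ z hab.symm (htE z hzE) hzE ?_ ?_ hz2 hz1
    · calc t * z * t * (t * z * t) = t * z * (t * t) * z * t := by group
        _ = t * (z * z) * t := by rw [htt, mul_one, mul_assoc t z z]
        _ = 1 := by rw [hz2, mul_one, htt]
    · intro h1
      apply hz1
      calc z = (t * t) * z * (t * t) := by rw [htt, one_mul, mul_one]
        _ = t * (t * z * t) * t := by group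
        _ = 1 := by rw [h1, mul_one, htt]
  -- the sign on E
  set E := stab2 G a b with hE
  have hmulN : ∀ x ∈ E, ∀ y ∈ E, (x * y ∈ N ↔ (x ∈ N ↔ y ∈ N)) := by
    intro x hx y hy
    have h1 := Subgroup.mul_mem_iff_of_index_two (H := N.subgroupOf E) hN2 (a := ⟨x, hx⟩) (b := ⟨y, hy⟩)
    simpa [Subgroup.mem_subgroupOf] using h1
  let sg : G → ℤˣ := fun x => if x ∈ N then 1 else -1
  have hsg1 : sg 1 = 1 := by simp [sg, N.one_mem]
  have hsgm : ∀ x ∈ E, ∀ y ∈ E, sg (x * y) = sg x * sg y := by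
    intro x hx y hy
    show (if x * y ∈ N then (1 : ℤˣ) else -1) = (if x ∈ N then 1 else -1) * (if y ∈ N then 1 else -1)
    have h1 := hmulN x hx y hy
    by_cases h2 : x ∈ N <;> by_cases h3 : y ∈ N <;> simp [h1, h2, h3]
  have hsgsq : ∀ x, sg x * sg x = 1 := by
    intro x
    show (if x ∈ N then (1 : ℤˣ) else -1) * (if x ∈ N then 1 else -1) = 1
    split_ifs <;> decide
  have hsgt : ∀ x ∈ E, sg (t * x * t) = sg x := by
    intro x hx
    show (if t * x * t ∈ N then (1 : ℤˣ) else -1) = if x ∈ N then 1 else -1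
    have h1 : t * x * t ∈ N ↔ x ∈ N := by
      constructor
      · intro h2
        have h3 := htN _ h2
        have h4 : t * (t * x * t) * t = x := by
          calc t * (t * x * t) * t = (t * t) * x * (t * t) := by group
            _ = x := by rw [htt, one_mul, mul_one]
        rwa [h4] at h3
      · exact htN x
    simp [h1]
  have hUE : ∀ x, x ∈ U → x ∈ E → x = 1 := by
    intro x hx hxE
    exact hU.inj hx U.one_mem hab.symm (by rw [one_smul]; exact (mem_stab2.1 hxE).2)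
  have hconjU : ∀ x ∈ E, ∀ u ∈ U, x * u * x⁻¹ ∈ U := fun x hx u hu => hU.norm x (mem_stab2.1 hx).1 u hu
  have hEi : ∀ x ∈ E, x⁻¹ ∈ E := fun x hx => E.inv_mem hx
  -- decomposition
  have hdecB : ∀ g : G, g • a = a → ∃ w ∈ U, ∃ x ∈ E, g = w * x := by
    intro g hg
    have h1 : g • b ≠ a := fun h2 => hab (smul_left_cancel g (hg.trans h2.symm))
    obtain ⟨w, hw, hwb⟩ := hU.exists hab.symm h1
    refine ⟨w, hw, w⁻¹ * g, mem_stab2.2 ⟨?_, ?_⟩, by group⟩
    · rw [mul_smul, hg, inv_smul_eq_iff, hU.fix hw]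
    · rw [mul_smul, ← hwb, inv_smul_smul]
  have hdec : ∀ g : G, (∃ w ∈ U, ∃ x ∈ E, g = w * x) ∨ ∃ w ∈ U, ∃ x ∈ E, ∃ u ∈ U, g = w * x * t * u := by
    intro g
    by_cases hg : g • a = a
    · exact Or.inl (hdecB g hg)
    right
    have h1 : g⁻¹ • a ≠ a := fun h2 => hg (by rw [inv_smul_eq_iff] at h2; exact h2.symm)
    obtain ⟨u, hu, hub⟩ := hU.exists h1 hab.symm
    obtain ⟨w, hw, x, hx, hwx⟩ := hdecB (g * u⁻¹ * t) (by
      rw [mul_smul, mul_smul, hta, ← hub, inv_smul_smul, smul_inv_smul])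
    refine ⟨w, hw, x, hx, u, hu, ?_⟩
    rw [← hwx]
    calc g = g * u⁻¹ * (t * t) * u := by rw [htt]; group
      _ = _ := by group
  -- uniqueness
  have huniqB : ∀ w ∈ U, ∀ x ∈ E, ∀ w' ∈ U, ∀ x' ∈ E, w * x = w' * x' → x = x' := by
    intro w hw x hx w' hw' x' hx' heq
    have h1 : w'⁻¹ * w = x' * x⁻¹ := by
      rw [inv_mul_eq_iff_eq_mul, ← mul_assoc, ← heq]; group
    have h2 := hUE _ (U.mul_mem (U.inv_mem hw') hw) (h1 ▸ E.mul_mem hx' (hEi x hx))
    rw [h1, mul_inv_eq_one] at h2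
    exact h2.symm
  have hfixB : ∀ w ∈ U, ∀ x ∈ E, (w * x) • a = a := by
    intro w hw x hx
    rw [mul_smul, (mem_stab2.1 hx).1, hU.fix hw]
  have hnfix : ∀ w ∈ U, ∀ x ∈ E, ∀ u ∈ U, (w * x * t * u) • a ≠ a := by
    intro w hw x hx u hu h1
    rw [mul_smul, hU.fix hu, mul_smul, hta] at h1
    have h2 := hfixB w hw x hx
    exact hab (smul_left_cancel (w * x) (h2.trans h1.symm))
  have huniqC : ∀ w ∈ U, ∀ x ∈ E, ∀ u ∈ U, ∀ w' ∈ U, ∀ x' ∈ E, ∀ u' ∈ U, w * x * t * u = w' * x' * t * u' →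
      x = x' := by
    intro w hw x hx u hu w' hw' x' hx' u' hu' heq
    have h1 : u⁻¹ • b = u'⁻¹ • b := by
      have h2 : (w * x * t * u)⁻¹ • a = (w' * x' * t * u')⁻¹ • a := by rw [heq]
      have h3 : ∀ w ∈ U, ∀ x ∈ E, ∀ u ∈ U, (w * x * t * u)⁻¹ • a = u⁻¹ • b := by
        intro w hw x hx u hu
        rw [mul_inv_rev, mul_smul, mul_inv_rev, mul_smul]
        have h4 : (w * x)⁻¹ • a = a := by rw [inv_smul_eq_iff, hfixB w hw x hx]
        rw [h4, hti, hta]
      rw [h3 w hw x hx u hu, h3 w' hw' x' hx' u' hu'] at h2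
      exact h2
    have h2 := hU.inj (U.inv_mem hu) (U.inv_mem hu') hab.symm h1
    have h3 : u = u' := inv_injective h2
    subst h3
    exact huniqB w hw x hx w' hw' x' hx' (mul_right_cancel (mul_right_cancel heq))
  set ε := sg z with hε
  -- the sign function
  have hexF : ∀ g : G, ∃ s : ℤˣ, (∀ w ∈ U, ∀ x ∈ E, g = w * x → s = sg x) ∧
      (∀ w ∈ U, ∀ x ∈ E, ∀ u ∈ U, g = w * x * t * u → s = ε * sg x) := by
    intro g
    rcases hdec g with ⟨w, hw, x, hx, hg⟩ | ⟨w, hw, x, hx, u, hu, hg⟩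
    · refine ⟨sg x, fun w' hw' x' hx' hg' => ?_, fun w' hw' x' hx' u' hu' hg' => ?_⟩
      · rw [huniqB w hw x hx w' hw' x' hx' (hg.symm.trans hg')]
      · exfalso
        exact hnfix w' hw' x' hx' u' hu' (by rw [← hg', hg]; exact hfixB w hw x hx)
    · refine ⟨ε * sg x, fun w' hw' x' hx' hg' => ?_, fun w' hw' x' hx' u' hu' hg' => ?_⟩
      · exfalso
        exact hnfix w hw x hx u hu (by rw [← hg, hg']; exact hfixB w' hw' x' hx')
      · rw [huniqC w hw x hx u hu w' hw' x' hx' u' hu' (hg.symm.trans hg')]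
  choose Φ hΦ1 hΦ2 using hexF
  have hB : ∀ w ∈ U, ∀ x ∈ E, Φ (w * x) = sg x := fun w hw x hx => hΦ1 _ w hw x hx rfl
  have hC : ∀ w ∈ U, ∀ x ∈ E, ∀ u ∈ U, Φ (w * x * t * u) = ε * sg x := fun w hw x hx u hu =>
    hΦ2 _ w hw x hx u hu rfl
  have hΦt : Φ t = ε := by
    have := hC 1 U.one_mem 1 E.one_mem 1 U.one_mem
    rwa [one_mul, one_mul, mul_one, hsg1, mul_one] at this
  have hΦE : ∀ x ∈ E, Φ x = sg x := fun x hx => by
    have := hB 1 U.one_mem x hx
    rwa [one_mul] at this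
  have hΦU : ∀ w ∈ U, Φ w = 1 := fun w hw => by
    have := hB w hw 1 E.one_mem
    rwa [mul_one, hsg1] at this
  -- the relation
  obtain ⟨u0, hu0, hu0b⟩ := hU.exists hab.symm hca
  have hzi : z⁻¹ = z := inv_eq_of_mul_eq_one_left hz2
  have hrel0 : t * u0 * t = u0 * z * t * u0 := by
    have hza := (mem_stab2.1 hzE).1
    have hzb := (mem_stab2.1 hzE).2
    have hs'a : (u0 * z) • a = a := hfixB u0 hu0 z hzE
    have hs'b : (u0 * z) • b = c := by rw [mul_smul, hzb, hu0b]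
    have hs'c : (u0 * z) • c = b := by
      rw [← hu0b, ← mul_smul]
      have h1 : u0 * z * u0 = u0 * (z * u0 * z⁻¹) * z := by group
      rw [h1, hzU u0 hu0, mul_inv_cancel, one_mul, hzb]
    have h1 : t * (u0 * z) * t = (u0 * z) * t * (u0 * z) := by
      refine hS.eq_of hab hcb.symm hca.symm ?_ ?_ ?_
      · rw [mul_smul, mul_smul, hta, hs'b, htc, mul_smul, mul_smul, hs'a, hta, hs'b]
      · rw [mul_smul, mul_smul, htb, hs'a, hta, mul_smul, mul_smul, hs'b, htc, hs'c]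
      · rw [mul_smul, mul_smul, htc, hs'c, htb, mul_smul, mul_smul, hs'c, htb, hs'a]
    have h2 : z * t = t * z := by
      have h3 := hzt
      calc z * t = (t * z * t) * t := by rw [hzt]
        _ = t * z * (t * t) := by group
        _ = t * z := by rw [htt, mul_one]
    have h3 : t * u0 * t * z = u0 * z * t * u0 * z := by
      calc t * u0 * t * z = t * u0 * (t * z) := by group
        _ = t * u0 * (z * t) := by rw [h2]
        _ = t * (u0 * z) * t := by group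
        _ = (u0 * z) * t * (u0 * z) := h1
        _ = u0 * z * t * u0 * z := by group
    exact mul_right_cancel h3
  have hrel : ∀ u ∈ U, u ≠ 1 → ∃ w1 ∈ U, ∃ x1 ∈ E, ∃ u1 ∈ U, t * u * t = w1 * x1 * t * u1 ∧ sg x1 = ε := by
    intro u hu hu1
    have hub : u • b ≠ a ∧ u • b ≠ b := by
      refine ⟨hU.ne hu hab.symm, fun h1 => hu1 ?_⟩
      exact hU.inj hu U.one_mem hab.symm (by rw [one_smul]; exact h1)
    obtain ⟨x, hx, hxc⟩ := stab2_trans h hab hcard hca hcb hub.1 hub.2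
    have hxu : x * u0 * x⁻¹ = u := by
      refine hU.inj (hconjU x hx u0 hu0) hu hab.symm ?_
      have hxb : x⁻¹ • b = b := by rw [inv_smul_eq_iff, (mem_stab2.1 hx).2]
      rw [mul_smul, mul_smul, hxb, hu0b, hxc]
    set y := t * x * t with hy
    have hyE : y ∈ E := htE x hx
    refine ⟨y * u0 * y⁻¹, hconjU y hyE u0 hu0, y * z * x⁻¹, E.mul_mem (E.mul_mem hyE hzE) (hEi x hx),
      y * u0 * y⁻¹, hconjU y hyE u0 hu0, ?_, ?_⟩
    · have h1 : t * u * t = y * (t * u0 * t) * y⁻¹ := by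
        rw [← hxu, hy]
        calc t * (x * u0 * x⁻¹) * t = t * x * (t * t) * u0 * (t * t) * x⁻¹ * t := by rw [htt]; group
          _ = t * x * t * (t * u0 * t) * (t * x⁻¹ * t) := by group
          _ = t * x * t * (t * u0 * t) * (t * x * t)⁻¹ := by
            rw [mul_inv_rev, mul_inv_rev, hti]; group
      rw [h1, hrel0]
      have h2 : t * y⁻¹ = x⁻¹ * t := by
        rw [hy, mul_inv_rev, mul_inv_rev, hti]
        calc t * (t * (x⁻¹ * t)) = (t * t) * (x⁻¹ * t) := by group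
          _ = x⁻¹ * t := by rw [htt, one_mul]
      calc y * (u0 * z * t * u0) * y⁻¹ = y * u0 * z * t * (u0 * y⁻¹) := by group
        _ = y * u0 * z * (t * y⁻¹) * (y * u0 * y⁻¹) := by group
        _ = y * u0 * z * (x⁻¹ * t) * (y * u0 * y⁻¹) := by rw [h2]
        _ = y * u0 * y⁻¹ * (y * z * x⁻¹) * t * (y * u0 * y⁻¹) := by group
    · rw [hsgm _ (E.mul_mem hyE hzE) _ (hEi x hx), hsgm _ hyE _ hzE, hy, hsgt x hx]
      have h1 : sg x * sg x⁻¹ = 1 := by rw [← hsgm x hx _ (hEi x hx), mul_inv_cancel, hsg1]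
      calc sg x * sg z * sg x⁻¹ = sg z * (sg x * sg x⁻¹) := by rw [mul_comm (sg x) (sg z), mul_assoc]
        _ = ε := by rw [h1, mul_one]
  -- multiplicativity
  have PU : ∀ k ∈ U, ∀ g, Φ (g * k) = Φ g * Φ k := by
    intro k hk g
    rw [hΦU k hk, mul_one]
    rcases hdec g with ⟨w, hw, x, hx, rfl⟩ | ⟨w, hw, x, hx, u, hu, rfl⟩
    · have h1 : w * x * k = w * (x * k * x⁻¹) * x := by group
      rw [h1, hB _ (U.mul_mem hw (hconjU x hx k hk)) x hx, hB w hw x hx]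
    · rw [mul_assoc (w * x * t) u k, hC w hw x hx _ (U.mul_mem hu hk), hC w hw x hx u hu]
  have PE : ∀ k ∈ E, ∀ g, Φ (g * k) = Φ g * Φ k := by
    intro k hk g
    rw [hΦE k hk]
    rcases hdec g with ⟨w, hw, x, hx, rfl⟩ | ⟨w, hw, x, hx, u, hu, rfl⟩
    · rw [mul_assoc, hB w hw _ (E.mul_mem hx hk), hB w hw x hx, hsgm x hx k hk]
    · have h1 : w * x * t * u * k = w * (x * (t * k * t)) * t * (k⁻¹ * u * k⁻¹⁻¹) := by
        calc w * x * t * u * k = w * x * t * k * (k⁻¹ * u * k) := by group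
          _ = w * x * t * k * (t * t) * (k⁻¹ * u * k⁻¹⁻¹) := by rw [htt, mul_one, inv_inv]
          _ = _ := by group
      rw [h1, hC w hw _ (E.mul_mem hx (htE k hk)) _ (hconjU _ (hEi k hk) u hu), hC w hw x hx u hu,
        hsgm x hx _ (htE k hk), hsgt k hk, mul_assoc]
  have hεε : ε * ε = 1 := hsgsq z
  have Pt : ∀ g, Φ (g * t) = Φ g * Φ t := by
    intro g
    rw [hΦt]
    rcases hdec g with ⟨w, hw, x, hx, rfl⟩ | ⟨w, hw, x, hx, u, hu, rfl⟩
    · have h1 := hC w hw x hx 1 U.one_mem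
      rw [mul_one] at h1
      rw [h1, hB w hw x hx, mul_comm]
    · by_cases hu1 : u = 1
      · subst hu1
        have h1 : w * x * t * 1 * t = w * x := by rw [mul_one, mul_assoc, htt, mul_one]
        rw [h1, hB w hw x hx, hC w hw x hx 1 hu, mul_comm, ← mul_assoc, hεε, one_mul]
      · obtain ⟨w1, hw1, x1, hx1, u1, hu1', heq, hs1⟩ := hrel u hu hu1
        have h1 : w * x * t * u * t = w * (x * w1 * x⁻¹) * (x * x1) * t * u1 := by
          calc w * x * t * u * t = w * x * (t * u * t) := by group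
            _ = w * x * (w1 * x1 * t * u1) := by rw [heq]
            _ = _ := by group
        rw [h1, hC _ (U.mul_mem hw (hconjU x hx w1 hw1)) _ (E.mul_mem hx hx1) u1 hu1', hC w hw x hx u hu,
          hsgm x hx x1 hx1, hs1, mul_assoc]
  have Pmul : ∀ k l, (∀ g, Φ (g * k) = Φ g * Φ k) → (∀ g, Φ (g * l) = Φ g * Φ l) →
      ∀ g, Φ (g * (k * l)) = Φ g * Φ (k * l) := by
    intro k l hk hl g
    rw [← mul_assoc, hl, hk, hl k, mul_assoc]
  have hall : ∀ k g, Φ (g * k) = Φ g * Φ k := by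
    intro k
    rcases hdec k with ⟨w, hw, x, hx, rfl⟩ | ⟨w, hw, x, hx, u, hu, rfl⟩
    · exact Pmul w x (PU w hw) (PE x hx)
    · exact Pmul _ u (Pmul _ t (Pmul w x (PU w hw) (PE x hx)) Pt) (PU u hu)
  refine ⟨MonoidHom.mk' Φ (fun g k => hall k g), ?_⟩
  -- nontrivial
  have hne : ∃ x ∈ E, x ∉ N := by
    by_contra hcon
    push Not at hcon
    have h1 : N.relIndex E = 1 := Subgroup.relIndex_eq_one.2 hcon
    rw [hN2] at h1
    norm_num at h1
  obtain ⟨x, hx, hxN⟩ := hne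
  refine ⟨x, ?_⟩
  show Φ x ≠ 1
  rw [hΦE x hx]
  show (if x ∈ N then (1 : ℤˣ) else -1) ≠ 1
  rw [if_neg hxN]
  decide

theorem not_simple_sharp (h : ZGp G Ω) {a b : Ω} (hab : a ≠ b) (hΩ : Even (Nat.card Ω)) (hΩ2 : 4 ≤ Nat.card Ω)
    (hcard : Nat.card (stab2 G a b) = Nat.card Ω - 2) : ¬ IsSimpleGroup G := by
  intro hs
  obtain ⟨Φ, x, hx⟩ := exists_sign h hab hΩ hΩ2 hcard
  rcases IsSimpleGroup.eq_bot_or_eq_top_of_normal Φ.ker inferInstance with hb | hb
  · have hinj : Function.Injective Φ := (MonoidHom.ker_eq_bot_iff Φ).1 hb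
    have h1 := Nat.card_le_card_of_injective Φ hinj
    have h2 : Nat.card ℤˣ = 2 := by rw [Nat.card_eq_fintype_card]; decide
    have h3 := h.card hab
    rw [h2] at h1
    have h4 : Nat.card Ω ∣ Nat.card G := ⟨_, h3⟩
    have h5 := Nat.le_of_dvd Nat.card_pos h4
    omega
  · apply hx
    have : x ∈ Φ.ker := by rw [hb]; trivial
    exact this

theorem simple_even [IsSimpleGroup G] (hZ : Cfsg.IsZassenhausGroup G Ω) {a b : Ω} (hab : a ≠ b)
    (heven : Even (Nat.card (stab2 G a b))) : 2 * Nat.card (stab2 G a b) = Nat.card Ω - 2 ∧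
      (∃ U : Subgroup G, IsKer G a U ∧ (∀ x ∈ U, ∀ y ∈ U, x * y = y * x)) ∧
      ∃ (K : Type) (_ : Field K) (_ : Fintype K), ringChar K ≠ 2 ∧ Nat.card K + 1 = Nat.card Ω ∧
        Nonempty (G ≃* Matrix.ProjectiveSpecialLinearGroup (Fin 2) K) := by
  have h := zgp_of hZ
  obtain ⟨g0, hg0, hg1⟩ := stab2_ne_bot hZ hab
  have h4 := h.card_ge_three hab g0 hg0 hg1
  obtain ⟨z, hz⟩ := exists_prime_orderOf_dvd_card' 2 (G := stab2 G a b) (even_iff_two_dvd.1 heven)
  have hzz := orderOf_eq_prime_iff.1 hz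
  obtain ⟨U, hU, hUc, -⟩ := IsKer.even_kernel h hab z z.2
    (by have := hzz.1; rw [sq] at this; exact congrArg Subtype.val this) (fun h1 => hzz.2 (Subtype.ext h1))
  rcases zass_abelian hZ hab hU hUc with h1 | ⟨h1, h2⟩
  · exfalso
    refine not_simple_sharp h hab ?_ h4 h1 inferInstance
    rw [h1] at heven
    obtain ⟨k, hk⟩ := heven
    exact ⟨k + 1, by omega⟩
  · exact ⟨h1, ⟨U, hU, hUc⟩, h2⟩

theorem simple_cyclic [IsSimpleGroup G] (hZ : Cfsg.IsZassenhausGroup G Ω) {a b : Ω} (hab : a ≠ b) :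
    IsCyclic (stab2 G a b) ∧
      ∃ v : G, orderOf v = 2 ∧ v • a = b ∧ v • b = a ∧ ∀ h ∈ stab2 G a b, v * h * v⁻¹ = h⁻¹ := by
  have h := zgp_of hZ
  obtain ⟨g0, hg0, hg1⟩ := stab2_ne_bot hZ hab
  have h4 := h.card_ge_three hab g0 hg0 hg1
  obtain ⟨t0, ht0⟩ := h.even_card hab
  obtain ⟨t, ht, hta, htb, -⟩ := h.exists_involution_swap hab t0 ht0
  rcases Nat.even_or_odd (Nat.card (stab2 G a b)) with he | he
  · obtain ⟨h1, ⟨U, hU, hUc⟩, -⟩ := simple_even hZ hab he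
    obtain ⟨z, hz⟩ := exists_prime_orderOf_dvd_card' 2 (G := stab2 G a b) (even_iff_two_dvd.1 he)
    have hzz := orderOf_eq_prime_iff.1 hz
    have hsw := fun s hsa hsb => h.even_swap hab z z.2
      (by have := hzz.1; rw [sq] at this; exact congrArg Subtype.val this) (fun h1 => hzz.2 (Subtype.ext h1))
      (le_of_eq h1) s hsa hsb
    obtain ⟨hinv, hEc⟩ := inv_of_swap hsw hta htb
    refine ⟨?_, t, ht, hta, htb, hinv⟩
    obtain ⟨c, hca, hcb⟩ := h.exists_third hg0 hg1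
    obtain ⟨K, iK, iFK, f, hC, -⟩ := exists_coord hU hab hca hcb hUc hEc (h.irr hab hU (by omega))
    obtain ⟨m, hm, -⟩ := hC.exists_mult h hab
    exact isCyclic_of_injective m hm
  · obtain ⟨h1, h2⟩ := simple_odd_stab hZ hab he
    exact ⟨h1, t, ht, hta, htb, h2 t hta htb⟩

end

end Cfsg.Agent.H37.ZT
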