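import Mathlib
import Cfsg.Agent.H37.FNF
import Cfsg.Agent.H37.ZSimple

/-!
# The number of points of a simple Zassenhaus group
-/

set_option autoImplicit false
set_option linter.unusedSectionVars false
set_option linter.unusedVariables false

namespace Cfsg.Agent.H37.ZT

open Cfsg Cfsg.Agent.Char Cfsg.Agent.CharBase Cfsg.Agent.H75 Cfsg.Agent.H34 Cfsg.Agent.Zass MulAction
open scoped ComplexConjugate BigOperators commutatorElement

universe u v

section

variable {G : Type u} {Ω : Type v} [Group G] [MulAction G Ω] [Fintype G] [Finite Ω]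
  {a b : Ω} {U : Subgroup G} {n e : ℕ}

theorem ZN.exists_central (h : ZN G a b U n e) (he : 2 ≤ e) {p : ℕ} (hp : p.Prime) (hn : p ∣ n) :
    ∃ z ∈ U, orderOf z = p ∧ ∀ x ∈ U, x * z = z * x := by
  have hnil : Group.IsNilpotent (UB a U) := h.nilp he
  have hfp : Fact p.Prime := ⟨hp⟩
  obtain ⟨P⟩ : Nonempty (Sylow p (UB a U)) := inferInstance
  have hPn : (P : Subgroup (UB a U)).Normal := inferInstance
  have hP : (P : Subgroup (UB a U)) ≠ ⊥ := by
    apply P.ne_bot_of_dvd_card
    rw [h.cardUB]
    exact hn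
  have h1 := Solv.inf_center_ne_bot_of_nilpotent (P : Subgroup (UB a U)) hP
  have hC : IsPGroup p ((P : Subgroup (UB a U)) ⊓ Subgroup.center (UB a U) : Subgroup (UB a U)) :=
    P.isPGroup'.to_le inf_le_left
  obtain ⟨m, hm⟩ := IsPGroup.iff_card.1 hC
  have hm0 : m ≠ 0 := by
    rintro rfl
    rw [pow_zero, Subgroup.card_eq_one] at hm
    exact h1 hm
  obtain ⟨z, hz⟩ := exists_prime_orderOf_dvd_card' (G := ((P : Subgroup (UB a U)) ⊓ Subgroup.center (UB a U) : Subgroup (UB a U)))
    p (by rw [hm]; exact dvd_pow_self p hm0)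
  refine ⟨z.1.1.1, z.1.2, ?_, ?_⟩
  · rw [Subgroup.orderOf_coe, Subgroup.orderOf_coe, Subgroup.orderOf_coe]
    exact hz
  · intro x hx
    have h3 := Subgroup.mem_center_iff.1 z.2.2 (⟨⟨x, h.ker.le hx⟩, hx⟩ : UB a U)
    exact congrArg (fun t : UB a U => t.1.1) h3

theorem ZN.isPrimePow (h : ZN G a b U n e) (he : 2 ≤ e) (hn : 2 ≤ n) (hle : n - 1 ≤ 2 * e) : IsPrimePow n := by
  classical
  obtain ⟨p, hp, hpn⟩ := Nat.exists_prime_and_dvd (n := n) (by omega)
  rw [isPrimePow_iff_unique_prime_dvd]
  refine ⟨p, ⟨hp, hpn⟩, ?_⟩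
  rintro q ⟨hq, hqn⟩
  by_contra hne
  obtain ⟨x, hx, hxp, hxc⟩ := h.exists_central he hp hpn
  obtain ⟨y, hy, hyq, hyc⟩ := h.exists_central he hq hqn
  have hcop : (orderOf x).Coprime (orderOf y) := by
    rw [hxp, hyq]
    exact (Nat.coprime_primes hp hq).2 (fun h => hne h.symm)
  have hxy : orderOf (x * y) = p * q := by
    have hc : Commute x y := (hxc y hy).symm
    rw [hc.orderOf_mul_eq_mul_orderOf_of_coprime hcop, hxp, hyq]
  let z : Fin 3 → G := ![x, y, x * y]
  have hzU : ∀ i, z i ∈ U := by
    intro i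
    fin_cases i
    · exact hx
    · exact hy
    · exact U.mul_mem hx hy
  have hp1 := hp.one_lt
  have hq1 := hq.one_lt
  have hpq1 : p ≠ p * q := by
    intro h1
    have : p * 1 = p * q := by rw [mul_one]; exact h1
    have := Nat.eq_of_mul_eq_mul_left hp.pos this
    omega
  have hpq2 : q ≠ p * q := by
    intro h1
    have : 1 * q = p * q := by rw [one_mul]; exact h1
    have := Nat.eq_of_mul_eq_mul_right hq.pos this
    omega
  have hzord : Function.Injective (fun i => orderOf (z i)) := by
    intro i j hij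
    fin_cases i <;> fin_cases j <;>
      first
      | rfl
      | (exfalso
         simp only [z] at hij
         simp only [Fin.zero_eta, Fin.mk_one, Fin.reduceFinMk, Matrix.cons_val_zero, Matrix.cons_val_one,
           Matrix.cons_val] at hij
         rw [hxp, hyq] at hij
         exact hne hij.symm)
      | (exfalso
         simp only [z] at hij
         simp only [Fin.zero_eta, Fin.mk_one, Fin.reduceFinMk, Matrix.cons_val_zero, Matrix.cons_val_one,
           Matrix.cons_val] at hij
         rw [hyq, hxp] at hij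
         exact hne hij)
      | (exfalso
         simp only [z] at hij
         simp only [Fin.zero_eta, Fin.mk_one, Fin.reduceFinMk, Matrix.cons_val_zero, Matrix.cons_val_one,
           Matrix.cons_val] at hij
         rw [hxp, hxy] at hij
         exact hpq1 hij)
      | (exfalso
         simp only [z] at hij
         simp only [Fin.zero_eta, Fin.mk_one, Fin.reduceFinMk, Matrix.cons_val_zero, Matrix.cons_val_one,
           Matrix.cons_val] at hij
         rw [hxy, hxp] at hij
         exact hpq1 hij.symm)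
      | (exfalso
         simp only [z] at hij
         simp only [Fin.zero_eta, Fin.mk_one, Fin.reduceFinMk, Matrix.cons_val_zero, Matrix.cons_val_one,
           Matrix.cons_val] at hij
         rw [hyq, hxy] at hij
         exact hpq2 hij)
      | (exfalso
         simp only [z] at hij
         simp only [Fin.zero_eta, Fin.mk_one, Fin.reduceFinMk, Matrix.cons_val_zero, Matrix.cons_val_one,
           Matrix.cons_val] at hij
         rw [hxy, hyq] at hij
         exact hpq2 hij.symm)
  have hz1 : ∀ i, z i ≠ 1 := by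
    intro i hi
    have h1 : orderOf (z i) = 1 := by rw [hi, orderOf_one]
    fin_cases i
    · have h2 : orderOf x = 1 := h1
      omega
    · have h2 : orderOf y = 1 := h1
      omega
    · have h2 : orderOf (x * y) = 1 := h1
      rw [hxy] at h2
      have := Nat.eq_one_of_mul_eq_one_right h2
      omega
  have hconj : ∀ (g : stab2 G a b) (i : Fin 3), (g : G) * z i * (g : G)⁻¹ ∈ U := fun g i => h.ker.norm g g.2.1 _ (hzU i)
  let f : stab2 G a b × Fin 3 → {u : U // u ≠ 1} := fun q => ⟨⟨(q.1 : G) * z q.2 * (q.1 : G)⁻¹, hconj q.1 q.2⟩, fun h1 => by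
    have h2 : (q.1 : G) * z q.2 * (q.1 : G)⁻¹ = 1 := congrArg Subtype.val h1
    exact hz1 q.2 (conj_eq_one_iff.1 h2)⟩
  have hf : Function.Injective f := by
    rintro ⟨g, i⟩ ⟨k, j⟩ hgk
    have h1 : (g : G) * z i * (g : G)⁻¹ = k * z j * (k : G)⁻¹ := congrArg (fun t : {u : U // u ≠ 1} => t.1.1) hgk
    have h2 : orderOf (z i) = orderOf (z j) := by
      have h3 : orderOf ((g : G) * z i * (g : G)⁻¹) = orderOf (z i) := by
        have := orderOf_injective (MulAut.conj (g : G)).toMonoidHom (MulAut.conj (g : G)).injective (z i)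
        exact this
      have h4 : orderOf ((k : G) * z j * (k : G)⁻¹) = orderOf (z j) := by
        have := orderOf_injective (MulAut.conj (k : G)).toMonoidHom (MulAut.conj (k : G)).injective (z j)
        exact this
      rw [← h3, ← h4, h1]
    have hij : i = j := hzord h2
    subst hij
    have h5 : ((k : G)⁻¹ * (g : G)) * z i * ((k : G)⁻¹ * (g : G))⁻¹ = z i := by
      calc ((k : G)⁻¹ * (g : G)) * z i * ((k : G)⁻¹ * (g : G))⁻¹ = (k : G)⁻¹ * (g * z i * (g : G)⁻¹) * k := by group
        _ = z i := by rw [h1]; group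
    have h6 := h.z.conj_eq h.hab h.ker ((stab2 G a b).mul_mem ((stab2 G a b).inv_mem k.2) g.2) (hzU i) (hz1 i) h5
    have h7 : g = k := Subtype.ext (inv_mul_eq_one.1 h6).symm
    rw [h7]
  have h8 := Nat.card_le_card_of_injective f hf
  have h9 : Nat.card {u : U // u ≠ 1} = n - 1 := by
    have : Fintype U := Fintype.ofFinite _
    rw [Nat.card_eq_fintype_card, Fintype.card_subtype_compl, Fintype.card_subtype_eq, ← Nat.card_eq_fintype_card,
      h.cardU]
  rw [h9, Nat.card_prod, h.he, Nat.card_eq_fintype_card, Fintype.card_fin] at h8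
  omega

/-- small `n`: `U` is abelian -/
theorem ZN.comm_of_le (h : ZN G a b U n e) (he : 2 ≤ e) (hn : 2 ≤ n) (hle : n - 1 ≤ 2 * e) :
    ∀ x ∈ U, ∀ y ∈ U, x * y = y * x := by
  classical
  obtain ⟨p, hp, hpn⟩ := Nat.exists_prime_and_dvd (n := n) (by omega)
  obtain ⟨z, hz, hzp, hzc⟩ := h.exists_central he hp hpn
  have hz1 : z ≠ 1 := by
    rintro rfl
    rw [orderOf_one] at hzp
    exact hp.one_lt.ne hzp
  have hZ : Subgroup.center U = ⊤ := by
    apply eq_top_of_two_mul
    rw [h.cardU]
    let f : Option (stab2 G a b) → Subgroup.center U := fun o => match o with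
      | none => 1
      | some g => ⟨⟨(g : G) * z * (g : G)⁻¹, h.ker.norm g g.2.1 z hz⟩, by
          rw [Subgroup.mem_center_iff]
          intro x
          apply Subtype.ext
          have h4 := h.ker.norm (g : G)⁻¹ ((stabilizer G a).inv_mem g.2.1) x x.2
          rw [inv_inv] at h4
          have h5 := hzc _ h4
          change (x : G) * (g * z * (g : G)⁻¹) = (g * z * (g : G)⁻¹) * x
          calc (x : G) * (g * z * (g : G)⁻¹) = g * ((g : G)⁻¹ * x * g * z) * (g : G)⁻¹ := by group
            _ = g * (z * ((g : G)⁻¹ * x * g)) * (g : G)⁻¹ := by rw [h5]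
            _ = g * z * (g : G)⁻¹ * x := by group⟩
    have hf : Function.Injective f := by
      intro o o' hoo
      have hv : ((f o).1 : G) = ((f o').1 : G) := by rw [hoo]
      match o, o' with
      | none, none => rfl
      | none, some g =>
        exfalso
        have h1 : (1 : G) = (g : G) * z * (g : G)⁻¹ := hv
        exact hz1 (conj_eq_one_iff.1 h1.symm)
      | some g, none =>
        exfalso
        have h1 : (g : G) * z * (g : G)⁻¹ = (1 : G) := hv
        exact hz1 (conj_eq_one_iff.1 h1)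
      | some g, some k =>
        have h1 : (g : G) * z * (g : G)⁻¹ = k * z * (k : G)⁻¹ := hv
        have h5 : ((k : G)⁻¹ * (g : G)) * z * ((k : G)⁻¹ * (g : G))⁻¹ = z := by
          calc ((k : G)⁻¹ * (g : G)) * z * ((k : G)⁻¹ * (g : G))⁻¹ = (k : G)⁻¹ * (g * z * (g : G)⁻¹) * k := by group
            _ = z := by rw [h1]; group
        have h6 := h.z.conj_eq h.hab h.ker ((stab2 G a b).mul_mem ((stab2 G a b).inv_mem k.2) g.2) hz hz1 h5
        have h7 : g = k := Subtype.ext (inv_mul_eq_one.1 h6).symm
        rw [h7]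
    have h8 := Nat.card_le_card_of_injective f hf
    rw [Finite.card_option, h.he] at h8
    omega
  intro x hx y hy
  have h1 : (⟨y, hy⟩ : U) ∈ Subgroup.center U := by rw [hZ]; trivial
  exact congrArg Subtype.val (Subgroup.mem_center_iff.1 h1 ⟨x, hx⟩)

/-- The kernel of a simple Zassenhaus group (odd two-point stabilisers) is abelian or a nonabelian 2-group. -/
theorem ZN.abelian_or_two (h : ZN G a b U n e) [IsSimpleGroup G] (he : 2 ≤ e) (hn : 2 ≤ n) :
    (∀ x ∈ U, ∀ y ∈ U, x * y = y * x) ∨
      (IsPGroup 2 U ∧ ¬ IsMulCommutative U ∧ (⁅U, U⁆.subgroupOf U).index < 4 * e ^ 2) := by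
  rcases h.main he hn with h1 | h1
  · left; exact h.comm_of_le he hn h1
  · right; exact h1

end

theorem card_isPrimePow {G : Type u} {Ω : Type v} [Group G] [MulAction G Ω] [Finite G] [Finite Ω] [IsSimpleGroup G]
    (hZ : Cfsg.IsZassenhausGroup G Ω) : IsPrimePow (Nat.card Ω - 1) := by
  classical
  have hfG : Fintype G := Fintype.ofFinite G
  have hz := zgp_of hZ
  obtain ⟨g0, hg0, a, b, hab, hga, hgb⟩ := hZ.2.2.2.1
  rcases Nat.even_or_odd (Nat.card (stab2 G a b)) with he | he
  · obtain ⟨-, -, K, _, _, -, hK, -⟩ := simple_even hZ hab he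
    rw [← hK, Nat.add_sub_cancel, Nat.card_eq_fintype_card]
    exact FiniteField.isPrimePow_card K
  · obtain ⟨U, hU⟩ := exists_isKer hz hab (fun hb => hg0 (by
      have : g0 ∈ stab2 G a b := mem_stab2.2 ⟨hga, hgb⟩
      rw [hb] at this
      exact this))
    have h2 : 0 < Nat.card Ω := Nat.card_pos_iff.2 ⟨⟨a⟩, inferInstance⟩
    obtain ⟨hzn, he2, hn2⟩ := zn_of_simple hZ hab hU (n := Nat.card Ω - 1) (by omega) rfl he
    rcases hzn.main he2 hn2 with h1 | ⟨h1, -, -⟩
    · exact hzn.isPrimePow he2 hn2 h1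
    · have hfp : Fact (Nat.Prime 2) := ⟨Nat.prime_two⟩
      obtain ⟨m, hm⟩ := IsPGroup.iff_card.1 h1
      rw [hzn.cardU] at hm
      rw [hm] at hn2 ⊢
      apply IsPrimePow.pow Nat.prime_two.isPrimePow
      rintro rfl
      omega

end Cfsg.Agent.H37.ZT
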