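import Mathlib
import Cfsg.Agent.H37.ZSum

/-!
# Triply transitive groups: moments of the permutation character and blocks of triples
-/

set_option autoImplicit false
set_option linter.unusedSectionVars false
set_option linter.unusedVariables false

namespace Cfsg.Agent.H37.PD

open MulAction Cfsg.Agent.Zass

universe u v

section

variable {G : Type u} {X : Type v} [Group G] [MulAction G X]

theorem card_fun_emb (X : Type v) [Finite X] (k : ℕ) : Nat.card (Fin k ↪ X) = (Nat.card X).descFactorial k := by
  classical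
  have : Fintype X := Fintype.ofFinite X
  rw [Nat.card_eq_fintype_card, Fintype.card_embedding_eq, Fintype.card_fin, Nat.card_eq_fintype_card]

theorem nfix_emb [Finite X] (k : ℕ) (g : G) : nfix (Fin k ↪ X) g = (nfix X g).descFactorial k := by
  rw [nfix, nfix, ← card_fun_emb]
  apply Nat.card_congr
  refine ⟨fun f => ⟨fun i => ⟨f.1 i, ?_⟩, fun i j hij => f.1.injective (congrArg Subtype.val hij)⟩,
    fun f => ⟨⟨fun i => (f i).1, fun i j hij => f.injective (Subtype.ext hij)⟩, ?_⟩, fun f => rfl, fun f => rfl⟩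
  · have := congrArg (fun t : Fin k ↪ X => t i) f.2
    exact this
  · ext i
    exact (f i).2

variable [Fintype G] [Finite X] {R : Type*} [CommRing R]

open Classical in
theorem sum_nfix_mul_tr (htr : IsPretransitive G X) (x0 : X) (F : G → R) (hF : ∀ g h : G, F (h * g * h⁻¹) = F g) :
    ∑ g : G, (nfix X g : R) * F g = (Nat.card X : R) * ∑ g : G, (if g • x0 = x0 then F g else 0) := by
  have : Fintype X := Fintype.ofFinite X
  have h1 : ∀ g : G, (nfix X g : R) * F g = ∑ c : X, (if g • c = c then F g else 0) := by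
    intro g
    rw [ZT.nfix_eq_sum, Finset.sum_mul]
    apply Finset.sum_congr rfl
    intro c _
    split_ifs <;> simp
  rw [Finset.sum_congr rfl (fun g _ => h1 g), Finset.sum_comm]
  have h2 : ∀ c : X, ∑ g : G, (if g • c = c then F g else 0) = ∑ g : G, (if g • x0 = x0 then F g else 0) := by
    intro c
    obtain ⟨k, hk⟩ := htr.exists_smul_eq c x0
    apply ZT.sum_conj_pred F hF _ _ k
    intro g
    rw [mul_smul, mul_smul, inv_smul_eq_iff.2 hk.symm]
    constructor
    · intro h1; rw [h1, hk]
    · intro h1; rw [← hk] at h1; exact smul_left_cancel k h1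
  rw [Finset.sum_congr rfl (fun c _ => h2 c), Finset.sum_const, Finset.card_univ, nsmul_eq_mul,
    ← Nat.card_eq_fintype_card]

theorem desc2 (n : ℕ) : (n.descFactorial 2 : ℤ) = (n : ℤ) * (n - 1) := by
  rcases n with _ | _ | n
  · simp
  · simp
  · rw [Nat.descFactorial_succ, Nat.descFactorial_one]
    have : n + 2 - 1 = n + 1 := rfl
    rw [this]
    push_cast; ring

theorem desc3 (n : ℕ) : (n.descFactorial 3 : ℤ) = (n : ℤ) * (n - 1) * (n - 2) := by
  rw [Nat.descFactorial_succ, Nat.cast_mul, desc2]
  rcases Nat.lt_or_ge n 2 with h | h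
  · interval_cases n <;> simp
  · rw [Nat.cast_sub h]
    push_cast; ring

theorem desc4 (n : ℕ) : (n.descFactorial 4 : ℤ) = (n : ℤ) * (n - 1) * (n - 2) * (n - 3) := by
  rw [Nat.descFactorial_succ, Nat.cast_mul, desc3]
  rcases Nat.lt_or_ge n 3 with h | h
  · interval_cases n <;> simp
  · rw [Nat.cast_sub h]
    push_cast; ring

theorem sum_desc [Nonempty X] {k : ℕ} (hk : IsMultiplyPretransitive G X k) (hX : k ≤ Nat.card X) :
    ∑ g : G, (nfix X g).descFactorial k = Nat.card G := by
  classical
  have : Fintype X := Fintype.ofFinite X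
  have hne : Nonempty (Fin k ↪ X) := by
    rw [Function.Embedding.nonempty_iff_card_le, Fintype.card_fin, ← Nat.card_eq_fintype_card]
    exact hX
  have h1 := sum_nfix (G := G) (Ω := (Fin k ↪ X))
  rw [← h1]
  apply Finset.sum_congr rfl
  intro g _
  rw [nfix_emb]

end

section

variable {G : Type u} {X : Type v} [Group G] [MulAction G X]

/-- three point stabiliser -/
def stab3 (G : Type u) {X : Type v} [Group G] [MulAction G X] (a b c : X) : Subgroup G :=
  stabilizer G a ⊓ stabilizer G b ⊓ stabilizer G c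

theorem mem_stab3 {a b c : X} {g : G} : g ∈ stab3 G a b c ↔ g • a = a ∧ g • b = b ∧ g • c = c := by
  change (g • a = a ∧ g • b = b) ∧ g • c = c ↔ _
  tauto

/-- points fixed by the three point stabiliser -/
def Fx (G : Type u) {X : Type v} [Group G] [MulAction G X] (a b c : X) : Set X :=
  {x | ∀ g ∈ stab3 G a b c, g • x = x}

/-- triple transitivity -/
def T3 (G : Type u) (X : Type v) [Group G] [MulAction G X] : Prop :=
  ∀ {a b c a' b' c' : X}, a ≠ b → a ≠ c → b ≠ c → a' ≠ b' → a' ≠ c' → b' ≠ c' →
    ∃ g : G, g • a = a' ∧ g • b = b' ∧ g • c = c'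

def emb3 {a b c : X} (hab : a ≠ b) (hac : a ≠ c) (hbc : b ≠ c) : Fin 3 ↪ X :=
  ⟨fun i => if i = 0 then a else if i = 1 then b else c, by
    intro i j hij
    fin_cases i <;> fin_cases j <;> simp_all⟩

theorem emb3_fix {a b c : X} (hab : a ≠ b) (hac : a ≠ c) (hbc : b ≠ c) {a' b' c' : X} (hab' : a' ≠ b') (hac' : a' ≠ c')
    (hbc' : b' ≠ c') {g : G} :
    g • emb3 hab hac hbc = emb3 hab' hac' hbc' ↔ g • a = a' ∧ g • b = b' ∧ g • c = c' := by
  constructor
  · intro h
    have h0 := congrArg (fun t : Fin 3 ↪ X => t 0) h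
    have h1 := congrArg (fun t : Fin 3 ↪ X => t 1) h
    have h2 := congrArg (fun t : Fin 3 ↪ X => t 2) h
    exact ⟨h0, h1, h2⟩
  · rintro ⟨h0, h1, h2⟩
    ext i
    fin_cases i
    · exact h0
    · exact h1
    · exact h2

theorem t3_of (h : IsMultiplyPretransitive G X 3) : T3 G X := by
  intro a b c a' b' c' hab hac hbc hab' hac' hbc'
  obtain ⟨g, hg⟩ := h.exists_smul_eq (emb3 hab hac hbc) (emb3 hab' hac' hbc')
  exact ⟨g, (emb3_fix hab hac hbc hab' hac' hbc').1 hg⟩

theorem mem_Fx_self {a b c : X} : a ∈ Fx G a b c ∧ b ∈ Fx G a b c ∧ c ∈ Fx G a b c :=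
  ⟨fun g hg => (mem_stab3.1 hg).1, fun g hg => (mem_stab3.1 hg).2.1, fun g hg => (mem_stab3.1 hg).2.2⟩

theorem smul_stab3 {a b c : X} {g x : G} : g * x * g⁻¹ ∈ stab3 G (g • a) (g • b) (g • c) ↔ x ∈ stab3 G a b c := by
  rw [mem_stab3, mem_stab3]
  simp only [mul_smul, inv_smul_smul]
  constructor
  · rintro ⟨h1, h2, h3⟩
    exact ⟨smul_left_cancel g h1, smul_left_cancel g h2, smul_left_cancel g h3⟩
  · rintro ⟨h1, h2, h3⟩
    exact ⟨by rw [h1], by rw [h2], by rw [h3]⟩

theorem stab3_map (a b c : X) (g : G) :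
    (stab3 G a b c).map (MulAut.conj g).toMonoidHom = stab3 G (g • a) (g • b) (g • c) := by
  ext x
  constructor
  · rintro ⟨y, hy, rfl⟩
    exact smul_stab3.2 hy
  · intro hx
    refine ⟨g⁻¹ * x * g, ?_, ?_⟩
    · apply (smul_stab3 (g := g)).1
      have : g * (g⁻¹ * x * g) * g⁻¹ = x := by group
      rwa [this]
    · change g * (g⁻¹ * x * g) * g⁻¹ = x
      group

theorem card_stab3 (h3 : T3 G X) {a b c a' b' c' : X} (hab : a ≠ b) (hac : a ≠ c) (hbc : b ≠ c) (hab' : a' ≠ b')
    (hac' : a' ≠ c') (hbc' : b' ≠ c') : Nat.card (stab3 G a b c) = Nat.card (stab3 G a' b' c') := by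
  obtain ⟨g, rfl, rfl, rfl⟩ := h3 hab hac hbc hab' hac' hbc'
  rw [← stab3_map]
  exact (Subgroup.card_map_of_injective (MulAut.conj g).injective).symm

theorem card_Fx (h3 : T3 G X) {a b c a' b' c' : X} (hab : a ≠ b) (hac : a ≠ c) (hbc : b ≠ c) (hab' : a' ≠ b')
    (hac' : a' ≠ c') (hbc' : b' ≠ c') : Nat.card (Fx G a b c) = Nat.card (Fx G a' b' c') := by
  obtain ⟨g, rfl, rfl, rfl⟩ := h3 hab hac hbc hab' hac' hbc'
  apply Nat.card_congr
  refine ⟨fun x => ⟨g • x.1, ?_⟩, fun x => ⟨g⁻¹ • x.1, ?_⟩, fun x => Subtype.ext (inv_smul_smul g x.1),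
    fun x => Subtype.ext (smul_inv_smul g x.1)⟩
  · intro y hy
    have h1 : g⁻¹ * y * g ∈ stab3 G a b c := by
      apply (smul_stab3 (g := g)).1
      have : g * (g⁻¹ * y * g) * g⁻¹ = y := by group
      rwa [this]
    have h2 := x.2 _ h1
    rw [mul_smul, mul_smul, inv_smul_eq_iff] at h2
    exact h2
  · intro y hy
    have h1 := x.2 _ (smul_stab3.2 hy)
    rw [mul_smul, mul_smul] at h1
    rw [eq_inv_smul_iff]
    exact h1

variable [Finite G] [Finite X]

theorem Fx_eq (h3 : T3 G X) {a b c x y z : X} (hab : a ≠ b) (hac : a ≠ c) (hbc : b ≠ c) (hxy : x ≠ y) (hxz : x ≠ z)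
    (hyz : y ≠ z) (hx : x ∈ Fx G a b c) (hy : y ∈ Fx G a b c) (hz : z ∈ Fx G a b c) : Fx G x y z = Fx G a b c := by
  have hle : stab3 G a b c ≤ stab3 G x y z := fun g hg => mem_stab3.2 ⟨hx g hg, hy g hg, hz g hg⟩
  have heq : stab3 G a b c = stab3 G x y z :=
    Subgroup.eq_of_le_of_card_ge hle (card_stab3 h3 hxy hxz hyz hab hac hbc).le
  rw [Fx, Fx, heq]

/-- The Steiner system inequality. -/
theorem steiner (h3 : T3 G X) {a b c d : X} (hab : a ≠ b) (hac : a ≠ c) (hbc : b ≠ c) (hd : d ∉ Fx G a b c) :
    (Nat.card (Fx G a b c) - 1) * (Nat.card (Fx G a b c) - 2) + 2 ≤ Nat.card X := by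
  classical
  have : Fintype X := Fintype.ofFinite X
  set B := Fx G a b c with hB
  set k := Nat.card B with hk
  obtain ⟨haB, hbB, hcB⟩ := mem_Fx_self (G := G) (a := a) (b := b) (c := c)
  have hda : d ≠ a := fun h => hd (h ▸ haB)
  have hdB : ∀ x ∈ B, d ≠ x := fun x hx h => hd (h ▸ hx)
  let S := {x : X // x ∈ B ∧ x ≠ a}
  let T : S → Type v := fun s => {x : X // x ∈ Fx G a s.1 d ∧ x ≠ a ∧ x ≠ d}
  let f : (Σ s : S, T s) → {x : X // x ≠ a ∧ x ≠ d} := fun q => ⟨q.2.1, q.2.2.2⟩
  have hf : Function.Injective f := by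
    rintro ⟨s, x⟩ ⟨s', x'⟩ hxx
    have hx : x.1 = x'.1 := congrArg Subtype.val hxx
    have hss : s = s' := by
      by_contra hne
      have hne' : s.1 ≠ s'.1 := fun h => hne (Subtype.ext h)
      have e1 : Fx G a d x.1 = Fx G a s.1 d := Fx_eq h3 (Ne.symm s.2.2) hda.symm (hdB _ s.2.1).symm hda.symm
        (Ne.symm x.2.2.1) (Ne.symm x.2.2.2) mem_Fx_self.1 mem_Fx_self.2.2 x.2.1
      have e2 : Fx G a d x'.1 = Fx G a s'.1 d := Fx_eq h3 (Ne.symm s'.2.2) hda.symm (hdB _ s'.2.1).symm hda.symm
        (Ne.symm x'.2.2.1) (Ne.symm x'.2.2.2) mem_Fx_self.1 mem_Fx_self.2.2 x'.2.1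
      rw [← hx, e1] at e2
      have h4 : s'.1 ∈ Fx G a s.1 d := by rw [e2]; exact mem_Fx_self.2.1
      have e3 : Fx G a s.1 s'.1 = Fx G a s.1 d := Fx_eq h3 (Ne.symm s.2.2) hda.symm (hdB _ s.2.1).symm (Ne.symm s.2.2)
        (Ne.symm s'.2.2) hne' mem_Fx_self.1 mem_Fx_self.2.1 h4
      have e4 : Fx G a s.1 s'.1 = B := Fx_eq h3 hab hac hbc (Ne.symm s.2.2) (Ne.symm s'.2.2) hne' haB s.2.1 s'.2.1
      apply hd
      rw [← e4, e3]
      exact mem_Fx_self.2.2
    subst hss
    have hxe : x = x' := Subtype.ext hx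
    rw [hxe]
  have hcard := Nat.card_le_card_of_injective f hf
  have hS : Nat.card S = k - 1 := by
    have h1 : Nat.card S + 1 = k := by
      have e1 : Option S ≃ B :=
        { toFun := fun o => match o with
            | none => ⟨a, haB⟩
            | some s => ⟨s.1, s.2.1⟩
          invFun := fun x => if h : x.1 = a then none else some ⟨x.1, x.2, h⟩
          left_inv := by
            intro o
            match o with
            | none => simp
            | some s => simp [s.2.2]
          right_inv := by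
            intro x
            by_cases h : x.1 = a
            · simp only [h, dite_true]
              exact Subtype.ext h.symm
            · simp only [h, dite_false] }
      rw [← Finite.card_option, Nat.card_congr e1]
    omega
  have hT : ∀ s : S, Nat.card (T s) = k - 2 := by
    intro s
    have h0 : Nat.card (Fx G a s.1 d) = k := card_Fx h3 (Ne.symm s.2.2) hda.symm (hdB _ s.2.1).symm hab hac hbc
    have e1 : Option (Option (T s)) ≃ Fx G a s.1 d :=
      { toFun := fun o => match o with
          | none => ⟨a, mem_Fx_self.1⟩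
          | some none => ⟨d, mem_Fx_self.2.2⟩
          | some (some x) => ⟨x.1, x.2.1⟩
        invFun := fun x => if h : x.1 = a then none else if h' : x.1 = d then some none else some (some ⟨x.1, x.2, h, h'⟩)
        left_inv := by
          intro o
          match o with
          | none => simp
          | some none => simp [hda]
          | some (some x) => simp [x.2.2.1, x.2.2.2]
        right_inv := by
          intro x
          by_cases h : x.1 = a
          · simp only [h, dite_true]
            exact Subtype.ext h.symm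
          · by_cases h' : x.1 = d
            · simp only [h, h', dite_true, dite_false]
              have : ¬ d = a := hda
              simp only [this, dite_false]
              exact Subtype.ext h'.symm
            · simp only [h, h', dite_false] }
    have h1 := Nat.card_congr e1
    rw [Finite.card_option, Finite.card_option, h0] at h1
    omega
  rw [Nat.card_sigma, Finset.sum_congr rfl (fun s _ => hT s), Finset.sum_const, Finset.card_univ, smul_eq_mul,
    ← Nat.card_eq_fintype_card, hS] at hcard
  have e2 : Option (Option {x : X // x ≠ a ∧ x ≠ d}) ≃ X :=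
    { toFun := fun o => match o with
        | none => a
        | some none => d
        | some (some x) => x.1
      invFun := fun x => if h : x = a then none else if h' : x = d then some none else some (some ⟨x, h, h'⟩)
      left_inv := by
        intro o
        match o with
        | none => simp
        | some none => simp [hda]
        | some (some x) => simp [x.2.1, x.2.2]
      right_inv := by
        intro x
        by_cases h : x = a
        · simp only [h, dite_true]
        · by_cases h' : x = d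
          · have : ¬ d = a := hda
            simp only [h', this, dite_true, dite_false]
          · simp only [h, h', dite_false] }
  have h5 := Nat.card_congr e2
  rw [Finite.card_option, Finite.card_option] at h5
  omega

end

end Cfsg.Agent.H37.PD
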