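import Mathlib
import Cfsg.Agent.H37.PDA

/-!
# Triply transitive groups with odd three point stabilisers: fourth moment
-/

set_option autoImplicit false
set_option linter.unusedSectionVars false
set_option linter.unusedVariables false

namespace Cfsg.Agent.H37.PD

open MulAction Cfsg.Agent.Zass

universe u v

section

variable {G : Type u} {X : Type v} [Group G] [MulAction G X] [Fintype G] [Finite X]

theorem three_mul_le {H K : Subgroup G} (hKH : K < H) (hodd : Odd (Nat.card H)) : 3 * Nat.card K ≤ Nat.card H := by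
  have h1 := Subgroup.card_dvd_of_le hKH.le
  obtain ⟨m, hm⟩ := h1
  have h2 : m ≠ 0 := by
    rintro rfl
    rw [mul_zero] at hm
    exact Nat.card_pos.ne' hm
  have h3 : m ≠ 1 := by
    rintro rfl
    rw [mul_one] at hm
    exact hKH.ne (Subgroup.eq_of_le_of_card_ge hKH.le hm.le)
  have h4 : m ≠ 2 := by
    rintro rfl
    rw [hm] at hodd
    exact (Nat.not_even_iff_odd.2 hodd) (even_two.mul_left _)
  rw [hm, mul_comm 3]
  exact Nat.mul_le_mul_left _ (by omega)

open Classical in
theorem sum_if_mem (H : Subgroup G) (c : ℤ) : ∑ g : G, (if g ∈ H then c else 0) = Nat.card H * c := by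
  rw [← Finset.sum_filter, Finset.sum_const, nsmul_eq_mul, Nat.card_eq_fintype_card, Fintype.card_subtype]

open Classical in
theorem fourth_bound (h3 : IsMultiplyPretransitive G X 3) {a b c : X} (hab : a ≠ b) (hac : a ≠ c) (hbc : b ≠ c)
    (hodd : Odd (Nat.card (stab3 G a b c))) :
    3 * ∑ g : G, ((nfix X g : ℤ) * (nfix X g - 1) * (nfix X g - 2) * (nfix X g - 3)) ≤
      (2 * Nat.card (Fx G a b c) + Nat.card X - 9) * Nat.card G := by
  have : Fintype X := Fintype.ofFinite X
  set H := stab3 G a b c with hH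
  set k := Nat.card (Fx G a b c) with hk
  have hf0 : ∀ g : G, g • emb3 hab hac hbc = emb3 hab hac hbc ↔ g ∈ H := fun g => by
    rw [emb3_fix, mem_stab3]
  have s1 := sum_nfix_mul_tr (G := G) (X := (Fin 3 ↪ X)) (R := ℤ) h3 (emb3 hab hac hbc)
    (fun g => (nfix X g : ℤ) - 3) (fun g k => by rw [nfix_conj])
  have s2 := sum_nfix_mul_tr (G := G) (X := (Fin 3 ↪ X)) (R := ℤ) h3 (emb3 hab hac hbc)
    (fun g => (1 : ℤ)) (fun g k => rfl)
  simp only [hf0, nfix_emb, desc3, mul_one] at s1 s2
  have s3 : ∑ g : G, (if g ∈ H then (1 : ℤ) else 0) = Nat.card H := by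
    rw [sum_if_mem, mul_one]
  have hX3 : 3 ≤ Nat.card X := by
    have h4 := Nat.card_le_card_of_injective _ (emb3 hab hac hbc).injective
    rwa [Nat.card_eq_fintype_card, Fintype.card_fin] at h4
  have hne : Nonempty X := ⟨a⟩
  have s4 : ∑ g : G, ((nfix X g : ℤ) * (nfix X g - 1) * (nfix X g - 2)) = Nat.card G := by
    have h5 := sum_desc (G := G) (X := X) h3 hX3
    rw [← h5]
    push_cast
    apply Finset.sum_congr rfl
    intro g _
    rw [desc3]
  rw [s3, s4] at s2
  rw [s1]
  -- the sum over `H`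
  have s5 : ∑ g : G, (if g ∈ H then ((nfix X g : ℤ) - 3) else 0) =
      ∑ x : X, (Nat.card (H ⊓ stabilizer G x : Subgroup G) : ℤ) - 3 * Nat.card H := by
    have h6 : ∀ g : G, (if g ∈ H then ((nfix X g : ℤ) - 3) else 0) =
        ∑ x : X, (if g ∈ (H ⊓ stabilizer G x : Subgroup G) then (1 : ℤ) else 0) - (if g ∈ H then (3 : ℤ) else 0) := by
      intro g
      by_cases hg : g ∈ H
      · rw [if_pos hg, if_pos hg, ZT.nfix_eq_sum]
        congr 1
        apply Finset.sum_congr rfl
        intro x _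
        by_cases hx : g • x = x
        · rw [if_pos hx, if_pos (Subgroup.mem_inf.2 ⟨hg, hx⟩)]
        · rw [if_neg hx, if_neg (fun h => hx (Subgroup.mem_inf.1 h).2)]
      · rw [if_neg hg, if_neg hg, Finset.sum_eq_zero, sub_zero]
        intro x _
        rw [if_neg (fun h => hg (Subgroup.mem_inf.1 h).1)]
    rw [Finset.sum_congr rfl (fun g _ => h6 g), Finset.sum_sub_distrib, Finset.sum_comm, sum_if_mem]
    rw [Finset.sum_congr rfl (fun x _ => sum_if_mem (H ⊓ stabilizer G x) 1)]
    simp only [mul_one]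
    ring
  have s6 : 3 * ∑ x : X, (Nat.card (H ⊓ stabilizer G x : Subgroup G) : ℤ) ≤ (2 * k + Nat.card X) * Nat.card H := by
    rw [Finset.mul_sum]
    have h7 : ∀ x : X, 3 * (Nat.card (H ⊓ stabilizer G x : Subgroup G) : ℤ) ≤
        Nat.card H + (if x ∈ Fx G a b c then 2 * (Nat.card H : ℤ) else 0) := by
      intro x
      by_cases hx : x ∈ Fx G a b c
      · rw [if_pos hx]
        have : H ⊓ stabilizer G x = H := inf_eq_left.2 (fun g hg => hx g hg)
        rw [this]
        linarith
      · rw [if_neg hx, add_zero]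
        have hlt : H ⊓ stabilizer G x < H := by
          refine lt_of_le_of_ne inf_le_left ?_
          intro h8
          apply hx
          intro g hg
          have : g ∈ H ⊓ stabilizer G x := by rw [h8]; exact hg
          exact (Subgroup.mem_inf.1 this).2
        exact_mod_cast three_mul_le hlt hodd
    refine (Finset.sum_le_sum (fun x _ => h7 x)).trans (le_of_eq ?_)
    rw [Finset.sum_add_distrib, Finset.sum_const, ← Finset.sum_filter, Finset.sum_const, nsmul_eq_mul, nsmul_eq_mul,
      Finset.card_univ, ← Nat.card_eq_fintype_card]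
    have h8 : (Finset.univ.filter (fun x : X => x ∈ Fx G a b c)).card = k := by
      rw [hk, Nat.card_eq_fintype_card, Fintype.card_subtype]
    rw [h8]
    ring
  rw [s5]
  set N3 := Nat.card (Fin 3 ↪ X) with hN3
  set Z := ∑ x : X, (Nat.card (H ⊓ stabilizer G x : Subgroup G) : ℤ) with hZ
  rw [s2]
  have h9 : (N3 : ℤ) * (3 * Z) ≤ N3 * ((2 * k + Nat.card X) * Nat.card H) :=
    mul_le_mul_of_nonneg_left s6 (by positivity)
  nlinarith

/-- Combining the two bounds: the three point stabiliser is trivial. -/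
theorem stab3_trivial (h3 : IsMultiplyPretransitive G X 3) {a b c : X} (hab : a ≠ b) (hac : a ≠ c) (hbc : b ≠ c)
    (hodd : Odd (Nat.card (stab3 G a b c)))
    (hlow : ((Nat.card X : ℤ) - 1) * Nat.card G ≤
      2 * ∑ g : G, ((nfix X g : ℤ) * (nfix X g - 1) * (nfix X g - 2) * (nfix X g - 3))) (d : X) : d ∈ Fx G a b c := by
  classical
  by_contra hd
  have h1 := fourth_bound h3 hab hac hbc hodd
  have h2 := steiner (t3_of h3) hab hac hbc hd
  set T := ∑ g : G, ((nfix X g : ℤ) * (nfix X g - 1) * (nfix X g - 2) * (nfix X g - 3)) with hT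
  set k := Nat.card (Fx G a b c) with hk
  set n := Nat.card X with hn
  have hG : (0 : ℤ) < Nat.card G := by exact_mod_cast Nat.card_pos
  have h4 : (3 * ((n : ℤ) - 1)) * Nat.card G ≤ (2 * (2 * k + n - 9)) * Nat.card G := by linarith
  have h5 := le_of_mul_le_mul_right h4 hG
  have h6 : n + 15 ≤ 4 * k := by omega
  have hk3 : 3 ≤ k := by omega
  obtain ⟨m, hm⟩ : ∃ m, k = m + 3 := ⟨k - 3, by omega⟩
  have h7 : (m + 3 - 1) * (m + 3 - 2) = (m + 2) * (m + 1) := rfl
  rw [hm] at h2 h6
  rw [h7] at h2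
  nlinarith

end

end Cfsg.Agent.H37.PD
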