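import Mathlib
import Cfsg.Agent.H37.PDB
import Cfsg.Agent.Char.Regular
import Cfsg.Agent.Char.Linear
import Cfsg.Agent.Char.Correspondence
import Cfsg.Agent.Coh.Basic
import Cfsg.Agent.Coh.Signed
import Cfsg.Agent.H75.Ito

/-!
# Characters of groups of prime degree `p` with Sylow normaliser of order `2p`
-/

set_option autoImplicit false
set_option linter.unusedSectionVars false
set_option linter.unusedVariables false

namespace Cfsg.Agent.H37.PD

open Cfsg Cfsg.Agent.Char Cfsg.Agent.CharBase MulAction Cfsg.Agent.Zass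
open scoped ComplexConjugate BigOperators

universe u v

structure PDat (G : Type u) (X : Type v) [Group G] [MulAction G X] (p : ℕ) (P : Subgroup G) (t : G) : Prop where
  hp : p.Prime
  hp5 : 5 ≤ p
  cP : Nat.card P = p
  cent : ∀ u ∈ P, u ≠ 1 → ∀ g : G, g * u = u * g → g ∈ P
  t2 : t * t = 1
  tP : t ∉ P
  tinv : ∀ u ∈ P, t * u * t⁻¹ = u⁻¹
  norm : ∀ g : G, ∀ u ∈ P, u ≠ 1 → g⁻¹ * u * g ∈ P → g ∈ P ∨ g * t ∈ P
  cj : ∀ g : G, orderOf g = p → ∃ k : G, k * g * k⁻¹ ∈ P
  free : ∀ u ∈ P, u ≠ 1 → nfix X u = 0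
  tfix : nfix X t = 1
  cX : Nat.card X = p
  h3 : IsMultiplyPretransitive G X 3

section

variable {G : Type u} {X : Type v} [Group G] [MulAction G X] [Fintype G] [Finite X]
  {p : ℕ} {P : Subgroup G} {t : G}

theorem PDat.ord (h : PDat G X p P t) {u : G} (hu : u ∈ P) (hu1 : u ≠ 1) : orderOf u = p := by
  have h1 := orderOf_dvd_natCard (⟨u, hu⟩ : P)
  rw [← Subgroup.orderOf_coe, h.cP] at h1
  rcases (Nat.dvd_prime h.hp).1 h1 with h2 | h2
  · exact absurd (orderOf_eq_one_iff.1 h2) hu1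
  · exact h2

theorem PDat.comm (h : PDat G X p P t) (x y : P) : x * y = y * x := by
  have hf : Fact p.Prime := ⟨h.hp⟩
  have := isCyclic_of_prime_card h.cP
  obtain ⟨g, hg⟩ := this
  obtain ⟨i, hi⟩ := hg x
  obtain ⟨j, hj⟩ := hg y
  rw [← hi, ← hj]
  exact (Commute.refl g).zpow_zpow i j

theorem PDat.ind_zero (h : PDat G X p P t) (f : P → ℂ) (hf1 : f 1 = 0) {g : G} (hg : orderOf g ≠ p) :
    indFun P f g = 0 := by
  rw [indFun, Finset.sum_eq_zero, mul_zero]
  intro x _
  by_cases hx : x⁻¹ * g * x ∈ P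
  · rw [extendByZero_of_mem _ _ hx]
    have h1 : x⁻¹ * g * x = 1 := by
      by_contra h2
      apply hg
      have h3 := h.ord hx h2
      have h4 := orderOf_injective (MulAut.conj x⁻¹).toMonoidHom (MulAut.conj x⁻¹).injective g
      have h5 : (MulAut.conj x⁻¹).toMonoidHom g = x⁻¹ * g * x := by
        change x⁻¹ * g * x⁻¹⁻¹ = _
        rw [inv_inv]
      rw [h5, h3] at h4
      exact h4.symm
    have h2 : (⟨x⁻¹ * g * x, hx⟩ : P) = 1 := Subtype.ext h1
    rw [h2, hf1]
  · rw [extendByZero_of_notMem _ _ hx]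

theorem PDat.ind_val (h : PDat G X p P t) (f : P → ℂ) {u : G} (hu : u ∈ P) (hu1 : u ≠ 1) :
    indFun P f u = f ⟨u, hu⟩ + f ⟨u⁻¹, P.inv_mem hu⟩ := by
  classical
  rw [indFun]
  have h1 : ∀ x : G, extendByZero P f (x⁻¹ * u * x) =
      (if x ∈ P then f ⟨u, hu⟩ else 0) + (if x * t ∈ P then f ⟨u⁻¹, P.inv_mem hu⟩ else 0) := by
    intro x
    by_cases hx : x ∈ P
    · have hxt : x * t ∉ P := fun h2 => h.tP ((P.mul_mem_cancel_left hx).1 h2)
      have h2 : x⁻¹ * u * x = u := by
        have h3 := congrArg (fun z : P => (z : G)) (h.comm ⟨u, hu⟩ ⟨x, hx⟩)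
        change u * x = x * u at h3
        rw [mul_assoc, h3, inv_mul_cancel_left]
      rw [if_pos hx, if_neg hxt, add_zero]
      have h3 : x⁻¹ * u * x ∈ P := by rw [h2]; exact hu
      rw [extendByZero_of_mem _ _ h3]
      congr 1
      exact Subtype.ext h2
    · rw [if_neg hx, zero_add]
      by_cases hxt : x * t ∈ P
      · rw [if_pos hxt]
        have h2 : x⁻¹ * u * x = u⁻¹ := by
          have h3 := congrArg (fun z : P => (z : G)) (h.comm ⟨u, hu⟩ ⟨x * t, hxt⟩)
          change u * (x * t) = x * t * u at h3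
          have h4 := h.tinv u hu
          have h5 : t⁻¹ = t := inv_eq_of_mul_eq_one_left h.t2
          calc x⁻¹ * u * x = x⁻¹ * (u * (x * t)) * t⁻¹ := by group
            _ = x⁻¹ * (x * t * u) * t⁻¹ := by rw [h3]
            _ = t * u * t⁻¹ := by group
            _ = u⁻¹ := h4
        have h3 : x⁻¹ * u * x ∈ P := by rw [h2]; exact P.inv_mem hu
        rw [extendByZero_of_mem _ _ h3]
        congr 1
        exact Subtype.ext h2
      · rw [if_neg hxt, extendByZero_of_notMem]
        intro h2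
        rcases h.norm x u hu hu1 h2 with h3 | h3
        · exact hx h3
        · exact hxt h3
  rw [Finset.sum_congr rfl (fun x _ => h1 x), Finset.sum_add_distrib]
  have h2 : ∀ c : ℂ, ∑ x : G, (if x ∈ P then c else 0) = p * c := by
    intro c
    rw [← Finset.sum_filter, Finset.sum_const, nsmul_eq_mul, ← Fintype.card_subtype, ← Nat.card_eq_fintype_card]
    rw [show Nat.card {x // x ∈ P} = p from h.cP]
  have h3 : ∀ c : ℂ, ∑ x : G, (if x * t ∈ P then c else 0) = p * c := by
    intro c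
    rw [← h2 c]
    exact Equiv.sum_comp (Equiv.mulRight t) (fun x => if x ∈ P then c else 0)
  rw [h2, h3, h.cP]
  have hp0 : (p : ℂ) ≠ 0 := Nat.cast_ne_zero.2 h.hp.pos.ne'
  field_simp

open Classical in
/-- sums over the elements of order `p` -/
theorem PDat.sum_ordp [Fintype P] (h : PDat G X p P t) (F : G → ℂ) (hF : IsClassFunction G F) :
    2 * ∑ g : G, (if orderOf g = p then F g else 0) =
      (Nat.card G : ℂ) / p * ∑ u : P, (if u = 1 then 0 else F u) := by
  let f0 : P → ℂ := fun u => if u = 1 then 0 else 1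
  have h1 := frobenius_reciprocity P f0 (fun g => conj (F g)) (fun g k => by
    change conj (F (k * g * k⁻¹)) = conj (F g)
    rw [hF g k])
  have h2 : ∀ g : G, indFun P f0 g = if orderOf g = p then 2 else 0 := by
    intro g
    by_cases hg : orderOf g = p
    · rw [if_pos hg]
      obtain ⟨k, hk⟩ := h.cj g hg
      have hk1 : k * g * k⁻¹ ≠ 1 := by
        intro h3
        have : g = 1 := conj_eq_one_iff.1 h3
        rw [this, orderOf_one] at hg
        exact h.hp.one_lt.ne hg
      have h3 := indFun_isClassFunction P f0 g k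
      rw [← h3, h.ind_val f0 hk hk1]
      have h4 : (⟨k * g * k⁻¹, hk⟩ : P) ≠ 1 := fun h5 => hk1 (congrArg Subtype.val h5)
      have h5 : (⟨(k * g * k⁻¹)⁻¹, P.inv_mem hk⟩ : P) ≠ 1 := fun h5 => hk1 (inv_eq_one.1 (congrArg Subtype.val h5))
      simp only [f0, if_neg h4, if_neg h5]
      norm_num
    · rw [if_neg hg]
      exact h.ind_zero f0 (by simp [f0]) hg
  rw [classInner, classInner, h.cP] at h1
  simp only [h2, Complex.conj_conj] at h1
  have hG0 : (Nat.card G : ℂ) ≠ 0 := Nat.cast_ne_zero.2 Nat.card_pos.ne'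
  have hp0 : (p : ℂ) ≠ 0 := Nat.cast_ne_zero.2 h.hp.pos.ne'
  have h3 : ∑ g : G, (if orderOf g = p then (2 : ℂ) else 0) * F g = 2 * ∑ g : G, (if orderOf g = p then F g else 0) := by
    rw [Finset.mul_sum]
    apply Finset.sum_congr rfl
    intro g _
    split_ifs <;> ring
  have h4 : ∑ u : P, f0 u * F u = ∑ u : P, (if u = 1 then 0 else F u) := by
    apply Finset.sum_congr rfl
    intro u _
    by_cases hu : u = 1
    · simp [f0, hu]
    · simp [f0, hu]
  rw [h3, h4] at h1
  field_simp at h1 ⊢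
  linear_combination h1

/-- evaluation of sums of class functions given by the number of fixed points outside the elements of order `p` -/
theorem PDat.eval [Fintype P] (h : PDat G X p P t) (A : G → ℂ) (hA : IsClassFunction G A) (B : ℂ → ℂ)
    (hAB : ∀ g : G, orderOf g ≠ p → A g = B (nfix X g)) :
    2 * ∑ g : G, A g = 2 * ∑ g : G, B (nfix X g) + (Nat.card G : ℂ) / p * (∑ u : P, (A u - B 0) - (A 1 - B 0)) := by
  classical
  have h1 := h.sum_ordp (fun g => A g - B (nfix X g)) (fun g k => by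
    change A (k * g * k⁻¹) - B (nfix X (k * g * k⁻¹)) = A g - B (nfix X g)
    rw [hA g k, nfix_conj])
  have h2 : ∑ g : G, (if orderOf g = p then A g - B (nfix X g) else 0) = ∑ g : G, A g - ∑ g : G, B (nfix X g) := by
    rw [← Finset.sum_sub_distrib]
    apply Finset.sum_congr rfl
    intro g _
    split_ifs with hg
    · rfl
    · rw [hAB g hg, sub_self]
  rw [h2] at h1
  have h3 : ∑ u : P, (if u = 1 then 0 else A u - B (nfix X (u : G))) = ∑ u : P, (A u - B 0) - (A 1 - B 0) := by
    have h4 : ∀ u : P, (if u = 1 then 0 else A u - B (nfix X (u : G))) = (A u - B 0) - (if u = 1 then (A 1 - B 0) else 0) := by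
      intro u
      by_cases hu : u = 1
      · rw [if_pos hu, if_pos hu, hu, Subgroup.coe_one, sub_self]
      · rw [if_neg hu, if_neg hu, sub_zero, h.free u u.2 (fun h5 => hu (Subtype.ext h5)), Nat.cast_zero]
    rw [Finset.sum_congr rfl (fun u _ => h4 u), Finset.sum_sub_distrib, Finset.sum_ite_eq' Finset.univ (1 : P),
      if_pos (Finset.mem_univ _)]
  rw [h3] at h1
  linear_combination h1

theorem PDat.nonempty (h : PDat G X p P t) : Nonempty X := by
  have : 0 < Nat.card X := by rw [h.cX]; exact h.hp.pos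
  exact (Nat.card_pos_iff.1 this).1

/-- the fourth factorial moment -/
noncomputable def T4 (G : Type u) (X : Type v) [Group G] [MulAction G X] [Fintype G] : ℤ :=
  ∑ g : G, ((nfix X g : ℤ) * (nfix X g - 1) * (nfix X g - 2) * (nfix X g - 3))

theorem PDat.moments (h : PDat G X p P t) :
    ∑ g : G, (nfix X g : ℂ) = Nat.card G ∧ ∑ g : G, (nfix X g : ℂ) ^ 2 = 2 * Nat.card G ∧
      ∑ g : G, (nfix X g : ℂ) ^ 3 = 5 * Nat.card G ∧ ∑ g : G, (nfix X g : ℂ) ^ 4 = T4 G X + 14 * Nat.card G := by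
  have hne := h.nonempty
  have hcX := h.cX
  have h5 := h.hp5
  have h2 : IsMultiplyPretransitive G X 2 := by
    have := h.h3
    have hX3 : (3 : ℕ∞) ≤ ENat.card X := by
      rw [ENat.card_eq_coe_natCard, hcX]
      exact_mod_cast (by omega : 3 ≤ p)
    exact isMultiplyPretransitive_of_le' (by norm_num : 2 ≤ 3) hX3
  have h1 : IsMultiplyPretransitive G X 1 := by
    have hX2 : (2 : ℕ∞) ≤ ENat.card X := by
      rw [ENat.card_eq_coe_natCard, hcX]
      exact_mod_cast (by omega : 2 ≤ p)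
    exact isMultiplyPretransitive_of_le' (by norm_num : 1 ≤ 2) hX2
  have s1 : ∑ g : G, (nfix X g : ℤ) = Nat.card G := by
    have := sum_desc (G := G) h1 (by omega)
    simp only [Nat.descFactorial_one] at this
    exact_mod_cast this
  have s2 : ∑ g : G, ((nfix X g : ℤ) * (nfix X g - 1)) = Nat.card G := by
    have := sum_desc (G := G) h2 (by omega)
    rw [← this]; push_cast
    exact Finset.sum_congr rfl (fun g _ => (desc2 _).symm)
  have s3 : ∑ g : G, ((nfix X g : ℤ) * (nfix X g - 1) * (nfix X g - 2)) = Nat.card G := by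
    have := sum_desc (G := G) h.h3 (by omega)
    rw [← this]; push_cast
    exact Finset.sum_congr rfl (fun g _ => (desc3 _).symm)
  have t2 : ∑ g : G, (nfix X g : ℤ) ^ 2 = 2 * Nat.card G := by
    have e : ∀ g : G, (nfix X g : ℤ) ^ 2 = (nfix X g : ℤ) * (nfix X g - 1) + nfix X g := fun g => by ring
    rw [Finset.sum_congr rfl (fun g _ => e g), Finset.sum_add_distrib, s1, s2]; ring
  have t3 : ∑ g : G, (nfix X g : ℤ) ^ 3 = 5 * Nat.card G := by
    have e : ∀ g : G, (nfix X g : ℤ) ^ 3 = (nfix X g : ℤ) * (nfix X g - 1) * (nfix X g - 2) + 3 * (nfix X g : ℤ) ^ 2 -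
      2 * nfix X g := fun g => by ring
    rw [Finset.sum_congr rfl (fun g _ => e g), Finset.sum_sub_distrib, Finset.sum_add_distrib, ← Finset.mul_sum,
      ← Finset.mul_sum, s1, s3, t2]; ring
  have t4 : ∑ g : G, (nfix X g : ℤ) ^ 4 = T4 G X + 14 * Nat.card G := by
    have e : ∀ g : G, (nfix X g : ℤ) ^ 4 = (nfix X g : ℤ) * (nfix X g - 1) * (nfix X g - 2) * (nfix X g - 3) +
      6 * (nfix X g : ℤ) ^ 3 - 11 * (nfix X g : ℤ) ^ 2 + 6 * nfix X g := fun g => by ring
    rw [Finset.sum_congr rfl (fun g _ => e g), Finset.sum_add_distrib, Finset.sum_sub_distrib, Finset.sum_add_distrib,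
      ← Finset.mul_sum, ← Finset.mul_sum, ← Finset.mul_sum, s1, t2, t3, T4]; ring
  refine ⟨?_, ?_, ?_, ?_⟩
  · exact_mod_cast s1
  · exact_mod_cast t2
  · exact_mod_cast t3
  · exact_mod_cast t4

end

end Cfsg.Agent.H37.PD
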