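import Mathlib
import Cfsg.Agent.H37.PDC
import Cfsg.Agent.Char.BrauerInduction

/-!
# The characters `λ` of degree `p - 2`
-/

set_option autoImplicit false
set_option linter.unusedSectionVars false
set_option linter.unusedVariables false

namespace Cfsg.Agent.H37.PD

open Cfsg Cfsg.Agent.Char Cfsg.Agent.CharBase MulAction Cfsg.Agent.Zass
open scoped ComplexConjugate BigOperators

universe u v

section

variable {G : Type u} {X : Type v} [Group G] [MulAction G X] [Fintype G] [Finite X]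
  {p : ℕ} {P : Subgroup G} {t : G} [Fintype P]

theorem PDat.lin (h : PDat G X p P t) (φ : IrrCharacter P) : (φ : P → ℂ) 1 = 1 :=
  H75.irr_one_of_comm (fun a b => h.comm a b) φ

theorem PDat.phi_mul (h : PDat G X p P t) (φ : IrrCharacter P) (a b : P) :
    (φ : P → ℂ) (a * b) = (φ : P → ℂ) a * (φ : P → ℂ) b := linChar_mul (irr_isCharacter φ) (h.lin φ) a b

theorem PDat.phi_inv (h : PDat G X p P t) (φ : IrrCharacter P) (a : P) :
    (φ : P → ℂ) a * (φ : P → ℂ) a⁻¹ = 1 := by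
  rw [← h.phi_mul, mul_inv_cancel, h.lin]

theorem PDat.phi_conj (h : PDat G X p P t) (φ : IrrCharacter P) (a : P) :
    conj ((φ : P → ℂ) a) = (φ : P → ℂ) a⁻¹ := linChar_conj (irr_isCharacter φ) (h.lin φ) a

theorem PDat.exists_ne (h : PDat G X p P t) {φ : IrrCharacter P} (hφ : φ ≠ oneIrr P) : ∃ x : P, (φ : P → ℂ) x ≠ 1 := by
  by_contra hcon
  push Not at hcon
  apply hφ
  apply Subtype.ext
  funext x
  exact hcon x

theorem PDat.pow_ne (h : PDat G X p P t) (φ : IrrCharacter P) {x : P} (hx : (φ : P → ℂ) x ≠ 1) {k : ℕ} (hk : ¬ p ∣ k) :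
    (φ : P → ℂ) x ^ k ≠ 1 := by
  intro h1
  apply hx
  have h2 := linChar_pow_card (irr_isCharacter φ) (h.lin φ) x
  rw [h.cP] at h2
  have h3 : orderOf ((φ : P → ℂ) x) ∣ Nat.gcd p k :=
    Nat.dvd_gcd (orderOf_dvd_of_pow_eq_one h2) (orderOf_dvd_of_pow_eq_one h1)
  rw [(Nat.Prime.coprime_iff_not_dvd h.hp).2 hk, Nat.dvd_one] at h3
  exact orderOf_eq_one_iff.1 h3

theorem PDat.pow_sum (h : PDat G X p P t) {φ : IrrCharacter P} (hφ : φ ≠ oneIrr P) {k : ℕ} (hk : ¬ p ∣ k) :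
    ∑ u : P, (φ : P → ℂ) u ^ k = 0 ∧ ∑ u : P, (φ : P → ℂ) u⁻¹ ^ k = 0 := by
  obtain ⟨x, hx⟩ := h.exists_ne hφ
  have h1 := h.pow_ne φ hx hk
  have h2 : ∑ u : P, (φ : P → ℂ) u ^ k = 0 := by
    have h3 : ∑ u : P, (φ : P → ℂ) (x * u) ^ k = ∑ u : P, (φ : P → ℂ) u ^ k :=
      Equiv.sum_comp (Equiv.mulLeft x) (fun u : P => (φ : P → ℂ) u ^ k)
    have h4 : ∑ u : P, (φ : P → ℂ) (x * u) ^ k = (φ : P → ℂ) x ^ k * ∑ u : P, (φ : P → ℂ) u ^ k := by
      rw [Finset.mul_sum]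
      exact Finset.sum_congr rfl (fun u _ => by rw [h.phi_mul, mul_pow])
    rw [h4] at h3
    have h5 : ((φ : P → ℂ) x ^ k - 1) * ∑ u : P, (φ : P → ℂ) u ^ k = 0 := by linear_combination h3
    rcases mul_eq_zero.1 h5 with h6 | h6
    · exact absurd (sub_eq_zero.1 h6) h1
    · exact h6
  refine ⟨h2, ?_⟩
  rw [← h2]
  exact Equiv.sum_comp (Equiv.inv P) (fun u : P => (φ : P → ℂ) u ^ k)

theorem PDat.card_P (h : PDat G X p P t) : ∑ _u : P, (1 : ℂ) = p := by
  rw [Finset.sum_const, Finset.card_univ, ← Nat.card_eq_fintype_card, h.cP, nsmul_eq_mul, mul_one]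

theorem PDat.two_sum (h : PDat G X p P t) {φ : IrrCharacter P} (hφ : φ ≠ oneIrr P) :
    ∑ u : P, ((φ : P → ℂ) u + (φ : P → ℂ) u⁻¹) ^ 2 = 2 * p := by
  have hp := h.hp5
  have h1 := h.pow_sum hφ (k := 2) (fun hd => by have := Nat.le_of_dvd (by norm_num) hd; omega)
  have h2 : ∀ u : P, ((φ : P → ℂ) u + (φ : P → ℂ) u⁻¹) ^ 2 =
      (φ : P → ℂ) u ^ 2 + (φ : P → ℂ) u⁻¹ ^ 2 + 2 * 1 := by
    intro u
    linear_combination 2 * h.phi_inv φ u
  rw [Finset.sum_congr rfl (fun u _ => h2 u), Finset.sum_add_distrib, Finset.sum_add_distrib, h1.1, h1.2,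
    ← Finset.mul_sum, h.card_P]
  ring

theorem PDat.four_sum (h : PDat G X p P t) {φ : IrrCharacter P} (hφ : φ ≠ oneIrr P) :
    ∑ u : P, ((φ : P → ℂ) u + (φ : P → ℂ) u⁻¹) ^ 4 = 6 * p := by
  have hp := h.hp5
  have h1 := h.pow_sum hφ (k := 2) (fun hd => by have := Nat.le_of_dvd (by norm_num) hd; omega)
  have h3 := h.pow_sum hφ (k := 4) (fun hd => by have := Nat.le_of_dvd (by norm_num) hd; omega)
  have h2 : ∀ u : P, ((φ : P → ℂ) u + (φ : P → ℂ) u⁻¹) ^ 4 =
      (φ : P → ℂ) u ^ 4 + (φ : P → ℂ) u⁻¹ ^ 4 + 4 * (φ : P → ℂ) u ^ 2 + 4 * (φ : P → ℂ) u⁻¹ ^ 2 + 6 * 1 := by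
    intro u
    have hi := h.phi_inv φ u
    set x := (φ : P → ℂ) u
    set y := (φ : P → ℂ) u⁻¹
    linear_combination (4 * x ^ 2 + 4 * y ^ 2 + 6 * (x * y) + 6) * hi
  rw [Finset.sum_congr rfl (fun u _ => h2 u), Finset.sum_add_distrib, Finset.sum_add_distrib, Finset.sum_add_distrib,
    Finset.sum_add_distrib, ← Finset.mul_sum, ← Finset.mul_sum, ← Finset.mul_sum, h1.1, h1.2, h3.1, h3.2, h.card_P]
  ring

/-- the characters `λ` -/
noncomputable def lam (X : Type v) [MulAction G X] (P : Subgroup G) [Fintype P] (φ : P → ℂ) : G → ℂ :=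
  fun g => indFun P (fun u => 1 - φ u) g + nfix X g - 2

theorem PDat.lam_off (h : PDat G X p P t) (φ : IrrCharacter P) {g : G} (hg : orderOf g ≠ p) :
    lam X P φ g = nfix X g - 2 := by
  rw [lam, h.ind_zero _ (by rw [h.lin, sub_self]) hg, zero_add]

theorem PDat.lam_on (h : PDat G X p P t) (φ : IrrCharacter P) {u : P} (hu : u ≠ 1) :
    lam X P φ (u : G) = - ((φ : P → ℂ) u + (φ : P → ℂ) u⁻¹) := by
  have hu1 : (u : G) ≠ 1 := fun h1 => hu (Subtype.ext h1)
  rw [lam, h.ind_val _ u.2 hu1, h.free u u.2 hu1]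
  have e1 : (⟨(u : G), u.2⟩ : P) = u := rfl
  have e2 : (⟨(u : G)⁻¹, P.inv_mem u.2⟩ : P) = u⁻¹ := rfl
  rw [e1, e2]
  push_cast
  ring

theorem lam_class (φ : P → ℂ) : IsClassFunction G (lam X P φ) := by
  intro g k
  rw [lam, lam, indFun_isClassFunction P _ g k, nfix_conj]

theorem PDat.lam_one (h : PDat G X p P t) (φ : IrrCharacter P) : lam X P φ (1 : G) = p - 2 := by
  rw [h.lam_off φ (by rw [orderOf_one]; exact h.hp.one_lt.ne), nfix_one, h.cX]

theorem PDat.lam_real (h : PDat G X p P t) (φ : IrrCharacter P) (g : G) :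
    conj (lam X P φ g) = lam X P φ g := by
  by_cases hg : orderOf g = p
  · obtain ⟨k, hk⟩ := h.cj g hg
    have hk1 : (⟨k * g * k⁻¹, hk⟩ : P) ≠ 1 := by
      intro h3
      have : g = 1 := conj_eq_one_iff.1 (congrArg Subtype.val h3)
      rw [this, orderOf_one] at hg
      exact h.hp.one_lt.ne hg
    rw [← lam_class (X := X) (P := P) (φ : P → ℂ) g k]
    have h4 := h.lam_on φ hk1
    change lam X P φ (k * g * k⁻¹) = _ at h4
    rw [h4, map_neg, map_add, h.phi_conj, h.phi_conj, inv_inv, add_comm]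
  · rw [h.lam_off φ hg, map_sub, Complex.conj_natCast, show (2 : ℂ) = ((2 : ℕ) : ℂ) by norm_num, Complex.conj_natCast]

theorem PDat.lam_gen (h : PDat G X p P t) (φ : IrrCharacter P) : IsGeneralizedCharacter G (lam X P φ) := by
  have h1 : lam X P φ = indFun P (fun u => 1 - (φ : P → ℂ) u) + ((fun g : G => (nfix X g : ℂ)) -
      (2 : ℤ) • (fun _ : G => (1 : ℂ))) := by
    funext g
    simp only [lam, Pi.add_apply, Pi.sub_apply, Pi.smul_apply]
    simp
    ring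
  rw [h1]
  apply Coh.isGen_add
  · apply BI.isGeneralizedCharacter_indFun
    have : (fun u : P => 1 - (φ : P → ℂ) u) = (fun _ : P => (1 : ℂ)) - (φ : P → ℂ) := rfl
    rw [this]
    exact Coh.isGen_sub (Coh.isGen_of_isIrr CharBase.isIrrCharacter_one) (Coh.isGen_of_isIrr φ.2)
  · apply Coh.isGen_sub
    · exact Coh.isGen_of_isCharacter Cfsg.Agent.Char.Reg.isCharacter_fixedBy
    · exact Coh.isGen_zsmul (Coh.isGen_of_isIrr CharBase.isIrrCharacter_one) 2

/-- evaluation -/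
theorem PDat.eval' (h : PDat G X p P t) (A : G → ℂ) (hA : IsClassFunction G A) (B : ℂ → ℂ)
    (hAB : ∀ g : G, orderOf g ≠ p → A g = B (nfix X g)) (C : P → ℂ) (hC : ∀ u : P, u ≠ 1 → A u = C u) :
    2 * ∑ g : G, A g = 2 * ∑ g : G, B (nfix X g) + (Nat.card G : ℂ) / p * (∑ u : P, C u - C 1 - (p - 1) * B 0) := by
  classical
  have h1 := h.eval A hA B hAB
  have h2 : ∑ u : P, (A u - B 0) - (A 1 - B 0) = ∑ u : P, C u - C 1 - (p - 1) * B 0 := by
    have h3 : ∀ u : P, A u - B 0 = C u + (if u = 1 then A 1 - C 1 else 0) - B 0 * 1 := by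
      intro u
      by_cases hu : u = 1
      · rw [if_pos hu, hu, Subgroup.coe_one]; ring
      · rw [if_neg hu, hC u hu]; ring
    rw [Finset.sum_congr rfl (fun u _ => h3 u), Finset.sum_sub_distrib, Finset.sum_add_distrib, ← Finset.mul_sum,
      h.card_P, Finset.sum_ite_eq' Finset.univ (1 : P), if_pos (Finset.mem_univ _)]
    ring
  rw [h1, h2]

theorem PDat.norm_one (h : PDat G X p P t) {φ : IrrCharacter P} (hφ : φ ≠ oneIrr P) :
    classInner (lam X P φ) (lam X P φ) = 1 := by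
  obtain ⟨m1, m2, m3, m4⟩ := h.moments
  have h1 := h.eval' (fun g => lam X P φ g ^ 2) (fun g k => by
    change lam X P φ (k * g * k⁻¹) ^ 2 = lam X P φ g ^ 2
    rw [lam_class (φ : P → ℂ) g k]) (fun x => (x - 2) ^ 2) (fun g hg => by
      change lam X P φ g ^ 2 = _
      rw [h.lam_off φ hg]) (fun u => ((φ : P → ℂ) u + (φ : P → ℂ) u⁻¹) ^ 2) (fun u hu => by
      change lam X P φ (u : G) ^ 2 = _
      rw [h.lam_on φ hu]; ring)
  rw [h.two_sum hφ, inv_one, h.lin φ] at h1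
  have h2 : ∑ g : G, ((nfix X g : ℂ) - 2) ^ 2 = (2 : ℂ) * Nat.card G := by
    have e : ∀ g : G, ((nfix X g : ℂ) - 2) ^ 2 = (nfix X g : ℂ) ^ 2 - 4 * nfix X g + 4 * 1 := fun g => by ring
    rw [Finset.sum_congr rfl (fun g _ => e g), Finset.sum_add_distrib, Finset.sum_sub_distrib, ← Finset.mul_sum,
      ← Finset.mul_sum, m1, m2, Finset.sum_const, Finset.card_univ, ← Nat.card_eq_fintype_card, nsmul_eq_mul]
    ring
  rw [h2] at h1
  have hp0 : (p : ℂ) ≠ 0 := Nat.cast_ne_zero.2 h.hp.pos.ne'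
  have hG0 : (Nat.card G : ℂ) ≠ 0 := Nat.cast_ne_zero.2 Nat.card_pos.ne'
  rw [classInner]
  have h3 : ∑ g : G, lam X P φ g * conj (lam X P φ g) = ∑ g : G, lam X P φ g ^ 2 :=
    Finset.sum_congr rfl (fun g _ => by rw [h.lam_real, sq])
  rw [h3]
  field_simp at h1
  have h4 : (2 * p : ℂ) * ∑ g : G, lam X P φ g ^ 2 = (2 * p : ℂ) * Nat.card G := by linear_combination h1
  have h5 := mul_left_cancel₀ (mul_ne_zero two_ne_zero hp0) h4
  rw [h5, inv_mul_cancel₀ hG0]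

theorem PDat.lam_irr (h : PDat G X p P t) {φ : IrrCharacter P} (hφ : φ ≠ oneIrr P) :
    IsIrrCharacter G (lam X P φ) := by
  rcases Coh.irr_or_neg_of_norm_one (h.lam_gen φ) (h.norm_one hφ) with h1 | h1
  · exact h1
  · exfalso
    obtain ⟨m, hm, hm1⟩ := Coh.irr_degree h1
    rw [Pi.neg_apply, h.lam_one] at hm1
    have h2 : ((m + p : ℕ) : ℂ) = ((2 : ℕ) : ℂ) := by push_cast; rw [← hm1]; ring
    have h3 : m + p = 2 := by exact_mod_cast h2
    have := h.hp5
    omega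

open Classical in
/-- sum over the nontrivial characters -/
theorem PDat.sum_phi (h : PDat G X p P t) [Fintype (IrrCharacter P)] (u : P) :
    ∑ φ ∈ Finset.univ.erase (oneIrr P), (φ : P → ℂ) u = (if u = 1 then (p : ℂ) else 0) - 1 := by
  have h1 : ∑ φ : IrrCharacter P, (φ : P → ℂ) u = if u = 1 then (p : ℂ) else 0 := by
    by_cases hu : u = 1
    · rw [if_pos hu, hu]
      have h2 := sum_sq_degree (G := P)
      rw [h.cP] at h2
      rw [← h2]
      exact Finset.sum_congr rfl (fun φ _ => by rw [h.lin, one_pow])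
    · rw [if_neg hu]
      have h2 := column_orthogonality_of_not_isConj (G := P) (g := u) (h := 1) (fun hc => hu (isConj_one_right.1 hc.symm))
      rw [← h2]
      exact Finset.sum_congr rfl (fun φ _ => by rw [h.lin, map_one, mul_one])
  rw [← Finset.add_sum_erase _ _ (Finset.mem_univ (oneIrr P))] at h1
  have h3 : ((oneIrr P : IrrCharacter P) : P → ℂ) u = 1 := rfl
  rw [h3] at h1
  linear_combination h1

end

end Cfsg.Agent.H37.PD
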