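import Mathlib
import Cfsg.Agent.H37.PDD
import Cfsg.Agent.H75.Tools

/-!
# Groups of prime degree `p` with Sylow normaliser of order `2p`: involutions and the fourth moment
-/

set_option autoImplicit false
set_option linter.unusedSectionVars false
set_option linter.unusedVariables false

namespace Cfsg.Agent.H37.PD

open Cfsg Cfsg.Agent.Char Cfsg.Agent.CharBase Cfsg.Agent.H75 MulAction Cfsg.Agent.Zass
open scoped ComplexConjugate BigOperators

universe u v

section

variable {G : Type u} {X : Type v} [Group G] [MulAction G X] [Fintype G] [Finite X]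
  {p : ℕ} {P : Subgroup G} {t : G} [Fintype P]

theorem PDat.exists_phi (h : PDat G X p P t) : ∃ φ : IrrCharacter P, φ ≠ oneIrr P := by
  classical
  have : Fintype (IrrCharacter P) := Fintype.ofFinite _
  by_contra hcon
  push Not at hcon
  have h1 := h.sum_phi 1
  rw [if_pos rfl, Finset.sum_eq_zero] at h1
  · have h2 : ((p : ℕ) : ℂ) = ((1 : ℕ) : ℂ) := by push_cast; linear_combination -h1
    have h3 : p = 1 := by exact_mod_cast h2
    have := h.hp5
    omega
  · intro φ hφ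
    exact absurd (hcon φ) (Finset.ne_of_mem_erase hφ)

theorem PDat.chi_irr (h : PDat G X p P t) : IsIrrCharacter G (fun g : G => (nfix X g : ℂ) - 1) := by
  obtain ⟨m1, m2, m3, m4⟩ := h.moments
  have hgen : IsGeneralizedCharacter G (fun g : G => (nfix X g : ℂ) - 1) := by
    have : (fun g : G => (nfix X g : ℂ) - 1) = (fun g : G => (nfix X g : ℂ)) - (fun _ : G => (1 : ℂ)) := rfl
    rw [this]
    exact Coh.isGen_sub (Coh.isGen_of_isCharacter Cfsg.Agent.Char.Reg.isCharacter_fixedBy)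
      (Coh.isGen_of_isIrr CharBase.isIrrCharacter_one)
  have hG0 : (Nat.card G : ℂ) ≠ 0 := Nat.cast_ne_zero.2 Nat.card_pos.ne'
  have hn : classInner (fun g : G => (nfix X g : ℂ) - 1) (fun g : G => (nfix X g : ℂ) - 1) = 1 := by
    rw [classInner]
    have e : ∀ g : G, ((nfix X g : ℂ) - 1) * conj ((nfix X g : ℂ) - 1) = (nfix X g : ℂ) ^ 2 - 2 * nfix X g + 1 := by
      intro g
      rw [map_sub, Complex.conj_natCast, map_one]; ring
    rw [Finset.sum_congr rfl (fun g _ => e g), Finset.sum_add_distrib, Finset.sum_sub_distrib, ← Finset.mul_sum,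
      m1, m2, Finset.sum_const, Finset.card_univ, ← Nat.card_eq_fintype_card, nsmul_eq_mul, sub_self, zero_add, mul_one,
      inv_mul_cancel₀ hG0]
  rcases Coh.irr_or_neg_of_norm_one hgen hn with h1 | h1
  · exact h1
  · exfalso
    obtain ⟨m, hm, hm1⟩ := Coh.irr_degree h1
    rw [Pi.neg_apply, nfix_one, h.cX] at hm1
    have h2 : ((m + p : ℕ) : ℂ) = ((1 : ℕ) : ℂ) := by push_cast; rw [← hm1]; ring
    have h3 : m + p = 1 := by exact_mod_cast h2
    have := h.hp5
    omega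

theorem sum_sum_conj {χ : G → ℂ} (hχ : IsIrrCharacter G χ) (s : G) :
    ∑ x : G, ∑ y : G, χ ((x * s * x⁻¹) * (y * s * y⁻¹)) = (Nat.card G : ℂ) ^ 2 * χ s ^ 2 / χ 1 := by
  have hcf := isClassFunction_of_isCharacter (isCharacter_of_isIrr hχ)
  have h1 : ∀ x : G, ∑ y : G, χ ((x * s * x⁻¹) * (y * s * y⁻¹)) = (Nat.card G : ℂ) * χ s * χ s / χ 1 := by
    intro x
    rw [sum_conj_mul hχ (x * s * x⁻¹) s, hcf s x]
  rw [Finset.sum_congr rfl (fun x _ => h1 x), Finset.sum_const, Finset.card_univ, ← Nat.card_eq_fintype_card,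
    nsmul_eq_mul]
  ring

/-- every involution has exactly one fixed point -/
theorem PDat.inv_fix (h : PDat G X p P t) {s : G} (hs : s * s = 1) (hs1 : s ≠ 1) (hf : nfix X s ≠ p) :
    nfix X s = 1 := by
  classical
  obtain ⟨φ, hφ⟩ := h.exists_phi
  have hL := h.lam_irr hφ
  have hχ := h.chi_irr
  have hp5 := h.hp5
  have hso : orderOf s ≠ p := by
    have h1 : orderOf s ∣ 2 := orderOf_dvd_of_pow_eq_one (by rw [sq, hs])
    have := Nat.le_of_dvd (by norm_num) h1
    omega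
  have e1 := sum_sum_conj hL s
  have e2 := sum_sum_conj hχ s
  have e3 := sum_sum_conj (CharBase.isIrrCharacter_one (G := G)) s
  rw [h.lam_off φ hso, h.lam_one] at e1
  rw [nfix_one, h.cX] at e2
  have hD : ∑ x : G, ∑ y : G, indFun P (fun u => 1 - (φ : P → ℂ) u) ((x * s * x⁻¹) * (y * s * y⁻¹)) ≠ 0 := by
    have e4 : ∀ g : G, indFun P (fun u => 1 - (φ : P → ℂ) u) g = lam X P φ g + (fun _ : G => (1 : ℂ)) g -
        ((nfix X g : ℂ) - 1) := by
      intro g
      rw [lam]; ring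
    have e6 : ∑ x : G, ∑ y : G, indFun P (fun u => 1 - (φ : P → ℂ) u) ((x * s * x⁻¹) * (y * s * y⁻¹)) =
        ∑ x : G, ∑ y : G, lam X P φ ((x * s * x⁻¹) * (y * s * y⁻¹)) +
          ∑ x : G, ∑ y : G, (fun _ : G => (1 : ℂ)) ((x * s * x⁻¹) * (y * s * y⁻¹)) -
          ∑ x : G, ∑ y : G, ((nfix X ((x * s * x⁻¹) * (y * s * y⁻¹)) : ℂ) - 1) := by
      rw [← Finset.sum_add_distrib, ← Finset.sum_sub_distrib]
      apply Finset.sum_congr rfl
      intro x _
      rw [← Finset.sum_add_distrib, ← Finset.sum_sub_distrib]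
      exact Finset.sum_congr rfl (fun y _ => e4 _)
    rw [e6, e1, e3, e2]
    have hp1 : (p : ℂ) - 1 ≠ 0 := by
      intro h5
      have h6 : ((p : ℕ) : ℂ) = ((1 : ℕ) : ℂ) := by push_cast; linear_combination h5
      have h7 : p = 1 := by exact_mod_cast h6
      omega
    have hp2 : (p : ℂ) - 2 ≠ 0 := by
      intro h5
      have h6 : ((p : ℕ) : ℂ) = ((2 : ℕ) : ℂ) := by push_cast; linear_combination h5
      have h7 : p = 2 := by exact_mod_cast h6
      omega
    have hG0 : (Nat.card G : ℂ) ≠ 0 := Nat.cast_ne_zero.2 Nat.card_pos.ne'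
    have hpf : (p : ℂ) - nfix X s ≠ 0 := by
      intro h5
      apply hf
      have h6 : ((nfix X s : ℕ) : ℂ) = ((p : ℕ) : ℂ) := by linear_combination -h5
      exact_mod_cast h6
    have e5 : (Nat.card G : ℂ) ^ 2 * ((nfix X s : ℂ) - 2) ^ 2 / ((p : ℂ) - 2) + (Nat.card G : ℂ) ^ 2 * (1 : ℂ) ^ 2 / 1 -
        (Nat.card G : ℂ) ^ 2 * ((nfix X s : ℂ) - 1) ^ 2 / ((p : ℂ) - 1) =
        (Nat.card G : ℂ) ^ 2 * ((p : ℂ) - nfix X s) ^ 2 / (((p : ℂ) - 1) * ((p : ℂ) - 2)) := by
      field_simp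
      ring
    rw [e5]
    exact div_ne_zero (mul_ne_zero (pow_ne_zero 2 hG0) (pow_ne_zero 2 hpf)) (mul_ne_zero hp1 hp2)
  obtain ⟨x, -, hx⟩ := Finset.exists_ne_zero_of_sum_ne_zero hD
  obtain ⟨y, -, hxy⟩ := Finset.exists_ne_zero_of_sum_ne_zero hx
  set s' := x * s * x⁻¹ with hs'
  set s'' := y * s * y⁻¹ with hs''
  have hz : orderOf (s' * s'') = p := by
    by_contra h1
    exact hxy (h.ind_zero _ (by rw [h.lin, sub_self]) h1)
  have hs'2 : s' * s' = 1 := by
    calc s' * s' = x * (s * s) * x⁻¹ := by rw [hs']; group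
      _ = 1 := by rw [hs]; group
  have hs''2 : s'' * s'' = 1 := by
    calc s'' * s'' = y * (s * s) * y⁻¹ := by rw [hs'']; group
      _ = 1 := by rw [hs]; group
  have hs'i : s'⁻¹ = s' := inv_eq_of_mul_eq_one_left hs'2
  have hs''i : s''⁻¹ = s'' := inv_eq_of_mul_eq_one_left hs''2
  obtain ⟨k, hk⟩ := h.cj _ hz
  set u := k * (s' * s'') * k⁻¹ with hu
  set w := k * s' * k⁻¹ with hw
  have hu1 : u ≠ 1 := by
    intro h1
    have : s' * s'' = 1 := conj_eq_one_iff.1 h1
    rw [this, orderOf_one] at hz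
    omega
  have hwi : w⁻¹ = w := by rw [hw, mul_inv_rev, mul_inv_rev, inv_inv, hs'i]; group
  have hwu : w⁻¹ * u * w = u⁻¹ := by
    rw [hwi, hw, hu]
    calc k * s' * k⁻¹ * (k * (s' * s'') * k⁻¹) * (k * s' * k⁻¹) = k * ((s' * s') * s'' * s') * k⁻¹ := by group
      _ = k * (s'' * s') * k⁻¹ := by rw [hs'2, one_mul]
      _ = (k * (s' * s'') * k⁻¹)⁻¹ := by
        rw [mul_inv_rev, mul_inv_rev, inv_inv, mul_inv_rev, hs'i, hs''i]; group
  have hnf : nfix X w = nfix X s := by rw [hw, nfix_conj, hs', nfix_conj]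
  rw [← hnf]
  rcases h.norm w u hk hu1 (by rw [hwu]; exact P.inv_mem hk) with h1 | h1
  · exfalso
    have h2 := congrArg (fun z : P => (z : G)) (h.comm ⟨w, h1⟩ ⟨u, hk⟩)
    change w * u = u * w at h2
    have h3 : w⁻¹ * u * w = u := by rw [mul_assoc, ← h2, inv_mul_cancel_left]
    rw [hwu] at h3
    have h4 : u ^ 2 = 1 := by
      rw [sq]
      nth_rewrite 1 [← h3]
      exact inv_mul_cancel u
    have h5 := orderOf_dvd_of_pow_eq_one h4
    rw [h.ord hk hu1] at h5
    have := Nat.le_of_dvd (by norm_num) h5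
    omega
  · set v := w * t with hv
    have hti : t⁻¹ = t := inv_eq_of_mul_eq_one_left h.t2
    have hwv : w = v * t := by rw [hv, mul_assoc, h.t2, mul_one]
    obtain ⟨m, hm⟩ : ∃ m, p = 2 * m + 1 := by
      rcases h.hp.eq_two_or_odd' with h2 | h2
      · omega
      · exact h2
    set r := v ^ (m + 1) with hr
    have hrP : r ∈ P := P.pow_mem h1 _
    have hvp : v ^ p = 1 := by
      have := pow_card_eq_one' (x := (⟨v, h1⟩ : P))
      rw [h.cP] at this
      exact congrArg Subtype.val this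
    have hrr : r * r = v := by
      rw [hr, ← pow_add]
      have : m + 1 + (m + 1) = p + 1 := by omega
      rw [this, pow_succ, hvp, one_mul]
    have h2 := h.tinv r⁻¹ (P.inv_mem hrP)
    rw [inv_inv] at h2
    have h3 : r * t * r⁻¹ = w := by
      rw [hwv, ← hrr]
      calc r * t * r⁻¹ = r * (t * r⁻¹ * t⁻¹) * t := by group
        _ = r * r * t := by rw [h2]
    rw [← h3, nfix_conj]
    exact h.tfix

theorem PDat.val_eq (h : PDat G X p P t) {φ ψ : IrrCharacter P} {x : P} (hx : x ≠ 1)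
    (hxy : (φ : P → ℂ) x = (ψ : P → ℂ) x) : φ = ψ := by
  classical
  have hf : Fact p.Prime := ⟨h.hp⟩
  apply Subtype.ext
  funext y
  have h1 := h.ord x.2 (fun h2 => hx (Subtype.ext h2))
  have h2 : y ∈ Subgroup.zpowers x := by
    have h3 : Subgroup.zpowers x = ⊤ := by
      apply Subgroup.eq_top_of_card_eq
      rw [Nat.card_zpowers, ← Subgroup.orderOf_coe, h1, h.cP]
    rw [h3]; trivial
  rw [mem_zpowers_iff_mem_range_orderOf] at h2
  obtain ⟨n, -, rfl⟩ := Finset.mem_image.1 h2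
  rw [linChar_pow (irr_isCharacter φ) (h.lin φ), linChar_pow (irr_isCharacter ψ) (h.lin ψ), hxy]

/-- The lower bound for the fourth moment. -/
theorem PDat.lower (h : PDat G X p P t) : ((Nat.card X : ℤ) - 1) * Nat.card G ≤ 2 * T4 G X := by
  classical
  have : Fintype (IrrCharacter P) := Fintype.ofFinite _
  have : Fintype (IrrCharacter G) := Fintype.ofFinite _
  have hp5 := h.hp5
  obtain ⟨m1, m2, m3, m4⟩ := h.moments
  obtain ⟨ψ, hψ⟩ := h.exists_phi
  have hG0 : (Nat.card G : ℂ) ≠ 0 := Nat.cast_ne_zero.2 Nat.card_pos.ne'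
  have hp0 : (p : ℂ) ≠ 0 := Nat.cast_ne_zero.2 h.hp.pos.ne'
  have hL := h.lam_irr hψ
  let sqc : G → ℂ := lam X P ψ * lam X P ψ
  have hsq : IsCharacter G sqc := isCharacter_mul (isCharacter_of_isIrr hL) (isCharacter_of_isIrr hL)
  obtain ⟨m, hm1, hm2⟩ := exists_mult_of_isCharacter hsq
  have hsqv : ∀ g : G, sqc g = lam X P ψ g ^ 2 := fun g => (sq _).symm
  have hsqr : ∀ g : G, conj (sqc g) = sqc g := by
    intro g
    rw [hsqv, map_pow, h.lam_real]
  -- multiplicity of the principal character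
  have k1 : m (oneIrr G) = 1 := by
    have e1 := hm1 (oneIrr G)
    have e2 : classInner sqc ((oneIrr G : IrrCharacter G) : G → ℂ) = classInner (lam X P ψ) (lam X P ψ) := by
      rw [classInner, classInner]
      congr 1
      apply Finset.sum_congr rfl
      intro g _
      have : ((oneIrr G : IrrCharacter G) : G → ℂ) g = 1 := rfl
      rw [this, map_one, mul_one, h.lam_real, hsqv, sq]
    rw [e2, h.norm_one hψ] at e1
    exact_mod_cast e1.symm
  -- degrees
  have k2 : ∑ χ : IrrCharacter G, m χ * deg χ = (p - 2) ^ 2 := by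
    have e1 := congrFun hm2 1
    rw [hsqv, h.lam_one, Finset.sum_apply] at e1
    have e2 : ((∑ χ : IrrCharacter G, m χ * deg χ : ℕ) : ℂ) = (((p - 2) ^ 2 : ℕ) : ℂ) := by
      rw [Nat.cast_pow, Nat.cast_sub (by omega)]
      push_cast
      rw [e1]
      apply Finset.sum_congr rfl
      intro χ _
      rw [Pi.smul_apply, nsmul_eq_mul, deg_spec]
    exact_mod_cast e2
  -- norm
  have k3 : (∑ χ : IrrCharacter G, (m χ : ℤ) ^ 2) * Nat.card G = T4 G X + Nat.card G := by
    have e1 := classInner_eq_sum (f' := sqc) (isClassFunction_of_isCharacter hsq)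
    have e2 : classInner sqc sqc = (Nat.card G : ℂ)⁻¹ * ∑ g : G, lam X P ψ g ^ 4 := by
      rw [classInner]
      congr 1
      apply Finset.sum_congr rfl
      intro g _
      rw [hsqr, hsqv]; ring
    have e3 := h.eval' (fun g => lam X P ψ g ^ 4) (fun g k => by
      change lam X P ψ (k * g * k⁻¹) ^ 4 = lam X P ψ g ^ 4
      rw [lam_class (ψ : P → ℂ) g k]) (fun x => (x - 2) ^ 4) (fun g hg => by
      rw [h.lam_off ψ hg]) (fun u => ((ψ : P → ℂ) u + (ψ : P → ℂ) u⁻¹) ^ 4) (fun u hu => by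
      rw [h.lam_on ψ hu]; ring)
    rw [h.four_sum hψ, inv_one, h.lin ψ] at e3
    have e4 : ∑ g : G, ((nfix X g : ℂ) - 2) ^ 4 = (T4 G X : ℂ) + 6 * Nat.card G := by
      have e : ∀ g : G, ((nfix X g : ℂ) - 2) ^ 4 = (nfix X g : ℂ) ^ 4 - 8 * (nfix X g : ℂ) ^ 3 +
        24 * (nfix X g : ℂ) ^ 2 - 32 * nfix X g + 16 * 1 := fun g => by ring
      rw [Finset.sum_congr rfl (fun g _ => e g), Finset.sum_add_distrib, Finset.sum_sub_distrib, Finset.sum_add_distrib,
        Finset.sum_sub_distrib, ← Finset.mul_sum, ← Finset.mul_sum, ← Finset.mul_sum, ← Finset.mul_sum, m1, m2, m3, m4,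
        Finset.sum_const, Finset.card_univ, ← Nat.card_eq_fintype_card, nsmul_eq_mul]
      ring
    rw [e4] at e3
    have e5 : ∑ g : G, lam X P ψ g ^ 4 = (T4 G X : ℂ) + Nat.card G := by
      field_simp at e3
      have e6 : (2 * p : ℂ) * ∑ g : G, lam X P ψ g ^ 4 = (2 * p : ℂ) * ((T4 G X : ℂ) + Nat.card G) := by
        linear_combination e3
      exact mul_left_cancel₀ (mul_ne_zero two_ne_zero hp0) e6
    rw [e2, e5] at e1
    have e6 : ∑ χ : IrrCharacter G, classInner sqc (χ : G → ℂ) * classInner (χ : G → ℂ) sqc =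
        ((∑ χ : IrrCharacter G, (m χ : ℤ) ^ 2 : ℤ) : ℂ) := by
      push_cast
      apply Finset.sum_congr rfl
      intro χ _
      rw [classInner_comm_of_isCharacter (irr_isCharacter χ) hsq, hm1 χ]; ring
    rw [e6] at e1
    have e7 : (((∑ χ : IrrCharacter G, (m χ : ℤ) ^ 2) * Nat.card G : ℤ) : ℂ) = ((T4 G X + Nat.card G : ℤ) : ℂ) := by
      push_cast at e1 ⊢
      rw [← e1]
      field_simp
    exact_mod_cast e7
  -- the characters lam
  let I0 : Finset (IrrCharacter P) := Finset.univ.erase (oneIrr P)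
  let Λ : IrrCharacter P → IrrCharacter G := fun φ => if hφ : φ ≠ oneIrr P then ⟨lam X P φ, h.lam_irr hφ⟩ else oneIrr G
  have hΛ : ∀ φ ∈ I0, (Λ φ : G → ℂ) = lam X P φ := by
    intro φ hφ
    have : φ ≠ oneIrr P := Finset.ne_of_mem_erase hφ
    simp only [Λ, dif_pos this]
  -- sum of multiplicities
  have k4 : ∑ φ ∈ I0, m (Λ φ) = p - 3 := by
    have e1 : ∑ φ ∈ I0, classInner sqc (Λ φ : G → ℂ) = (Nat.card G : ℂ)⁻¹ * ∑ g : G, sqc g * ∑ φ ∈ I0, lam X P φ g := by
      rw [Finset.mul_sum]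
      simp only [classInner]
      rw [← Finset.mul_sum, Finset.sum_comm, Finset.mul_sum]
      apply Finset.sum_congr rfl
      intro g _
      congr 1
      rw [Finset.mul_sum]
      apply Finset.sum_congr rfl
      intro φ hφ
      rw [hΛ φ hφ, h.lam_real]
    have hcard : (I0.card : ℂ) = p - 1 := by
      have e2 := h.sum_phi 1
      rw [if_pos rfl, Finset.sum_congr rfl (fun φ _ => h.lin φ), Finset.sum_const, nsmul_eq_mul, mul_one] at e2
      exact e2
    have e3 := h.eval' (fun g => sqc g * ∑ φ ∈ I0, lam X P φ g) (fun g k => by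
      change sqc (k * g * k⁻¹) * ∑ φ ∈ I0, lam X P φ (k * g * k⁻¹) = sqc g * ∑ φ ∈ I0, lam X P φ g
      rw [hsqv, hsqv, lam_class (ψ : P → ℂ) g k]
      congr 1
      apply Finset.sum_congr rfl
      intro φ _
      rw [lam_class (φ : P → ℂ) g k]) (fun x => (x - 2) ^ 2 * ((p - 1) * (x - 2))) (fun g hg => by
      change sqc g * ∑ φ ∈ I0, lam X P φ g = _
      rw [hsqv, h.lam_off ψ hg, Finset.sum_congr rfl (fun φ _ => h.lam_off φ hg), Finset.sum_const, nsmul_eq_mul, hcard])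
      (fun u => 2 * ((ψ : P → ℂ) u + (ψ : P → ℂ) u⁻¹) ^ 2) (fun u hu => by
      change sqc u * ∑ φ ∈ I0, lam X P φ (u : G) = _
      rw [hsqv, h.lam_on ψ hu, Finset.sum_congr rfl (fun φ _ => h.lam_on φ hu), Finset.sum_neg_distrib,
        Finset.sum_add_distrib]
      have e4 := h.sum_phi u
      have e5 := h.sum_phi u⁻¹
      rw [if_neg hu] at e4
      rw [if_neg (fun h6 => hu (inv_eq_one.1 h6))] at e5
      change ∑ φ ∈ I0, (φ : P → ℂ) u = _ at e4
      change ∑ φ ∈ I0, (φ : P → ℂ) u⁻¹ = _ at e5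
      rw [e4, e5]
      ring)
    rw [← Finset.mul_sum, h.two_sum hψ, inv_one, h.lin ψ] at e3
    have e4 : ∑ g : G, ((nfix X g : ℂ) - 2) ^ 2 * (((p : ℂ) - 1) * ((nfix X g : ℂ) - 2)) =
        - 3 * ((p : ℂ) - 1) * Nat.card G := by
      have e : ∀ g : G, ((nfix X g : ℂ) - 2) ^ 2 * (((p : ℂ) - 1) * ((nfix X g : ℂ) - 2)) =
        ((p : ℂ) - 1) * ((nfix X g : ℂ) ^ 3 - 6 * (nfix X g : ℂ) ^ 2 + 12 * nfix X g - 8 * 1) := fun g => by ring
      rw [Finset.sum_congr rfl (fun g _ => e g), ← Finset.mul_sum, Finset.sum_sub_distrib, Finset.sum_add_distrib,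
        Finset.sum_sub_distrib, ← Finset.mul_sum, ← Finset.mul_sum, ← Finset.mul_sum, m1, m2, m3,
        Finset.sum_const, Finset.card_univ, ← Nat.card_eq_fintype_card, nsmul_eq_mul]
      ring
    rw [e4] at e3
    have e5 : ∑ g : G, sqc g * ∑ φ ∈ I0, lam X P φ g = ((p : ℂ) - 3) * Nat.card G := by
      field_simp at e3
      have e6 : (2 * p : ℂ) * ∑ g : G, sqc g * ∑ φ ∈ I0, lam X P φ g = (2 * p : ℂ) * (((p : ℂ) - 3) * Nat.card G) := by
        linear_combination e3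
      exact mul_left_cancel₀ (mul_ne_zero two_ne_zero hp0) e6
    rw [e5] at e1
    have e6 : ((∑ φ ∈ I0, m (Λ φ) : ℕ) : ℂ) = ((p - 3 : ℕ) : ℂ) := by
      rw [Nat.cast_sub (by omega)]
      push_cast
      rw [Finset.sum_congr rfl (fun φ _ => hm1 (Λ φ))] at e1
      rw [e1]
      field_simp
    exact_mod_cast e6
  -- fibres have at most two elements
  let J : Finset (IrrCharacter G) := I0.image Λ
  obtain ⟨x0, hx0⟩ := h.exists_ne hψ
  have hx01 : x0 ≠ 1 := by
    rintro rfl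
    exact hx0 (h.lin ψ)
  have k5 : ∀ χ ∈ J, (I0.filter (fun φ => Λ φ = χ)).card ≤ 2 := by
    intro χ hχ
    obtain ⟨φ0, hφ0, rfl⟩ := Finset.mem_image.1 hχ
    have hinj : Set.InjOn (fun φ : IrrCharacter P => (φ : P → ℂ) x0) (I0.filter (fun φ => Λ φ = Λ φ0)) :=
      fun φ _ φ' _ he => h.val_eq hx01 he
    have hmap : ∀ φ ∈ I0.filter (fun φ => Λ φ = Λ φ0), (φ : P → ℂ) x0 ∈
        ({(φ0 : P → ℂ) x0, (φ0 : P → ℂ) x0⁻¹} : Finset ℂ) := by
      intro φ hφ
      obtain ⟨h1, h2⟩ := Finset.mem_filter.1 hφ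
      have h3 := congrFun (congrArg Subtype.val h2) (x0 : G)
      change (Λ φ : G → ℂ) x0 = (Λ φ0 : G → ℂ) x0 at h3
      rw [hΛ φ h1, hΛ φ0 hφ0, h.lam_on φ hx01, h.lam_on φ0 hx01] at h3
      have i1 := h.phi_inv φ x0
      have i2 := h.phi_inv φ0 x0
      set a := (φ : P → ℂ) x0
      set b := (φ0 : P → ℂ) x0
      set a' := (φ : P → ℂ) x0⁻¹
      set b' := (φ0 : P → ℂ) x0⁻¹
      have h4 : (a - b) * (a - b') = 0 := by
        linear_combination (-a) * h3 - i1 + i2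
      rw [Finset.mem_insert, Finset.mem_singleton]
      rcases mul_eq_zero.1 h4 with h5 | h5
      · left; exact sub_eq_zero.1 h5
      · right; exact sub_eq_zero.1 h5
    exact (Finset.card_le_card_of_injOn _ hmap hinj).trans Finset.card_le_two
  have k6 : p - 3 ≤ 2 * ∑ χ ∈ J, m χ := by
    rw [← k4, Finset.mul_sum, ← Finset.sum_fiberwise_of_maps_to (s := I0) (t := J) (g := Λ)
      (fun φ hφ => Finset.mem_image_of_mem _ hφ)]
    apply Finset.sum_le_sum
    intro χ hχ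
    rw [Finset.sum_congr rfl (fun φ hφ => by rw [(Finset.mem_filter.1 hφ).2]), Finset.sum_const, smul_eq_mul]
    exact Nat.mul_le_mul_right _ (k5 χ hχ)
  have hJdeg : ∀ χ ∈ J, deg χ = p - 2 := by
    intro χ hχ
    obtain ⟨φ, hφ, rfl⟩ := Finset.mem_image.1 hχ
    have h1 := deg_spec (Λ φ)
    rw [hΛ φ hφ, h.lam_one] at h1
    have h2 : ((deg (Λ φ) : ℕ) : ℂ) = ((p - 2 : ℕ) : ℂ) := by
      rw [Nat.cast_sub (by omega), ← h1]; push_cast; ring
    exact_mod_cast h2
  have hdone : deg (oneIrr G) = 1 := by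
    have h1 := deg_spec (oneIrr G)
    have h2 : ((oneIrr G : IrrCharacter G) : G → ℂ) 1 = 1 := rfl
    rw [h2] at h1
    exact_mod_cast h1.symm
  have h1J : oneIrr G ∉ J := by
    intro h1
    have := hJdeg _ h1
    omega
  let K : Finset (IrrCharacter G) := insert (oneIrr G) J
  have hsplit : ∀ f : IrrCharacter G → ℕ, ∑ χ, f χ = f (oneIrr G) + ∑ χ ∈ J, f χ + ∑ χ ∈ Kᶜ, f χ := by
    intro f
    rw [← Finset.sum_add_sum_compl K, Finset.sum_insert h1J]
  have g1 := hsplit (fun χ => m χ * deg χ)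
  have g2 := hsplit (fun χ => m χ ^ 2)
  simp only [k1, hdone] at g1 g2
  rw [k2] at g1
  have g3 : ∑ χ ∈ J, m χ * deg χ = (∑ χ ∈ J, m χ) * (p - 2) := by
    rw [Finset.sum_mul]
    exact Finset.sum_congr rfl (fun χ hχ => by rw [hJdeg χ hχ])
  have g4 : 1 ≤ ∑ χ ∈ Kᶜ, m χ ^ 2 := by
    by_contra hcon
    have h0 : ∑ χ ∈ Kᶜ, m χ ^ 2 = 0 := by omega
    have h00 : ∑ χ ∈ Kᶜ, m χ * deg χ = 0 := by
      apply Finset.sum_eq_zero
      intro χ hχ
      have h1 := (Finset.sum_eq_zero_iff_of_nonneg (fun i _ => Nat.zero_le _)).1 h0 χ hχ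
      rw [pow_eq_zero_iff (two_ne_zero)] at h1
      rw [h1, zero_mul]
    rw [g3, h00] at g1
    have h1 : p - 2 ∣ 1 := by
      have h2 : p - 2 ∣ 1 + (∑ χ ∈ J, m χ) * (p - 2) := by
        have : (p - 2) ^ 2 = 1 + (∑ χ ∈ J, m χ) * (p - 2) := by omega
        rw [← this]
        exact dvd_pow_self _ two_ne_zero
      exact (Nat.dvd_add_left (Dvd.intro_left _ rfl)).1 h2
    have := Nat.le_of_dvd one_pos h1
    omega
  have g5 : ∑ χ ∈ J, m χ ≤ ∑ χ ∈ J, m χ ^ 2 := by
    apply Finset.sum_le_sum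
    intro χ _
    exact Nat.le_self_pow two_ne_zero _
  have g6 : p + 1 ≤ 2 * ∑ χ, m χ ^ 2 := by omega
  have hG : (0 : ℤ) < Nat.card G := by exact_mod_cast Nat.card_pos
  have g7 : ((p : ℤ) + 1) ≤ 2 * ∑ χ : IrrCharacter G, (m χ : ℤ) ^ 2 := by exact_mod_cast g6
  rw [h.cX]
  have g8 : ((p : ℤ) + 1) * Nat.card G ≤ (2 * ∑ χ : IrrCharacter G, (m χ : ℤ) ^ 2) * Nat.card G :=
    mul_le_mul_of_nonneg_right g7 hG.le
  rw [mul_assoc, k3] at g8
  linarith

end

end Cfsg.Agent.H37.PD
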