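import Mathlib
import Cfsg.Agent.H37.PDE
import Cfsg.Agent.H12.SmallPrimeDegree
import Cfsg.Agent.H12.PrimeDegreeC
import Cfsg.Agent.H73.PGLTwo
import Cfsg.Agent.H34.Sharp3PGL

/-!
# Groups of prime degree `p` with Sylow normaliser of order `2p`
-/

set_option autoImplicit false
set_option linter.unusedSectionVars false
set_option linter.unusedVariables false

namespace Cfsg.Agent.H37.PD

open Cfsg MulAction Cfsg.Agent.Zass

theorem transitive_of_order {α : Type*} [Fintype α] [DecidableEq α] {p : ℕ} [Fact p.Prime]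
    (G : Subgroup (Equiv.Perm α)) (x : G) (e : α ≃ ZMod p) (he : ∀ a, e ((x : Equiv.Perm α) a) = e a + 1) :
    (∀ (k : ℕ) (a : α), e ((x ^ k : G) • a) = e a + k) ∧ IsPretransitive G α := by
  have h1 : ∀ (k : ℕ) (a : α), e ((x ^ k : G) • a) = e a + k := by
    intro k
    induction k with
    | zero => intro a; simp
    | succ k ih =>
      intro a
      rw [pow_succ, mul_smul, ih]
      have : e (x • a) = e a + 1 := he a
      rw [this]
      push_cast
      ring
  refine ⟨h1, ⟨fun a b => ⟨x ^ (e b - e a).val, ?_⟩⟩⟩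
  apply e.injective
  rw [h1, ZMod.natCast_val, ZMod.cast_id]
  ring

theorem pdat_of {α : Type*} [Fintype α] [DecidableEq α] {p : ℕ} [Fact p.Prime] (hα : Fintype.card α = p)
    (h5 : 5 ≤ p) (G : Subgroup (Equiv.Perm α)) [IsPretransitive G α] (h3 : IsMultiplyPretransitive G α 3)
    (P : Sylow p G) (hN : Nat.card (Subgroup.normalizer ((P : Subgroup G) : Set G)) = 2 * p) :
    ∃ t : G, PDat G α p (P : Subgroup G) t := by
  have hp : p.Prime := Fact.out
  obtain ⟨hPc, x, hx, hPx⟩ := Cfsg.Agent.H12.sylow_eq_zpowers hα G P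
  obtain ⟨e, he⟩ := Cfsg.Agent.H12.exists_coords hα x.1 (by rw [Subgroup.orderOf_coe]; exact hx)
  obtain ⟨hpow, -⟩ := transitive_of_order G x e he
  -- elements of P
  have hPel : ∀ u ∈ (P : Subgroup G), ∃ k : ℕ, u = x ^ k := by
    intro u hu
    rw [hPx] at hu
    have hfo : IsOfFinOrder x := isOfFinOrder_of_finite x
    obtain ⟨k, hk⟩ := (hfo.mem_zpowers_iff_mem_range_orderOf.1 hu |> fun h => Finset.mem_image.1 h)
    exact ⟨k, hk.2.symm⟩
  have hgen : ∀ u ∈ (P : Subgroup G), u ≠ 1 → (P : Subgroup G) = Subgroup.zpowers u := by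
    intro u hu hu1
    have h1 : Subgroup.zpowers u ≤ (P : Subgroup G) := by
      rw [Subgroup.zpowers_le]; exact hu
    refine (Subgroup.eq_of_le_of_card_ge h1 ?_).symm
    rw [hPc, Nat.card_zpowers]
    have h2 := orderOf_dvd_natCard (⟨u, hu⟩ : (P : Subgroup G))
    rw [← Subgroup.orderOf_coe, hPc] at h2
    rcases (Nat.dvd_prime hp).1 h2 with h3 | h3
    · exact absurd (orderOf_eq_one_iff.1 h3) hu1
    · exact h3.ge
  -- the involution
  have h2N : 2 ∣ Nat.card (Subgroup.normalizer ((P : Subgroup G) : Set G)) := by rw [hN]; exact Dvd.intro _ rfl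
  have h2p : Fact (Nat.Prime 2) := ⟨Nat.prime_two⟩
  obtain ⟨t0, ht0⟩ := exists_prime_orderOf_dvd_card' 2 h2N
  obtain ⟨t, htN⟩ := t0
  have hto : orderOf t = 2 := (Subgroup.orderOf_coe (⟨t, htN⟩ : Subgroup.normalizer ((P : Subgroup G) : Set G))).trans ht0
  have ht2 : t * t = 1 := by rw [← sq, ← hto]; exact pow_orderOf_eq_one t
  have ht1 : t ≠ 1 := by intro h; rw [h, orderOf_one] at hto; omega
  have htinv : t⁻¹ = t := inv_eq_of_mul_eq_one_left ht2
  have htP : t ∉ (P : Subgroup G) := by
    intro h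
    have h1 := orderOf_dvd_natCard (⟨t, h⟩ : (P : Subgroup G))
    rw [← Subgroup.orderOf_coe, hPc, show ((⟨t, h⟩ : (P : Subgroup G)) : G) = t from rfl, hto] at h1
    have := (Nat.prime_dvd_prime_iff_eq Nat.prime_two hp).1 h1
    omega
  have hxP : x ∈ (P : Subgroup G) := by rw [hPx]; exact Subgroup.mem_zpowers x
  have htx : t * x * t⁻¹ ∈ (P : Subgroup G) := (Subgroup.mem_normalizer_iff.1 htN x).1 hxP
  obtain ⟨c, hc⟩ := Cfsg.Agent.H12.exists_reflection (by omega : p ≠ 2) x.1 t.1 e he
    (fun h => ht1 (Subtype.ext h)) (by rw [← Subgroup.coe_mul, ht2, Subgroup.coe_one]) (by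
      rw [hPx] at htx
      obtain ⟨k, hk⟩ := htx
      refine ⟨k, ?_⟩
      have := congrArg (fun z : G => (z : Equiv.Perm α)) hk
      simpa using this)
  have hcs : ∀ a : α, e (t • a) = c - e a := hc
  have hxs : ∀ a : α, e (x • a) = e a + 1 := he
  have hfaith : ∀ g : G, (∀ a : α, g • a = a) → g = 1 := by
    intro g hg
    apply Subtype.ext
    apply Equiv.ext
    intro a
    exact hg a
  have htxt : t * x * t⁻¹ = x⁻¹ := by
    rw [eq_inv_iff_mul_eq_one]
    apply hfaith
    intro a
    apply e.injective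
    rw [htinv, mul_smul, mul_smul, mul_smul, hcs, hxs, hcs, hxs]
    ring
  have h2ne : (2 : ZMod p) ≠ 0 := by
    intro h
    have h1 : ((2 : ℕ) : ZMod p) = 0 := by exact_mod_cast h
    rw [ZMod.natCast_eq_zero_iff] at h1
    have := Nat.le_of_dvd (by norm_num) h1
    omega
  refine ⟨t, ?_⟩
  constructor
  · exact hp
  · exact h5
  · exact hPc
  · intro u hu hu1 g hg
    have h1 : g ∈ Subgroup.centralizer ((P : Subgroup G) : Set G) := by
      rw [Subgroup.mem_centralizer_iff]
      intro y hy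
      rw [SetLike.mem_coe, hgen u hu hu1] at hy
      obtain ⟨k, hk⟩ := hy
      have h2 : Commute g u := hg
      have h3 := h2.zpow_right k
      have h4 : u ^ k = y := hk
      rw [h4] at h3
      exact h3.eq.symm
    rwa [Cfsg.Agent.H12.centralizer_sylow_prime_degree hα G P] at h1
  · exact ht2
  · exact htP
  · intro u hu
    obtain ⟨k, rfl⟩ := hPel u hu
    rw [← conj_pow, htxt, inv_pow]
  · intro g u hu hu1 hgu
    have h1 : g⁻¹ ∈ Subgroup.normalizer ((P : Subgroup G) : Set G) := by
      have hle : (P : Subgroup G).map (MulAut.conj g⁻¹).toMonoidHom ≤ (P : Subgroup G) := by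
        conv_lhs => rw [hgen u hu hu1]
        rw [MonoidHom.map_zpowers, Subgroup.zpowers_le]
        change g⁻¹ * u * g⁻¹⁻¹ ∈ _
        rw [inv_inv]
        exact hgu
      have heq : (P : Subgroup G).map (MulAut.conj g⁻¹).toMonoidHom = (P : Subgroup G) := by
        apply Subgroup.eq_of_le_of_card_ge hle
        rw [Subgroup.card_map_of_injective (MulAut.conj g⁻¹).injective]
      rw [Subgroup.mem_normalizer_iff]
      intro y
      constructor
      · intro hy
        rw [← heq]
        exact ⟨y, hy, rfl⟩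
      · intro hy
        rw [← heq] at hy
        obtain ⟨z, hz, hzy⟩ := hy
        have : z = y := (MulAut.conj g⁻¹).injective hzy
        rw [← this]
        exact hz
    have h2 : g ∈ Subgroup.normalizer ((P : Subgroup G) : Set G) := by
      have := Subgroup.inv_mem _ h1
      rwa [inv_inv] at this
    have hle : (P : Subgroup G) ≤ Subgroup.normalizer ((P : Subgroup G) : Set G) := Subgroup.le_normalizer
    have hidx : ((P : Subgroup G).subgroupOf (Subgroup.normalizer ((P : Subgroup G) : Set G))).index = 2 := by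
      have h4 := Subgroup.card_mul_index ((P : Subgroup G).subgroupOf (Subgroup.normalizer ((P : Subgroup G) : Set G)))
      rw [Nat.card_congr (Subgroup.subgroupOfEquivOfLe hle).toEquiv, hPc, hN] at h4
      exact Nat.eq_of_mul_eq_mul_left hp.pos (by rw [h4, mul_comm])
    have h3 := Subgroup.mul_mem_iff_of_index_two hidx (a := ⟨g, h2⟩) (b := ⟨t, htN⟩)
    by_cases hg : g ∈ (P : Subgroup G)
    · exact Or.inl hg
    · right
      have h4 : (⟨g, h2⟩ * ⟨t, htN⟩ : Subgroup.normalizer ((P : Subgroup G) : Set G)) ∈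
          ((P : Subgroup G).subgroupOf (Subgroup.normalizer ((P : Subgroup G) : Set G))) := by
        rw [h3]
        constructor
        · intro h5; exact absurd (Subgroup.mem_subgroupOf.1 h5) hg
        · intro h5; exact absurd (Subgroup.mem_subgroupOf.1 h5) htP
      exact Subgroup.mem_subgroupOf.1 h4
  · intro g hg
    have h1 : IsPGroup p (Subgroup.zpowers g) := IsPGroup.of_card (n := 1) (by rw [Nat.card_zpowers, hg, pow_one])
    obtain ⟨Q, hQ⟩ := h1.exists_le_sylow
    obtain ⟨k, hk⟩ := MulAction.exists_smul_eq G Q P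
    refine ⟨k, ?_⟩
    have h2 : k * g * k⁻¹ ∈ ((k • Q : Sylow p G) : Subgroup G) := by
      rw [Sylow.coe_subgroup_smul]
      exact ⟨g, hQ (Subgroup.mem_zpowers g), rfl⟩
    rw [hk] at h2
    exact h2
  · intro u hu hu1
    obtain ⟨k, rfl⟩ := hPel u hu
    have hk : (k : ZMod p) ≠ 0 := by
      intro h
      apply hu1
      rw [ZMod.natCast_eq_zero_iff, ← hx] at h
      exact orderOf_dvd_iff_pow_eq_one.1 h
    rw [nfix, Nat.card_eq_zero]
    left
    constructor
    rintro ⟨a, ha⟩
    have h1 := hpow k a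
    have h2 : (x ^ k : G) • a = a := ha
    rw [h2] at h1
    exact hk (by linear_combination -h1)
  · rw [nfix, Nat.card_eq_one_iff_unique]
    constructor
    · constructor
      rintro ⟨a, ha⟩ ⟨b, hb⟩
      apply Subtype.ext
      apply e.injective
      have h1 : t • a = a := ha
      have h2 : t • b = b := hb
      have h3 := hcs a
      have h4 := hcs b
      rw [h1] at h3
      rw [h2] at h4
      apply mul_left_cancel₀ h2ne
      change 2 * e a = 2 * e b
      linear_combination h3 - h4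
    · refine ⟨⟨e.symm (c / 2), ?_⟩⟩
      change t • (e.symm (c / 2)) = e.symm (c / 2)
      apply e.injective
      rw [hcs, Equiv.apply_symm_apply]
      field_simp
      ring
  · rw [Nat.card_eq_fintype_card, hα]
  · exact h3

theorem iso_sl {α : Type*} [Fintype α] [DecidableEq α] {p : ℕ} [Fact p.Prime] (hα : Fintype.card α = p)
    (h5 : 5 ≤ p) (G : Subgroup (Equiv.Perm α)) (t : G) (P : Subgroup G) (h : PDat G α p P t) :
    ∃ (a : ℕ) (F : Type) (_ : Field F) (_ : Fintype F), p = 2 ^ a + 1 ∧ Fintype.card F = 2 ^ a ∧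
      Nonempty (G ≃* Matrix.SpecialLinearGroup (Fin 2) F) := by
  classical
  have hp : p.Prime := Fact.out
  let _ : Fintype P := Fintype.ofFinite P
  have hfaith : ∀ g : G, (∀ a : α, g • a = a) → g = 1 := by
    intro g hg
    apply Subtype.ext
    apply Equiv.ext
    intro a
    exact hg a
  have hodd : ∀ {a b c : α}, a ≠ b → a ≠ c → b ≠ c → Odd (Nat.card (stab3 G a b c)) := by
    intro a b c hab hac hbc
    rw [← Nat.not_even_iff_odd]
    intro hev
    have h2p : Fact (Nat.Prime 2) := ⟨Nat.prime_two⟩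
    obtain ⟨s0, hs0⟩ := exists_prime_orderOf_dvd_card' 2 (even_iff_two_dvd.1 hev)
    obtain ⟨s, hs⟩ := s0
    have hso : orderOf s = 2 := (Subgroup.orderOf_coe (⟨s, hs⟩ : stab3 G a b c)).trans hs0
    have hs2 : s * s = 1 := by rw [← sq, ← hso]; exact pow_orderOf_eq_one s
    have hs1 : s ≠ 1 := by intro h; rw [h, orderOf_one] at hso; omega
    have hsp : nfix α s ≠ p := by
      intro h1
      apply hs1
      apply hfaith
      intro d
      by_contra hd
      have h2 : Nat.card {a : α // s • a = a} < Nat.card α := by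
        apply Finite.card_subtype_lt (x := d)
        exact hd
      rw [nfix] at h1
      rw [Nat.card_eq_fintype_card (α := α), hα] at h2
      have h3 : Nat.card {a : α // s • a = a} = p := h1
      omega
    have h1 := h.inv_fix hs2 hs1 hsp
    rw [nfix, Nat.card_eq_one_iff_unique] at h1
    have h2 := mem_stab3.1 hs
    have h3 := h1.1
    exact hab (congrArg Subtype.val (h3.elim ⟨a, h2.1⟩ ⟨b, h2.2.1⟩))
  have hfx : ∀ {a b c : α}, a ≠ b → a ≠ c → b ≠ c → ∀ d, d ∈ Fx G a b c := by
    intro a b c hab hac hbc d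
    exact stab3_trivial h.h3 hab hac hbc (hodd hab hac hbc) h.lower d
  have hS3 : Cfsg.Agent.H34.Sharp3 G α := by
    constructor
    · intro a b c a' b' c' hab hbc hac hab' hbc' hac'
      exact t3_of h.h3 hab hac hbc hab' hac' hbc'
    · intro g a b c hab hbc hac h1 h2 h3
      apply hfaith
      intro d
      exact hfx hab hac hbc d g (mem_stab3.2 ⟨h1, h2, h3⟩)
  have hcard : Nat.card α = p := by rw [Nat.card_eq_fintype_card, hα]
  have hex : ∃ i z e : α, i ≠ z ∧ z ≠ e ∧ i ≠ e := by
    have e0 : α ≃ Fin p := Fintype.equivFinOfCardEq hα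
    refine ⟨e0.symm ⟨0, by omega⟩, e0.symm ⟨1, by omega⟩, e0.symm ⟨2, by omega⟩, ?_, ?_, ?_⟩ <;>
    · intro hh
      have := e0.symm.injective hh
      simp at this
  obtain ⟨i, z, e, hiz, hze, hie⟩ := hex
  have hoddα : Odd (Nat.card α) := by
    rw [hcard]
    exact hp.odd_of_ne_two (by omega)
  obtain ⟨F, iF, iFt, hF, hiso⟩ := hS3.iso_pgl_even hiz hze hie hoddα
  rw [hcard] at hF
  have hev : Even (Fintype.card F) := by
    rw [hF]
    rw [hcard] at hoddα
    exact hoddα.tsub_odd odd_one
  obtain ⟨h2, a, ha1, ha⟩ := Cfsg.Agent.H73.PGLTwo.two_eq_zero_of_even hev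
  refine ⟨a, F, iF, iFt, ?_, ha, ?_⟩
  · omega
  · obtain ⟨f⟩ := hiso
    obtain ⟨g⟩ := Cfsg.Agent.H73.PGLTwo.nonempty_pgl_sl (F := F) h2
    exact ⟨f.trans g⟩

end Cfsg.Agent.H37.PD
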