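import Mathlib

/-!
# Sylow numbers: the kernel of a homomorphism preserving the Sylow numbers; groups with `p + 1` Sylow `p`-subgroups
-/

set_option autoImplicit false
set_option linter.unusedSectionVars false
set_option linter.unusedVariables false

namespace Cfsg.Agent.H37.SN

open MulAction

universe u v

section A

variable {G : Type u} {H : Type v} [Group G] [Finite G] [Group H]

theorem card_sylow_le (f : G →* H) (hf : Function.Surjective f) (r : ℕ) [Fact r.Prime] :
    Nat.card (Sylow r H) ≤ Nat.card (Sylow r G) :=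
  Nat.card_le_card_of_surjective _ (Sylow.mapSurjective_surjective hf r)

/-- if the number of Sylow `r`-subgroups is preserved, the kernel normalises all of them -/
theorem ker_le_normalizer (f : G →* H) (hf : Function.Surjective f) (r : ℕ) [Fact r.Prime]
    (hle : Nat.card (Sylow r G) ≤ Nat.card (Sylow r H)) (R : Sylow r G) :
    f.ker ≤ Subgroup.normalizer ((R : Subgroup G) : Set G) := by
  have hb := (Sylow.mapSurjective_surjective hf r).bijective_of_nat_card_le hle
  intro k hk
  have h1 : k • R = R := by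
    apply hb.1
    apply Sylow.ext
    rw [Sylow.coe_mapSurjective, Sylow.coe_mapSurjective, Sylow.coe_subgroup_smul]
    ext y
    constructor
    · rintro ⟨z, ⟨w, hw, rfl⟩, rfl⟩
      refine ⟨w, hw, ?_⟩
      change f w = f (k * w * k⁻¹)
      rw [map_mul, map_mul, map_inv, MonoidHom.mem_ker.1 hk, one_mul, inv_one, mul_one]
    · rintro ⟨w, hw, rfl⟩
      refine ⟨k * w * k⁻¹, ⟨w, hw, rfl⟩, ?_⟩
      rw [map_mul, map_mul, map_inv, MonoidHom.mem_ker.1 hk, one_mul, inv_one, mul_one]
  exact Sylow.smul_eq_iff_mem_normalizer.1 h1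

/-- a normal subgroup normalising all the Sylow subgroups is trivial if the centre is trivial -/
theorem eq_bot_of_normalizes (hZ : Subgroup.center G = ⊥) (K : Subgroup G) [hKn : K.Normal]
    (hK : ∀ (r : ℕ) [Fact r.Prime] (R : Sylow r G), K ≤ Subgroup.normalizer ((R : Subgroup G) : Set G)) :
    K = ⊥ := by
  by_contra hne
  have hc1 : Nat.card K ≠ 1 := fun h => hne (Subgroup.card_eq_one.1 h)
  obtain ⟨r, hr, hrK⟩ := Nat.exists_prime_and_dvd hc1
  have : Fact r.Prime := ⟨hr⟩
  obtain ⟨x0, hx0⟩ := exists_prime_orderOf_dvd_card' r hrK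
  obtain ⟨x, hxK⟩ := x0
  have hx : orderOf x = r := (Subgroup.orderOf_coe (⟨x, hxK⟩ : K)).trans hx0
  have hx1 : x ≠ 1 := by
    intro h
    rw [h, orderOf_one] at hx
    exact hr.one_lt.ne hx
  -- elements of order r of K lie in all Sylow subgroups
  have hin : ∀ y ∈ K, orderOf y = r → ∀ R : Sylow r G, y ∈ (R : Subgroup G) := by
    intro y hy hyr R
    have h1 : IsPGroup r (Subgroup.zpowers y) := IsPGroup.of_card (n := 1) (by rw [Nat.card_zpowers, hyr, pow_one])
    have h2 : Subgroup.zpowers y ⊓ Subgroup.normalizer ((R : Subgroup G) : Set G) =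
        Subgroup.zpowers y ⊓ (R : Subgroup G) := h1.inf_normalizer_sylow R
    have h3 : y ∈ Subgroup.zpowers y ⊓ Subgroup.normalizer ((R : Subgroup G) : Set G) :=
      ⟨Subgroup.mem_zpowers y, hK r R hy⟩
    rw [h2] at h3
    exact h3.2
  obtain ⟨V, hV⟩ : ∃ V, V = Subgroup.normalClosure ({x} : Set G) := ⟨_, rfl⟩
  have hVn : V.Normal := by rw [hV]; infer_instance
  have hxV : x ∈ V := by rw [hV]; exact Subgroup.subset_normalClosure rfl
  have hVK : V ≤ K := by
    rw [hV]
    apply Subgroup.normalClosure_le_normal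
    rintro y hy
    rw [Set.mem_singleton_iff.1 hy]
    exact hxK
  have hVR : ∀ R : Sylow r G, V ≤ (R : Subgroup G) := by
    intro R
    rw [hV]
    apply (Subgroup.closure_le _).2
    intro y hy
    rw [Group.mem_conjugatesOfSet_iff] at hy
    obtain ⟨z, hz, hzy⟩ := hy
    rw [Set.mem_singleton_iff.1 hz] at hzy
    obtain ⟨c, hc⟩ := isConj_iff.1 hzy
    rw [← hc]
    refine hin _ (hKn.conj_mem x hxK c) ?_ R
    have := orderOf_injective (MulAut.conj c).toMonoidHom (MulAut.conj c).injective x
    rw [← hx, ← this]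
    rfl
  have hVp : IsPGroup r V := by
    have R : Sylow r G := default
    exact R.2.to_le (hVR R)
  -- Sylow s-subgroups centralise V for s ≠ r
  have hcent : ∀ (s : ℕ) [Fact s.Prime] (S : Sylow s G), s ≠ r →
      (S : Subgroup G) ≤ Subgroup.centralizer ((V : Subgroup G) : Set G) := by
    intro s hs S hsr y hy
    rw [Subgroup.mem_centralizer_iff]
    intro v hv
    have h1 : v * y * v⁻¹ * y⁻¹ ∈ (S : Subgroup G) := by
      apply Subgroup.mul_mem _ _ (Subgroup.inv_mem _ hy)
      exact (Subgroup.mem_normalizer_iff.1 (hK s S (hVK hv)) y).1 hy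
    have h2 : v * y * v⁻¹ * y⁻¹ ∈ V := by
      have : v * y * v⁻¹ * y⁻¹ = v * (y * v⁻¹ * y⁻¹) := by group
      rw [this]
      exact V.mul_mem hv (hVn.conj_mem _ (V.inv_mem hv) y)
    have hdis : Disjoint V (S : Subgroup G) := by
      have := IsPGroup.disjoint_of_ne r s hsr.symm V (S : Subgroup G) hVp S.2
      exact this
    have h3 : v * y * v⁻¹ * y⁻¹ = 1 := by
      have := (Subgroup.disjoint_def.1 hdis) h2 h1
      exact this
    have h4 : v * y = y * v := by
      have : v * y = (v * y * v⁻¹ * y⁻¹) * (y * v) := by group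
      rw [this, h3, one_mul]
    exact h4
  have R : Sylow r G := default
  have htop : Subgroup.centralizer ((V : Subgroup G) : Set G) ⊔ (R : Subgroup G) = ⊤ := by
    rw [← Subgroup.index_eq_one]
    by_contra hi
    obtain ⟨s, hs, hsd⟩ := Nat.exists_prime_and_dvd hi
    have : Fact s.Prime := ⟨hs⟩
    have S : Sylow s G := default
    by_cases hsr : s = r
    · subst hsr
      have h1 : (Subgroup.centralizer ((V : Subgroup G) : Set G) ⊔ (R : Subgroup G)).index ∣ (R : Subgroup G).index :=
        Subgroup.index_dvd_of_le le_sup_right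
      exact R.not_dvd_index (hsd.trans h1)
    · have h1 : (Subgroup.centralizer ((V : Subgroup G) : Set G) ⊔ (R : Subgroup G)).index ∣ (S : Subgroup G).index :=
        Subgroup.index_dvd_of_le ((hcent s S hsr).trans le_sup_left)
      exact S.not_dvd_index (hsd.trans h1)
  -- a fixed point of R on V
  let act : MulAction (R : Subgroup G) V :=
    { smul := fun g v => ⟨g * v * (g : G)⁻¹, hVn.conj_mem _ v.2 _⟩
      one_smul := fun v => Subtype.ext (by change (1 : G) * v * (1 : G)⁻¹ = v; group)
      mul_smul := fun g h v => Subtype.ext (by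
        change ((g : G) * h) * v * ((g : G) * h)⁻¹ = g * (h * v * (h : G)⁻¹) * (g : G)⁻¹
        group) }
  have hsm : ∀ (g : (R : Subgroup G)) (v : V), ((g • v : V) : G) = g * v * (g : G)⁻¹ := fun _ _ => rfl
  have hVd : r ∣ Nat.card V := by
    rw [← hx, ← Subgroup.orderOf_mk x hxV]
    exact orderOf_dvd_natCard _
  have hfix1 : (1 : V) ∈ MulAction.fixedPoints (R : Subgroup G) V := by
    intro g
    apply Subtype.ext
    rw [hsm]
    change (g : G) * 1 * (g : G)⁻¹ = 1
    group
  obtain ⟨w, hw, hw1⟩ := R.2.exists_fixed_point_of_prime_dvd_card_of_fixed_point V hVd hfix1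
  have hwR : (R : Subgroup G) ≤ Subgroup.centralizer {(w : G)} := by
    intro g hg
    rw [Subgroup.mem_centralizer_iff]
    intro z hz
    rw [Set.mem_singleton_iff.1 hz]
    have h1 := congrArg Subtype.val (hw ⟨g, hg⟩)
    rw [hsm] at h1
    change g * w * g⁻¹ = w at h1
    rw [mul_inv_eq_iff_eq_mul] at h1
    exact h1.symm
  have hwC : Subgroup.centralizer ((V : Subgroup G) : Set G) ≤ Subgroup.centralizer {(w : G)} := by
    intro g hg
    rw [Subgroup.mem_centralizer_iff] at hg ⊢
    intro z hz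
    rw [Set.mem_singleton_iff.1 hz]
    exact hg w w.2
  have hwtop : ∀ g : G, g ∈ Subgroup.centralizer {(w : G)} := by
    intro g
    have : g ∈ Subgroup.centralizer ((V : Subgroup G) : Set G) ⊔ (R : Subgroup G) := by rw [htop]; trivial
    exact (sup_le hwC hwR) this
  have hwZ : (w : G) ∈ Subgroup.center G := by
    rw [Subgroup.mem_center_iff]
    intro g
    exact ((Subgroup.mem_centralizer_iff.1 (hwtop g)) w rfl).symm
  rw [hZ, Subgroup.mem_bot] at hwZ
  exact hw1 (Subtype.ext hwZ.symm)

end A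

section B

variable {G : Type u} {X : Type v} [Group G] [MulAction G X] [Finite X] {p : ℕ} [Fact p.Prime]

/-- a `p`-subgroup fixing a point and moving another one is transitive on the remaining `p` points -/
theorem orbit_full (hX : Nat.card X = p + 1) (A : Subgroup G) [Finite A] (hA : IsPGroup p A) {x y : X} (hxy : y ≠ x)
    (hx : ∀ g ∈ A, g • x = x) (hy : ∃ g ∈ A, g • y ≠ y) (z : X) (hz : z ≠ x) : ∃ g ∈ A, g • y = z := by
  have hp : p.Prime := Fact.out
  obtain ⟨n, hn⟩ := hA.card_orbit y
  have hsub : (orbit A y : Set X) ⊆ ({x}ᶜ : Set X) := by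
    rintro w ⟨g, rfl⟩ hw
    apply hxy
    have h1 : (g : G) • y = x := hw
    rw [← hx g g.2] at h1
    exact smul_left_cancel _ h1
  have hcomp : ({x}ᶜ : Set X).ncard = p := by
    have := Set.ncard_add_ncard_compl ({x} : Set X)
    rw [hX, Set.ncard_singleton] at this
    omega
  have hle : (orbit A y : Set X).ncard ≤ p := by
    rw [← hcomp]
    exact Set.ncard_le_ncard hsub
  have hn' : (orbit A y : Set X).ncard = p ^ n := hn
  have hn0 : n ≠ 0 := by
    rintro rfl
    rw [pow_zero, Set.ncard_eq_one] at hn'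
    obtain ⟨w, hw⟩ := hn'
    obtain ⟨g, hg, hgy⟩ := hy
    have h1 : y ∈ orbit A y := mem_orbit_self y
    have h2 : g • y ∈ orbit A y := ⟨⟨g, hg⟩, rfl⟩
    rw [hw, Set.mem_singleton_iff] at h1 h2
    exact hgy (h2.trans h1.symm)
  have hge : p ≤ (orbit A y : Set X).ncard := by
    rw [hn']
    exact Nat.le_self_pow hn0 p
  have heq : (orbit A y : Set X) = ({x}ᶜ : Set X) :=
    Set.eq_of_subset_of_ncard_le hsub (by rw [hcomp]; exact hge)
  have : z ∈ orbit A y := by rw [heq]; exact hz
  obtain ⟨g, hg⟩ := this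
  exact ⟨g, g.2, hg⟩

theorem fix_all (hX : Nat.card X = p + 1) {z : G} [Finite (Subgroup.zpowers z)]
    (hA : IsPGroup p (Subgroup.zpowers z)) {x y : X} (hxy : x ≠ y)
    (hx : z • x = x) (hy : z • y = y) (w : X) : z • w = w := by
  have hp : p.Prime := Fact.out
  have hall : ∀ v : X, z • v = v → v ∈ fixedPoints (Subgroup.zpowers z) X := by
    intro v hv g
    obtain ⟨k, hk⟩ := g.2
    have h1 : z ∈ stabilizer G v := hv
    have h2 : (g : G) ∈ stabilizer G v := by
      rw [← hk]
      exact Subgroup.zpow_mem _ h1 k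
    exact h2
  have h1 := hA.card_modEq_card_fixedPoints X
  have h2 : 2 ≤ Nat.card (fixedPoints (Subgroup.zpowers z) X) := by
    have : Nontrivial (fixedPoints (Subgroup.zpowers z) X) :=
      ⟨⟨x, hall x hx⟩, ⟨y, hall y hy⟩, fun h => hxy (congrArg Subtype.val h)⟩
    exact Finite.one_lt_card
  have h3 : Nat.card (fixedPoints (Subgroup.zpowers z) X) ≤ Nat.card X := Finite.card_subtype_le _
  rw [hX] at h1 h3
  have h4 : Nat.card (fixedPoints (Subgroup.zpowers z) X) = p + 1 := by
    have h5 : (p + 1) ≡ 1 [MOD p] := by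
      rw [Nat.ModEq, Nat.add_mod_left]
    have h6 : Nat.card (fixedPoints (Subgroup.zpowers z) X) ≡ 1 [MOD p] := h1.symm.trans h5
    have h7 : p ∣ Nat.card (fixedPoints (Subgroup.zpowers z) X) - 1 :=
      (Nat.modEq_iff_dvd' (by omega)).1 h6.symm
    obtain ⟨k, hk⟩ := h7
    have hk0 : k ≠ 0 := by rintro rfl; omega
    have : p ≤ p * k := Nat.le_mul_of_pos_right p (Nat.pos_of_ne_zero hk0)
    omega
  by_contra hw
  have h5 : Nat.card (fixedPoints (Subgroup.zpowers z) X) < Nat.card X := by
    apply Finite.card_subtype_lt (x := w)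
    intro hf
    exact hw (hf ⟨z, Subgroup.mem_zpowers z⟩)
  omega

end B

section C

variable {G : Type u} [Group G] [Finite G] {p : ℕ} [Fact p.Prime]

theorem exists_mem_smul (hX : Nat.card (Sylow p G) = p + 1) {P Q R : Sylow p G} (hQ : Q ≠ P) (hR : R ≠ P) :
    ∃ x ∈ (P : Subgroup G), x • Q = R := by
  refine orbit_full hX (P : Subgroup G) P.2 hQ ?_ ?_ R hR
  · intro g hg
    rw [Sylow.smul_eq_iff_mem_normalizer]
    exact Subgroup.le_normalizer hg
  · by_contra hcon
    push Not at hcon
    have h1 : (P : Subgroup G) ≤ Subgroup.normalizer ((Q : Subgroup G) : Set G) := by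
      intro g hg
      exact Sylow.smul_eq_iff_mem_normalizer.1 (hcon g hg)
    have h2 : (P : Subgroup G) ⊓ Subgroup.normalizer ((Q : Subgroup G) : Set G) =
        (P : Subgroup G) ⊓ (Q : Subgroup G) := P.2.inf_normalizer_sylow Q
    rw [inf_eq_left.2 h1] at h2
    have h3 : (P : Subgroup G) ≤ (Q : Subgroup G) := by
      rw [h2]
      exact inf_le_right
    exact hQ (Sylow.ext (P.3 Q.2 h3))

theorem three_fix (hX : Nat.card (Sylow p G) = p + 1) {P Q R : Sylow p G} (hPQ : P ≠ Q) (hPR : P ≠ R) (hQR : Q ≠ R)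
    {g : G} (h1 : g • P = P) (h2 : g • Q = Q) (h3 : g • R = R) (S : Sylow p G) : g • S = S := by
  obtain ⟨x, hx, hxQ⟩ := exists_mem_smul hX hPQ.symm hPR.symm
  have hxP : x • P = P := by
    rw [Sylow.smul_eq_iff_mem_normalizer]
    exact Subgroup.le_normalizer hx
  have hgN : g ∈ Subgroup.normalizer ((P : Subgroup G) : Set G) := Sylow.smul_eq_iff_mem_normalizer.1 h1
  have hgx : g * x * g⁻¹ ∈ (P : Subgroup G) := (Subgroup.mem_normalizer_iff.1 hgN x).1 hx
  obtain ⟨z, hz⟩ : ∃ z, z = x⁻¹ * (g * x * g⁻¹) := ⟨_, rfl⟩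
  have hzP : z ∈ (P : Subgroup G) := by rw [hz]; exact Subgroup.mul_mem _ (Subgroup.inv_mem _ hx) hgx
  have hzz : ∀ T : Sylow p G, z • T = T := by
    intro T
    refine fix_all hX (z := z) ?_ hPQ ?_ ?_ T
    · exact P.2.to_le (by rw [Subgroup.zpowers_le]; exact hzP)
    · rw [Sylow.smul_eq_iff_mem_normalizer]
      exact Subgroup.le_normalizer hzP
    · rw [hz, mul_smul, mul_smul, mul_smul, inv_smul_eq_iff.2 h2.symm, hxQ, h3, ← hxQ, inv_smul_smul]
  have hcomm : ∀ T : Sylow p G, g • x • T = x • g • T := by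
    intro T
    have e1 := hzz (g • T)
    rw [hz, mul_smul, mul_smul, mul_smul, inv_smul_smul, inv_smul_eq_iff] at e1
    exact e1
  by_cases hSP : S = P
  · rw [hSP, h1]
  · obtain ⟨y, hy, hyS⟩ := orbit_full hX (Subgroup.zpowers x) (P.2.to_le (by rw [Subgroup.zpowers_le]; exact hx))
      hPQ.symm (by
        intro y hy
        rw [Sylow.smul_eq_iff_mem_normalizer]
        exact Subgroup.le_normalizer ((Subgroup.zpowers_le.2 hx) hy))
      ⟨x, Subgroup.mem_zpowers x, by rw [hxQ]; exact hQR.symm⟩ S hSP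
    obtain ⟨k, rfl⟩ := hy
    have e2 : Commute (MulAction.toPermHom G (Sylow p G) g) (MulAction.toPermHom G (Sylow p G) x) := by
      apply Equiv.ext
      intro T
      exact hcomm T
    have e3 := e2.zpow_right k
    rw [← map_zpow] at e3
    have e4 := Equiv.ext_iff.1 e3.eq Q
    have e5 : g • (x ^ k) • Q = (x ^ k) • g • Q := e4
    have e6 : (x ^ k) • Q = S := hyS
    rw [← e6, e5, h2]

end C

end Cfsg.Agent.H37.SN
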