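import Mathlib
import Cfsg.Agent.H37.SNA

/-!
# Sylow numbers 18, 136, 153: the permutation group of degree 18
-/

set_option autoImplicit false
set_option linter.unusedSectionVars false
set_option linter.unusedVariables false

namespace Cfsg.Agent.H37.SN

open MulAction

universe u v

section D

variable {H : Type u} {X : Type v} [Group H] [Finite H] [MulAction H X] [Finite X]

/-- doubly transitive with trivial three point stabilisers -/
structure Z3 (H : Type u) (X : Type v) [Group H] [MulAction H X] : Prop where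
  h2 : ∀ {a b a' b' : X}, a ≠ b → a' ≠ b' → ∃ g : H, g • a = a' ∧ g • b = b'
  h3 : ∀ (g : H) {a b c : X}, a ≠ b → a ≠ c → b ≠ c → g • a = a → g • b = b → g • c = c → g = 1

/-- two point stabiliser -/
def stab2 (H : Type u) {X : Type v} [Group H] [MulAction H X] (a b : X) : Subgroup H :=
  stabilizer H a ⊓ stabilizer H b

theorem mem_stab2 {a b : X} {g : H} : g ∈ stab2 H a b ↔ g • a = a ∧ g • b = b := Iff.rfl

theorem Z3.card (h : Z3 H X) {a b : X} (hab : a ≠ b) :
    Nat.card H = Nat.card X * (Nat.card X - 1) * Nat.card (stab2 H a b) := by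
  have h1 : (orbit H a : Set X) = Set.univ := by
    rw [Set.eq_univ_iff_forall]
    intro x
    by_cases hx : x = a
    · rw [hx]; exact mem_orbit_self a
    · obtain ⟨g, hg, -⟩ := h.h2 hab hx
      exact ⟨g, hg⟩
  have h2 := Subgroup.card_mul_index (stabilizer H a)
  rw [index_stabilizer, h1, Set.ncard_univ] at h2
  have h3 : (orbit (stabilizer H a) b : Set X) = ({a}ᶜ : Set X) := by
    ext x
    constructor
    · rintro ⟨g, rfl⟩ hx
      apply hab
      have e1 : (g : H) • b = a := hx
      have e2 : (g : H) • a = a := g.2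
      exact (smul_left_cancel _ (e1.trans e2.symm)).symm
    · intro hx
      obtain ⟨g, hg1, hg2⟩ := h.h2 hab (show a ≠ x from fun e => hx e.symm)
      exact ⟨⟨g, hg1⟩, hg2⟩
  have h4 := Subgroup.card_mul_index (stabilizer (stabilizer H a) b)
  have h5 := Set.ncard_add_ncard_compl ({a} : Set X)
  rw [Set.ncard_singleton] at h5
  rw [index_stabilizer, h3] at h4
  have h6 : Nat.card (stabilizer (stabilizer H a) b) = Nat.card (stab2 H a b) := by
    refine Nat.card_congr ⟨fun g => ⟨g.1.1, g.1.2, g.2⟩, fun g => ⟨⟨g.1, g.2.1⟩, g.2.2⟩, ?_, ?_⟩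
    · intro g; rfl
    · intro g; rfl
  rw [h6] at h4
  rw [← h2, ← h4, show ({a}ᶜ : Set X).ncard = Nat.card X - 1 by omega]
  ring

theorem Z3.stab2_lt (h : Z3 H X) {a b : X} (hab : a ≠ b) (hX : 3 ≤ Nat.card X) :
    Nat.card (stab2 H a b) ≤ Nat.card X - 2 := by
  have h5 := Set.ncard_add_ncard_compl ({a, b} : Set X)
  rw [Set.ncard_pair hab] at h5
  have hne : (({a, b} : Set X)ᶜ : Set X).Nonempty := by
    rw [← Set.ncard_pos]
    omega
  obtain ⟨c, hc⟩ := hne
  have hca : c ≠ a := fun e => hc (by rw [e]; exact Set.mem_insert _ _)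
  have hcb : c ≠ b := fun e => hc (by rw [e]; exact Set.mem_insert_of_mem _ rfl)
  have h6 : Nat.card (stab2 H a b) ≤ Nat.card (({a, b} : Set X)ᶜ : Set X) := by
    refine Nat.card_le_card_of_injective (fun g : stab2 H a b => (⟨(g : H) • c, ?_⟩ : (({a, b} : Set X)ᶜ : Set X))) ?_
    · rintro (e | e)
      · have e2 : (g : H) • a = a := (mem_stab2.1 g.2).1
        exact hca (smul_left_cancel (g : H) (e.trans e2.symm))
      · have e1 : (g : H) • c = b := e
        have e2 : (g : H) • b = b := (mem_stab2.1 g.2).2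
        exact hcb (smul_left_cancel (g : H) (e1.trans e2.symm))
    · intro g k hgk
      have e1 : (g : H) • c = (k : H) • c := congrArg Subtype.val hgk
      have e2 : ((k : H)⁻¹ * g) • c = c := by rw [mul_smul, e1, inv_smul_smul]
      have e3 : (k : H)⁻¹ * g ∈ stab2 H a b := Subgroup.mul_mem _ (Subgroup.inv_mem _ k.2) g.2
      have e4 := h.h3 _ hab hca.symm hcb.symm (mem_stab2.1 e3).1 (mem_stab2.1 e3).2 e2
      apply Subtype.ext
      exact (inv_mul_eq_one.1 e4).symm
  have h7 : Nat.card (({a, b} : Set X)ᶜ : Set X) = (({a, b} : Set X)ᶜ : Set X).ncard := rfl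
  omega

/-- setwise stabiliser of a pair -/
def pairStab (H : Type u) {X : Type v} [Group H] [MulAction H X] (a b : X) : Subgroup H where
  carrier := {g | (g • a = a ∧ g • b = b) ∨ (g • a = b ∧ g • b = a)}
  one_mem' := Or.inl ⟨one_smul _ _, one_smul _ _⟩
  mul_mem' := by
    rintro g k (⟨h1, h2⟩ | ⟨h1, h2⟩) (⟨h3, h4⟩ | ⟨h3, h4⟩)
    · left; rw [mul_smul, mul_smul, h3, h4]; exact ⟨h1, h2⟩
    · right; rw [mul_smul, mul_smul, h3, h4]; exact ⟨h2, h1⟩
    · right; rw [mul_smul, mul_smul, h3, h4]; exact ⟨h1, h2⟩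
    · left; rw [mul_smul, mul_smul, h3, h4]; exact ⟨h2, h1⟩
  inv_mem' := by
    rintro g (⟨h1, h2⟩ | ⟨h1, h2⟩)
    · left
      exact ⟨inv_smul_eq_iff.2 h1.symm, inv_smul_eq_iff.2 h2.symm⟩
    · right
      exact ⟨inv_smul_eq_iff.2 h2.symm, inv_smul_eq_iff.2 h1.symm⟩

theorem mem_pairStab {a b : X} {g : H} :
    g ∈ pairStab H a b ↔ (g • a = a ∧ g • b = b) ∨ (g • a = b ∧ g • b = a) := Iff.rfl

theorem Z3.card_pairStab (h : Z3 H X) {a b : X} (hab : a ≠ b) :
    Nat.card (pairStab H a b) = 2 * Nat.card (stab2 H a b) := by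
  obtain ⟨s, hs1, hs2⟩ := h.h2 hab hab.symm
  have hsB : s ∈ pairStab H a b := Or.inr ⟨hs1, hs2⟩
  have hle : stab2 H a b ≤ pairStab H a b := fun g hg => Or.inl hg
  have hidx : ((stab2 H a b).subgroupOf (pairStab H a b)).index = 2 := by
    rw [Subgroup.index_eq_two_iff]
    refine ⟨⟨s, hsB⟩, ?_⟩
    rintro ⟨g, hg⟩
    rw [Subgroup.mem_subgroupOf, Subgroup.mem_subgroupOf, mem_stab2, mem_stab2]
    change Xor ((g * s) • a = a ∧ (g * s) • b = b) (g • a = a ∧ g • b = b)
    rw [mul_smul, mul_smul, hs1, hs2]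
    rcases hg with ⟨h1, h2⟩ | ⟨h1, h2⟩
    · right
      refine ⟨⟨h1, h2⟩, fun h3 => hab (h3.1.symm.trans h2).symm.symm⟩
    · left
      exact ⟨⟨h2, h1⟩, fun h3 => hab (h3.1.symm.trans h1)⟩
  have h4 := Subgroup.card_mul_index ((stab2 H a b).subgroupOf (pairStab H a b))
  rw [Nat.card_congr (Subgroup.subgroupOfEquivOfLe hle).toEquiv, hidx] at h4
  omega

/-- the setwise stabiliser of a pair is selfnormalising -/
theorem Z3.normalizer_pairStab (h : Z3 H X) {a b : X} (hab : a ≠ b) (hd : 3 ≤ Nat.card (stab2 H a b)) :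
    Subgroup.normalizer ((pairStab H a b : Subgroup H) : Set H) = pairStab H a b := by
  apply le_antisymm _ Subgroup.le_normalizer
  intro g hg
  by_contra hgB
  -- a point w ∈ {a, b} with g w ∉ {a, b}
  have hw : ∃ w : X, (g • w ≠ a ∧ g • w ≠ b) ∧ (w = a ∨ w = b) := by
    by_contra hcon
    push Not at hcon
    have h1 : g • a = a ∨ g • a = b := by
      by_contra h2
      push Not at h2
      exact (hcon a h2).1 rfl
    have h2 : g • b = a ∨ g • b = b := by
      by_contra h3
      push Not at h3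
      exact (hcon b h3).2 rfl
    apply hgB
    rcases h1 with h1 | h1
    · rcases h2 with h2 | h2
      · exact absurd (smul_left_cancel g (h1.trans h2.symm)) hab
      · exact Or.inl ⟨h1, h2⟩
    · rcases h2 with h2 | h2
      · exact Or.inr ⟨h1, h2⟩
      · exact absurd (smul_left_cancel g (h1.trans h2.symm)) hab
  obtain ⟨w, ⟨hwa, hwb⟩, hw⟩ := hw
  have hinj : Nat.card (stab2 H a b) ≤ Nat.card ({g • a, g • b} : Set X) := by
    refine Nat.card_le_card_of_injective (fun e : stab2 H a b => (⟨(e : H) • g • w, ?_⟩ : ({g • a, g • b} : Set X))) ?_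
    · have h1 : g⁻¹ * e * g ∈ pairStab H a b := by
        have h2 := Subgroup.mem_normalizer_iff''.1 hg e
        exact h2.1 (Or.inl e.2)
      have h3 : (e : H) • g • w = g • (g⁻¹ * e * g) • w := by
        rw [smul_smul, smul_smul]
        congr 1
        group
      rw [h3]
      rcases hw with rfl | rfl
      · rcases h1 with ⟨h4, -⟩ | ⟨h4, -⟩
        · rw [h4]; exact Set.mem_insert _ _
        · rw [h4]; exact Set.mem_insert_of_mem _ rfl
      · rcases h1 with ⟨-, h4⟩ | ⟨-, h4⟩
        · rw [h4]; exact Set.mem_insert_of_mem _ rfl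
        · rw [h4]; exact Set.mem_insert _ _
    · intro e k hek
      have e1 : (e : H) • g • w = (k : H) • g • w := congrArg Subtype.val hek
      have e2 : ((k : H)⁻¹ * e) • g • w = g • w := by rw [mul_smul, e1, inv_smul_smul]
      have e3 : (k : H)⁻¹ * e ∈ stab2 H a b := Subgroup.mul_mem _ (Subgroup.inv_mem _ k.2) e.2
      have e4 := h.h3 _ hab hwa.symm hwb.symm (mem_stab2.1 e3).1 (mem_stab2.1 e3).2 e2
      apply Subtype.ext
      exact (inv_mul_eq_one.1 e4).symm
  have h7 : Nat.card ({g • a, g • b} : Set X) = ({g • a, g • b} : Set X).ncard := rfl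
  have h8 : ({g • a, g • b} : Set X).ncard ≤ 2 := Set.ncard_insert_le _ _ |>.trans (by rw [Set.ncard_singleton])
  omega

/-- the number of Sylow 2-subgroups for `|X| = 18` and two point stabilisers of order 8 or 16 -/
theorem Z3.card_sylow_two (h : Z3 H X) (hX : Nat.card X = 18) {a b : X} (hab : a ≠ b)
    (hd : Nat.card (stab2 H a b) = 8 ∨ Nat.card (stab2 H a b) = 16) [Fact (Nat.Prime 2)] :
    Nat.card (Sylow 2 H) = 153 := by
  have hc := h.card hab
  rw [hX] at hc
  have hB := h.card_pairStab hab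
  have hN := h.normalizer_pairStab hab (by omega)
  have hp : IsPGroup 2 (pairStab H a b) := by
    rcases hd with hd | hd
    · exact IsPGroup.of_card (n := 4) (by rw [hB, hd]; norm_num)
    · exact IsPGroup.of_card (n := 5) (by rw [hB, hd]; norm_num)
  obtain ⟨S, hS⟩ := hp.exists_le_sylow
  have hSB : (S : Subgroup H) = pairStab H a b := by
    refine (Subgroup.eq_of_le_of_card_ge hS ?_).symm
    have h1 := Subgroup.card_subgroup_dvd_card (S : Subgroup H)
    obtain ⟨k, hk⟩ := IsPGroup.iff_card.1 S.2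
    rw [hk, hc] at h1
    rw [hk, hB]
    rcases hd with hd | hd
    · rw [hd] at h1 ⊢
      by_contra hlt
      have hk5 : 5 ≤ k := by
        by_contra h5
        apply hlt
        have : 2 ^ k ≤ 2 ^ 4 := Nat.pow_le_pow_right (by norm_num) (by omega)
        omega
      have : 2 ^ 5 ∣ 18 * (18 - 1) * 8 := (pow_dvd_pow 2 hk5).trans h1
      norm_num at this
    · rw [hd] at h1 ⊢
      by_contra hlt
      have hk5 : 6 ≤ k := by
        by_contra h5
        apply hlt
        have : 2 ^ k ≤ 2 ^ 5 := Nat.pow_le_pow_right (by norm_num) (by omega)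
        omega
      have : 2 ^ 6 ∣ 18 * (18 - 1) * 16 := (pow_dvd_pow 2 hk5).trans h1
      norm_num at this
  rw [S.card_eq_index_normalizer]
  have h2 : Subgroup.normalizer ((S : Subgroup H) : Set H) = pairStab H a b := by rw [hSB, hN]
  have h3 := Subgroup.card_mul_index (pairStab H a b)
  have h4 : (Subgroup.normalizer ((S : Subgroup H) : Set H)).index = (pairStab H a b).index := by rw [h2]
  change (Subgroup.normalizer ((S : Subgroup H) : Set H)).index = 153
  rw [h4]
  rw [hB, hc] at h3
  rcases hd with hd | hd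
  · rw [hd] at h3; omega
  · rw [hd] at h3; omega

/-- the number of Sylow 3-subgroups for `|X| = 18` and two point stabilisers of order 8 or 16, if there is an element of order nine -/
theorem Z3.card_sylow_three (h : Z3 H X) (hX : Nat.card X = 18) {a b : X} (hab : a ≠ b)
    (hd : Nat.card (stab2 H a b) = 8 ∨ Nat.card (stab2 H a b) = 16) [Fact (Nat.Prime 3)] {x : H} (hx : orderOf x = 9)
    (hle : Nat.card (Sylow 3 H) ≤ 136) :
    Nat.card (Sylow 3 H) = 136 := by
  have hc := h.card hab
  rw [hX] at hc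
  have hp : IsPGroup 3 (Subgroup.zpowers x) := IsPGroup.of_card (n := 2) (by rw [Nat.card_zpowers, hx]; norm_num)
  obtain ⟨S, hS⟩ := hp.exists_le_sylow
  have hScard : Nat.card (S : Subgroup H) = 9 := by
    have h1 := Subgroup.card_subgroup_dvd_card (S : Subgroup H)
    have h0 := Subgroup.card_dvd_of_le hS
    rw [Nat.card_zpowers, hx] at h0
    obtain ⟨k, hk⟩ := IsPGroup.iff_card.1 S.2
    rw [hk, hc] at h1
    rw [hk] at h0 ⊢
    have hk2 : k ≤ 2 := by
      by_contra h5
      have h3 : 3 ^ 3 ∣ 18 * (18 - 1) * Nat.card (stab2 H a b) := (pow_dvd_pow 3 (by omega)).trans h1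
      rcases hd with hd | hd
      · rw [hd] at h3; norm_num at h3
      · rw [hd] at h3; norm_num at h3
    interval_cases k
    · norm_num at h0
    · norm_num at h0
    · norm_num
  have hSx : (S : Subgroup H) = Subgroup.zpowers x :=
    (Subgroup.eq_of_le_of_card_ge hS (by rw [hScard, Nat.card_zpowers, hx])).symm
  -- the element of order three
  obtain ⟨y, hy⟩ : ∃ y, y = x ^ 3 := ⟨_, rfl⟩
  have hy3 : orderOf y = 3 := by
    rw [hy, orderOf_pow, hx]
    norm_num
  have hy1 : y ≠ 1 := by
    intro e; rw [e, orderOf_one] at hy3; omega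
  have hyyy : y * y * y = 1 := by
    have := pow_orderOf_eq_one y
    rw [hy3] at this
    rw [← this, pow_succ, pow_two]
  -- fixed point free
  have hyp : IsPGroup 3 (Subgroup.zpowers y) := IsPGroup.of_card (n := 1) (by rw [Nat.card_zpowers, hy3]; norm_num)
  have hyf : ∀ c : X, y • c ≠ c := by
    intro c hcf
    have hall : ∀ v : X, y • v = v → v ∈ fixedPoints (Subgroup.zpowers y) X := by
      intro v hv g
      obtain ⟨k, hk⟩ := g.2
      have h1 : y ∈ stabilizer H v := hv
      have h2 : (g : H) ∈ stabilizer H v := by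
        rw [← hk]
        exact Subgroup.zpow_mem _ h1 k
      exact h2
    have h1 := hyp.card_modEq_card_fixedPoints X
    rw [hX] at h1
    have h2 : 0 < Nat.card (fixedPoints (Subgroup.zpowers y) X) := by
      have : Nonempty (fixedPoints (Subgroup.zpowers y) X) := ⟨⟨c, hall c hcf⟩⟩
      exact Nat.card_pos
    have h3 : 3 ≤ Nat.card (fixedPoints (Subgroup.zpowers y) X) := by
      have h4 : 18 % 3 = Nat.card (fixedPoints (Subgroup.zpowers y) X) % 3 := h1
      omega
    let _ : Fintype (fixedPoints (Subgroup.zpowers y) X) := Fintype.ofFinite _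
    rw [Nat.card_eq_fintype_card] at h3
    obtain ⟨u, v, w, huv, huw, hvw⟩ := Fintype.two_lt_card_iff.1 h3
    have hf : ∀ v : fixedPoints (Subgroup.zpowers y) X, y • (v : X) = v := fun v =>
      v.2 ⟨y, Subgroup.mem_zpowers y⟩
    exact hy1 (h.h3 y (fun e => huv (Subtype.ext e)) (fun e => huw (Subtype.ext e)) (fun e => hvw (Subtype.ext e))
      (hf u) (hf v) (hf w))
  have hyyf : ∀ c : X, y • y • c ≠ c := by
    intro c hcf
    apply hyf c
    have h1 : y • y • y • c = c := by
      rw [smul_smul, smul_smul, hyyy, one_smul]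
    rw [hcf] at h1
    exact h1
  -- centraliser is semiregular
  have hsemi : ∀ g : H, g * y = y * g → ∀ c : X, g • c = c → g = 1 := by
    intro g hg c hcf
    have e1 : g • y • c = y • c := by rw [smul_smul, hg, mul_smul, hcf]
    have e2 : g • y • y • c = y • y • c := by
      rw [smul_smul, hg, mul_smul, e1]
    exact h.h3 g (hyf c).symm (hyyf c).symm (fun e => hyf (y • c) e.symm) hcf e1 e2
  -- the normaliser of S has order at most 36
  have hN36 : Nat.card (Subgroup.normalizer ((S : Subgroup H) : Set H)) ≤ 36 := by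
    have hval : ∀ g ∈ Subgroup.normalizer ((S : Subgroup H) : Set H), g * y * g⁻¹ = y ∨ g * y * g⁻¹ = y * y := by
      intro g hg
      have h1 : g * x * g⁻¹ ∈ (S : Subgroup H) := (Subgroup.mem_normalizer_iff.1 hg x).1 (hS (Subgroup.mem_zpowers x))
      rw [hSx] at h1
      obtain ⟨k, hk⟩ := h1
      have h2 : g * y * g⁻¹ = y ^ k := by
        rw [hy, ← conj_pow, ← hk]
        change (x ^ k) ^ 3 = _
        rw [← zpow_natCast, ← zpow_natCast, ← zpow_mul, ← zpow_mul, mul_comm]
      have h3 : y ^ k = y ^ (k % 3) := by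
        rw [← zpow_mod_orderOf, hy3]
        rfl
      have h4 : k % 3 = 0 ∨ k % 3 = 1 ∨ k % 3 = 2 := by omega
      rcases h4 with h4 | h4 | h4
      · exfalso
        rw [h3, h4, zpow_zero] at h2
        exact hy1 (conj_eq_one_iff.1 h2)
      · left
        rw [h2, h3, h4, zpow_one]
      · right
        rw [h2, h3, h4]
        exact zpow_two y
    have h1 : Nat.card (Subgroup.normalizer ((S : Subgroup H) : Set H)) ≤ Nat.card (X × Prop) := by
      refine Nat.card_le_card_of_injective (fun g => ((g : H) • a, (g : H) * y * (g : H)⁻¹ = y)) ?_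
      intro g k hgk
      have e1 : (g : H) • a = (k : H) • a := congrArg Prod.fst hgk
      have e2 : ((g : H) * y * (g : H)⁻¹ = y) = ((k : H) * y * (k : H)⁻¹ = y) := congrArg Prod.snd hgk
      have e3 : (g : H) * y * (g : H)⁻¹ = (k : H) * y * (k : H)⁻¹ := by
        rcases hval g g.2 with e | e
        · have : (k : H) * y * (k : H)⁻¹ = y := by rw [← e2]; exact e
          rw [e, this]
        · rcases hval k k.2 with e' | e'
          · exfalso
            have h5 : (g : H) * y * (g : H)⁻¹ = y := by rw [e2]; exact e'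
            rw [h5] at e
            have h6 : y = 1 := by
              have := mul_left_cancel (a := y) (b := 1) (c := y) (by rw [mul_one]; exact e)
              exact this.symm
            exact hy1 h6
          · rw [e, e']
      have e4 : ((k : H)⁻¹ * g) * y = y * ((k : H)⁻¹ * g) := by
        have e5 : (g : H) * y = (k : H) * y * (k : H)⁻¹ * g := by
          rw [← e3]; group
        rw [mul_assoc, e5]
        group
      have e6 := hsemi _ e4 a (by rw [mul_smul, e1, inv_smul_smul])
      apply Subtype.ext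
      exact (inv_mul_eq_one.1 e6).symm
    rw [Nat.card_prod, hX, Nat.card_eq_fintype_card (α := Prop), Fintype.card_prop] at h1
    exact h1
  have h9 : 9 ∣ Nat.card (Subgroup.normalizer ((S : Subgroup H) : Set H)) := by
    rw [← hScard]
    exact Subgroup.card_dvd_of_le Subgroup.le_normalizer
  have hidx : Nat.card (Sylow 3 H) = (Subgroup.normalizer ((S : Subgroup H) : Set H)).index :=
    S.card_eq_index_normalizer
  have hmod : Nat.card (Sylow 3 H) % 3 = 1 % 3 := card_sylow_modEq_one 3 H
  have hm := Subgroup.card_mul_index (Subgroup.normalizer ((S : Subgroup H) : Set H))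
  rw [← hidx, hc] at hm
  obtain ⟨m, hm9⟩ := h9
  rw [hm9] at hm hN36
  have hm4 : m ≤ 4 := by omega
  have hm0 : m ≠ 0 := by
    rintro rfl
    have : 0 < Nat.card (Subgroup.normalizer ((S : Subgroup H) : Set H)) := Nat.card_pos
    omega
  obtain ⟨n, hn⟩ : ∃ n, n = Nat.card (Sylow 3 H) := ⟨_, rfl⟩
  rw [← hn] at hm hmod hle ⊢
  rcases hd with hd | hd
  · rw [hd] at hm
    interval_cases m <;> omega
  · rw [hd] at hm
    interval_cases m <;> omega

end D

end Cfsg.Agent.H37.SN
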