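import Mathlib
import Cfsg.Agent.H37.ZField

/-!
# Field structure on an abelian subgroup under an irreducible commutative group; semilinear normaliser
-/

set_option autoImplicit false

namespace Cfsg.Agent.H37.ZT

universe u v

/-- `w : K → G` identifies the additive group of the field `K` with `N` such that the elements of `A` act as
multiplications and `A` is irreducible on `N`. -/
structure FieldOn {G : Type u} [Group G] (N A : Subgroup G) (K : Type) [Field K] (w : K → G) : Prop where
  mem : ∀ k, w k ∈ N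
  inj : Function.Injective w
  surj : ∀ n ∈ N, ∃ k, w k = n
  add : ∀ x y, w (x + y) = w x * w y
  mul : ∀ g ∈ A, ∃ s : K, s ≠ 0 ∧ ∀ x, g * w x * g⁻¹ = w (s * x)
  irr : ∀ W : AddSubgroup K, (∀ g ∈ A, ∀ s : K, (∀ x, g * w x * g⁻¹ = w (s * x)) → ∀ x ∈ W, s * x ∈ W) →
    W = ⊥ ∨ W = ⊤

section

variable {G : Type u} [Group G]

theorem exists_fieldOn [Finite G] (N A : Subgroup G) (hNc : ∀ x ∈ N, ∀ y ∈ N, x * y = y * x)
    (hAN : ∀ g ∈ A, ∀ n ∈ N, g * n * g⁻¹ ∈ N) (hAc : ∀ x ∈ A, ∀ y ∈ A, x * y = y * x)
    (hirr : ∀ W : Subgroup G, W ≤ N → (∀ g ∈ A, ∀ w ∈ W, g * w * g⁻¹ ∈ W) → W = ⊥ ∨ W = N)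
    {n0 : G} (hn0 : n0 ∈ N) (hn01 : n0 ≠ 1) :
    ∃ (K : Type) (_ : Field K) (_ : Fintype K) (w : K → G), FieldOn N A K w ∧ w 1 = n0 := by
  classical
  let iU : CommGroup N := { (inferInstance : Group N) with
    mul_comm := fun x y => Subtype.ext (hNc x x.2 y y.2) }
  let cj : A → N → N := fun g u => ⟨(g : G) * u * (g : G)⁻¹, hAN _ g.2 _ u.2⟩
  let act : DistribMulAction A (Additive N) :=
    { smul := fun g u => Additive.ofMul (cj g (Additive.toMul u))
      one_smul := fun u => Additive.toMul.injective (Subtype.ext (by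
        change (1 : G) * (Additive.toMul u : N) * (1 : G)⁻¹ = (Additive.toMul u : N)
        group))
      mul_smul := fun g k u => Additive.toMul.injective (Subtype.ext (by
        change ((g : G) * k) * (Additive.toMul u : N) * ((g : G) * k)⁻¹ =
          (g : G) * ((k : G) * (Additive.toMul u : N) * (k : G)⁻¹) * (g : G)⁻¹
        group))
      smul_add := fun g u w => Additive.toMul.injective (Subtype.ext (by
        change (g : G) * ((Additive.toMul u : N) * (Additive.toMul w : N)) * (g : G)⁻¹ =
          ((g : G) * (Additive.toMul u : N) * (g : G)⁻¹) * ((g : G) * (Additive.toMul w : N) * (g : G)⁻¹)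
        group))
      smul_zero := fun g => Additive.toMul.injective (Subtype.ext (by
        change (g : G) * (1 : G) * (g : G)⁻¹ = 1
        group)) }
  have hirr2 : ∀ W : AddSubgroup (Additive N), (∀ g : A, ∀ w ∈ W, g • w ∈ W) → W = ⊥ ∨ W = ⊤ := by
    intro W hW
    let W' : Subgroup G := (AddSubgroup.toSubgroup' W).map N.subtype
    have hmem : ∀ u : N, (u : G) ∈ W' ↔ Additive.ofMul u ∈ W := by
      intro u
      constructor
      · rintro ⟨w, hw, hwu⟩
        have : w = u := Subtype.ext hwu
        rw [← this]; exact hw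
      · intro h
        exact ⟨u, h, rfl⟩
    rcases hirr W' (by rintro _ ⟨w, -, rfl⟩; exact w.2) (by
      rintro g hg _ ⟨w, hw, rfl⟩
      have h1 := hW ⟨g, hg⟩ (Additive.ofMul w) hw
      exact ((hmem _).2 h1)) with h | h
    · left
      rw [eq_bot_iff]
      intro w hw
      have h1 := (hmem (Additive.toMul w)).2 hw
      rw [h, Subgroup.mem_bot] at h1
      have h2 : Additive.toMul w = 1 := Subtype.ext h1
      rw [AddSubgroup.mem_bot]
      exact h2
    · right
      rw [eq_top_iff]
      intro w _
      exact (hmem (Additive.toMul w)).1 (by rw [h]; exact (Additive.toMul w).2)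
  obtain ⟨K, iF, iFK, e, he1, hmul⟩ := exists_field (V := Additive N) (E := A)
    (fun g k v => by
      apply Additive.toMul.injective
      apply Subtype.ext
      change (g : G) * ((k : G) * (Additive.toMul v : N) * (k : G)⁻¹) * (g : G)⁻¹ =
        (k : G) * ((g : G) * (Additive.toMul v : N) * (g : G)⁻¹) * (k : G)⁻¹
      have := hAc g g.2 k k.2
      calc _ = ((g : G) * k) * (Additive.toMul v : N) * ((g : G) * k)⁻¹ := by group
        _ = _ := by rw [this]; group)
    hirr2
    (Additive.ofMul ⟨n0, hn0⟩) (by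
      intro h
      have h1 : (⟨n0, hn0⟩ : N) = 1 := h
      exact hn01 (congrArg Subtype.val h1))
  let w : K → G := fun k => ((Additive.toMul (e k) : N) : G)
  have hwU : ∀ k, w k ∈ N := fun k => (Additive.toMul (e k)).2
  have hwadd : ∀ x y, w (x + y) = w x * w y := by
    intro x y
    change ((Additive.toMul (e (x + y)) : N) : G) = _
    rw [map_add]; rfl
  have hwinj : Function.Injective w := by
    intro x y hxy
    exact e.injective (Additive.toMul.injective (Subtype.ext hxy))
  have hwsurj : ∀ u ∈ N, ∃ k, w k = u := by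
    intro u hu
    refine ⟨e.symm (Additive.ofMul ⟨u, hu⟩), ?_⟩
    change ((Additive.toMul (e (e.symm _)) : N) : G) = _
    rw [AddEquiv.apply_symm_apply]; rfl
  have hw0 : w 0 = 1 := by
    have := hwadd 0 0
    rw [add_zero] at this
    exact (mul_eq_left.1 this.symm)
  have hsw : ∀ (g : A) (s : K), (∀ x, g • e x = e (s * x)) → ∀ x, (g : G) * w x * (g : G)⁻¹ = w (s * x) := by
    intro g s hs x
    exact congrArg (fun v : Additive N => ((Additive.toMul v : N) : G)) (hs x)
  have hsw' : ∀ (g : A) (s : K), (∀ x, (g : G) * w x * (g : G)⁻¹ = w (s * x)) → ∀ x, g • e x = e (s * x) := by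
    intro g s hs x
    exact Additive.toMul.injective (Subtype.ext (hs x))
  refine ⟨K, iF, iFK, w, ⟨hwU, hwinj, hwsurj, hwadd, ?_, ?_⟩, ?_⟩
  · intro g hg
    obtain ⟨s, hs⟩ := hmul ⟨g, hg⟩
    have h0 := hsw _ _ hs
    refine ⟨s, ?_, h0⟩
    rintro rfl
    have h1 := h0 1
    rw [zero_mul, hw0] at h1
    have h1' : g * w 1 * g⁻¹ = 1 := h1
    have h2 : w 1 = 1 := by
      have : w 1 = g⁻¹ * (g * w 1 * g⁻¹) * g := by group
      rw [this, h1']; group
    rw [← hw0] at h2
    exact one_ne_zero (hwinj h2)
  · intro W hW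
    rcases hirr2 (W.map (e : K →+ Additive N)) (by
      rintro g _ ⟨x, hx, rfl⟩
      obtain ⟨s, hs⟩ := hmul g
      refine ⟨s * x, hW g g.2 s (hsw g s hs) x hx, ?_⟩
      exact (hs x).symm) with h | h
    · left
      rw [eq_bot_iff]
      intro x hx
      have h1 : e x ∈ W.map (e : K →+ Additive N) := ⟨x, hx, rfl⟩
      rw [h, AddSubgroup.mem_bot] at h1
      rw [AddSubgroup.mem_bot]
      exact e.injective (h1.trans (map_zero e).symm)
    · right
      rw [eq_top_iff]
      intro x _
      have h1 : e x ∈ W.map (e : K →+ Additive N) := by rw [h]; trivial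
      obtain ⟨y, hy, hyx⟩ := h1
      have : y = x := e.injective hyx
      rwa [← this]
  · change ((Additive.toMul (e 1) : N) : G) = n0
    rw [he1]; rfl

variable {N A : Subgroup G} {K : Type} [Field K] {w : K → G}

theorem FieldOn.zero (h : FieldOn N A K w) : w 0 = 1 := by
  have := h.add 0 0
  rw [add_zero] at this
  exact (mul_eq_left.1 this.symm)

theorem FieldOn.semilin [Finite K] (h : FieldOn N A K w) {g : G} (hgN : ∀ n ∈ N, g * n * g⁻¹ ∈ N)
    (hgA : ∀ x ∈ A, g * x * g⁻¹ ∈ A) :
    ∃ (c : K) (φ : K ≃+* K), c ≠ 0 ∧ ∀ x, g * w x * g⁻¹ = w (c * φ x) := by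
  classical
  choose f hf using fun x : K => h.surj _ (hgN _ (h.mem x))
  have hfadd : ∀ x y, f (x + y) = f x + f y := by
    intro x y
    apply h.inj
    rw [hf, h.add, h.add, hf, hf]; group
  have hf0 : f 0 = 0 := by
    have := hfadd 0 0
    rw [add_zero] at this
    exact (add_eq_left.1 this.symm)
  have hfinj : Function.Injective f := by
    intro x y hxy
    apply h.inj
    have h1 := hf x
    rw [hxy, hf y] at h1
    exact (mul_left_cancel (mul_right_cancel h1)).symm
  set c := f 1 with hc
  have hc0 : c ≠ 0 := by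
    intro h0
    exact one_ne_zero (hfinj (h0.trans hf0.symm))
  -- f (s x) = c⁻¹ f s * f x for multipliers s of A
  have hmult : ∀ a ∈ A, ∀ s : K, (∀ x, a * w x * a⁻¹ = w (s * x)) → ∀ x, c * f (s * x) = f s * f x := by
    intro a ha s hs x
    obtain ⟨t, -, ht⟩ := h.mul _ (hgA a ha)
    have h1 : ∀ x, f (s * x) = t * f x := by
      intro x
      apply h.inj
      rw [hf, ← hs, ← ht, hf]; group
    have h2 := h1 1
    rw [mul_one] at h2
    rw [h1, h2, ← hc]; ring
  let S : AddSubgroup K :=
    { carrier := {s | ∀ x, c * f (s * x) = f s * f x}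
      zero_mem' := fun x => by rw [zero_mul, hf0]; ring
      add_mem' := fun {s t} hs ht x => by
        rw [add_mul, hfadd, hfadd, mul_add, hs, ht]; ring
      neg_mem' := fun {s} hs x => by
        have h1 : ∀ y, f (-y) = - f y := fun y => by
          have := hfadd y (-y)
          rw [add_neg_cancel, hf0] at this
          exact (neg_eq_of_add_eq_zero_right this.symm).symm
        rw [neg_mul, h1, h1, mul_neg, hs]; ring }
  have hS : S = ⊤ := by
    rcases h.irr S (fun a ha t ht s hs x => by
      have h1 := hmult a ha t ht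
      have h2 : c * (c * f (t * s * x)) = c * (f (t * s) * f x) := by
        rw [mul_assoc t s x, h1 (s * x)]
        have h3 : c * (f t * f (s * x)) = f t * (c * f (s * x)) := by ring
        rw [h3, hs x]
        have h4 : c * (f (t * s) * f x) = (c * f (t * s)) * f x := by ring
        rw [h4, h1 s]; ring
      exact mul_left_cancel₀ hc0 h2) with h0 | h0
    · exfalso
      have h1 : (1 : K) ∈ S := fun x => by rw [one_mul, ← hc]
      rw [h0, AddSubgroup.mem_bot] at h1
      exact one_ne_zero h1
    · exact h0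
  have hmul : ∀ s x, c * f (s * x) = f s * f x := fun s x => by
    have : s ∈ S := by rw [hS]; trivial
    exact this x
  let φ : K →+* K :=
    { toFun := fun x => c⁻¹ * f x
      map_one' := by rw [← hc]; exact inv_mul_cancel₀ hc0
      map_mul' := fun x y => by
        have := hmul x y
        have h1 : f (x * y) = c⁻¹ * (f x * f y) := by rw [← this, inv_mul_cancel_left₀ hc0]
        rw [h1]; ring
      map_zero' := by rw [hf0, mul_zero]
      map_add' := fun x y => by rw [hfadd, mul_add] }
  have hφ : Function.Bijective φ := Finite.injective_iff_bijective.1 φ.injective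
  refine ⟨c, RingEquiv.ofBijective φ hφ, hc0, fun x => ?_⟩
  rw [← hf x]
  congr 1
  change f x = c * (c⁻¹ * f x)
  rw [mul_inv_cancel_left₀ hc0]

end

end Cfsg.Agent.H37.ZT
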