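import Mathlib
import Cfsg.Agent.H37.ZAffine
import Cfsg.Agent.H37.ZPrime

/-!
# The case of a regular normal subgroup
-/

set_option autoImplicit false

namespace Cfsg.Agent.H37.ZT

open Cfsg.Agent.H34

universe u v

section

theorem comm_of_cyclic {G : Type u} [Group G] {U : Subgroup G} (hU : IsCyclic U) :
    ∀ x ∈ U, ∀ y ∈ U, x * y = y * x := by
  intro x hx y hy
  obtain ⟨g, hg⟩ := hU
  obtain ⟨i, hi⟩ := hg ⟨x, hx⟩
  obtain ⟨j, hj⟩ := hg ⟨y, hy⟩
  have h7 : (⟨x, hx⟩ : U) * ⟨y, hy⟩ = ⟨y, hy⟩ * ⟨x, hx⟩ := by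
    rw [← hi, ← hj]
    exact (Commute.refl g).zpow_zpow i j
  exact congrArg Subtype.val h7

/-- order of the automorphism group of a finite field of order `2^q` -/
theorem card_ringAut_two (K : Type) [Field K] [Fintype K] {q : ℕ} (hK : Fintype.card K = 2 ^ q) (hq : q ≠ 0) :
    Nat.card (K ≃+* K) = q := by
  have hc : CharP K 2 := by
    obtain ⟨r, hr⟩ := CharP.exists K
    obtain ⟨n, hn, h1⟩ := FiniteField.card K r
    have h2 : r ∣ 2 ^ q := by rw [← hK, h1]; exact dvd_pow_self r n.ne_zero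
    have h3 := (Nat.prime_dvd_prime_iff_eq hn Nat.prime_two).1 (hn.dvd_of_dvd_pow h2)
    rw [← h3]; exact hr
  have : Fact (Nat.Prime 2) := ⟨Nat.prime_two⟩
  let iA : Algebra (ZMod 2) K := ZMod.algebra K 2
  have h1 : Nat.card (K ≃ₐ[ZMod 2] K) = Module.finrank (ZMod 2) K := IsGalois.card_aut_eq_finrank _ _
  have h2 : Fintype.card K = Fintype.card (ZMod 2) ^ Module.finrank (ZMod 2) K := Module.card_eq_pow_finrank
  rw [hK, ZMod.card] at h2
  have h3 : Module.finrank (ZMod 2) K = q := (Nat.pow_right_injective (le_refl 2) h2).symm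
  rw [← h3, ← h1]
  refine Nat.card_congr ⟨fun f => AlgEquiv.ofRingEquiv (f := f) (fun r => by
    have : (f : K →+* K).comp (algebraMap (ZMod 2) K) = algebraMap (ZMod 2) K := RingHom.ext_zmod _ _
    exact RingHom.congr_fun this r), fun f => f.toRingEquiv, fun f => ?_, fun f => ?_⟩
  · ext x; rfl
  · ext x; rfl

variable {G : Type u} {Ω : Type v} [Group G] [MulAction G Ω] [Finite G] [Finite Ω]

theorem reg_prime (h : ZGp G Ω) {p : ℕ} [hp : Fact p.Prime] (hp2 : p ≠ 2) (hΩ : Nat.card Ω = p + 1)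
    {a b : Ω} (hab : a ≠ b) {U : Subgroup G} (hU : IsKer G a U) (hUc : ∀ x ∈ U, ∀ y ∈ U, x * y = y * x)
    (N : Subgroup G) (hN : N.Normal) (hNt : MulAction.IsPretransitive N Ω)
    (hNr : ∀ x : Ω, MulAction.stabilizer N x = ⊥) :
    ∃ q : ℕ, q.Prime ∧ p + 1 = 2 ^ q ∧ (Nat.card (stab2 G a b) = 1 ∨ Nat.card (stab2 G a b) = q) ∧
      ∃ e : Ω ≃ GaloisField 2 q, ∀ g : G, ∃ (s : (GaloisField 2 q)ˣ) (t : GaloisField 2 q)
        (φ : GaloisField 2 q ≃+* GaloisField 2 q), ∀ x, e (g • e.symm x) = s * φ x + t := by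
  classical
  have hNc := reg_abelian (fun hab hcd => h.trans hab hcd) hN hNr a
  have hreg : ∀ n ∈ N, ∀ m ∈ N, n • a = m • a → n = m := by
    intro n hn m hm hnm
    have h1 : (⟨m⁻¹ * n, N.mul_mem (N.inv_mem hm) hn⟩ : N) ∈ MulAction.stabilizer N a := by
      show (m⁻¹ * n) • a = a
      rw [mul_smul, hnm, inv_smul_smul]
    rw [hNr a, Subgroup.mem_bot] at h1
    exact (inv_mul_eq_one.1 (congrArg Subtype.val h1)).symm
  have hex : ∀ x : Ω, ∃ n ∈ N, n • a = x := by
    intro x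
    obtain ⟨n, hn⟩ := hNt.exists_smul_eq a x
    exact ⟨n, n.2, hn⟩
  have hirr : ∀ W : Subgroup G, W ≤ N → (∀ g ∈ U, ∀ w ∈ W, g * w * g⁻¹ ∈ W) → W = ⊥ ∨ W = N := by
    intro W hWN hW
    by_cases hWb : W = ⊥
    · exact Or.inl hWb
    right
    obtain ⟨⟨n, hnW⟩, hn1⟩ := Subgroup.ne_bot_iff_exists_ne_one.1 hWb
    have hn1' : n ≠ 1 := fun h1 => hn1 (Subtype.ext h1)
    refine le_antisymm hWN ?_
    intro m hm
    by_cases hm1 : m = 1
    · rw [hm1]; exact W.one_mem
    have hna : n • a ≠ a := fun h1 => hn1' (hreg n (hWN hnW) 1 N.one_mem (by rw [one_smul, h1]))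
    have hma : m • a ≠ a := fun h1 => hm1 (hreg m hm 1 N.one_mem (by rw [one_smul, h1]))
    obtain ⟨u, hu, hum⟩ := hU.exists hna hma
    have h1 : u * n * u⁻¹ = m := by
      apply hreg _ (hN.conj_mem _ (hWN hnW) _) _ hm
      have hua : u⁻¹ • a = a := by rw [inv_smul_eq_iff, hU.fix hu]
      rw [mul_smul, mul_smul, hua, hum]
    rw [← h1]
    exact hW u hu n hnW
  obtain ⟨n0, hn0, hn0b⟩ := hex b
  have hn01 : n0 ≠ 1 := by
    rintro rfl
    rw [one_smul] at hn0b
    exact hab hn0b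
  obtain ⟨K, iK, iFK, w, hw, hw1⟩ := exists_fieldOn N U hNc (fun g _ n hn => hN.conj_mem _ hn _) hUc hirr hn0 hn01
  let ψ0 : K → Ω := fun x => w x • a
  have hψ : Function.Bijective ψ0 := by
    constructor
    · intro x y hxy
      exact hw.inj (hreg _ (hw.mem x) _ (hw.mem y) hxy)
    · intro x
      obtain ⟨n, hn, hnx⟩ := hex x
      obtain ⟨k, hk⟩ := hw.surj n hn
      exact ⟨k, by show w k • a = x; rw [hk, hnx]⟩
  let ψ : K ≃ Ω := Equiv.ofBijective ψ0 hψ
  have hψx : ∀ x, ψ x = w x • a := fun x => rfl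
  have hcardK : Fintype.card K = p + 1 := by
    rw [← hΩ, ← Nat.card_congr ψ, Nat.card_eq_fintype_card]
  have hodd : Odd p := hp.out.odd_of_ne_two hp2
  obtain ⟨r, q, hr, hq, hrq⟩ : ∃ r q : ℕ, r.Prime ∧ q ≠ 0 ∧ Fintype.card K = r ^ q := by
    obtain ⟨r, hr⟩ := CharP.exists K
    obtain ⟨n, hn, h1⟩ := FiniteField.card K r
    exact ⟨r, n, hn, n.ne_zero, h1⟩
  have hr2 : r = 2 := by
    have h1 : 2 ∣ r ^ q := by
      rw [← hrq, hcardK]
      obtain ⟨k, hk⟩ := hodd
      exact ⟨k + 1, by omega⟩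
    exact ((Nat.prime_dvd_prime_iff_eq Nat.prime_two hr).1 (Nat.prime_two.dvd_of_dvd_pow h1)).symm
  subst hr2
  have hpq : p + 1 = 2 ^ q := by rw [← hcardK, hrq]
  have hqp : q.Prime := by
    have h1 : (2 ^ q - 1).Prime := by
      have : 2 ^ q - 1 = p := by omega
      rw [this]; exact hp.out
    have hq1 : q ≠ 1 := by
      rintro rfl
      have := hp.out.two_le
      omega
    exact (Nat.prime_of_pow_sub_one_prime hq1 h1).2
  have hlin : ∀ g : G, g • a = a → ∃ (c : K) (φ : K ≃+* K), c ≠ 0 ∧ ∀ x, g * w x * g⁻¹ = w (c * φ x) :=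
    fun g hg => hw.semilin (fun n hn => hN.conj_mem _ hn _) (fun x hx => hU.norm g hg x hx)
  refine ⟨q, hqp, hpq, ?_, ?_⟩
  · -- the two-point stabiliser
    have hE : ∀ g : stab2 G a b, ∃ φ : K ≃+* K, ∀ x, (g : G) * w x * (g : G)⁻¹ = w (φ x) := by
      intro g
      obtain ⟨hga, hgb⟩ := mem_stab2.1 g.2
      obtain ⟨c, φ, hc, hφ⟩ := hlin g hga
      have h1 : (g : G) * w 1 * (g : G)⁻¹ = w 1 := by
        apply hreg _ (hN.conj_mem _ (hw.mem 1) _) _ (hw.mem 1)
        have hga' : (g : G)⁻¹ • a = a := by rw [inv_smul_eq_iff, hga]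
        rw [mul_smul, mul_smul, hga', hw1, hn0b, hgb]
      have h2 : c = 1 := by
        have := hφ 1
        rw [h1, map_one, mul_one] at this
        exact (hw.inj this).symm
      exact ⟨φ, fun x => by rw [hφ, h2, one_mul]⟩
    choose Φ hΦ using hE
    have : Finite (K ≃+* K) := Finite.of_injective (fun f : K ≃+* K => (f : K → K)) (fun f g hfg => by
      ext x; exact congrFun hfg x)
    let F : stab2 G a b →* RingAut K := MonoidHom.mk' Φ (by
      intro g k
      apply RingEquiv.ext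
      intro x
      apply hw.inj
      rw [← hΦ]
      show ((g : G) * (k : G)) * w x * ((g : G) * (k : G))⁻¹ = w (Φ g (Φ k x))
      rw [← hΦ, ← hΦ]; group)
    have hF : Function.Injective F := by
      rw [injective_iff_map_eq_one]
      intro g hg
      have h1 : ∀ x, (g : G) * w x * (g : G)⁻¹ = w x := by
        intro x
        rw [hΦ]
        have : Φ g x = x := by
          have h2 : F g = 1 := hg
          exact RingEquiv.congr_fun h2 x
        rw [this]
      apply Subtype.ext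
      apply h.faithful
      intro y
      obtain ⟨x, rfl⟩ := hψ.2 y
      show (g : G) • w x • a = w x • a
      rw [← mul_smul]
      have h3 : (g : G) * w x = w x * g := by
        have := h1 x
        rw [mul_inv_eq_iff_eq_mul] at this
        exact this
      rw [h3, mul_smul, (mem_stab2.1 g.2).1]
    have hdvd : Nat.card (stab2 G a b) ∣ q := by
      rw [← card_ringAut_two K (hcardK.trans hpq) hqp.ne_zero]
      exact Subgroup.card_dvd_of_injective F hF
    exact (Nat.dvd_prime hqp).1 hdvd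
  · have : Fact (Nat.Prime 2) := ⟨Nat.prime_two⟩
    have iFG : Fintype (GaloisField 2 q) := Fintype.ofFinite _
    have hcc : Fintype.card K = Fintype.card (GaloisField 2 q) := by
      rw [hcardK, hpq, ← Nat.card_eq_fintype_card, GaloisField.card 2 q hqp.ne_zero]
    let r : K ≃+* GaloisField 2 q := FiniteField.ringEquivOfCardEq hcc
    refine ⟨ψ.symm.trans r.toEquiv, fun g => ?_⟩
    obtain ⟨n, hn, hna⟩ := hex (g • a)
    obtain ⟨t, ht⟩ := hw.surj n hn
    obtain ⟨c, φ, hc, hφ⟩ := hlin (n⁻¹ * g) (by rw [mul_smul, ← hna, inv_smul_smul])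
    refine ⟨Units.mk0 (r c) (by rw [Ne, map_eq_zero_iff r r.injective]; exact hc), r t,
      (r.symm.trans φ).trans r, fun x => ?_⟩
    show r (ψ.symm (g • ψ (r.symm x))) = r c * r (φ (r.symm x)) + r t
    rw [← map_mul, ← map_add]
    congr 1
    rw [Equiv.symm_apply_eq, hψx, hψx, add_comm, hw.add, ht, ← hφ, ← mul_smul]
    have h5 : n * (n⁻¹ * g * w (r.symm x) * (n⁻¹ * g)⁻¹) = g * w (r.symm x) * (g⁻¹ * n) := by group
    rw [h5, mul_smul (g * w (r.symm x)) (g⁻¹ * n) a]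
    have h6 : (g⁻¹ * n) • a = a := by rw [mul_smul, hna, inv_smul_smul]
    rw [h6]

end

end Cfsg.Agent.H37.ZT
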