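import Mathlib
import Cfsg.Agent.H37.SNB
import Cfsg.Agent.S0732

/-!
# Sylow numbers 18, 136, 153: final assembly
-/

set_option autoImplicit false
set_option linter.unusedSectionVars false
set_option linter.unusedVariables false

namespace Cfsg.Agent.H37.SN

open MulAction Matrix

universe u v

section E

def M17 : Matrix (Fin 2) (Fin 2) (ZMod 17) := !![0, -1; 1, 7]

theorem M17_cube : M17 ^ 3 = !![10, 3; 14, 6] := by
  rw [M17, pow_succ, pow_two]
  ext i j
  fin_cases i <;> fin_cases j <;> (simp [Matrix.mul_apply, Fin.sum_univ_two] <;> decide)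

theorem M17_nine : M17 ^ 9 = 1 := by
  have h : M17 ^ 9 = (M17 ^ 3) ^ 3 := by rw [← pow_mul]
  rw [h, M17_cube, pow_succ, pow_two]
  ext i j
  fin_cases i <;> fin_cases j <;> (simp [Matrix.mul_apply, Fin.sum_univ_two] <;> decide)

instance fact17 : Fact (Nat.Prime 17) := ⟨by norm_num⟩

theorem psl_nine : ∃ x : ProjectiveSpecialLinearGroup (Fin 2) (ZMod 17), orderOf x = 9 := by
  have hdet : M17.det = 1 := by
    rw [M17, Matrix.det_fin_two_of]
    decide
  obtain ⟨M, hM⟩ : ∃ M : SpecialLinearGroup (Fin 2) (ZMod 17), (M : Matrix (Fin 2) (Fin 2) (ZMod 17)) = M17 := ⟨⟨M17, hdet⟩, rfl⟩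
  have hM9 : M ^ 9 = 1 := by
    apply Subtype.ext
    have h1 := Matrix.SpecialLinearGroup.coe_pow M 9
    rw [hM, M17_nine] at h1
    exact h1
  have hM3 : M ^ 3 ∉ Subgroup.center (SpecialLinearGroup (Fin 2) (ZMod 17)) := by
    intro h
    rw [Matrix.SpecialLinearGroup.mem_center_iff] at h
    obtain ⟨r, -, hr⟩ := h
    rw [Matrix.SpecialLinearGroup.coe_pow, hM, M17_cube] at hr
    have h1 := congrFun (congrFun hr 0) 1
    rw [Matrix.scalar_apply, Matrix.diagonal_apply_ne _ (by decide)] at h1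
    have h2 : (0 : ZMod 17) = 3 := h1
    revert h2
    decide
  refine ⟨QuotientGroup.mk M, ?_⟩
  have h3 : Fact (Nat.Prime 3) := ⟨Nat.prime_three⟩
  have := orderOf_eq_prime_pow (x := (QuotientGroup.mk M : ProjectiveSpecialLinearGroup (Fin 2) (ZMod 17))) (p := 3) (n := 1)
    (by
      intro h
      apply hM3
      rw [pow_one] at h
      have h1 : (QuotientGroup.mk (M ^ 3) : ProjectiveSpecialLinearGroup (Fin 2) (ZMod 17)) = 1 := h
      exact (QuotientGroup.eq_one_iff _).1 h1)
    (by
      have h1 : (QuotientGroup.mk (M ^ 9) : ProjectiveSpecialLinearGroup (Fin 2) (ZMod 17)) = 1 := by rw [hM9]; rfl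
      exact h1)
  simpa using this

theorem pgl_nine : ∃ x : ProjGenLinGroup (Fin 2) (ZMod 17), orderOf x = 9 := by
  have hdet : M17.det = 1 := by
    rw [M17, Matrix.det_fin_two_of]
    decide
  obtain ⟨M, hM⟩ : ∃ M : GL (Fin 2) (ZMod 17), (M : Matrix (Fin 2) (Fin 2) (ZMod 17)) = M17 :=
    ⟨GeneralLinearGroup.mkOfDetNeZero M17 (by rw [hdet]; exact one_ne_zero), rfl⟩
  have hM9 : M ^ 9 = 1 := by
    apply Units.ext
    rw [Units.val_pow_eq_pow_val, hM, M17_nine]
    rfl
  have hM3 : M ^ 3 ∉ Subgroup.center (GL (Fin 2) (ZMod 17)) := by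
    intro h
    rw [Subgroup.mem_center_iff] at h
    let N : Matrix (Fin 2) (Fin 2) (ZMod 17) := !![1, 1; 0, 1]
    have hN : N.det ≠ 0 := by
      rw [show N.det = 1 * 1 - 1 * 0 from Matrix.det_fin_two_of _ _ _ _]
      decide
    have h1 := congrArg (fun u : GL (Fin 2) (ZMod 17) => (u : Matrix (Fin 2) (Fin 2) (ZMod 17)) 0 0)
      (h (GeneralLinearGroup.mkOfDetNeZero N hN))
    have h2 : (N * (M : Matrix (Fin 2) (Fin 2) (ZMod 17)) ^ 3) 0 0 = ((M : Matrix (Fin 2) (Fin 2) (ZMod 17)) ^ 3 * N) 0 0 := h1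
    rw [hM, M17_cube, Matrix.mul_apply, Matrix.mul_apply, Fin.sum_univ_two, Fin.sum_univ_two] at h2
    have h3 : (1 : ZMod 17) * 10 + 1 * 14 = 10 * 1 + 3 * 0 := h2
    revert h3
    decide
  refine ⟨QuotientGroup.mk M, ?_⟩
  have h3 : Fact (Nat.Prime 3) := ⟨Nat.prime_three⟩
  have := orderOf_eq_prime_pow (x := (QuotientGroup.mk M : ProjGenLinGroup (Fin 2) (ZMod 17))) (p := 3) (n := 1)
    (by
      intro h
      apply hM3
      rw [pow_one] at h
      have h1 : (QuotientGroup.mk (M ^ 3) : GL (Fin 2) (ZMod 17) ⧸ Subgroup.center (GL (Fin 2) (ZMod 17))) = 1 := h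
      exact (QuotientGroup.eq_one_iff _).1 h1)
    (by
      have h1 : (QuotientGroup.mk (M ^ 9) : GL (Fin 2) (ZMod 17) ⧸ Subgroup.center (GL (Fin 2) (ZMod 17))) = 1 := by rw [hM9]; rfl
      exact h1)
  exact this

end E

section F

variable {G : Type u} [Group G] [Finite G]

/-- an `r`-subgroup normalising a Sylow `q`-subgroup, with `q` dividing the number of Sylow `r`-subgroups exactly once -/
theorem not_small {q r : ℕ} [Fact q.Prime] [Fact r.Prime] (P : Sylow q G) (T : Sylow r G)
    (hn : ∀ t ∈ (T : Subgroup G), t ∈ Subgroup.normalizer ((P : Subgroup G) : Set G))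
    (hlt : Nat.card (Sylow r G) < q ^ 2) (hq : q ∣ Nat.card (Sylow r G)) (hqr : ¬ q ≡ 1 [MOD r]) : False := by
  obtain ⟨k, hk⟩ := P.2.card_orbit T
  have hle : (orbit (P : Subgroup G) T : Set (Sylow r G)).ncard ≤ Nat.card (Sylow r G) := Set.ncard_le_card _
  have hk' : (orbit (P : Subgroup G) T : Set (Sylow r G)).ncard = q ^ k := hk
  have hk1 : k < 2 := by
    rw [hk'] at hle
    exact (Nat.pow_lt_pow_iff_right (Fact.out : q.Prime).one_lt).1 (lt_of_le_of_lt hle hlt)
  have hk0 : k ≠ 0 := by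
    rintro rfl
    rw [pow_zero, Set.ncard_eq_one] at hk'
    obtain ⟨w, hw⟩ := hk'
    have h1 : T ∈ orbit (P : Subgroup G) T := mem_orbit_self T
    have h2 : ∀ g ∈ (P : Subgroup G), g • T = T := by
      intro g hg
      have h3 : g • T ∈ orbit (P : Subgroup G) T := ⟨⟨g, hg⟩, rfl⟩
      rw [hw, Set.mem_singleton_iff] at h1 h3
      exact h3.trans h1.symm
    have h3 : (P : Subgroup G) ≤ Subgroup.normalizer ((T : Subgroup G) : Set G) := by
      intro g hg
      exact Sylow.smul_eq_iff_mem_normalizer.1 (h2 g hg)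
    have h4 := Subgroup.index_dvd_of_le h3
    have h5 : Nat.card (Sylow r G) = (Subgroup.normalizer ((T : Subgroup G) : Set G)).index :=
      T.card_eq_index_normalizer
    rw [← h5] at h4
    exact P.not_dvd_index (hq.trans h4)
  have hk1' : k = 1 := by omega
  rw [hk1', pow_one] at hk'
  let S : SubMulAction (T : Subgroup G) (Sylow r G) :=
    { carrier := orbit (P : Subgroup G) T
      smul_mem' := by
        rintro t _ ⟨x, rfl⟩
        have h1 : (t : G) * x * (t : G)⁻¹ ∈ (P : Subgroup G) :=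
          (Subgroup.mem_normalizer_iff.1 (hn t t.2) x).1 x.2
        refine ⟨⟨_, h1⟩, ?_⟩
        change ((t : G) * x * (t : G)⁻¹) • T = (t : G) • (x : G) • T
        have h2 : (t : G)⁻¹ • T = T := by
          rw [inv_smul_eq_iff]
          exact (Sylow.smul_eq_iff_mem_normalizer.2 (Subgroup.le_normalizer t.2)).symm
        rw [mul_smul, mul_smul, h2] }
  have h1 := T.2.card_modEq_card_fixedPoints S
  have h2 : Nat.card S = q := hk'
  have h3 : Nat.card (fixedPoints (T : Subgroup G) S) = 1 := by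
    rw [Nat.card_eq_one_iff_unique]
    constructor
    · have key : ∀ z : fixedPoints (T : Subgroup G) S, ((z : S) : Sylow r G) = T := by
        intro z
        have h4 : (T : Subgroup G) ≤ Subgroup.normalizer ((((z : S) : Sylow r G) : Subgroup G) : Set G) := by
          intro t ht
          apply Sylow.smul_eq_iff_mem_normalizer.1
          exact congrArg Subtype.val (z.2 ⟨t, ht⟩)
        have h5 : (T : Subgroup G) ⊓ Subgroup.normalizer ((((z : S) : Sylow r G) : Subgroup G) : Set G) =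
            (T : Subgroup G) ⊓ (((z : S) : Sylow r G) : Subgroup G) := T.2.inf_normalizer_sylow _
        rw [inf_eq_left.2 h4] at h5
        have h6 : (T : Subgroup G) ≤ (((z : S) : Sylow r G) : Subgroup G) := inf_eq_left.1 h5.symm
        exact Sylow.ext (T.3 ((z : S) : Sylow r G).2 h6)
      exact ⟨fun z w => Subtype.ext (Subtype.ext ((key z).trans (key w).symm))⟩
    · refine ⟨⟨⟨T, mem_orbit_self T⟩, ?_⟩⟩
      intro t
      apply Subtype.ext
      change (t : G) • T = T
      exact Sylow.smul_eq_iff_mem_normalizer.2 (Subgroup.le_normalizer t.2)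
  rw [h2, h3] at h1
  exact hqr h1

/-- the set-up for groups with `p + 1` Sylow `p`-subgroups -/
theorem z3_range {p : ℕ} [Fact p.Prime] (hX : Nat.card (Sylow p G) = p + 1) :
    Z3 (MulAction.toPermHom G (Sylow p G)).range (Sylow p G) := by
  constructor
  · intro a b a' b' hab hab'
    have h1 : ∀ {a b : Sylow p G}, a ≠ b → ∀ c : Sylow p G, ∃ g : G, g • c = a := by
      intro a b hab c
      exact MulAction.exists_smul_eq G c a
    obtain ⟨g, hg⟩ := MulAction.exists_smul_eq G a a'
    have hgb : g • b ≠ a' := by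
      intro e
      rw [← hg] at e
      exact hab (smul_left_cancel _ e).symm
    obtain ⟨x, hx, hxb⟩ := exists_mem_smul hX hgb hab'.symm
    refine ⟨⟨MulAction.toPermHom G (Sylow p G) (x * g), ⟨_, rfl⟩⟩, ?_, ?_⟩
    · change (x * g) • a = a'
      rw [mul_smul, hg]
      exact Sylow.smul_eq_iff_mem_normalizer.2 (Subgroup.le_normalizer hx)
    · change (x * g) • b = b'
      rw [mul_smul, hxb]
  · rintro ⟨_, g, rfl⟩ a b c hab hac hbc h1 h2 h3
    apply Subtype.ext
    apply Equiv.ext
    intro S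
    exact three_fix hX hab hac hbc (g := g) h1 h2 h3 S

end F

end Cfsg.Agent.H37.SN
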